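import Mathlib
import Cfsg.Prelude.Def_Transfer
import Cfsg.Agent.H49.Homs
import Cfsg.Agent.H86.Basic

/-!
Finite groups in which every subgroup is normal.
-/

set_option autoImplicit false

namespace Cfsg.Agent.H89

open Subgroup
open scoped commutatorElement

variable {G : Type*} [Group G]

/-- The power of a product when the commutator is central. -/
theorem mul_pow_eq_of_commutator (u y : G) (hdu : Commute ⁅y, u⁆ u) (hdy : Commute ⁅y, u⁆ y)
    (n : ℕ) : (u * y) ^ n = u ^ n * y ^ n * ⁅y, u⁆ ^ n.choose 2 := by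
  set d := ⁅y, u⁆ with hd
  have hyu : ∀ m : ℕ, y ^ m * u = u * y ^ m * d ^ m := by
    intro m
    induction m with
    | zero => simp
    | succ m ih =>
      calc y ^ (m + 1) * u = y * (y ^ m * u) := by rw [pow_succ', mul_assoc]
        _ = y * u * y ^ m * d ^ m := by rw [ih]; simp [mul_assoc]
        _ = d * (u * y) * y ^ m * d ^ m := by
          rw [show d * (u * y) = y * u by rw [hd, commutatorElement_def]; simp [mul_assoc]]
        _ = (u * y) * d * y ^ m * d ^ m := by rw [(hdu.mul_right hdy).eq]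
        _ = u * y ^ (m + 1) * d ^ (m + 1) := by
          rw [mul_assoc (u * y), (hdy.pow_right m).eq, pow_succ' y, pow_succ' d]
          simp [mul_assoc]
  induction n with
  | zero => simp
  | succ n ih =>
    rw [Nat.choose_succ_succ, Nat.choose_one_right, pow_add d, pow_succ, ih]
    calc u ^ n * y ^ n * d ^ n.choose 2 * (u * y)
        = u ^ n * y ^ n * (u * y) * d ^ n.choose 2 := by
          rw [mul_assoc (u ^ n * y ^ n), ((hdu.mul_right hdy).pow_left _).eq, ← mul_assoc]
      _ = u ^ n * (y ^ n * u) * y * d ^ n.choose 2 := by simp [mul_assoc]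
      _ = u ^ (n + 1) * (y ^ n * (d ^ n * y)) * d ^ n.choose 2 := by
          rw [hyu, pow_succ]; simp [mul_assoc]
      _ = u ^ (n + 1) * y ^ (n + 1) * (d ^ n * d ^ n.choose 2) := by
          rw [(hdy.pow_left n).eq, pow_succ y]; simp [mul_assoc]

/-- A generating pair of a quaternion subgroup of order eight. -/
def IsQuatPair (x y : G) : Prop :=
  orderOf x = 4 ∧ orderOf y = 4 ∧ y * y = x * x ∧ y * x * y⁻¹ = x⁻¹ ∧ ¬ Commute x y

variable (hn : ∀ H : Subgroup G, H.Normal)
include hn

theorem commutator_mem_zpowers_left (x y : G) : ⁅x, y⁆ ∈ zpowers x := by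
  have h := (hn (zpowers x)).conj_mem _ (inv_mem (mem_zpowers x)) y
  rw [show ⁅x, y⁆ = x * (y * x⁻¹ * y⁻¹) by rw [commutatorElement_def]; group]
  exact mul_mem (mem_zpowers x) h

theorem commutator_mem_zpowers_right (x y : G) : ⁅x, y⁆ ∈ zpowers y := by
  rw [← commutatorElement_inv]
  exact inv_mem (commutator_mem_zpowers_left hn y x)

theorem commutator_commute (x y : G) : Commute ⁅x, y⁆ x ∧ Commute ⁅x, y⁆ y := by
  obtain ⟨i, hi⟩ := mem_zpowers_iff.1 (commutator_mem_zpowers_left hn x y)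
  obtain ⟨j, hj⟩ := mem_zpowers_iff.1 (commutator_mem_zpowers_right hn x y)
  exact ⟨hi ▸ (Commute.refl x).zpow_left i, hj ▸ (Commute.refl y).zpow_left j⟩

theorem commutator_pow_left (x y : G) (n : ℕ) : ⁅x ^ n, y⁆ = ⁅x, y⁆ ^ n := by
  induction n with
  | zero => simp
  | succ n ih =>
    rw [show ⁅x ^ (n + 1), y⁆ = x * ⁅x ^ n, y⁆ * x⁻¹ * ⁅x, y⁆ by
      rw [pow_succ']; simp only [commutatorElement_def]; group, ih,
      ← ((commutator_commute hn x y).1.pow_left n).eq, mul_inv_cancel_right, pow_succ]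

variable [Finite G]

/-- In a noncommuting pair of `p`-elements with `orderOf y ≤ orderOf x` one can shorten `y`,
unless it generates a quaternion group. -/
theorem shorten_or_quaternion {p a b : ℕ} (hp : p.Prime) {x y : G} (hx : orderOf x = p ^ a)
    (hy : orderOf y = p ^ b) (hba : b ≤ a) (hc : ¬ Commute x y) (hxp : Commute (x ^ p) y) :
    (∃ w, ¬ Commute x w ∧ orderOf w < orderOf y) ∨ (p = 2 ∧ IsQuatPair x y) := by
  haveI := Fact.mk hp
  set c := ⁅x, y⁆ with hcdef
  have hc1 : c ≠ 1 := fun h => hc (commutatorElement_eq_one_iff_mul_comm.1 h)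
  have hcp : c ^ p = 1 := by
    rw [hcdef, ← commutator_pow_left hn]; exact commutatorElement_eq_one_iff_mul_comm.2 hxp.eq
  have hoc : orderOf c = p := orderOf_eq_prime hcp hc1
  have hb2 : 2 ≤ b := by
    by_contra h
    have h1 : orderOf y ∣ p := hy ▸ by simpa using pow_dvd_pow p (by omega : b ≤ 1)
    have hsub : zpowers c = zpowers y :=
      eq_of_le_of_card_ge (zpowers_le.2 (commutator_mem_zpowers_right hn x y)) (by
        rw [Nat.card_zpowers, Nat.card_zpowers, hoc]; exact Nat.le_of_dvd hp.pos h1)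
    obtain ⟨i, hi⟩ := mem_zpowers_iff.1 (hsub ▸ mem_zpowers y : y ∈ zpowers c)
    exact hc (hi ▸ ((commutator_commute hn x y).1.zpow_left i).symm)
  have key : ∀ (z : G) (e : ℕ), orderOf z = p ^ e → c ∈ zpowers z → 1 ≤ e →
      zpowers (z ^ p ^ (e - 1)) = zpowers c := by
    intro z e hz hcz he
    obtain ⟨i, hi⟩ : c ∈ Submonoid.powers z := mem_powers_iff_mem_zpowers.2 hcz
    have hdiv : p ^ (e - 1) ∣ i := by
      have h1 : orderOf z ∣ i * p := orderOf_dvd_of_pow_eq_one (by rw [pow_mul]; rw [show z ^ i = c from hi, hcp])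
      rw [hz, show p ^ e = p ^ (e - 1) * p by rw [← pow_succ, Nat.sub_add_cancel he]] at h1
      exact Nat.dvd_of_mul_dvd_mul_right hp.pos h1
    refine (eq_of_le_of_card_ge (zpowers_le.2 ?_) ?_).symm
    · obtain ⟨t, ht⟩ := hdiv
      rw [← show z ^ i = c from hi, ht, pow_mul]
      exact pow_mem (mem_zpowers _) t
    · rw [Nat.card_zpowers, Nat.card_zpowers, hoc, orderOf_pow' z (pow_ne_zero _ hp.ne_zero), hz,
        Nat.gcd_eq_right (pow_dvd_pow p (Nat.sub_le e 1)), Nat.pow_div (Nat.sub_le e 1) hp.pos,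
        show e - (e - 1) = 1 by omega, pow_one]
  have hky := key y b hy (commutator_mem_zpowers_right hn x y) (by omega)
  have hkx := key x a hx (commutator_mem_zpowers_left hn x y) (by omega)
  obtain ⟨j, hj⟩ : y ^ p ^ (b - 1) ∈ Submonoid.powers (x ^ p ^ (a - 1)) :=
    mem_powers_iff_mem_zpowers.2 (hkx ▸ hky ▸ mem_zpowers _)
  set k := p ^ (a - b) * j with hk
  have hxk : (x ^ k) ^ p ^ (b - 1) = y ^ p ^ (b - 1) := by
    rw [← pow_mul, hk, mul_right_comm, ← pow_add, show a - b + (b - 1) = a - 1 by omega, pow_mul]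
    exact hj
  set u := (x ^ k)⁻¹ with hu
  have hw : ¬ Commute x (u * y) := by
    intro h
    apply hc
    have h2 : Commute x (x ^ k * (u * y)) := ((Commute.refl x).pow_right k).mul_right h
    rwa [hu, mul_inv_cancel_left] at h2
  have hd := commutator_commute hn y u
  have hdp : ⁅y, u⁆ ^ p = 1 := by
    rw [← commutatorElement_inv u y, inv_pow, ← commutator_pow_left hn, inv_eq_one,
      commutatorElement_eq_one_iff_mul_comm, hu, inv_pow, ← pow_mul, mul_comm k p, pow_mul]
    exact ((hxp.pow_left k).inv_left).eq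
  by_cases hC : p ∣ (p ^ (b - 1)).choose 2
  · left
    refine ⟨u * y, hw, ?_⟩
    have h1 : (u * y) ^ p ^ (b - 1) = 1 := by
      obtain ⟨t, ht⟩ := hC
      rw [mul_pow_eq_of_commutator u y hd.2 hd.1, ht, pow_mul, hdp, one_pow, mul_one, hu, inv_pow,
        hxk, inv_mul_cancel]
    refine lt_of_le_of_lt (Nat.le_of_dvd (pow_pos hp.pos _) (orderOf_dvd_of_pow_eq_one h1)) ?_
    rw [hy]
    exact Nat.pow_lt_pow_right hp.one_lt (by omega)
  have hp2b : p = 2 ∧ b = 2 := by
    obtain ⟨m, hm⟩ : ∃ m, b - 1 = m + 1 := ⟨b - 2, by omega⟩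
    rw [hm, Nat.choose_two_right] at hC
    rcases eq_or_ne p 2 with rfl | hp2
    · refine ⟨rfl, ?_⟩
      by_contra hb
      apply hC
      rw [pow_succ, mul_comm, ← mul_assoc, Nat.mul_div_cancel _ two_pos]
      exact dvd_mul_of_dvd_right (dvd_pow_self 2 (by omega)) _
    · exfalso
      apply hC
      have h2 : 2 ∣ p ^ (m + 1) * (p ^ (m + 1) - 1) := by
        rcases Nat.even_or_odd (p ^ (m + 1)) with he | ho
        · exact he.two_dvd.mul_right _
        · exact (Nat.Odd.sub_odd ho odd_one).two_dvd.mul_left _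
      obtain ⟨t, ht⟩ := h2
      rw [ht, Nat.mul_div_cancel_left _ two_pos]
      have : p ∣ 2 * t := ht ▸ (dvd_pow_self p (Nat.succ_ne_zero m)).mul_right _
      exact ((Nat.coprime_primes hp Nat.prime_two).2 hp2).dvd_of_dvd_mul_left this
  obtain ⟨rfl, rfl⟩ := hp2b
  by_cases hcu : Commute u y
  · left
    refine ⟨u * y, hw, ?_⟩
    have h1 : (u * y) ^ 2 = 1 := by
      rw [hcu.mul_pow, hu, inv_pow]
      have := hxk
      norm_num at this
      rw [this, inv_mul_cancel]
    rw [hy]
    exact lt_of_le_of_lt (Nat.le_of_dvd two_pos (orderOf_dvd_of_pow_eq_one h1)) (by norm_num)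
  have ha2 : a = 2 := by
    by_contra ha
    apply hcu
    rw [hu, hk, show a - 2 = (a - 3) + 1 by omega, pow_succ, mul_comm (2 ^ (a - 3)) 2, mul_assoc,
      pow_mul]
    exact ((hxp.pow_left _).inv_left : _)
  subst ha2
  right
  norm_num at hx hy hky hkx
  have hinv : ∀ z : G, zpowers (z ^ 2) = zpowers c → z * z = c := by
    intro z hz
    have h1 : z ^ 2 ∈ zpowers c := hz ▸ mem_zpowers _
    obtain ⟨i, hi⟩ : z ^ 2 ∈ Submonoid.powers c := mem_powers_iff_mem_zpowers.2 h1
    rw [← pow_two, ← hi]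
    rcases Nat.even_or_odd i with ⟨t, rfl⟩ | ⟨t, rfl⟩
    · exfalso
      apply hc1
      have h3 : z ^ 2 = 1 := by
        rw [← hi]
        show c ^ (t + t) = 1
        rw [← two_mul, pow_mul, hcp, one_pow]
      rw [← zpowers_eq_bot, ← hz, h3, zpowers_one_eq_bot]
    · show c ^ (2 * t + 1) = c
      rw [pow_succ, pow_mul, hcp, one_pow, one_mul]
  have hxx := hinv x hkx
  have hyy := hinv y hky
  refine ⟨rfl, hx, hy, hyy.trans hxx.symm, ?_, hc⟩
  have h3 : y * x * y⁻¹ = c⁻¹ * x := by rw [hcdef, commutatorElement_def]; group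
  rw [h3, show c⁻¹ = c from inv_eq_of_mul_eq_one_right (by rw [← pow_two]; exact hcp), ← hxx,
    eq_inv_iff_mul_eq_one]
  have : x ^ 4 = 1 := orderOf_dvd_iff_pow_eq_one.1 hx.dvd
  rw [← this]
  simp [pow_succ, mul_assoc]

/-- A noncommuting pair consists of elements of even order, and there is a quaternion pair. -/
theorem even_and_exists_quatPair : ∀ (x y : G), ¬ Commute x y →
    Even (orderOf x) ∧ Even (orderOf y) ∧ ∃ a b : G, IsQuatPair a b := by
  intro x y
  induction hN : orderOf x + orderOf y using Nat.strong_induction_on generalizing x y with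
  | _ N ih =>
  subst hN
  intro hxy
  have step : ∀ z t : G, orderOf z + orderOf t = orderOf x + orderOf y → ¬ Commute z t →
      ∀ q : ℕ, q.Prime → q ∣ orderOf z → ¬ Commute (z ^ q) t →
      Even (orderOf z) ∧ Even (orderOf t) ∧ ∃ a b : G, IsQuatPair a b := by
    intro z t hsum _ q hq hqz hzq
    have hlt : orderOf (z ^ q) < orderOf z := by
      rw [orderOf_pow_of_dvd hq.ne_zero hqz]
      exact Nat.div_lt_self (orderOf_pos z) hq.one_lt
    obtain ⟨h1, h2, h3⟩ := ih _ (by rw [← hsum]; omega) (z ^ q) t rfl hzq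
    exact ⟨even_iff_two_dvd.2 (h1.two_dvd.trans (orderOf_pow_dvd q)), h2, h3⟩
  by_cases hx : ∃ q : ℕ, q.Prime ∧ q ∣ orderOf x ∧ ¬ Commute (x ^ q) y
  · obtain ⟨q, hq, hqx, hxq⟩ := hx
    exact step x y rfl hxy q hq hqx hxq
  by_cases hy : ∃ q : ℕ, q.Prime ∧ q ∣ orderOf y ∧ ¬ Commute (y ^ q) x
  · obtain ⟨q, hq, hqy, hyq⟩ := hy
    obtain ⟨h1, h2, h3⟩ := step y x (add_comm _ _) (fun h => hxy h.symm) q hq hqy hyq
    exact ⟨h2, h1, h3⟩
  push Not at hx hy
  have pp : ∀ z t : G, ¬ Commute z t →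
      (∀ q : ℕ, q.Prime → q ∣ orderOf z → Commute (z ^ q) t) →
      ∃ p e : ℕ, p.Prime ∧ orderOf z = p ^ e ∧ 1 ≤ e := by
    intro z t hzt h
    have hz1 : orderOf z ≠ 1 := fun e => hzt (by rw [orderOf_eq_one_iff.1 e]; exact Commute.one_left t)
    obtain ⟨p, hp, hpz⟩ := Nat.exists_prime_and_dvd hz1
    refine ⟨p, _, hp, Nat.eq_prime_pow_of_unique_prime_dvd (orderOf_pos z).ne' ?_, ?_⟩
    · intro q hq hqz
      by_contra hqp
      apply hzt
      have hg : Nat.gcd p q = 1 := (Nat.coprime_primes hp hq).2 (Ne.symm hqp)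
      have e1 : z = (z ^ p) ^ Nat.gcdA p q * (z ^ q) ^ Nat.gcdB p q := by
        rw [← zpow_natCast z p, ← zpow_natCast z q, ← zpow_mul, ← zpow_mul, ← zpow_add,
          ← Nat.gcd_eq_gcd_ab, hg, Nat.cast_one, zpow_one]
      rw [e1]
      exact ((h p hp hpz).zpow_left _).mul_left ((h q hq hqz).zpow_left _)
    · rw [Nat.one_le_iff_ne_zero, ne_eq, List.length_eq_zero_iff, Nat.primeFactorsList_eq_nil]
      rintro (h0 | h0)
      · exact (orderOf_pos z).ne' h0
      · exact hz1 h0
  obtain ⟨p, a, hp, hxa, ha⟩ := pp x y hxy hx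
  obtain ⟨p', b, hp', hyb, hb⟩ := pp y x (fun h => hxy h.symm) hy
  obtain rfl : p = p' := by
    by_contra hne
    apply hxy
    apply commutatorElement_eq_one_iff_mul_comm.1
    exact orderOf_eq_one_iff.1 (Nat.eq_one_of_dvd_coprimes
      (Nat.Coprime.pow a b ((Nat.coprime_primes hp hp').2 hne))
      (hxa ▸ orderOf_dvd_of_mem_zpowers (commutator_mem_zpowers_left hn x y))
      (hyb ▸ orderOf_dvd_of_mem_zpowers (commutator_mem_zpowers_right hn x y)))
  have finish : ∀ z t : G, ∀ e f : ℕ, orderOf z = p ^ e → orderOf t = p ^ f → 1 ≤ e → 1 ≤ f →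
      f ≤ e → ¬ Commute z t → Commute (z ^ p) t → orderOf z + orderOf t = orderOf x + orderOf y →
      Even (orderOf z) ∧ Even (orderOf t) ∧ ∃ a b : G, IsQuatPair a b := by
    intro z t e f hz ht he hf hfe hzt hzp hsum
    rcases shorten_or_quaternion hn hp hz ht hfe hzt hzp with ⟨w, hw, hwlt⟩ | ⟨hp2, hq⟩
    · obtain ⟨h1, -, h3⟩ := ih _ (by rw [← hsum]; omega) z w rfl hw
      have hp2 : p = 2 := ((Nat.prime_dvd_prime_iff_eq Nat.prime_two hp).1
        (Nat.prime_two.dvd_of_dvd_pow (hz ▸ h1.two_dvd))).symm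
      refine ⟨h1, ?_, h3⟩
      rw [ht, hp2, even_iff_two_dvd]
      exact dvd_pow_self 2 (by omega)
    · refine ⟨?_, ?_, _, _, hq⟩
      · rw [hz, hp2, even_iff_two_dvd]; exact dvd_pow_self 2 (by omega)
      · rw [ht, hp2, even_iff_two_dvd]; exact dvd_pow_self 2 (by omega)
  rcases le_total b a with hba | hab
  · exact finish x y a b hxa hyb ha hb hba hxy (hx p hp (hxa ▸ dvd_pow_self p (by omega))) rfl
  · obtain ⟨h1, h2, h3⟩ := finish y x b a hyb hxa hb ha hab (fun h => hxy h.symm)
      (hy p hp (hyb ▸ dvd_pow_self p (by omega))) (add_comm _ _)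
    exact ⟨h2, h1, h3⟩

/-- Elements of odd order are central. -/
theorem commute_of_odd {x : G} (hx : Odd (orderOf x)) (y : G) : Commute x y := by
  by_contra h
  exact Nat.not_even_iff_odd.2 hx (even_and_exists_quatPair hn x y h).1

/-- The structure of Hamiltonian groups. -/
theorem hamiltonian_structure (hna : ¬ IsMulCommutative G) :
    ∃ Q E A : Subgroup G, Nonempty (Q ≃* QuaternionGroup 2) ∧ Cfsg.IsElementaryAbelian 2 E ∧
      IsMulCommutative A ∧ Odd (Nat.card A) ∧ E ⊓ A = ⊥ ∧ Q ⊓ (E ⊔ A) = ⊥ ∧ Q ⊔ (E ⊔ A) = ⊤ := by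
  obtain ⟨x₀, y₀, h0⟩ : ∃ x y : G, ¬ Commute x y := by
    by_contra! h
    exact hna ⟨⟨fun a b => (h a b).eq⟩⟩
  obtain ⟨-, -, x, y, hox, hoy, hyy, hyx, hxy⟩ := even_and_exists_quatPair hn x₀ y₀ h0
  set c := x * x with hcdef
  have hx4 : x ^ 4 = 1 := hox ▸ pow_orderOf_eq_one x
  have hc2 : c * c = 1 := by rw [hcdef, ← hx4]; simp [pow_succ, mul_assoc]
  have hc1 : c ≠ 1 := fun h => by
    have := orderOf_dvd_of_pow_eq_one (show x ^ 2 = 1 by rw [pow_two]; exact h)
    rw [hox] at this; norm_num at this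
  have hBn : y ∉ zpowers x := fun h => hxy (by
    obtain ⟨i, rfl⟩ := mem_zpowers_iff.1 h
    exact (Commute.refl x).zpow_right i)
  have hA4 : x ^ (2 * 2) = 1 := hx4
  have hB2 : y * y = x ^ 2 := by rw [hyy, pow_two]
  let φ := H49.quatHom 2 x y hA4 hB2 hyx
  have hφinj : Function.Injective φ := H49.quatHom_injective (by rw [hox]) hB2 hyx hBn
  set Q := φ.range with hQ
  have hxQ : x ∈ Q := ⟨QuaternionGroup.a 1, H49.zpw_one hA4⟩
  have hyQ : y ∈ Q := ⟨QuaternionGroup.xa 0, by
    show y * H49.zpw (2 * 2) x 0 = y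
    rw [H49.zpw_zero, mul_one]⟩
  have hQelt : ∀ q ∈ Q, ∃ i, i < 4 ∧ (q = x ^ i ∨ q = y * x ^ i) := by
    rintro _ ⟨i | i, rfl⟩
    · exact ⟨i.val, ZMod.val_lt i, Or.inl rfl⟩
    · exact ⟨i.val, ZMod.val_lt i, Or.inr rfl⟩
  have hQinv : ∀ q ∈ Q, q * q = 1 → q = 1 ∨ q = c := by
    intro q hq hqq
    obtain ⟨i, hi, rfl | rfl⟩ := hQelt q hq
    · rw [← pow_add, ← orderOf_dvd_iff_pow_eq_one, hox] at hqq
      interval_cases i <;> first | (left; exact pow_zero x) | (right; exact pow_two x) | omega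
    · exfalso
      have h1 : y * x ^ i * y⁻¹ = (x ^ i)⁻¹ := by
        rw [← conj_pow, hyx, inv_pow]
      have h2 : y * x ^ i * (y * x ^ i) = c := by
        calc y * x ^ i * (y * x ^ i) = (y * x ^ i * y⁻¹) * (y * y) * x ^ i := by group
          _ = c := by
            rw [h1, hyy, hcdef, show x * x = x ^ 2 from (pow_two x).symm,
              mul_assoc, ← pow_add, add_comm, pow_add, inv_mul_cancel_left]
      exact hc1 (h2.symm.trans hqq)
  have hinvol : ∀ e : G, e * e = 1 → ∀ g : G, Commute e g := by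
    intro e he g
    rcases eq_or_ne e 1 with rfl | he1
    · exact Commute.one_left g
    have h := (hn (zpowers e)).conj_mem _ (mem_zpowers e) g
    obtain ⟨i, hi⟩ : g * e * g⁻¹ ∈ Submonoid.powers e := mem_powers_iff_mem_zpowers.2 h
    rcases Nat.even_or_odd i with ⟨t, rfl⟩ | ⟨t, rfl⟩
    · exfalso
      apply he1
      have : g * e * g⁻¹ = 1 := by
        rw [← hi]
        show e ^ (t + t) = 1
        rw [← two_mul, pow_mul, pow_two, he, one_pow]
      simpa using this
    · have : g * e * g⁻¹ = e := by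
        rw [← hi]
        show e ^ (2 * t + 1) = e
        rw [pow_succ, pow_mul, pow_two, he, one_pow, one_mul]
      exact (mul_inv_eq_iff_eq_mul.1 this).symm
  let E₀ : Subgroup G :=
    { carrier := {g | g * g = 1}
      one_mem' := mul_one 1
      mul_mem' := fun {a b} (ha : a * a = 1) (hb : b * b = 1) =>
        show a * b * (a * b) = 1 by
          rw [(hinvol a ha b).symm.mul_mul_mul_comm, ha, hb, one_mul]
      inv_mem' := fun {a} (ha : a * a = 1) =>
        show a⁻¹ * a⁻¹ = 1 by rw [← mul_inv_rev, ha, inv_one] }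
  obtain ⟨E, ⟨hEle, hcE⟩, hEmax⟩ :=
    (Set.toFinite {E : Subgroup G | E ≤ E₀ ∧ c ∉ E}).exists_maximal
      ⟨⊥, bot_le, fun h => hc1 (mem_bot.1 h)⟩
  let A : Subgroup G :=
    { carrier := {g | Odd (orderOf g)}
      one_mem' := by simp
      mul_mem' := fun {a b} ha hb => by
        have hab : Odd (orderOf a * orderOf b) := Nat.odd_mul.2 ⟨ha, hb⟩
        exact hab.of_dvd_nat (Commute.orderOf_mul_dvd_mul_orderOf (commute_of_odd hn ha b))
      inv_mem' := fun {a} ha => by simpa using ha }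
  have hAodd : Odd (Nat.card A) := by
    rw [← Nat.not_even_iff_odd]
    intro hev
    obtain ⟨a, ha⟩ := exists_prime_orderOf_dvd_card' (G := A) 2 hev.two_dvd
    have h1 : Odd (orderOf (a : G)) := a.2
    rw [Subgroup.orderOf_coe, ha] at h1
    exact absurd h1 (by decide)
  have hEA : E ⊓ A = ⊥ := by
    rw [eq_bot_iff]
    rintro g ⟨hgE, hgA⟩
    have h1 : orderOf g ∣ 2 := orderOf_dvd_of_pow_eq_one (by rw [pow_two]; exact hEle hgE)
    have h2 : Odd (orderOf g) := hgA
    rcases (Nat.dvd_prime Nat.prime_two).1 h1 with h3 | h3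
    · exact orderOf_eq_one_iff.1 h3
    · rw [h3] at h2; exact absurd h2 (by decide)
  haveI := hn E
  haveI := hn Q
  refine ⟨Q, E, A, ⟨(MonoidHom.ofInjective hφinj).symm⟩, ⟨⟨⟨fun a b => Subtype.ext
      (hinvol a (hEle a.2) b).eq⟩⟩, fun a ha => by rw [pow_two]; exact hEle ha⟩,
    ⟨⟨fun a b => Subtype.ext (commute_of_odd hn a.2 b).eq⟩⟩, hAodd, hEA, ?_, ?_⟩
  · rw [eq_bot_iff]
    rintro g ⟨hgQ, hgEA⟩
    obtain ⟨e, he, a, ha, rfl⟩ := mem_sup_of_normal_left.1 hgEA
    have hea : Commute e a := hinvol e (hEle he) a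
    have hq4 : ∀ q ∈ Q, q ^ 4 = 1 := by
      intro q hq
      obtain ⟨i, -, rfl | rfl⟩ := hQelt q hq
      · rw [← pow_mul, mul_comm, pow_mul, hx4, one_pow]
      · have h1 : y * x ^ i * y⁻¹ = (x ^ i)⁻¹ := by rw [← conj_pow, hyx, inv_pow]
        have h2 : y * x ^ i * (y * x ^ i) = c := by
          calc y * x ^ i * (y * x ^ i) = (y * x ^ i * y⁻¹) * (y * y) * x ^ i := by group
            _ = c := by
              rw [h1, hyy, hcdef, show x * x = x ^ 2 from (pow_two x).symm,
                mul_assoc, ← pow_add, add_comm, pow_add, inv_mul_cancel_left]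
        rw [pow_mul _ 2 2, pow_two (y * x ^ i), h2, pow_two, hc2]
    have ha4 : a ^ 4 = 1 := by
      have := hq4 _ hgQ
      rw [hea.mul_pow, show e ^ 4 = 1 by
        rw [pow_mul e 2 2, pow_two e, show e * e = 1 from hEle he, one_pow], one_mul] at this
      exact this
    have ha1 : a = 1 := by
      have h1 : orderOf a ∣ 2 ^ 2 := orderOf_dvd_of_pow_eq_one ha4
      obtain ⟨i, -, hi⟩ := (Nat.dvd_prime_pow Nat.prime_two).1 h1
      have h2 : Odd (orderOf a) := ha
      rw [hi] at h2
      rcases i with _ | i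
      · exact orderOf_eq_one_iff.1 (by simpa using hi)
      · exact absurd h2 (by simp [Nat.odd_pow_iff, Nat.not_odd_iff_even])
    subst ha1
    rw [mul_one] at hgQ ⊢
    rcases hQinv e hgQ (hEle he) with rfl | rfl
    · exact mem_bot.2 rfl
    · exact absurd he hcE
  · rw [eq_top_iff]
    rintro g -
    set T := Q ⊔ (E ⊔ A)
    have hQT : Q ≤ T := le_sup_left
    have hE₀T : E₀ ≤ T := by
      intro u hu
      by_cases hu' : u ∈ E
      · exact mem_sup_right (mem_sup_left hu')
      have hle : E ⊔ zpowers u ≤ E₀ := sup_le hEle (zpowers_le.2 hu)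
      have hcu : c ∈ E ⊔ zpowers u := by
        by_contra hc'
        exact hu' (hEmax ⟨hle, hc'⟩ le_sup_left (mem_sup_right (mem_zpowers u)))
      obtain ⟨e, he, v, hv, hev⟩ := mem_sup_of_normal_left.1 hcu
      have hu1 : u * u = 1 := hu
      obtain ⟨i, rfl⟩ : v ∈ Submonoid.powers u := mem_powers_iff_mem_zpowers.2 hv
      rcases Nat.even_or_odd i with ⟨t, rfl⟩ | ⟨t, rfl⟩
      · exfalso
        apply hcE
        simp only [← two_mul, pow_mul, pow_two, hu1, one_pow, mul_one] at hev
        exact hev ▸ he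
      · simp only [pow_succ u (2 * t), pow_mul, pow_two, hu1, one_pow, one_mul] at hev
        rw [show u = e⁻¹ * c by rw [← hev]; group]
        exact mul_mem (mem_sup_right (mem_sup_left (inv_mem he))) (hQT (mul_mem hxQ hxQ))
    -- reduce to the centralizer of `Q`
    have hconj : ∀ z ∈ ({x, y} : Set G), ∀ g : G, g * z * g⁻¹ = z ∨ g * z * g⁻¹ = z⁻¹ := by
      intro z hz g
      have hoz : orderOf z = 4 := by rcases hz with rfl | rfl <;> assumption
      have h := (hn (zpowers z)).conj_mem _ (mem_zpowers z) g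
      obtain ⟨i, hi⟩ : g * z * g⁻¹ ∈ Submonoid.powers z := mem_powers_iff_mem_zpowers.2 h
      replace hi : z ^ i = g * z * g⁻¹ := hi
      have hord : orderOf (g * z * g⁻¹) = 4 := by
        rw [← hoz]; exact orderOf_injective (MulAut.conj g).toMonoidHom (MulAut.conj g).injective z
      have hz4 : z ^ 4 = 1 := hoz ▸ pow_orderOf_eq_one z
      rw [← hi, orderOf_pow, hoz] at hord
      rw [← hi, ← pow_mod_orderOf z i, hoz]
      have hm : (i % 4).gcd 4 = 1 := by
        have h4 : Nat.gcd 4 i ∣ 4 := Nat.gcd_dvd_left 4 i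
        rw [← Nat.gcd_rec]
        rcases Nat.div_eq_self.1 hord with h | h
        · omega
        · exact h
      have h4 : i % 4 < 4 := Nat.mod_lt _ (by norm_num)
      generalize hr : i % 4 = r at hm h4
      interval_cases r <;> first
        | (exfalso; norm_num at hm; done) | (left; exact pow_one z)
        | (right; rw [eq_inv_iff_mul_eq_one, ← hz4]; simp [pow_succ, mul_assoc])
    have main : ∀ g : G, g * x * g⁻¹ = x → g * y * g⁻¹ = y → g ∈ T := by
      intro g hgx hgy
      obtain ⟨u, a, hu, -, hua, ⟨k, hk⟩, ha⟩ :=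
        H86.exists_pPart_mul_pPrimePart g (isOfFinOrder_of_finite g) Nat.prime_two
      rw [← hua]
      refine mul_mem (hE₀T ?_) (mem_sup_right (mem_sup_right ?_))
      · obtain ⟨m, rfl⟩ := mem_zpowers_iff.1 hu
        have hcx : Commute (g ^ m) x := (Commute.zpow_left (mul_inv_eq_iff_eq_mul.1 hgx) m)
        have hcy : Commute (g ^ m) y := (Commute.zpow_left (mul_inv_eq_iff_eq_mul.1 hgy) m)
        set u := g ^ m
        show u * u = 1
        by_contra hu2
        have hk2 : 2 ≤ k := by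
          by_contra h
          apply hu2
          rw [← pow_two, ← orderOf_dvd_iff_pow_eq_one, hk]
          exact (pow_dvd_pow 2 (by omega : k ≤ 1)).trans (by norm_num)
        set w := u ^ 2 ^ (k - 2)
        have how : orderOf w = 4 := by
          rw [orderOf_pow' u (pow_ne_zero _ two_ne_zero), hk,
            Nat.gcd_eq_right (pow_dvd_pow 2 (by omega)), Nat.pow_div (by omega) two_pos,
            show k - (k - 2) = 2 by omega]
          norm_num
        have hwx : Commute w x := hcx.pow_left _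
        have hwy : Commute w y := hcy.pow_left _
        have hcomm : ⁅x * w, y⁆ = ⁅x, y⁆ := by
          simp only [commutatorElement_def, mul_inv_rev]
          calc x * w * y * (w⁻¹ * x⁻¹) * y⁻¹ = x * (w * y * w⁻¹) * x⁻¹ * y⁻¹ := by group
            _ = _ := by rw [hwy.eq, mul_inv_cancel_right]
        have hxyc : ⁅x, y⁆ = c := by
          have : y * x⁻¹ * y⁻¹ = x := by
            rw [← inv_inv x]
            nth_rewrite 2 [← hyx]
            group
          rw [commutatorElement_def, hcdef]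
          calc x * y * x⁻¹ * y⁻¹ = x * (y * x⁻¹ * y⁻¹) := by group
            _ = x * x := by rw [this]
        have hmem := commutator_mem_zpowers_left hn (x * w) y
        rw [hcomm, hxyc] at hmem
        obtain ⟨i, hi⟩ : c ∈ Submonoid.powers (x * w) := mem_powers_iff_mem_zpowers.2 hmem
        replace hi : (x * w) ^ i = c := hi
        have hw4 : w ^ 4 = 1 := how ▸ pow_orderOf_eq_one w
        have hxw4 : (x * w) ^ 4 = 1 := by rw [hwx.symm.mul_pow, hx4, hw4, one_mul]
        rcases Nat.even_or_odd i with ⟨t, rfl⟩ | ⟨t, rfl⟩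
        · have h2 : (x * w) ^ 2 = c * w ^ 2 := by rw [hwx.symm.mul_pow, pow_two x]
          rcases Nat.even_or_odd t with ⟨s, rfl⟩ | ⟨s, rfl⟩
          · rw [show s + s + (s + s) = 4 * s by ring, pow_mul, hxw4, one_pow] at hi
            exact hc1 hi.symm
          · rw [show 2 * s + 1 + (2 * s + 1) = 4 * s + 2 by ring, pow_add, pow_mul, hxw4,
              one_pow, one_mul, h2, mul_eq_left] at hi
            have := orderOf_dvd_of_pow_eq_one hi
            rw [how] at this
            norm_num at this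
        · exfalso
          have hsq : c * c = 1 := hc2
          have h3 : (x * w) ^ (2 * t + 1) * (x * w) ^ (2 * t + 1) = 1 := by rw [hi, hsq]
          rw [← pow_add, ← orderOf_dvd_iff_pow_eq_one] at h3
          have h5 : orderOf (x * w) ∣ 2 := by
            have h4 := Nat.dvd_gcd (orderOf_dvd_of_pow_eq_one hxw4) h3
            refine h4.trans (dvd_of_eq ?_)
            rw [show 2 * t + 1 + (2 * t + 1) = 2 * (2 * t + 1) by ring, show (4 : ℕ) = 2 * 2 from rfl,
              Nat.gcd_mul_left, Nat.gcd_rec]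
            norm_num [Nat.add_mod, Nat.mul_mod]
          have h6 : Commute (x * w) y := hinvol _ (by
            rw [← pow_two]; exact orderOf_dvd_iff_pow_eq_one.1 h5) y
          rw [← hxyc, ← hcomm] at hc1
          exact hc1 (commutatorElement_eq_one_iff_mul_comm.2 h6.eq)
      · exact Nat.not_even_iff_odd.1 fun h => absurd
          (Nat.Coprime.eq_one_of_dvd (Nat.Coprime.coprime_dvd_left h.two_dvd ha) dvd_rfl)
          (by norm_num)
    have hxy' : x * y * x⁻¹ = y⁻¹ := by
      have hy4 : y ^ 4 = 1 := hoy ▸ pow_orderOf_eq_one y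
      rcases hconj y (Or.inr rfl) x with h | h
      · exact absurd (mul_inv_eq_iff_eq_mul.1 h) hxy
      · exact h
    have main2 : ∀ g : G, g * x * g⁻¹ = x → g ∈ T := by
      intro g hgx
      rcases hconj y (Or.inr rfl) g with h | h
      · exact main g hgx h
      · rw [show g = x⁻¹ * (x * g) by group]
        refine mul_mem (hQT (inv_mem hxQ)) (main _ ?_ ?_)
        · calc x * g * x * (x * g)⁻¹ = x * (g * x * g⁻¹) * x⁻¹ := by group
            _ = x := by rw [hgx]; group
        · calc x * g * y * (x * g)⁻¹ = x * (g * y * g⁻¹) * x⁻¹ := by group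
            _ = (x * y * x⁻¹)⁻¹ := by rw [h]; group
            _ = y := by rw [hxy', inv_inv]
    rcases hconj x (Or.inl rfl) g with h | h
    · exact main2 g h
    · rw [show g = y⁻¹ * (y * g) by group]
      refine mul_mem (hQT (inv_mem hyQ)) (main2 _ ?_)
      calc y * g * x * (y * g)⁻¹ = y * (g * x * g⁻¹) * y⁻¹ := by group
        _ = (y * x * y⁻¹)⁻¹ := by rw [h]; group
        _ = x := by rw [hyx, inv_inv]

end Cfsg.Agent.H89
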