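import Cfsg.Agent.H87.OddHomogeneous

/-! Groups in whose subgroups no two non-central classes have coprime sizes (S4159). -/

set_option autoImplicit false

namespace Cfsg.Agent.H89

open Subgroup

universe u

variable {G : Type u} [Group G] [Finite G]

/-- An element of odd order inverted by a second element gives coprime class sizes. -/
theorem coprime_classes_of_inverted {y u : G} (hy : Odd (orderOf y)) (hy1 : y ≠ 1)
    (hinv : u * y * u⁻¹ = y⁻¹) :
    ∃ (H : Subgroup G) (a b : H), 1 < (centralizer ({a} : Set H)).index ∧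
      1 < (centralizer ({b} : Set H)).index ∧
      ((centralizer ({a} : Set H)).index).Coprime (centralizer ({b} : Set H)).index := by
  set Y := zpowers y
  set U := zpowers u
  set K := Y ⊔ U with hK
  have hyK : y ∈ K := mem_sup_left (mem_zpowers y)
  have huK : u ∈ K := mem_sup_right (mem_zpowers u)
  set a : K := ⟨y, hyK⟩ with ha
  set b : K := ⟨u, huK⟩ with hb
  set C := centralizer ({a} : Set K)
  have hub : b ∉ C := by
    intro h
    have h' : u * y = y * u := congrArg Subtype.val (mem_centralizer_singleton_iff.1 h)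
    rw [h', mul_inv_cancel_right] at hinv
    have h2 : y ^ 2 = 1 := by rw [pow_two]; nth_rewrite 2 [hinv]; exact mul_inv_cancel y
    have := Nat.dvd_prime Nat.prime_two |>.1 (orderOf_dvd_of_pow_eq_one h2)
    rcases this with h | h
    · exact hy1 (orderOf_eq_one_iff.1 h)
    · rw [h] at hy
      exact absurd hy (by decide)
  have hinv' : u * y⁻¹ * u⁻¹ = y := by
    rw [← inv_inj]
    simpa [mul_assoc] using hinv
  have hnorm : U ≤ normalizer (Y : Set G) := by
    refine zpowers_le.2 (mem_normalizer_iff.2 fun x => ?_)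
    constructor
    · rintro ⟨i, rfl⟩
      exact ⟨-i, show y ^ (-i) = u * y ^ i * u⁻¹ by rw [← conj_zpow, hinv, inv_zpow, zpow_neg]⟩
    · rintro ⟨i, hi⟩
      refine ⟨-i, ?_⟩
      have : u * y ^ (-i) * u⁻¹ = u * x * u⁻¹ := by
        rw [← (show y ^ i = u * x * u⁻¹ from hi), ← conj_zpow, hinv, inv_zpow, zpow_neg, inv_inv]
      exact mul_left_cancel (mul_right_cancel this)
  haveI hYn : (Y.subgroupOf K).Normal :=
    normal_subgroupOf_of_le_normalizer (sup_le le_normalizer hnorm)
  have hgen : ∀ x : K, x ∈ Y.subgroupOf K ⊔ U.subgroupOf K := fun x => by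
    rw [← subgroupOf_sup le_sup_left le_sup_right]
    exact (subgroupOf_self K).ge (mem_top x)
  have hYC : Y.subgroupOf K ≤ C := by
    rintro ⟨x, hx⟩ hxY
    obtain ⟨i, rfl⟩ : x ∈ Y := hxY
    exact mem_centralizer_singleton_iff.2 (Subtype.ext (Commute.zpow_left rfl i).eq)
  -- the class of `a` has two elements
  have hCidx : C.index = 2 := by
    rw [index_eq_two_iff]
    refine ⟨b, fun x => ?_⟩
    obtain ⟨w, hw, z, ⟨i, hz⟩, rfl⟩ := mem_sup_of_normal_left.1 (hgen x)
    have hz' : z = b ^ i := Subtype.ext (by rw [SubgroupClass.coe_zpow]; exact hz.symm)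
    subst hz'
    have hw' := hYC hw
    have hb2 : b * b ∈ C := by
      refine mem_centralizer_singleton_iff.2 (Subtype.ext ?_)
      show u * u * y = y * (u * u)
      calc u * u * y = u * (u * y * u⁻¹) * u⁻¹ * (u * u) := by group
        _ = y * (u * u) := by rw [hinv, hinv']
    rcases Int.even_or_odd i with ⟨j, rfl⟩ | ⟨j, rfl⟩
    · have hev : w * b ^ (j + j) ∈ C := mul_mem hw' (by
        rw [← two_mul, zpow_mul, zpow_two]; exact C.zpow_mem hb2 j)
      exact Or.inr ⟨hev, fun h => hub ((C.mul_mem_cancel_left hev).1 h)⟩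
    · have hev : w * b ^ (2 * j) ∈ C := mul_mem hw' (by
        rw [zpow_mul, zpow_two]; exact C.zpow_mem hb2 j)
      refine Or.inl ⟨?_, fun h => hub ?_⟩
      · rw [show w * b ^ (2 * j + 1) * b = w * b ^ (2 * j) * (b * b) by group]
        exact mul_mem hev hb2
      · refine (C.mul_mem_cancel_left hev).1 ?_
        rwa [zpow_add_one, ← mul_assoc] at h
  have hbidx : (centralizer ({b} : Set K)).index ∣ orderOf y := by
    have h1 : U.subgroupOf K ≤ centralizer ({b} : Set K) := by
      rintro ⟨x, hx⟩ hxU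
      obtain ⟨i, rfl⟩ : x ∈ U := hxU
      exact mem_centralizer_singleton_iff.2 (Subtype.ext (Commute.zpow_left rfl i).eq)
    refine (index_dvd_of_le h1).trans ?_
    have h2 := H19.card_sup_dvd (Y.subgroupOf K) (U.subgroupOf K)
    rw [← subgroupOf_sup le_sup_left le_sup_right,
      show (Y ⊔ U).subgroupOf K = ⊤ from subgroupOf_self _, card_top,
      ← (U.subgroupOf K).card_mul_index, mul_comm (Nat.card (Y.subgroupOf K))] at h2
    have h3 := Nat.dvd_of_mul_dvd_mul_left Nat.card_pos h2
    rwa [Nat.card_congr (subgroupOfEquivOfLe (le_sup_left : Y ≤ K)).toEquiv, Nat.card_zpowers] at h3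
  refine ⟨K, a, b, by rw [hCidx]; norm_num, one_lt_index_of_ne_top fun h => hub ?_, ?_⟩
  · have : a ∈ centralizer ({b} : Set K) := h ▸ mem_top a
    exact mem_centralizer_singleton_iff.2 (mem_centralizer_singleton_iff.1 this).symm
  · rw [hCidx]
    exact (Nat.coprime_two_left.2 hy).coprime_dvd_right hbidx

/-- If no subgroup has two coprime non-trivial class sizes, a Sylow `2`-subgroup is normal. -/
theorem sylow_two_normal_of_no_coprime_classes
    (h : ∀ (H : Subgroup G) (x y : H), 1 < (centralizer ({x} : Set H)).index →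
      1 < (centralizer ({y} : Set H)).index →
      ¬ ((centralizer ({x} : Set H)).index).Coprime (centralizer ({y} : Set H)).index)
    (P : Sylow 2 G) : (P : Subgroup G).Normal := by
  haveI := Fact.mk Nat.prime_two
  refine H87.sylow_two_normal_of_odd_homogeneous (fun H _ hodd h2 => ?_) P
  set N := normalizer (H : Set G)
  set C := (centralizer (H : Set G)).subgroupOf N
  haveI : C.Normal := by
    refine ⟨fun x hx g => mem_subgroupOf.2 (mem_centralizer_iff.2 fun w hw => ?_)⟩
    have hw' : (g : G)⁻¹ * w * g ∈ H := by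
      simpa using (mem_normalizer_iff.1 (inv_mem g.2) w).1 hw
    have := mem_centralizer_iff.1 (mem_subgroupOf.1 hx) _ hw'
    show w * ((g : G) * x * (g : G)⁻¹) = (g : G) * x * (g : G)⁻¹ * w
    calc w * ((g : G) * x * (g : G)⁻¹) = g * (((g : G)⁻¹ * w * g) * x) * (g : G)⁻¹ := by group
      _ = _ := by rw [this]; group
  obtain ⟨q, hq⟩ := exists_prime_orderOf_dvd_card' (G := N ⧸ C) 2 (show 2 ∣ C.index from h2)
  obtain ⟨⟨u, hu⟩, rfl⟩ := QuotientGroup.mk_surjective q
  have hu2 : u * u ∈ centralizer (H : Set G) := by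
    have : ((⟨u, hu⟩ : N) : N ⧸ C) ^ 2 = 1 := hq ▸ pow_orderOf_eq_one _
    rw [← QuotientGroup.mk_pow, QuotientGroup.eq_one_iff, mem_subgroupOf] at this
    simpa [pow_two] using this
  have hu1 : u ∉ centralizer (H : Set G) := by
    intro hc
    rw [(QuotientGroup.eq_one_iff _).2 (mem_subgroupOf.2 hc), orderOf_one] at hq
    omega
  rw [mem_centralizer_iff] at hu1
  push Not at hu1
  obtain ⟨w, hw, hne⟩ := hu1
  set y := w⁻¹ * (u * w * u⁻¹) with hy
  have hyH : y ∈ H := mul_mem (inv_mem hw) ((mem_normalizer_iff.1 hu w).1 hw)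
  have hinv : u * y * u⁻¹ = y⁻¹ := by
    have h2' := mem_centralizer_iff.1 hu2 w hw
    calc u * y * u⁻¹ = (u * w * u⁻¹)⁻¹ * (u * u * w * (u * u)⁻¹) := by rw [hy]; group
      _ = (u * w * u⁻¹)⁻¹ * (w * (u * u) * (u * u)⁻¹) := by rw [h2']
      _ = (u * w * u⁻¹)⁻¹ * w := by rw [mul_inv_cancel_right]
      _ = y⁻¹ := by rw [hy]; group
  have hy1 : y ≠ 1 := fun e => hne (by
    rw [hy, inv_mul_eq_one] at e
    nth_rewrite 1 [e]
    group)
  have hyodd : Odd (orderOf y) := by
    rw [Nat.odd_iff, ← Nat.two_dvd_ne_zero]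
    exact fun hd => hodd (hd.trans (by
      rw [← Subgroup.orderOf_mk y hyH]; exact orderOf_dvd_natCard _))
  obtain ⟨K, a, b, ha, hb, hco⟩ := coprime_classes_of_inverted hyodd hy1 hinv
  exact h K a b ha hb hco

/-- Statement S4159, given that groups of odd order are soluble. -/
theorem solvable_of_no_coprime_classes
    (hFT : ∀ (H : Type u) [Group H] [Finite H], Odd (Nat.card H) → Group.IsSolvable H)
    (h : ∀ (H : Subgroup G) (x y : H), 1 < (centralizer ({x} : Set H)).index →
      1 < (centralizer ({y} : Set H)).index →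
      ¬ ((centralizer ({x} : Set H)).index).Coprime (centralizer ({y} : Set H)).index) :
    Group.IsSolvable G := by
  haveI := Fact.mk Nat.prime_two
  obtain ⟨P⟩ : Nonempty (Sylow 2 G) := inferInstance
  haveI := sylow_two_normal_of_no_coprime_classes h P
  haveI : Group.IsNilpotent (P : Subgroup G) := P.isPGroup'.isNilpotent
  haveI : Group.IsSolvable (G ⧸ (P : Subgroup G)) := hFT _ (by
    rw [← Subgroup.index_eq_card, Nat.odd_iff, ← Nat.two_dvd_ne_zero]
    exact P.not_dvd_index)
  exact Group.isSolvable_of_ker_le_range (P : Subgroup G).subtype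
    (QuotientGroup.mk' (P : Subgroup G))
    (by rw [QuotientGroup.ker_mk', Subgroup.range_subtype])

end Cfsg.Agent.H89
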