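import Mathlib
import Cfsg.Agent.H19.Hall
import Cfsg.Agent.H20.Basic
import Cfsg.Agent.H19.MinimalNormal

/-!
# The number of Hall subgroups of a solvable group
-/

namespace Cfsg.Agent.H89.HallCount

open Subgroup
open scoped Pointwise

/-- A solvable group acting coprimely on an abelian group: the index of the fixed points is a
product of divisors of the order which are congruent to one modulo primes dividing the acting
group. -/
theorem exists_factors_fixed.{u, v} {U : Type u} [CommGroup U] [Finite U] {X : Type v} [Group X]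
    [Finite X] [Group.IsSolvable X] (φ : X →* MulAut U) (hcop : (Nat.card U).Coprime (Nat.card X)) :
    ∃ l : List ℕ, l.prod * Nat.card {u : U // ∀ x, φ x u = u} = Nat.card U ∧
      ∀ f ∈ l, f ∣ Nat.card U ∧ ∃ r, r.Prime ∧ r ∣ Nat.card X ∧ f ≡ 1 [MOD r] := by
  classical
  induction hn : Nat.card U using Nat.strong_induction_on generalizing U with
  | _ n ih =>
  subst hn
  by_cases hall : ∀ u x, φ x u = u
  · exact ⟨[], by rw [List.prod_nil, one_mul]; exact Nat.card_congr (Equiv.subtypeUnivEquiv hall),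
      by simp⟩
  obtain ⟨M, ⟨hMn, hMK⟩, hMmin⟩ := Set.exists_min_image {M : Subgroup X | M.Normal ∧ ¬ M ≤ φ.ker}
    (fun M => Nat.card M) (Set.toFinite _)
    ⟨⊤, inferInstance, fun h => hall fun u x => by rw [φ.mem_ker.1 (h (mem_top x))]; rfl⟩
  haveI := hMn
  have hmin : ∀ L : Subgroup X, L.Normal → L < M → L ≤ φ.ker := fun L hL hlt => by
    by_contra h
    exact absurd (eq_of_le_of_card_ge hlt.le (hMmin L ⟨hL, h⟩)) hlt.ne
  have hcomm : ∀ a ∈ M, ∀ b ∈ M, φ a * φ b = φ b * φ a := by
    intro a ha b hb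
    have hM1 : M ≠ ⊥ := fun h => hMK (h ▸ bot_le)
    have h1 := hmin ⁅M, M⁆ inferInstance (Group.IsSolvable.commutator_lt_of_ne_bot hM1)
      (commutator_mem_commutator ha hb)
    rw [MonoidHom.mem_ker, map_commutatorElement] at h1
    exact commutatorElement_eq_one_iff_mul_comm.1 h1
  obtain ⟨x, hxM, hxK⟩ := SetLike.not_le_iff_exists.1 hMK
  obtain ⟨r, hr, hrd⟩ := Nat.exists_prime_and_dvd (mt orderOf_eq_one_iff.1 (mt φ.mem_ker.2 hxK))
  haveI : Fact r.Prime := ⟨hr⟩
  let L : Subgroup X :=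
    { carrier := {y | y ∈ M ∧ ∃ k, φ y ^ r ^ k = 1}
      one_mem' := ⟨one_mem _, 0, by simp⟩
      mul_mem' := fun {a b} ha hb => by
        obtain ⟨ha, i, hi⟩ := ha
        obtain ⟨hb, j, hj⟩ := hb
        refine ⟨mul_mem ha hb, i + j, ?_⟩
        rw [map_mul, Commute.mul_pow (hcomm a ha b hb), pow_add, pow_mul, hi, one_pow, one_mul,
          mul_comm, pow_mul, hj, one_pow]
      inv_mem' := fun {a} ha => by
        obtain ⟨ha, i, hi⟩ := ha
        exact ⟨inv_mem ha, i, by rw [map_inv, inv_pow, hi, inv_one]⟩ }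
  have hLn : L.Normal := ⟨fun y hy g => by
    obtain ⟨hy, i, hi⟩ := hy
    refine ⟨hMn.conj_mem y hy g, i, ?_⟩
    rw [map_mul, map_mul, map_inv, conj_pow, hi]; simp⟩
  have hLM : L = M := by
    by_contra hne
    have hlt : L < M := lt_of_le_of_ne (fun y hy => hy.1) hne
    have h1 := hmin L hLn hlt (show x ^ (orderOf (φ x) / r) ∈ L from ⟨pow_mem hxM _, 1, by
      rw [map_pow, pow_one, ← pow_mul, Nat.div_mul_cancel hrd, pow_orderOf_eq_one]⟩)
    rw [MonoidHom.mem_ker, map_pow] at h1
    have h2 := orderOf_pow_orderOf_div (orderOf_pos (φ x)).ne' hrd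
    rw [h1, orderOf_one] at h2
    exact hr.one_lt.ne h2
  haveI : Fintype M := Fintype.ofFinite _
  let W : Subgroup U :=
    { carrier := {u | ∀ y ∈ M, φ y u = u}
      one_mem' := fun y _ => map_one _
      mul_mem' := fun {a b} ha hb y hy => by rw [map_mul, ha y hy, hb y hy]
      inv_mem' := fun {a} ha y hy => by rw [map_inv, ha y hy] }
  have hWinv : ∀ (g : X) (w : U), w ∈ W → φ g w ∈ W := fun g w hw y hy => by
    have h1 := hw _ (by simpa using hMn.conj_mem y hy g⁻¹ : g⁻¹ * y * g ∈ M)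
    conv_rhs => rw [← h1]
    rw [← MulAut.mul_apply, ← MulAut.mul_apply, ← map_mul, ← map_mul]
    congr 2; group
  let N : U →* U := ∏ y : M, (φ (y : X)).toMonoidHom
  have hNapp : ∀ u, N u = ∏ y : M, φ (y : X) u := fun u => by simp [N, MonoidHom.finsetProd_apply]
  have hNW : ∀ u, N u ∈ W := fun u y hy => by
    rw [hNapp, map_prod]
    refine Fintype.prod_equiv (Equiv.mulLeft ⟨y, hy⟩) _ _ fun k => ?_
    rw [← MulAut.mul_apply, ← map_mul]; rfl
  have hWN : ∀ w ∈ W, N w = w ^ Nat.card M := fun w hw => by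
    rw [hNapp, Nat.card_eq_fintype_card, ← Finset.card_univ, ← Finset.prod_const]
    exact Finset.prod_congr rfl fun k _ => hw _ k.2
  have hcM : (Nat.card U).Coprime (Nat.card M) := hcop.coprime_dvd_right M.card_subgroup_dvd_card
  have hrange : N.range = W := by
    refine le_antisymm (fun z ⟨u, hu⟩ => hu ▸ hNW u) fun w hw => ?_
    obtain ⟨k, hk⟩ := exists_pow_eq_self_of_coprime (x := w)
      ((hcM.coprime_dvd_left (orderOf_dvd_natCard w)).symm)
    exact ⟨w ^ k, by rw [map_pow, hWN w hw]; exact hk⟩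
  have hcard : Nat.card N.ker * Nat.card W = Nat.card U := by
    rw [← hrange, ← index_ker, card_mul_index]
  have hWlt : Nat.card W < Nat.card U := by
    refine lt_of_le_of_ne (card_le_card_group W) fun h => hxK (φ.mem_ker.2 (MulEquiv.ext fun u => ?_))
    exact (eq_top_of_card_eq W h ▸ mem_top u : u ∈ W) x hxM
  let ψ : X →* MulAut W :=
    { toFun := fun g =>
        { toFun := fun w => ⟨φ g w, hWinv g w w.2⟩
          invFun := fun w => ⟨φ g⁻¹ w, hWinv _ w w.2⟩
          left_inv := fun w => Subtype.ext (by simp)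
          right_inv := fun w => Subtype.ext (by simp)
          map_mul' := fun a b => Subtype.ext (by simp) }
      map_one' := MulEquiv.ext fun w => Subtype.ext (by simp)
      map_mul' := fun a b => MulEquiv.ext fun w => Subtype.ext (by simp) }
  obtain ⟨l, hl, hlf⟩ := ih _ hWlt ψ (hcop.coprime_dvd_left W.card_subgroup_dvd_card) rfl
  have hfix : Nat.card {w : W // ∀ g, ψ g w = w} = Nat.card {u : U // ∀ g, φ g u = u} :=
    Nat.card_congr
      { toFun := fun w => ⟨(w.1 : U), fun g => congrArg Subtype.val (w.2 g)⟩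
        invFun := fun u => ⟨⟨u.1, fun y _ => u.2 y⟩, fun g => Subtype.ext (u.2 g)⟩
        left_inv := fun _ => rfl
        right_inv := fun _ => rfl }
  refine ⟨Nat.card N.ker :: l, ?_, ?_⟩
  · rw [List.prod_cons, mul_assoc, ← hfix, hl, hcard]
  intro f hf
  rcases List.mem_cons.1 hf with rfl | hf
  swap
  · exact ⟨(hlf f hf).1.trans W.card_subgroup_dvd_card, (hlf f hf).2⟩
  refine ⟨card_subgroup_dvd_card _, r, hr,
    hrd.trans ((orderOf_map_dvd φ x).trans (orderOf_dvd_natCard x)), ?_⟩
  have hkinv : ∀ (g : M) (u : U), u ∈ N.ker → φ (g : X) u ∈ N.ker := fun g u hu => by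
    rw [MonoidHom.mem_ker, hNapp]
    rw [MonoidHom.mem_ker, hNapp] at hu
    refine (Fintype.prod_equiv (Equiv.mulRight g) _ _ fun k => ?_).trans hu
    rw [← MulAut.mul_apply, ← map_mul]; rfl
  let P : Subgroup (MulAut U) := M.map φ
  have hP : IsPGroup r P := by
    rintro ⟨_, y, hy, rfl⟩
    obtain ⟨-, k, hk⟩ := (hLM.symm ▸ hy : y ∈ L)
    exact ⟨k, Subtype.ext (by simpa using hk)⟩
  have hPinv : ∀ (g : P) (u : U), u ∈ N.ker → (g : MulAut U) u ∈ N.ker := by
    rintro ⟨_, y, hy, rfl⟩ u hu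
    exact hkinv ⟨y, hy⟩ u hu
  letI : MulAction P N.ker :=
    { smul := fun g u => ⟨(g : MulAut U) u, hPinv g u u.2⟩
      one_smul := fun u => Subtype.ext rfl
      mul_smul := fun a b u => Subtype.ext rfl }
  have h1 := hP.card_modEq_card_fixedPoints N.ker
  have h2 : MulAction.fixedPoints P N.ker = {1} := by
    ext u
    simp only [MulAction.mem_fixedPoints, Set.mem_singleton_iff]
    refine ⟨fun h => ?_, fun h g => Subtype.ext ?_⟩
    · have hw : (u : U) ∈ W := fun y hy => congrArg Subtype.val (h ⟨φ y, y, hy, rfl⟩)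
      have := hWN _ hw
      rw [MonoidHom.mem_ker.1 u.2] at this
      refine Subtype.ext ?_
      exact (powCoprime hcM).injective (by simpa [powCoprime] using this.symm)
    · subst h; exact map_one (g : MulAut U)
  rwa [h2, Nat.card_coe_set_eq, Set.ncard_singleton] at h1

/-- The number of subgroups of a given order is the index of a normaliser, if all are conjugate. -/
theorem card_eq_index_normalizer {G : Type*} [Group G] [Finite G] (m : ℕ) {H : Subgroup G}
    (hH : Nat.card H = m) (hconj : ∀ K : Subgroup G, Nat.card K = m → ∃ g : G, MulAut.conj g • H = K) :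
    Nat.card {K : Subgroup G // Nat.card K = m} = (normalizer (H : Set G)).index := by
  symm
  refine Nat.card_eq_of_bijective
    (fun q : G ⧸ normalizer (H : Set G) => Quotient.liftOn' q (fun g =>
      (⟨MulAut.conj g • H, by rw [H19.card_conj_smul, hH]⟩ : {K : Subgroup G // Nat.card K = m}))
      ?_) ⟨?_, ?_⟩
  · intro a b hab
    rw [QuotientGroup.leftRel_apply] at hab
    refine Subtype.ext ?_
    show MulAut.conj a • H = MulAut.conj b • H
    rw [show b = a * (a⁻¹ * b) by group, map_mul (MulAut.conj), mul_smul,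
      H20.conj_smul_eq_of_mem_normalizer hab]
  · rintro ⟨a⟩ ⟨b⟩ h
    have h1 : MulAut.conj a • H = MulAut.conj b • H := congrArg Subtype.val h
    refine Quotient.sound' (QuotientGroup.leftRel_apply.2 (H20.mem_normalizer_of_conj_smul_eq ?_))
    rw [map_mul, mul_smul, ← h1, ← mul_smul, ← map_mul, inv_mul_cancel, map_one, one_smul]
  · rintro ⟨K, hK⟩
    obtain ⟨g, hg⟩ := hconj K hK
    exact ⟨(g : G ⧸ normalizer (H : Set G)), Subtype.ext hg⟩

/-- `f` is an admissible factor for the number of Hall subgroups of order `m`. -/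
def IsFactor (G : Type*) [Group G] (m f : ℕ) : Prop :=
  (∃ q e : ℕ, q.Prime ∧ f = q ^ e) ∧
    (∃ K L : Subgroup G, K.Normal ∧ L.Normal ∧ K < L ∧
      (∀ M : Subgroup G, M.Normal → K ≤ M → M ≤ L → M = K ∨ M = L) ∧ f ∣ K.relIndex L) ∧
    ∃ q : ℕ, q.Prime ∧ q ∣ m ∧ f ≡ 1 [MOD q]

theorem relIndex_sup_normal {G : Type*} [Group G] [Finite G] (S N : Subgroup G) [N.Normal] :
    S.relIndex (S ⊔ N) = S.relIndex N := by
  have h1 : Nat.card S * S.relIndex (S ⊔ N) = Nat.card (S ⊔ N : Subgroup G) := by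
    rw [← relIndex_bot_left, ← relIndex_bot_left]
    exact relIndex_mul_relIndex _ _ _ bot_le le_sup_left
  have h2 : Nat.card N * N.relIndex S = Nat.card (S ⊔ N : Subgroup G) := by
    rw [← relIndex_sup_right S N, ← relIndex_bot_left, ← relIndex_bot_left (H := S ⊔ N)]
    exact relIndex_mul_relIndex _ _ _ bot_le le_sup_right
  have h3 : Nat.card (N ⊓ S : Subgroup G) * N.relIndex S = Nat.card S := by
    rw [← inf_relIndex_right N S, ← relIndex_bot_left, ← relIndex_bot_left (H := S)]
    exact relIndex_mul_relIndex _ _ _ bot_le inf_le_right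
  have h4 : Nat.card (N ⊓ S : Subgroup G) * S.relIndex N = Nat.card N := by
    rw [inf_comm, ← inf_relIndex_right S N, ← relIndex_bot_left, ← relIndex_bot_left (H := N)]
    exact relIndex_mul_relIndex _ _ _ bot_le inf_le_right
  refine Nat.eq_of_mul_eq_mul_left (Nat.card_pos (α := S)) ?_
  rw [h1, ← h2, ← h4, ← h3]; ring

/-- The number of Hall subgroups of order `m` is a product of admissible factors. -/
theorem exists_factors.{u} {G : Type u} [Group G] [Finite G] [Group.IsSolvable G] (m n : ℕ)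
    (hG : Nat.card G = m * n) (hmn : m.Coprime n) :
    ∃ l : List ℕ, l.prod = Nat.card {H : Subgroup G // Nat.card H = m} ∧ ∀ f ∈ l, IsFactor G m f := by
  classical
  induction hc : Nat.card G using Nat.strong_induction_on generalizing G m n with
  | _ c ih =>
  subst hc
  rcases subsingleton_or_nontrivial G with hs | hs
  · refine ⟨[], ?_, by simp⟩
    obtain ⟨H, hH⟩ := H19.hall_exists hG hmn
    exact (Nat.card_eq_one_iff_unique.2 ⟨inferInstance, ⟨⟨H, hH⟩⟩⟩).symm
  obtain ⟨N, ⟨hNn, hN0⟩, hNmin⟩ := Set.exists_min_image {N : Subgroup G | N.Normal ∧ N ≠ ⊥}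
    (fun N => Nat.card N) (Set.toFinite _) ⟨⊤, inferInstance, top_ne_bot⟩
  haveI := hNn
  have hminN : ∀ M : Subgroup G, M.Normal → ⊥ ≤ M → M ≤ N → M = ⊥ ∨ M = N := fun M hM _ hMN =>
    (em (M = ⊥)).imp_right fun h => eq_of_le_of_card_ge hMN (hNmin M ⟨hM, h⟩)
  obtain ⟨A, q, hAn, hAN, hA0, hAc, hq, hqA, -⟩ :=
    H19.exists_normal_elementary_le N inferInstance hN0
  obtain rfl : A = N := (hminN A hAn bot_le hAN).resolve_left hA0
  haveI : Fact q.Prime := ⟨hq⟩
  obtain ⟨e, he⟩ := hqA.exists_card_eq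
  -- choose the Hall subgroup
  obtain ⟨H, hH, hNH⟩ : ∃ H : Subgroup G, Nat.card H = m ∧ ((Nat.card A).Coprime n → A ≤ H) := by
    by_cases h : (Nat.card A).Coprime n
    · obtain ⟨H, h1, h2⟩ := H19.hall_dominance hG hmn A h
      exact ⟨H, h1, fun _ => h2⟩
    · obtain ⟨H, h1⟩ := H19.hall_exists hG hmn
      exact ⟨H, h1, fun h' => absurd h' h⟩
  set π := QuotientGroup.mk' A with hπ
  have hsurj := QuotientGroup.mk'_surjective A
  set Hb := H.map π with hHb
  have hm' : Nat.card Hb ∣ m := hH ▸ Subgroup.card_map_dvd H π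
  have hHi : H.index = n := Nat.eq_of_mul_eq_mul_left (Nat.card_pos (α := H))
    (by rw [H.card_mul_index, hG, hH])
  have hn' : Hb.index ∣ n := hHi ▸ H.index_map_dvd hsurj
  have hG' := (Hb.card_mul_index).symm
  have hmn' : (Nat.card Hb).Coprime Hb.index := (hmn.coprime_dvd_left hm').coprime_dvd_right hn'
  obtain ⟨l1, hl1, hl1f⟩ := ih _ (H19.card_quotient_lt A hN0) (G := G ⧸ A) _ _ hG' hmn' rfl
  rw [card_eq_index_normalizer _ rfl fun K hK => H19.hall_conj hG' hmn' rfl hK] at hl1
  set NH := normalizer (H : Set G) with hNHdef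
  have hcount : Nat.card {K : Subgroup G // Nat.card K = m} = NH.index :=
    card_eq_index_normalizer _ hH fun K hK => H19.hall_conj hG hmn hH hK
  set J := (normalizer (Hb : Set (G ⧸ A))).comap π with hJ
  have hJi : J.index = (normalizer (Hb : Set (G ⧸ A))).index :=
    index_comap_of_surjective _ hsurj
  have hJeq : J = NH ⊔ A := by
    have hJ' : J = normalizer ((H ⊔ A : Subgroup G) : Set G) := by
      rw [hJ, comap_normalizer_eq_of_surjective _ hsurj, hHb, comap_map_eq, QuotientGroup.ker_mk']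
    refine le_antisymm (fun g hg => ?_) (sup_le (fun g hg => ?_) ?_)
    · have h1 : MulAut.conj g • H ≤ H ⊔ A := by
        have := H20.conj_smul_eq_of_mem_normalizer (hJ' ▸ hg)
        exact this ▸ (pointwise_smul_le_pointwise_smul_iff.2 le_sup_left)
      set S := H ⊔ A
      have hc1 : Nat.card (H.subgroupOf S) = m := by
        rw [Nat.card_congr (subgroupOfEquivOfLe le_sup_left).toEquiv, hH]
      have hc2 : Nat.card ((MulAut.conj g • H).subgroupOf S) = m := by
        rw [Nat.card_congr (subgroupOfEquivOfLe h1).toEquiv, H19.card_conj_smul, hH]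
      have hc3 : Nat.card S = m * (H.subgroupOf S).index := by
        rw [← hc1, card_mul_index]
      have hc4 : m.Coprime (H.subgroupOf S).index := hmn.coprime_dvd_right
        (hHi ▸ relIndex_dvd_index_of_le le_sup_left)
      obtain ⟨a, ha⟩ := H19.hall_conj hc3 hc4 hc1 hc2
      have ha' := congrArg (Subgroup.map S.subtype) ha
      rw [H19.map_conj_smul, map_subgroupOf_eq_of_le le_sup_left, map_subgroupOf_eq_of_le h1] at ha'
      obtain ⟨h, hh, x, hx, hax⟩ := mem_sup_of_normal_right.1 a.2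
      have ha2 : a = (h * x * h⁻¹) * h := by rw [← hax]; group
      have hfix : (h * x * h⁻¹)⁻¹ * g ∈ NH := H20.mem_normalizer_of_conj_smul_eq (by
        rw [map_mul, mul_smul, ← ha', coe_subtype, ha2, map_mul (MulAut.conj), mul_smul,
          H20.conj_smul_eq_of_mem_normalizer (le_normalizer hh), map_inv, inv_smul_smul])
      have : g = h * x * h⁻¹ * ((h * x * h⁻¹)⁻¹ * g) := by group
      rw [this]
      exact mul_mem (mem_sup_right (hNn.conj_mem x hx h)) (mem_sup_left hfix)
    · rw [hJ']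
      refine H20.mem_normalizer_of_conj_smul_eq ?_
      rw [Subgroup.smul_sup, H20.conj_smul_eq_of_mem_normalizer hg,
        H20.conj_smul_eq_of_mem_normalizer (normalizer_eq_top (H := A) ▸ mem_top g)]
    · exact fun g hg => hJ' ▸ le_normalizer (mem_sup_right hg)
  have hprod : NH.index = NH.relIndex A * J.index := by
    rw [← relIndex_sup_normal NH A, ← hJeq]
    exact (relIndex_mul_index (hJeq ▸ le_sup_left)).symm
  obtain ⟨l2, hl2, hl2f⟩ : ∃ l2 : List ℕ, l2.prod = NH.relIndex A ∧ ∀ f ∈ l2, IsFactor G m f := by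
    by_cases hc : (Nat.card A).Coprime n
    · refine ⟨[], ?_, by simp⟩
      rw [List.prod_nil, relIndex_eq_one.2 ((hNH hc).trans le_normalizer)]
    have hqm : ¬ q ∣ m := fun h => hc (he ▸ (hmn.coprime_dvd_left h).pow_left e)
    have hcop : (Nat.card A).Coprime (Nat.card H) := by
      rw [he, hH]; exact (hq.coprime_iff_not_dvd.2 hqm).pow_left e
    letI : CommGroup A := { (inferInstance : Group A) with mul_comm := fun a b => hAc.is_comm.comm a b }
    let φ : H →* MulAut A := (MulAut.conjNormal (H := A)).comp H.subtype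
    obtain ⟨l, hl, hlf⟩ := exists_factors_fixed φ hcop
    have hfix : Nat.card {u : A // ∀ h : H, φ h u = u} = Nat.card (NH ⊓ A : Subgroup G) := by
      refine Nat.card_congr
        { toFun := fun u => ⟨(u.1 : G), ?_, u.1.2⟩
          invFun := fun g => ⟨⟨g.1, g.2.2⟩, fun h => Subtype.ext ?_⟩
          left_inv := fun _ => rfl
          right_inv := fun _ => rfl }
      · refine H20.le_normalizer_of_le_centralizer (U := H) (A := zpowers (u.1 : G))
          (zpowers_le.2 (mem_centralizer_iff.2 fun h hh => ?_)) (mem_zpowers _)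
        exact mul_inv_eq_iff_eq_mul.1 (congrArg Subtype.val (u.2 ⟨h, hh⟩))
      · show (h : G) * g.1 * (h : G)⁻¹ = g.1
        have h1 : g.1 * (h : G) * g.1⁻¹ ∈ H := (mem_normalizer_iff.1 g.2.1 h).1 h.2
        have h2 : g.1 * (h : G) * g.1⁻¹ * (h : G)⁻¹ ∈ A ⊓ H := by
          refine Subgroup.mem_inf.2 ⟨?_, mul_mem h1 (inv_mem h.2)⟩
          rw [mul_assoc g.1, mul_assoc g.1]
          exact mul_mem g.2.2 (hNn.conj_mem _ (inv_mem g.2.2) h)
        rw [Subgroup.inf_eq_bot_of_coprime hcop, mem_bot, mul_inv_eq_one, mul_inv_eq_iff_eq_mul] at h2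
        rw [← h2, mul_inv_cancel_right]
    refine ⟨l, ?_, fun f hf => ?_⟩
    · refine Nat.eq_of_mul_eq_mul_right (Nat.card_pos (α := (NH ⊓ A : Subgroup G))) ?_
      rw [← hfix, hl, hfix, ← inf_relIndex_right NH A, mul_comm, ← relIndex_bot_left,
        ← relIndex_bot_left]
      exact (relIndex_mul_relIndex _ _ _ bot_le inf_le_right).symm
    · obtain ⟨hfd, r, hr, hrd, hfr⟩ := hlf f hf
      obtain ⟨k, -, hk⟩ := (Nat.dvd_prime_pow hq).1 (he ▸ hfd)
      exact ⟨⟨q, k, hq, hk⟩, ⟨⊥, A, inferInstance, hNn, bot_lt_iff_ne_bot.2 hN0, hminN,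
        by rwa [relIndex_bot_left]⟩, r, hr, hH ▸ hrd, hfr⟩
  refine ⟨l2 ++ l1, by rw [List.prod_append, hl2, hl1, hcount, hprod, hJi], fun f hf => ?_⟩
  rcases List.mem_append.1 hf with hf | hf
  · exact hl2f f hf
  obtain ⟨hqe, ⟨K, L, hK, hL, hKL, hchief, hfd⟩, r, hr, hrm, hfr⟩ := hl1f f hf
  refine ⟨hqe, ⟨K.comap π, L.comap π, hK.comap π, hL.comap π,
    (comap_lt_comap_of_surjective hsurj).2 hKL, fun M hM h1 h2 => ?_, ?_⟩, r, hr, hrm.trans hm', hfr⟩
  · have hker : π.ker ≤ M := le_trans (by rw [← MonoidHom.comap_bot]; exact comap_mono bot_le) h1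
    have hMm : (M.map π).comap π = M := comap_map_eq_self hker
    rcases hchief (M.map π) (hM.map π hsurj) (by
        rw [← comap_le_comap_of_surjective hsurj, hMm]; exact h1) (by
        rw [← comap_le_comap_of_surjective hsurj, hMm]; exact h2) with h | h
    · exact Or.inl (by rw [← hMm, h])
    · exact Or.inr (by rw [← hMm, h])
  · rwa [relIndex_comap, map_comap_eq_self_of_surjective hsurj]

end Cfsg.Agent.H89.HallCount
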