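import Cfsg.Agent.H89.Kegel

/-!
# The Hughes subgroup of a group which is not a `p`-group
-/

namespace Cfsg.Agent.H89

open Subgroup

variable {G : Type*} [Group G]

/-- The Hughes subgroup is normal. -/
theorem hughes_normal (p : ℕ) : (closure {g : G | g ^ p ≠ 1}).Normal := by
  refine ⟨fun n hn g => ?_⟩
  induction hn using closure_induction with
  | mem a ha =>
    refine subset_closure (show (g * a * g⁻¹) ^ p ≠ 1 from ?_)
    rw [conj_pow, Ne, conj_eq_one_iff]
    exact ha
  | one => simp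
  | mul a b _ _ iha ihb =>
    have := mul_mem iha ihb
    simpa [mul_assoc] using this
  | inv a _ iha =>
    have := inv_mem iha
    simpa [mul_assoc] using this

/-- Elements outside the Hughes subgroup are killed by `p`. -/
theorem pow_eq_one_of_notMem {p : ℕ} {g : G} (hg : g ∉ closure {g : G | g ^ p ≠ 1}) : g ^ p = 1 := by
  by_contra h
  exact hg (subset_closure h)

/-- The Hughes–Thompson theorem: a proper Hughes subgroup of a non-`p`-group has index `p`. -/
theorem hughes_index [Finite G] {p : ℕ} [Fact p.Prime] (hG : ¬ IsPGroup p G)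
    (hH : closure {g : G | g ^ p ≠ 1} ≠ ⊤) : (closure {g : G | g ^ p ≠ 1}).index = p := by
  have hp : p.Prime := Fact.out
  set H := closure {g : G | g ^ p ≠ 1}
  haveI : H.Normal := hughes_normal p
  have hpq : IsPGroup p (G ⧸ H) := by
    intro g
    obtain ⟨g, rfl⟩ := QuotientGroup.mk'_surjective H g
    refine ⟨1, ?_⟩
    rw [pow_one, ← map_pow, QuotientGroup.mk'_apply, QuotientGroup.eq_one_iff]
    by_cases hg : g ∈ H
    · exact H.pow_mem hg p
    · rw [pow_eq_one_of_notMem hg]; exact H.one_mem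
  obtain ⟨n, hn⟩ := hpq.exists_card_eq
  have hidx : H.index = p ^ n := by rw [index_eq_card, hn]
  rcases Nat.lt_or_ge n 2 with h2 | h2
  · rcases (by omega : n = 0 ∨ n = 1) with rfl | rfl
    · exact absurd (index_eq_one.mp (by simpa using hidx)) hH
    · simpa using hidx
  exfalso
  -- a normal subgroup strictly between
  have hQ : Nontrivial (G ⧸ H) := by
    rw [← Finite.one_lt_card_iff_nontrivial, hn]
    exact Nat.one_lt_pow (by omega) hp.one_lt
  obtain ⟨⟨z, hz⟩, hzo⟩ := exists_prime_orderOf_dvd_card' (G := center (G ⧸ H)) p (by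
    obtain ⟨m, hm⟩ := (hpq.to_subgroup (center (G ⧸ H))).exists_card_eq
    have : 1 < Nat.card (center (G ⧸ H)) :=
      Finite.one_lt_card_iff_nontrivial.mpr (IsPGroup.center_nontrivial hpq)
    rw [hm]
    refine dvd_pow_self p fun h0 => ?_
    rw [h0, pow_zero] at hm
    omega)
  rw [orderOf_mk] at hzo
  haveI hzn : (zpowers z).Normal := ⟨fun a ha g => by
    have hc : g * a = a * g := mem_center_iff.mp ((zpowers_le.mpr hz) ha) g
    rwa [hc, mul_inv_cancel_right]⟩
  set M := (zpowers z).comap (QuotientGroup.mk' H)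
  have hHM : H ≤ M := by
    have h1 := comap_mono (f := QuotientGroup.mk' H) (bot_le : ⊥ ≤ zpowers z)
    rwa [MonoidHom.comap_bot, QuotientGroup.ker_mk'] at h1
  have hMidx : M.index * p = p ^ n := by
    rw [index_comap_of_surjective _ (QuotientGroup.mk'_surjective H), ← hzo, ← Nat.card_zpowers,
      mul_comm, card_mul_index, hn, Nat.card_zpowers, hzo]
  have hMtop : M ≠ ⊤ := by
    intro e
    rw [e, index_top, one_mul] at hMidx
    have h3 : n = 1 := Nat.pow_right_injective hp.two_le (by simpa using hMidx.symm)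
    omega
  have hMH : ¬ M ≤ H := by
    intro e
    have h3 := le_antisymm e hHM
    rw [h3, hidx] at hMidx
    have h4 : p ^ n * p = p ^ n * 1 := by rw [hMidx, mul_one]
    exact hp.ne_one (Nat.eq_of_mul_eq_mul_left (pow_pos hp.pos n) h4)
  -- a prime `q ≠ p`
  obtain ⟨q, hq, hqd, hqp⟩ : ∃ q, q.Prime ∧ q ∣ Nat.card G ∧ q ≠ p := by
    by_contra hne
    push Not at hne
    exact hG (IsPGroup.of_card (Nat.eq_prime_pow_of_unique_prime_dvd Nat.card_pos.ne'
      fun {d} hd hd' => hne d hd hd'))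
  have := Fact.mk hq
  have hqH : q ∣ Nat.card H := by
    obtain ⟨g, hg⟩ := exists_prime_orderOf_dvd_card' q hqd
    have hgH : g ∈ H := by
      refine subset_closure (show g ^ p ≠ 1 from fun e => hqp ?_)
      exact ((Nat.prime_dvd_prime_iff_eq hq hp).mp (hg ▸ orderOf_dvd_of_pow_eq_one e))
    exact hg ▸ H.orderOf_dvd_natCard hgH
  obtain ⟨Q⟩ := (inferInstance : Nonempty (Sylow q H))
  set QG := (Q : Subgroup H).map H.subtype
  set N := normalizer (QG : Set G)
  have hNH : N ⊔ H = ⊤ := Sylow.normalizer_sup_eq_top Q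
  -- the central elements of exponent `q`
  let W : Subgroup G :=
    { carrier := {w | w ∈ QG ∧ (∀ y ∈ QG, y * w = w * y) ∧ w ^ q = 1}
      one_mem' := ⟨one_mem QG, fun y _ => by rw [mul_one, one_mul], one_pow q⟩
      mul_mem' := fun {a b} ha hb => ⟨mul_mem ha.1 hb.1, fun w hw => by
        rw [← mul_assoc, ha.2.1 w hw, mul_assoc, hb.2.1 w hw, mul_assoc],
        by rw [Commute.mul_pow (hb.2.1 a ha.1), ha.2.2, hb.2.2, one_mul]⟩
      inv_mem' := fun {a} ha => ⟨inv_mem ha.1, fun w hw => (Commute.inv_right (ha.2.1 w hw)).eq,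
        by rw [inv_pow, ha.2.2, inv_one]⟩ }
  have hWn : ∀ g ∈ N, ∀ w ∈ W, g * w * g⁻¹ ∈ W := by
    intro g hg w hw
    refine ⟨(mem_normalizer_iff.mp hg w).mp hw.1, fun y hy => ?_, by rw [conj_pow, hw.2.2, mul_one, mul_inv_cancel]⟩
    have := hw.2.1 (g⁻¹ * y * g) (by simpa using (mem_normalizer_iff.mp (N.inv_mem hg) y).mp hy)
    calc y * (g * w * g⁻¹) = g * (g⁻¹ * y * g * w) * g⁻¹ := by group
      _ = g * (w * (g⁻¹ * y * g)) * g⁻¹ := by rw [this]
      _ = g * w * g⁻¹ * y := by group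
  have hNW : N ≤ normalizer (W : Set G) := by
    intro g hg
    refine mem_normalizer_iff.mpr fun w => ⟨hWn g hg w, fun hw => ?_⟩
    have := hWn g⁻¹ (N.inv_mem hg) _ hw
    simpa [mul_assoc] using this
  obtain ⟨v, hv, hv1⟩ : ∃ v ∈ W, v ≠ 1 := by
    have : Nontrivial (Q : Subgroup H) :=
      (nontrivial_iff_ne_bot _).mpr (Q.ne_bot_of_dvd_card hqH)
    obtain ⟨⟨c, hc⟩, hco⟩ := exists_prime_orderOf_dvd_card' (G := center (Q : Subgroup H)) q (by
      obtain ⟨m, hm⟩ := (Q.isPGroup'.to_subgroup (center (Q : Subgroup H))).exists_card_eq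
      have : 1 < Nat.card (center (Q : Subgroup H)) :=
        Finite.one_lt_card_iff_nontrivial.mpr (IsPGroup.center_nontrivial Q.isPGroup')
      rw [hm]
      refine dvd_pow_self q fun h0 => ?_
      rw [h0, pow_zero] at hm
      omega)
    rw [orderOf_mk] at hco
    have ho : orderOf ((c : H) : G) = q := by rw [orderOf_coe, orderOf_coe, hco]
    refine ⟨((c : H) : G), ⟨⟨c, c.2, rfl⟩, ?_, ?_⟩, fun e => hq.ne_one ?_⟩
    · rintro _ ⟨y, hy, rfl⟩
      exact congrArg (fun t : (Q : Subgroup H) => ((t : H) : G)) (mem_center_iff.mp hc ⟨y, hy⟩)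
    · exact orderOf_dvd_iff_pow_eq_one.mp ho.dvd
    · rw [← ho, e, orderOf_one]
  have hWH : W ≤ H := fun w hw => map_subtype_le _ hw.1
  -- a `p`-subgroup of `N` covering `G ⧸ H`
  obtain ⟨S⟩ := (inferInstance : Nonempty (Sylow p N))
  set SG := (S : Subgroup N).map N.subtype
  have hSH : SG ⊔ H = ⊤ := by
    have hf : Function.Surjective ((QuotientGroup.mk' H).comp N.subtype) := by
      intro g
      obtain ⟨g, rfl⟩ := QuotientGroup.mk'_surjective H g
      obtain ⟨a, ha, h, hh, rfl⟩ := mem_sup_of_normal_right.mp (hNH ▸ mem_top g)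
      exact ⟨⟨a, ha⟩, by simp [(QuotientGroup.eq_one_iff h).mpr hh]⟩
    have hT : ((S.mapSurjective hf : Sylow p (G ⧸ H)) : Subgroup (G ⧸ H)) = ⊤ :=
      ((S.mapSurjective hf).3 (hpq.to_subgroup ⊤) le_top).symm
    rw [Sylow.coe_mapSurjective, ← map_map] at hT
    have h2 := congrArg (comap (QuotientGroup.mk' H)) hT
    rwa [comap_map_eq, QuotientGroup.ker_mk', comap_top] at h2
  obtain ⟨x, hxS, hxM⟩ : ∃ x ∈ SG, x ∉ M := by
    by_contra hall
    push Not at hall
    exact hMtop (top_le_iff.mp (hSH ▸ sup_le hall hHM))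
  obtain ⟨y, hy, hyH⟩ : ∃ y ∈ SG ⊓ M, y ∉ H := by
    obtain ⟨m, hm, hmH⟩ := SetLike.not_le_iff_exists.mp hMH
    have : m ∈ SG ⊔ H := hSH ▸ mem_top m
    obtain ⟨s, hs, h, hh, rfl⟩ := mem_sup_of_normal_right.mp this
    refine ⟨s, ⟨hs, ?_⟩, fun hsH => hmH (mul_mem hsH hh)⟩
    simpa using M.mul_mem hm (M.inv_mem (hHM hh))
  have hSN : SG ≤ normalizer (W : Set G) := (map_subtype_le _).trans hNW
  -- work inside the normalizer of `W`
  set G' := normalizer (W : Set G)
  have hWG : W ≤ G' := le_normalizer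
  haveI : (W.subgroupOf G').Normal := normal_in_normalizer
  haveI : IsMulCommutative (W.subgroupOf G') :=
    ⟨⟨fun a b => Subtype.ext (Subtype.ext (b.2.2.1 _ a.2.1))⟩⟩
  have hout : ∀ g : G, g ∉ M → g ^ p = 1 := fun g hg => pow_eq_one_of_notMem fun h => hg (hHM h)
  have hRx : (⟨x, hSN hxS⟩ : G') ∈ normalizer (((SG ⊓ M).subgroupOf G' : Subgroup G') : Set G') := by
    refine mem_normalizer_iff.mpr fun g => ?_
    simp only [mem_subgroupOf, Subgroup.mem_inf, coe_mul, coe_inv]
    refine and_congr ⟨fun hg => SG.mul_mem (SG.mul_mem hxS hg) (SG.inv_mem hxS), fun hg => ?_⟩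
      ⟨fun hg => Normal.conj_mem inferInstance _ hg _, fun hg => ?_⟩
    · have := SG.mul_mem (SG.mul_mem (SG.inv_mem hxS) hg) hxS
      simpa [mul_assoc] using this
    · have := Normal.conj_mem (inferInstance : M.Normal) _ hg x⁻¹
      simpa [mul_assoc] using this
  have hcomm := commute_pow_card_of_splitting (V := W.subgroupOf G') ((SG ⊓ M).subgroupOf G') hRx hp
    (fun m hm => Subtype.ext (by
      simp only [SubmonoidClass.coe_pow, coe_mul, OneMemClass.coe_one]
      exact hout _ fun h => hxM (by simpa using M.mul_mem (M.inv_mem hm.2) h)))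
    (fun w hw m hm => Subtype.ext (by
      simp only [SubmonoidClass.coe_pow, coe_mul, OneMemClass.coe_one]
      refine hout _ fun h => hxM ?_
      have := M.mul_mem (M.inv_mem hm.2) (M.mul_mem (M.inv_mem (hHM (hWH hw))) h)
      simpa [mul_assoc] using this))
    (v := ⟨v, hWG hv⟩) hv (n := ⟨y, hSN hy.1⟩) hy
  obtain ⟨e, he⟩ := ((S.isPGroup'.map N.subtype).to_le (inf_le_left : SG ⊓ M ≤ SG)).exists_card_eq
  rw [Nat.card_congr (subgroupOfEquivOfLe (inf_le_left.trans hSN : SG ⊓ M ≤ G')).toEquiv, he] at hcomm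
  have hc2 : Commute y (v ^ p ^ e) := congrArg Subtype.val hcomm.eq
  have hov : orderOf v ∣ q := orderOf_dvd_of_pow_eq_one hv.2.2
  obtain ⟨i, hi⟩ := exists_pow_eq_self_of_coprime (x := v) (n := p ^ e)
    (Nat.Coprime.coprime_dvd_right hov ((Nat.coprime_primes hp hq).mpr (Ne.symm hqp) |>.pow_left e))
  have hc : Commute y v := hi ▸ hc2.pow_right i
  have h1 : (v * y) ^ p = 1 := pow_eq_one_of_notMem fun h => hyH (by
    simpa using H.mul_mem (H.inv_mem (hWH hv)) h)
  rw [hc.symm.mul_pow, pow_eq_one_of_notMem hyH, mul_one] at h1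
  exact hv1 (orderOf_eq_one_iff.mp (Nat.eq_one_of_dvd_coprimes
    ((Nat.coprime_primes hq hp).mpr hqp) hov (orderOf_dvd_of_pow_eq_one h1)))

end Cfsg.Agent.H89
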