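import Cfsg.Agent.H20.External
import Cfsg.Agent.H23.GlaubermanThompson
import Cfsg.Agent.H21.ThompsonFpfCore

/-! A coprime group of operators all of whose invariant proper subgroups are nilpotent. -/

set_option autoImplicit false

namespace Cfsg.Agent.H89

open Subgroup

universe u v

/-- The subgroup `H` is invariant under the operator group `φ`. -/
def PhiInv {A : Type v} {G : Type u} [Group A] [Group G] (φ : A →* MulAut G) (H : Subgroup G) :
    Prop :=
  ∀ a, ∀ x ∈ H, φ a x ∈ H

section

variable {A : Type v} {G : Type u} [Group A] [Group G] {φ : A →* MulAut G}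

theorem PhiInv.map_eq {H : Subgroup G} (h : PhiInv φ H) (a : A) :
    H.map ((φ a : G ≃* G) : G →* G) = H := by
  refine le_antisymm ?_ fun x hx => ?_
  · rintro _ ⟨x, hx, rfl⟩
    exact h a x hx
  · refine ⟨φ a⁻¹ x, h _ x hx, ?_⟩
    simp [map_inv]

theorem PhiInv.mem_iff {H : Subgroup G} (h : PhiInv φ H) (a : A) (x : G) :
    φ a x ∈ H ↔ x ∈ H := by
  refine ⟨fun hx => ?_, h a x⟩
  have := h a⁻¹ _ hx
  simpa [map_inv] using this

theorem PhiInv.normalizer {H : Subgroup G} (h : PhiInv φ H) :
    PhiInv φ (normalizer (H : Set G)) := by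
  intro a x hx
  rw [mem_normalizer_iff] at hx ⊢
  intro y
  obtain ⟨z, rfl⟩ := (φ a).surjective y
  rw [← map_mul, ← map_inv, ← map_mul, h.mem_iff, h.mem_iff]
  exact hx z

theorem phiInv_centerThompsonOf [Finite G] {p : ℕ} {P : Subgroup G} (h : PhiInv φ P) :
    PhiInv φ (centerThompsonOf p P) := by
  intro a x hx
  have := mem_map_of_mem ((φ a : G ≃* G) : G →* G) hx
  rw [H23.map_centerThompsonOf _ _ (φ a).injective.injOn, h.map_eq a] at this
  exact this

/-- In a finite group, an element of order coprime to `|G/K|` lies in the normal subgroup `K`. -/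
theorem mem_of_coprime_index [Finite G] {K : Subgroup G} [K.Normal] {x : G}
    (h : (orderOf x).Coprime K.index) : x ∈ K := by
  rw [← QuotientGroup.eq_one_iff, ← orderOf_eq_one_iff]
  exact Nat.eq_one_of_dvd_coprimes h (orderOf_map_dvd (QuotientGroup.mk' K) x)
    (orderOf_dvd_natCard (QuotientGroup.mk' K x))

/-- A normal subgroup with coprime order and index is invariant under every operator. -/
theorem phiInv_of_coprime [Finite G] {K : Subgroup G} [K.Normal]
    (h : (Nat.card K).Coprime K.index) : PhiInv φ K := by
  intro a x hx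
  refine mem_of_coprime_index (Nat.Coprime.coprime_dvd_left ?_ h)
  rw [MulEquiv.orderOf_eq, ← orderOf_mk x hx]
  exact orderOf_dvd_natCard _

/-- The induced operators on the quotient by an invariant normal subgroup. -/
def quotientPhi (N : Subgroup G) [N.Normal] (h : PhiInv φ N) : A →* MulAut (G ⧸ N) where
  toFun a := QuotientGroup.congr N N (φ a) (h.map_eq a)
  map_one' := by
    refine MulEquiv.ext fun x => ?_
    induction x using QuotientGroup.induction_on with
    | H x => simp
  map_mul' a b := by
    refine MulEquiv.ext fun x => ?_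
    induction x using QuotientGroup.induction_on with
    | H x => simp

theorem quotientPhi_mk (N : Subgroup G) [N.Normal] (h : PhiInv φ N) (a : A) (x : G) :
    quotientPhi N h a (QuotientGroup.mk' N x) = QuotientGroup.mk' N (φ a x) := rfl

/-- Invariant subgroups of a quotient pull back to invariant subgroups. -/
theorem PhiInv.comap {N : Subgroup G} [N.Normal] {h : PhiInv φ N} {H : Subgroup (G ⧸ N)}
    (hH : PhiInv (quotientPhi N h) H) : PhiInv φ (H.comap (QuotientGroup.mk' N)) := by
  intro a x hx
  rw [mem_comap, ← quotientPhi_mk N h a x]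
  exact hH a _ hx

/-- A group which is nilpotent-by-solvable. -/
theorem solvable_of_quotient (N : Subgroup G) [N.Normal] (hN : Group.IsSolvable N)
    (hQ : Group.IsSolvable (G ⧸ N)) : Group.IsSolvable G := by
  haveI := hN
  haveI := hQ
  exact Group.isSolvable_of_ker_le_range N.subtype (QuotientGroup.mk' N)
    (by rw [QuotientGroup.ker_mk', Subgroup.range_subtype])

theorem nilpotent_image {H : Type*} [Group H] (S : Subgroup G) (h : Group.IsNilpotent S)
    (f : G →* H) : Group.IsNilpotent (S.map f) := by
  haveI := h
  exact Group.nilpotent_of_surjective _ (f.subgroupMap_surjective S)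

end

/-- If every proper invariant subgroup is nilpotent and the operators form a soluble group of
coprime order, then the group is soluble. -/
theorem solvable_of_inv_nilpotent {A : Type v} [Group A] [Finite A] [hA : Group.IsSolvable A]
    (n : ℕ) : ∀ (G : Type u) [Group G] [Finite G] (φ : A →* MulAut G), Nat.card G = n →
      (Nat.card A).Coprime (Nat.card G) →
      (∀ H : Subgroup G, H ≠ ⊤ → PhiInv φ H → Group.IsNilpotent H) → Group.IsSolvable G := by
  induction n using Nat.strong_induction_on with
  | _ n IH =>
    intro G _ _ φ hn hcop hyp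
    by_cases hN : ∃ N : Subgroup G, N.Normal ∧ PhiInv φ N ∧ N ≠ ⊥ ∧ N ≠ ⊤
    · obtain ⟨N, hNn, hNi, hNb, hNt⟩ := hN
      haveI := hNn
      haveI := hyp N hNt hNi
      refine solvable_of_quotient N inferInstance ?_
      have hcard : Nat.card (G ⧸ N) < n := hn ▸ H19.card_quotient_lt N hNb
      refine IH _ hcard (G ⧸ N) (quotientPhi N hNi) rfl
        (Nat.Coprime.coprime_dvd_right N.card_quotient_dvd_card hcop) fun H hH hHi => ?_
      have hs : Function.Surjective (QuotientGroup.mk' N) := QuotientGroup.mk'_surjective N
      rw [← map_comap_eq_self_of_surjective hs H]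
      refine nilpotent_image _ (hyp _ (fun e => hH ?_) (PhiInv.comap (h := hNi) hHi)) _
      rw [← map_comap_eq_self_of_surjective hs H, e, map_top_of_surjective _ hs]
    push Not at hN
    by_cases hodd : ∃ p, p.Prime ∧ p ≠ 2 ∧ p ∣ Nat.card G
    · obtain ⟨p, hp, hp2, hpG⟩ := hodd
      haveI := Fact.mk hp
      obtain ⟨P, hP⟩ := H20.External.exists_invariant_sylow φ hcop (Or.inl hA) p
      have hPne : (P : Subgroup G) ≠ ⊥ := P.ne_bot_of_dvd_card hpG
      set Z := centerThompsonOf p (P : Subgroup G) with hZ
      have hZi : PhiInv φ Z := phiInv_centerThompsonOf hP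
      have hZne : Z ≠ ⊥ := H23.centerThompsonOf_ne_bot P.2 hPne
      have hsolvP : (P : Subgroup G) = ⊤ → Group.IsSolvable G := fun e => by
        haveI : Group.IsNilpotent G :=
          (P.2.to_le e.ge |>.of_equiv Subgroup.topEquiv).isNilpotent
        infer_instance
      by_cases hNZ : normalizer (Z : Set G) = ⊤
      · exact hsolvP (top_le_iff.1 ((hN Z (normalizer_eq_top_iff.1 hNZ) hZi hZne).ge.trans
          (H23.centerThompsonOf_le _)))
      haveI := hyp _ hNZ hZi.normalizer
      obtain ⟨R, K, hKn, hK⟩ := H23.glauberman_thompson hp2 (Nat.card G) G rfl P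
        (H21.hasNormalPComplement_of_nilpotent p)
      haveI := hKn
      have hKi : PhiInv φ K := phiInv_of_coprime (by
        rw [hK.symm.index_eq_card]
        exact (R.card_coprime_index.symm).coprime_dvd_left
          (by rw [hK.index_eq_card]))
      by_cases hKb : K = ⊥
      · have : (R : Subgroup G) = ⊤ := by
          rw [hKb] at hK
          simpa using hK
        haveI : Group.IsNilpotent G :=
          (R.2.to_le this.ge |>.of_equiv Subgroup.topEquiv).isNilpotent
        infer_instance
      have hKt := hN K hKn hKi hKb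
      rw [hKt] at hK
      exact absurd (by simpa using hK : (R : Subgroup G) = ⊥) (R.ne_bot_of_dvd_card hpG)
    push Not at hodd
    haveI : Fact (Nat.Prime 2) := ⟨Nat.prime_two⟩
    have h2 : IsPGroup 2 G := IsPGroup.of_card
      (Nat.eq_prime_pow_of_unique_prime_dvd Nat.card_pos.ne' fun hd hdvd =>
        by_contra fun hne => hodd _ hd hne hdvd)
    haveI := h2.isNilpotent
    infer_instance

end Cfsg.Agent.H89
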