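import Cfsg.Agent.H89.InvariantNilpotent

/-! The shape of a non-nilpotent group all of whose invariant proper subgroups are nilpotent. -/

set_option autoImplicit false

namespace Cfsg.Agent.H89

open Subgroup

variable {A G : Type*} [Group A] [Group G] [Finite G] {φ : A →* MulAut G}

omit [Group A] [Finite G] in
/-- The elements having a power of exponent prime to `q` in the commutator subgroup. -/
def derivedCoprimePart (G : Type*) [Group G] (q : ℕ) : Subgroup G where
  carrier := {g | ∃ m : ℕ, m.Coprime q ∧ (Abelianization.of g) ^ m = 1}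
  one_mem' := ⟨1, Nat.coprime_one_left q, by simp⟩
  mul_mem' := by
    rintro a b ⟨m, hm, ha⟩ ⟨k, hk, hb⟩
    refine ⟨m * k, Nat.Coprime.mul_left hm hk, ?_⟩
    rw [map_mul, mul_pow, pow_mul, ha, one_pow, one_mul, mul_comm m k, pow_mul, hb, one_pow]
  inv_mem' := by
    rintro a ⟨m, hm, ha⟩
    exact ⟨m, hm, by rw [map_inv, inv_pow, ha, inv_one]⟩

omit [Finite G] in
theorem derivedCoprimePart_inv (q : ℕ) : PhiInv φ (derivedCoprimePart G q) := by
  rintro a x ⟨m, hm, hx⟩
  refine ⟨m, hm, ?_⟩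
  have h : (φ a x) ^ m = φ a (x ^ m) := (map_pow _ _ _).symm
  rw [← map_pow, h]
  rw [← map_pow, ← MonoidHom.mem_ker, Abelianization.ker_of] at hx
  rw [← MonoidHom.mem_ker, Abelianization.ker_of]
  have := mem_map_of_mem ((φ a : G ≃* G) : G →* G) hx
  exact ((Subgroup.characteristic_iff_comap_eq.1 inferInstance) (φ a)).ge hx

/-- The structure theorem: two primes and an invariant normal Sylow subgroup. -/
theorem structure_of_inv_nilpotent [Finite A] (hsolv : Group.IsSolvable G)
    (hcop : (Nat.card A).Coprime (Nat.card G))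
    (hyp : ∀ H : Subgroup G, H ≠ ⊤ → PhiInv φ H → Group.IsNilpotent H)
    (hG : ¬ Group.IsNilpotent G) :
    (∃ p q a b : ℕ, p.Prime ∧ q.Prime ∧ p ≠ q ∧ Nat.card G = p ^ a * q ^ b) ∧
      ∃ (p : ℕ) (P : Sylow p G), p.Prime ∧ p ∣ Nat.card G ∧ (P : Subgroup G).Normal ∧
        PhiInv φ (P : Subgroup G) := by
  haveI := hsolv
  haveI : Nontrivial G := not_subsingleton_iff_nontrivial.1 fun h => hG inferInstance
  have hab : 1 < Nat.card (Abelianization G) := by
    change 1 < Nat.card (G ⧸ commutator G)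
    rw [← Subgroup.index_eq_card]
    exact one_lt_index_of_ne_top (Group.IsSolvable.commutator_lt_top_of_nontrivial G).ne
  obtain ⟨q, hq, hqd⟩ := Nat.exists_prime_and_dvd hab.ne'
  haveI := Fact.mk hq
  set M := derivedCoprimePart G q with hM
  have hMt : M ≠ ⊤ := by
    intro e
    obtain ⟨y, hy⟩ := exists_prime_orderOf_dvd_card' q hqd
    obtain ⟨g, rfl⟩ := QuotientGroup.mk_surjective (α := G) (s := commutator G) y
    obtain ⟨m, hm, hg⟩ := (e ▸ mem_top g : g ∈ M)
    have h1 : q ∣ m := hy ▸ orderOf_dvd_of_pow_eq_one hg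
    exact hq.one_lt.ne' (Nat.eq_one_of_dvd_coprimes hm h1 dvd_rfl)
  haveI := hyp M hMt (derivedCoprimePart_inv q)
  haveI hMn : M.Normal := Subgroup.Normal.mk fun x hx g => by
    obtain ⟨m, hm, h⟩ := hx
    refine ⟨m, hm, ?_⟩
    rwa [map_mul, map_mul, map_inv, mul_comm (Abelianization.of g), mul_assoc, mul_inv_cancel,
      mul_one]
  have hin : ∀ x : G, (orderOf x).Coprime q → x ∈ M := fun x hx =>
    ⟨orderOf x, hx, by rw [← map_pow, pow_orderOf_eq_one, map_one]⟩
  have hnorm : ∀ r : ℕ, r.Prime → r ≠ q → ∀ R : Sylow r G, (R : Subgroup G).Normal := by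
    intro r hr hrq R
    haveI := Fact.mk hr
    have hRM : (R : Subgroup G) ≤ M := fun x hx => hin x (by
      obtain ⟨k, hk⟩ := IsPGroup.iff_orderOf.1 R.2 ⟨x, hx⟩
      rw [orderOf_mk] at hk
      rw [hk]
      exact Nat.Coprime.pow_left k ((Nat.coprime_primes hr hq).2 hrq))
    have hRn : ((R.subtype hRM : Sylow r M) : Subgroup M).Normal :=
      Sylow.normal_of_normalizerCondition Group.normalizerCondition_of_isNilpotent _
    refine normalizer_eq_top_iff.1 (top_le_iff.1 ?_)
    have := Sylow.normalizer_sup_eq_top (R.subtype hRM)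
    rw [Sylow.coe_subtype, map_subgroupOf_eq_of_le hRM] at this
    refine this.ge.trans (sup_le le_rfl ?_)
    intro x hx
    exact (normal_subgroupOf_iff_le_normalizer hRM).1 hRn hx
  obtain ⟨Q, hQ⟩ := H20.External.exists_invariant_sylow φ hcop (Or.inr hsolv) q
  have hall : ∀ r s : ℕ, r.Prime → s.Prime → r ≠ q → s ≠ q → r ≠ s → s ∣ Nat.card G →
      ∀ R : Sylow r G, (R : Subgroup G) ≤ normalizer ((Q : Subgroup G) : Set G) := by
    intro r s hr hs hrq hsq hrs hsG R
    haveI := Fact.mk hr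
    haveI := hnorm r hr hrq R
    have hRi : PhiInv φ (R : Subgroup G) := phiInv_of_coprime R.card_coprime_index
    have hTi : PhiInv φ ((R : Subgroup G) ⊔ Q) := by
      intro a x hx
      have := mem_map_of_mem ((φ a : G ≃* G) : G →* G) hx
      rwa [Subgroup.map_sup, hRi.map_eq, PhiInv.map_eq hQ] at this
    have hTt : (R : Subgroup G) ⊔ Q ≠ ⊤ := by
      intro e
      have h1 : Nat.card ↑((R : Subgroup G) ⊔ Q) ∣
          Nat.card (R : Subgroup G) * Nat.card (Q : Subgroup G) := by
        rw [← relIndex_bot_left, ← relIndex_mul_relIndex ⊥ (R : Subgroup G) _ bot_le le_sup_left,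
          relIndex_bot_left, sup_comm, relIndex_sup_right]
        exact mul_dvd_mul_left _ (relIndex_dvd_card _ _)
      rw [e, card_top, R.card_eq_multiplicity, Q.card_eq_multiplicity] at h1
      rcases hs.dvd_mul.1 (hsG.trans h1) with h | h
      · exact hrs ((Nat.prime_dvd_prime_iff_eq hs hr).1 (hs.dvd_of_dvd_pow h)).symm
      · exact hsq ((Nat.prime_dvd_prime_iff_eq hs hq).1 (hs.dvd_of_dvd_pow h))
    haveI := hyp _ hTt hTi
    have hle : (Q : Subgroup G) ≤ (R : Subgroup G) ⊔ Q := le_sup_right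
    let Q' := Q.subtype hle
    have hQn : (Q' : Subgroup ↥((R : Subgroup G) ⊔ Q)).Normal :=
      Sylow.normal_of_normalizerCondition Group.normalizerCondition_of_isNilpotent Q'
    exact le_sup_left.trans ((normal_subgroupOf_iff_le_normalizer hle).1 hQn)
  have hex : ∃ r, r.Prime ∧ r ≠ q ∧ r ∣ Nat.card G := by
    by_contra hc
    push Not at hc
    exact hG (IsPGroup.of_card (Nat.eq_prime_pow_of_unique_prime_dvd Nat.card_pos.ne'
      fun hd hdvd => by_contra fun hne => hc _ hd hne hdvd) (p := q)).isNilpotent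
  obtain ⟨r, hr, hrq, hrG⟩ := hex
  haveI := Fact.mk hr
  have honly : ∀ s, s.Prime → s ∣ Nat.card G → s = r ∨ s = q := by
    intro s hs hsG
    by_contra hc
    push Not at hc
    obtain ⟨hsr, hsq⟩ := hc
    have hQt : normalizer ((Q : Subgroup G) : Set G) = ⊤ := by
      refine eq_top_of_card_eq _ (Nat.dvd_antisymm (card_subgroup_dvd_card _) ?_)
      refine (Nat.dvd_iff_prime_pow_dvd_dvd _ _).2 fun t k ht htk => ?_
      haveI := Fact.mk ht
      rcases eq_or_ne t q with rfl | htq
      · exact (Q.pow_dvd_card_of_pow_dvd_card htk).trans (card_dvd_of_le le_normalizer)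
      obtain ⟨T⟩ : Nonempty (Sylow t G) := inferInstance
      refine (T.pow_dvd_card_of_pow_dvd_card htk).trans (card_dvd_of_le ?_)
      rcases eq_or_ne t r with rfl | htr
      · exact hall t s ht hs htq hsq (Ne.symm hsr) hsG T
      · exact hall t r ht hr htq hrq htr hrG T
    haveI : (Q : Subgroup G).Normal := normalizer_eq_top_iff.1 hQt
    refine hG ((Group.isNilpotent_of_finite_tfae.out 0 3 rfl rfl).2 fun t ht T => ?_)
    rcases eq_or_ne t q with rfl | htq
    · haveI := Sylow.unique_of_normal Q this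
      rwa [Subsingleton.elim T Q]
    · exact hnorm t ht.out htq T
  refine ⟨⟨r, q, (Nat.card G).factorization r, (Nat.card G).factorization q, hr, hq, hrq, ?_⟩, ?_⟩
  · refine Nat.dvd_antisymm ?_ ?_
    · refine (Nat.dvd_iff_prime_pow_dvd_dvd _ _).2 fun t k ht htk => ?_
      rcases Nat.eq_zero_or_pos k with rfl | hk
      · simp
      rw [ht.pow_dvd_iff_le_factorization Nat.card_pos.ne'] at htk
      rcases honly t ht (Nat.dvd_of_factorization_pos (by omega)) with rfl | rfl
      · exact (pow_dvd_pow t htk).trans (dvd_mul_right _ _)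
      · exact (pow_dvd_pow t htk).trans (dvd_mul_left _ _)
    · exact Nat.Coprime.mul_dvd_of_dvd_of_dvd
        (Nat.Coprime.pow _ _ ((Nat.coprime_primes hr hq).2 hrq)) (Nat.ordProj_dvd _ _)
        (Nat.ordProj_dvd _ _)
  · obtain ⟨R⟩ : Nonempty (Sylow r G) := inferInstance
    haveI := hnorm r hr hrq R
    exact ⟨r, R, hr, hrG, this, phiInv_of_coprime R.card_coprime_index⟩

end Cfsg.Agent.H89

namespace Cfsg.Agent.H89

/-- Given that groups of odd order are soluble, one of two groups of coprime order is soluble. -/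
theorem solvable_or_of_coprime.{a, b}
    (hA' : ∀ (H : Type a) [Group H] [Finite H], Odd (Nat.card H) → Group.IsSolvable H)
    (hG' : ∀ (H : Type b) [Group H] [Finite H], Odd (Nat.card H) → Group.IsSolvable H)
    (A : Type a) (G : Type b) [Group A] [Group G] [Finite A] [Finite G]
    (hcop : (Nat.card A).Coprime (Nat.card G)) : Group.IsSolvable A ∨ Group.IsSolvable G := by
  rcases Nat.even_or_odd (Nat.card A) with h | h
  · refine Or.inr (hG' G (Nat.not_even_iff_odd.1 fun h' => ?_))
    exact absurd (Nat.eq_one_of_dvd_coprimes hcop (even_iff_two_dvd.1 h) (even_iff_two_dvd.1 h'))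
      (by norm_num)
  · exact Or.inl (hA' A h)

/-- Statement S4240, given that groups of odd order are soluble. -/
theorem invariant_maximal_nilpotent {A G : Type*} [Group A] [Group G] [Finite A] [Finite G]
    [MulDistribMulAction A G] (hsol : Group.IsSolvable A ∨ Group.IsSolvable G)
    (hcop : (Nat.card A).Coprime (Nat.card G))
    (hmax : ∀ H : Subgroup G, H ≠ ⊤ → (∀ a : A, ∀ x ∈ H, a • x ∈ H) →
      (∀ K : Subgroup G, H < K → (∀ a : A, ∀ x ∈ K, a • x ∈ K) → K = ⊤) → Group.IsNilpotent H)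
    (hG : ¬ Group.IsNilpotent G) :
    Group.IsSolvable G ∧
      (∃ p q a b : ℕ, p.Prime ∧ q.Prime ∧ p ≠ q ∧ Nat.card G = p ^ a * q ^ b) ∧
      ∃ (p : ℕ) (P : Sylow p G), p.Prime ∧ p ∣ Nat.card G ∧ (P : Subgroup G).Normal ∧
        (∀ a : A, ∀ x ∈ (P : Subgroup G), a • x ∈ (P : Subgroup G)) := by
  classical
  set φ := MulDistribMulAction.toMulAut A G
  have hyp : ∀ H : Subgroup G, H ≠ ⊤ → PhiInv φ H → Group.IsNilpotent H := by
    intro H hH hHi
    have hfin : {K : Subgroup G | H ≤ K ∧ K ≠ ⊤ ∧ PhiInv φ K}.Finite := Set.toFinite _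
    obtain ⟨K, ⟨hHK, hK, hKi⟩, hmaxK⟩ :=
      hfin.exists_maximal ⟨H, le_rfl, hH, hHi⟩
    haveI := hmax K hK hKi fun L hKL hLi => by
      by_contra hL
      exact hKL.not_ge (hmaxK ⟨hHK.trans hKL.le, hL, hLi⟩ hKL.le)
    exact Group.nilpotent_of_mulEquiv (Subgroup.subgroupOfEquivOfLe hHK)
  have hs : Group.IsSolvable G := by
    rcases hsol with h | h
    · exact solvable_of_inv_nilpotent (hA := h) _ G φ rfl hcop hyp
    · exact h
  obtain ⟨h1, h2⟩ := structure_of_inv_nilpotent hs hcop hyp hG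
  exact ⟨hs, h1, h2⟩

end Cfsg.Agent.H89
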