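import Cfsg.Agent.H89.Splitting
import Cfsg.Agent.H89.Nilpotent
import Cfsg.Agent.H19.Cores
import Cfsg.Agent.H21.ThompsonFpfCore
import Cfsg.Agent.S0108

/-!
# Kegel's theorem on splitting automorphisms of prime order

If `K` is normal in `G`, `G = K⟨x⟩` and every element of the coset `Kx` has order dividing the
prime `p`, then `K` is nilpotent.
-/

namespace Cfsg.Agent.H89

open Subgroup

universe u

/-- The hypothesis: `G = K⟨x⟩` with `K` normal and all of `Kx` killed by `p`. -/
def IsSplitting {G : Type u} [Group G] (p : ℕ) (K : Subgroup G) (x : G) : Prop :=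
  K.Normal ∧ K ⊔ zpowers x = ⊤ ∧ ∀ k ∈ K, (k * x) ^ p = 1

/-- A shorthand for the statement to prove by induction on the order of `K`. -/
def KegelUpTo (p n : ℕ) : Prop :=
  ∀ (G : Type u) [Group G] [Finite G] (K : Subgroup G) (x : G),
    Nat.card K ≤ n → IsSplitting p K x → Group.IsNilpotent K

section Steps

variable {p : ℕ} {G : Type u} [Group G] [Finite G] {K : Subgroup G} {x : G}

/-- Some element of the coset `Kx` normalises a given Sylow subgroup of `K`. -/
theorem exists_coset_normalizing_sylow [K.Normal] {q : ℕ} [Fact q.Prime] (Q : Sylow q K) (x : G) :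
    ∃ k ∈ K, k * x ∈ normalizer ((Q : Subgroup K).map K.subtype : Set G) := by
  have hx : x ∈ normalizer ((Q : Subgroup K).map K.subtype : Set G) ⊔ K := by
    rw [Sylow.normalizer_sup_eq_top Q]; trivial
  obtain ⟨n, hn, k, hk, e⟩ := mem_sup_of_normal_right.mp hx
  refine ⟨x * k⁻¹ * x⁻¹, Normal.conj_mem ‹K.Normal› _ (K.inv_mem hk) x, ?_⟩
  rw [inv_mul_cancel_right, ← e, mul_inv_cancel_right]
  exact hn

/-- `K` and any element of `Kx` generate `G`. -/
theorem IsSplitting.sup_eq_top (h : IsSplitting p K x) {k : G} (hk : k ∈ K) :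
    K ⊔ zpowers (k * x) = ⊤ := by
  refine top_le_iff.mp (h.2.1 ▸ sup_le le_sup_left (zpowers_le.mpr ?_))
  have := mul_mem (mem_sup_left (T := zpowers (k * x)) (K.inv_mem hk)) (mem_sup_right (S := K) (mem_zpowers (k * x)))
  simpa using this

/-- A subgroup of `K` normalized by `K` and some element of `Kx` is normal. -/
theorem IsSplitting.normal_of_normalized (h : IsSplitting p K x) {k : G} (hk : k ∈ K)
    {M : Subgroup G} (hK : K ≤ normalizer (M : Set G)) (hx : k * x ∈ normalizer (M : Set G)) :
    M.Normal :=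
  normalizer_eq_top_iff.mp (top_le_iff.mp (h.sup_eq_top hk ▸ sup_le hK (zpowers_le.mpr hx)))

variable {n : ℕ} (ih : KegelUpTo.{u} p n) (hcard : Nat.card K ≤ n + 1) (h : IsSplitting p K x)
include ih hcard h

/-- Proper subgroups normalized by an element of the coset are nilpotent. -/
theorem isNilpotent_of_invariant {M : Subgroup G} (hM : M < K) {k : G} (hk : k ∈ K)
    (hx : k * x ∈ normalizer (M : Set G)) : Group.IsNilpotent M := by
  set G' := M ⊔ zpowers (k * x)
  haveI : (M.subgroupOf G').Normal := (normal_subgroupOf_iff_le_normalizer le_sup_left).mpr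
    (sup_le le_normalizer (zpowers_le.mpr hx))
  have hlt : Nat.card M < Nat.card K := lt_of_le_of_ne (card_le_of_le hM.le)
    fun e => hM.ne (eq_of_le_of_card_ge hM.le e.ge)
  haveI := ih G' (M.subgroupOf G') ⟨k * x, mem_sup_right (mem_zpowers _)⟩
    (by rw [Nat.card_congr (subgroupOfEquivOfLe (le_sup_left : M ≤ G')).toEquiv]; omega)
    ⟨inferInstance, by
      apply map_injective G'.subtype_injective
      rw [Subgroup.map_sup, subgroupOf_map_subtype, inf_eq_left.mpr le_sup_left, MonoidHom.map_zpowers,
        ← MonoidHom.range_eq_map, range_subtype]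
      rfl,
    fun m hm => Subtype.ext (by
      have := h.2.2 ((m : G) * k) (K.mul_mem (hM.le hm) hk)
      simpa [mul_assoc] using this)⟩
  exact Group.nilpotent_of_mulEquiv (subgroupOfEquivOfLe (le_sup_left : M ≤ G'))

/-- Quotients by nontrivial invariant subgroups are nilpotent. -/
theorem isNilpotent_map_quotient (V : Subgroup G) [V.Normal] (hV : V ≠ ⊥) (hVK : V ≤ K) :
    Group.IsNilpotent (K.map (QuotientGroup.mk' V)) := by
  haveI := h.1
  refine ih (G ⧸ V) _ (QuotientGroup.mk' V x) ?_ ⟨?_, ?_, ?_⟩
  · have h1 : Nat.card (K.map (QuotientGroup.mk' V)) * Nat.card V = Nat.card K := by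
      have h2 := card_mul_index (V.subgroupOf K)
      rw [Nat.card_congr (subgroupOfEquivOfLe hVK).toEquiv, mul_comm] at h2
      have h3 : Nat.card (K.map (QuotientGroup.mk' V)) = (V.subgroupOf K).index := by
        have h4 := index_ker ((QuotientGroup.mk' V).comp K.subtype)
        rw [MonoidHom.range_comp, range_subtype] at h4
        rw [← h4, ← MonoidHom.comap_ker, QuotientGroup.ker_mk']
        rfl
      rw [h3, h2]
    have h5 : 1 < Nat.card V := (one_lt_card_iff_ne_bot V).mpr hV
    have h6 : 0 < Nat.card (K.map (QuotientGroup.mk' V)) := Nat.card_pos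
    nlinarith
  · exact h.1.map _ (QuotientGroup.mk'_surjective V)
  · rw [← MonoidHom.map_zpowers, ← Subgroup.map_sup, h.2.1,
      map_top_of_surjective _ (QuotientGroup.mk'_surjective V)]
  · rintro _ ⟨k, hk, rfl⟩
    rw [← map_mul, ← map_pow, h.2.2 k hk, map_one]

/-- The solvable case. -/
theorem isNilpotent_of_abelian_normal (V : Subgroup G) [V.Normal] [IsMulCommutative V] (hV : V ≠ ⊥)
    (hVK : V ≤ K) {q : ℕ} [Fact q.Prime] (hVq : IsPGroup q V) (hp : p.Prime) :
    Group.IsNilpotent K := by
  haveI := h.1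
  haveI := isNilpotent_map_quotient ih hcard h V hV hVK
  refine (Group.isNilpotent_of_finite_tfae.out 3 0 rfl rfl).mp fun r hr R => ?_
  obtain ⟨k, hk, hkx⟩ := exists_coset_normalizing_sylow R x
  set RG := (R : Subgroup K).map K.subtype with hRG
  have hRK : RG ≤ K := map_subtype_le _
  suffices hKN : K ≤ normalizer (RG : Set G) by
    have h1 : (RG.subgroupOf K).Normal := (normal_subgroupOf_iff_le_normalizer hRK).mpr hKN
    rwa [hRG, subgroupOf, comap_map_eq_self_of_injective K.subtype_injective] at h1
  set M := RG ⊔ V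
  have hMn : M.Normal := by
    let φ := (QuotientGroup.mk' V).subgroupMap K
    let R' := R.mapSurjective ((QuotientGroup.mk' V).subgroupMap_surjective K)
    have hR' : (R' : Subgroup (K.map (QuotientGroup.mk' V))).Normal :=
      Sylow.normal_of_normalizerCondition Group.normalizerCondition_of_isNilpotent R'
    haveI := Sylow.characteristic_of_normal R' hR'
    haveI := h.1.map (QuotientGroup.mk' V) (QuotientGroup.mk'_surjective V)
    have h2 : ((R' : Subgroup (K.map (QuotientGroup.mk' V))).map (K.map (QuotientGroup.mk' V)).subtype).Normal :=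
      ConjAct.normal_of_characteristic_of_normal
    have e : (R' : Subgroup (K.map (QuotientGroup.mk' V))).map (K.map (QuotientGroup.mk' V)).subtype =
        RG.map (QuotientGroup.mk' V) := by
      rw [Sylow.coe_mapSurjective, hRG, map_map, map_map]
      rfl
    rw [e] at h2
    have h3 := h2.comap (QuotientGroup.mk' V)
    rwa [comap_map_eq, QuotientGroup.ker_mk'] at h3
  by_cases hrq : r = q
  · subst hrq
    have hVR : V ≤ RG := by
      have h1 : V.subgroupOf K ≤ (R : Subgroup K) :=
        (H19.le_pCore inferInstance (hVq.of_equiv (subgroupOfEquivOfLe hVK).symm)).trans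
          (H19.pCore_le_sylow R)
      intro v hv
      exact ⟨⟨v, hVK hv⟩, h1 hv, rfl⟩
    have : RG.Normal := by
      have h4 : M = RG := sup_eq_left.mpr hVR
      rwa [h4] at hMn
    rw [normalizer_eq_top_iff.mpr this]
    exact le_top
  have hco : (Nat.card V).Coprime (Nat.card RG) :=
    IsPGroup.coprime_card_of_ne q r (Ne.symm hrq) V RG hVq (R.isPGroup'.map _)
  by_cases hMK : M = K
  · -- the identity
    have hVc : V ≤ centralizer (RG : Set G) := by
      intro v hv
      refine mem_centralizer_iff.mpr fun n hn => ?_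
      obtain ⟨i, hi⟩ := exists_pow_eq_self_of_coprime (x := v) (n := Nat.card RG)
        ((hco.coprime_dvd_left (V.orderOf_dvd_natCard hv)).symm)
      have := commute_pow_card_of_splitting RG hkx hp
        (fun m hm => by rw [← mul_assoc]; exact h.2.2 _ (K.mul_mem (hRK hm) hk))
        (fun w hw m hm => by
          rw [← mul_assoc, ← mul_assoc]
          exact h.2.2 _ (K.mul_mem (K.mul_mem (hVK hw) (hRK hm)) hk)) hv hn
      rw [← hi]
      exact (this.pow_right i).eq
    rw [← hMK]
    exact sup_le le_normalizer (hVc.trans (centralizer_le_normalizer _))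
  · have hlt : M < K := lt_of_le_of_ne (sup_le hRK hVK) hMK
    have hnil := isNilpotent_of_invariant ih hcard h hlt hk
      (by rw [normalizer_eq_top_iff.mpr hMn]; trivial)
    have hMN : M ≤ normalizer (RG : Set G) := sup_le le_normalizer
      ((le_centralizer_of_nilpotent_coprime hnil le_sup_right le_sup_left hco).trans
        (centralizer_le_normalizer _))
    have hRn : (RG.subgroupOf M).Normal := (normal_subgroupOf_iff_le_normalizer le_sup_left).mpr hMN
    have hnd : ¬ r ∣ (RG.subgroupOf M).index := fun hd => R.not_dvd_index (by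
      have h1 : RG.relIndex M ∣ RG.relIndex K := Dvd.intro _ (relIndex_mul_relIndex _ _ _ le_sup_left hlt.le)
      have h2 := hd.trans h1
      rwa [hRG, relIndex, subgroupOf, comap_map_eq_self_of_injective K.subtype_injective] at h2)
    let RM : Sylow r M := ((R.isPGroup'.map K.subtype).of_equiv
      (subgroupOfEquivOfLe (le_sup_left : RG ≤ M)).symm).toSylow hnd
    haveI := Sylow.characteristic_of_normal RM hRn
    have h3 : ((RM : Subgroup M).map M.subtype).Normal := ConjAct.normal_of_characteristic_of_normal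
    have h4 : (RM : Subgroup M).map M.subtype = RG := by
      show (RG.subgroupOf M).map M.subtype = RG
      exact map_subgroupOf_eq_of_le le_sup_left
    rw [h4] at h3
    rw [normalizer_eq_top_iff.mpr h3]
    exact le_top

/-- A proper nontrivial normal subgroup below `K` forces nilpotency. -/
theorem isNilpotent_of_normal_lt (hp : p.Prime) (N : Subgroup G) [N.Normal] (hN : N ≠ ⊥)
    (hNK : N < K) : Group.IsNilpotent K := by
  haveI := h.1
  haveI := isNilpotent_of_invariant ih hcard h hNK K.one_mem
    (by rw [normalizer_eq_top_iff.mpr ‹N.Normal›]; trivial)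
  have : Nontrivial N := (nontrivial_iff_ne_bot N).mpr hN
  have hZ : center N ≠ ⊥ := Group.IsNilpotent.center_ne_bot N
  obtain ⟨q, hq, hqd⟩ := Nat.exists_prime_and_dvd
    (Nat.ne_of_gt ((one_lt_card_iff_ne_bot _).mpr hZ))
  have := Fact.mk hq
  obtain ⟨⟨z, hz⟩, hzo⟩ := exists_prime_orderOf_dvd_card' (G := center N) q hqd
  rw [orderOf_mk] at hzo
  let V : Subgroup G :=
    { carrier := {w | w ∈ N ∧ (∀ y ∈ N, y * w = w * y) ∧ w ^ q = 1}
      one_mem' := ⟨one_mem N, fun y _ => by rw [mul_one, one_mul], one_pow q⟩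
      mul_mem' := fun {a b} ha hb => ⟨mul_mem ha.1 hb.1, fun w hw => by
        rw [← mul_assoc, ha.2.1 w hw, mul_assoc, hb.2.1 w hw, mul_assoc],
        by rw [Commute.mul_pow (hb.2.1 a ha.1), ha.2.2, hb.2.2, one_mul]⟩
      inv_mem' := fun {a} ha => ⟨inv_mem ha.1, fun w hw => (Commute.inv_right (ha.2.1 w hw)).eq,
        by rw [inv_pow, ha.2.2, inv_one]⟩ }
  haveI hVn : V.Normal := ⟨fun w hw g => ⟨Normal.conj_mem ‹N.Normal› w hw.1 g, fun y hy => by
      have := hw.2.1 (g⁻¹ * y * g) (by simpa using Normal.conj_mem ‹N.Normal› y hy g⁻¹)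
      calc y * (g * w * g⁻¹) = g * (g⁻¹ * y * g * w) * g⁻¹ := by group
        _ = g * (w * (g⁻¹ * y * g)) * g⁻¹ := by rw [this]
        _ = g * w * g⁻¹ * y := by group,
    by rw [conj_pow, hw.2.2, mul_one, mul_inv_cancel]⟩⟩
  haveI hVc : IsMulCommutative V := ⟨⟨fun a b => Subtype.ext (b.2.2.1 a a.2.1)⟩⟩
  have hVq : IsPGroup q V := fun a => ⟨1, Subtype.ext (by simpa using a.2.2.2)⟩
  have hzV : (z : G) ∈ V := ⟨z.2, fun y hy => congrArg Subtype.val (mem_center_iff.mp hz ⟨y, hy⟩),
    by rw [← hzo, ← orderOf_coe, pow_orderOf_eq_one]⟩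
  have hVne : V ≠ ⊥ := fun e => hq.ne_one (by
    rw [e, Subgroup.mem_bot] at hzV
    rw [← hzo, ← orderOf_coe, hzV, orderOf_one])
  exact isNilpotent_of_abelian_normal ih hcard h V hVne (fun w hw => hNK.le hw.1) hVq hp

/-- The inductive step of Kegel's theorem. -/
theorem isNilpotent_step (hp : p.Prime) : Group.IsNilpotent K := by
  haveI := h.1
  by_cases h2 : IsPGroup 2 K
  · exact h2.isNilpotent
  obtain ⟨q, hq, hqd, hq2⟩ : ∃ q, q.Prime ∧ q ∣ Nat.card K ∧ q ≠ 2 := by
    by_contra hne
    push Not at hne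
    exact h2 (IsPGroup.of_card (Nat.eq_prime_pow_of_unique_prime_dvd Nat.card_pos.ne'
      fun {d} hd hd' => hne d hd hd'))
  have := Fact.mk hq
  obtain ⟨Q⟩ := (inferInstance : Nonempty (Sylow q K))
  obtain ⟨k, hk, hkx⟩ := exists_coset_normalizing_sylow Q x
  let φ : K ≃* K := MulAut.conjNormal (k * x)
  have hinv : ∀ W : Subgroup K, W.map (φ : K →* K) = W →
      k * x ∈ normalizer (W.map K.subtype : Set G) := by
    intro W hW
    rw [mem_normalizer_iff_map_conj_eq, map_map]
    conv_rhs => rw [← hW, map_map]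
    rfl
  have hprop : ∀ W : Subgroup K, W.map (φ : K →* K) = W → W ≠ ⊤ → Group.IsNilpotent W := by
    intro W hW hne
    have hlt : W.map K.subtype < K := by
      refine lt_of_le_of_ne (map_subtype_le _) fun e => hne ?_
      apply map_injective K.subtype_injective
      rw [e, ← MonoidHom.range_eq_map, range_subtype]
    haveI := isNilpotent_of_invariant ih hcard h hlt hk (hinv W hW)
    exact Group.nilpotent_of_mulEquiv (W.equivMapOfInjective _ K.subtype_injective).symm
  have hnormal : ∀ W : Subgroup K, W.Normal → W.map (φ : K →* K) = W → (W.map K.subtype).Normal := by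
    intro W hWn hW
    refine h.normal_of_normalized hk (fun a ha => ?_) (hinv W hW)
    have := le_normalizer_map K.subtype (H := W) ⟨⟨a, ha⟩, by rw [normalizer_eq_top_iff.mpr hWn]; trivial, rfl⟩
    exact this
  have hred : ∀ W : Subgroup K, W.Normal → W.map (φ : K →* K) = W → W ≠ ⊥ → W ≠ ⊤ →
      Group.IsNilpotent K := by
    intro W hWn hW hb ht
    haveI := hnormal W hWn hW
    refine isNilpotent_of_normal_lt ih hcard h hp (W.map K.subtype) ?_ ?_
    · rwa [Ne, map_eq_bot_iff_of_injective _ K.subtype_injective]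
    · refine lt_of_le_of_ne (map_subtype_le _) fun e => ht ?_
      apply map_injective K.subtype_injective
      rw [e, ← MonoidHom.range_eq_map, range_subtype]
  have hQ : (Q : Subgroup K).map (φ : K →* K) = Q := by
    apply map_injective K.subtype_injective
    rw [map_map]
    conv_rhs => rw [← mem_normalizer_iff_map_conj_eq.mp hkx, map_map]
    rfl
  set J := Cfsg.thompsonSubgroupOf q (Q : Subgroup K) with hJdef
  have hJ : J.map (φ : K →* K) = J := by
    rw [hJdef, H34.map_thompsonSubgroupOf_of_inf_ker _ _ (by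
      rw [(MonoidHom.ker_eq_bot_iff (φ : K →* K)).mpr φ.injective, inf_bot_eq]), hQ]
  set Z := (Q : Subgroup K) ⊓ centralizer ((Q : Subgroup K) : Set K) with hZdef
  have hZ : Z.map (φ : K →* K) = Z := by
    rw [hZdef, map_inf _ _ (φ : K →* K) φ.injective, hQ, H21.map_centralizer_aut φ Q hQ]
  have hQne : (Q : Subgroup K) ≠ ⊥ := Q.ne_bot_of_dvd_card hqd
  by_cases hC : centralizer (Z : Set K) = ⊤
  · have hZne : Z ≠ ⊥ := by
      rw [hZdef, ← H34.map_center, Ne, map_eq_bot_iff_of_injective _ Q.1.subtype_injective]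
      have : Nontrivial Q := (nontrivial_iff_ne_bot _).mpr hQne
      exact (nontrivial_iff_ne_bot _).mp Q.2.center_nontrivial
    have hle : Z ≤ center K := fun z hz => mem_center_iff.mpr fun g =>
      (mem_centralizer_iff.mp (hC.ge (mem_top g)) z hz).symm
    haveI hcn : ((center K).map K.subtype).Normal :=
      hnormal _ inferInstance (H21.map_eq_of_characteristic φ _)
    haveI := isNilpotent_map_quotient ih hcard h ((center K).map K.subtype)
      (by
        rw [Ne, map_eq_bot_iff_of_injective _ K.subtype_injective]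
        exact fun e => hZne (le_bot_iff.mp (e ▸ hle)))
      (map_subtype_le _)
    refine Subgroup.isNilpotent_of_ker_le_center
      ((QuotientGroup.mk' ((center K).map K.subtype)).subgroupMap K) ?_
    intro w hw
    have h1 : QuotientGroup.mk' ((center K).map K.subtype) (w : G) = 1 :=
      congrArg Subtype.val (MonoidHom.mem_ker.mp hw)
    obtain ⟨w', hw', e⟩ := (QuotientGroup.eq_one_iff _).mp h1
    rwa [← Subtype.ext e]
  by_cases hN : normalizer (J : Set K) = ⊤
  · have hJn : J.Normal := normalizer_eq_top_iff.mp hN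
    by_cases hJtop : J = ⊤
    · have hQtop : (Q : Subgroup K) = ⊤ := top_le_iff.mp (hJtop ▸ H34.thompsonSubgroupOf_le _)
      exact (Q.2.of_equiv ((MulEquiv.subgroupCongr hQtop).trans Subgroup.topEquiv)).isNilpotent
    refine hred J hJn hJ ?_ hJtop
    intro hJbot
    rw [hJdef, Cfsg.thompsonSubgroupOf, map_eq_bot_iff_of_injective _ Q.1.subtype_injective] at hJbot
    obtain ⟨A, hA⟩ := H34.exists_maxElementaryAbelian (G := Q) q
    obtain ⟨⟨y, hy⟩, hyo⟩ := exists_prime_orderOf_dvd_card' (G := Q) q (Q.dvd_card_of_dvd_card hqd)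
    have hE : Cfsg.IsElementaryAbelian q (zpowers (⟨y, hy⟩ : Q)) := ⟨inferInstance, by
      rintro _ ⟨i, rfl⟩
      have h0 := pow_orderOf_eq_one (⟨y, hy⟩ : Q)
      rw [hyo] at h0
      rw [← zpow_natCast, ← zpow_mul, mul_comm, zpow_mul, zpow_natCast, h0, one_zpow]⟩
    have h1 := hA.2 _ hE
    rw [Nat.card_zpowers, hyo, le_bot_iff.mp (hJbot ▸ le_sSup hA : A ≤ ⊥), card_bot] at h1
    exact absurd h1 (not_le.mpr hq.one_lt)
  have hcompl : Cfsg.HasNormalPComplement q K := (Cfsg.Agent.S0108.result hq2 Q).mpr
    ⟨by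
      haveI := hprop _ (H21.map_normalizer_aut φ J hJ) hN
      exact H21.hasNormalPComplement_of_nilpotent q,
    by
      haveI := hprop _ (H21.map_centralizer_aut φ Z hZ) hC
      exact H21.hasNormalPComplement_of_nilpotent q⟩
  rw [H22.hasNormalPComplement_iff] at hcompl
  by_cases hbot : Cfsg.pResidual q K = ⊥
  · exact ((H22.isPGroup_quotient_pResidual (p := q) (G := K)).of_equiv
      ((QuotientGroup.quotientMulEquivOfEq hbot).trans QuotientGroup.quotientBot)).isNilpotent
  exact hred _ inferInstance (H21.map_eq_of_characteristic φ _) hbot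
    fun e => hcompl (by rw [e, card_top]; exact hqd)

end Steps

/-- **Kegel's theorem**: if all elements of the coset `Kx` have order dividing the prime `p`, and
`G = K⟨x⟩` with `K` normal, then `K` is nilpotent. -/
theorem isNilpotent_of_splitting {p : ℕ} (hp : p.Prime) {G : Type u} [Group G] [Finite G]
    {K : Subgroup G} {x : G} (h : IsSplitting p K x) : Group.IsNilpotent K := by
  suffices key : ∀ n, KegelUpTo.{u} p n from key _ G K x le_rfl h
  intro n
  induction n with
  | zero =>
    intro G _ _ K _ hn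
    exact absurd (Nat.le_zero.mp hn) Nat.card_pos.ne'
  | succ n ih => exact fun G _ _ K x hn h => isNilpotent_step ih hn h hp

end Cfsg.Agent.H89
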