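import Mathlib
import Cfsg.Agent.H89.PrimaryParts

/-!
# Groups in which every non-central centralizer is maximal

Such a group is solvable.  For a non-central `p`-element `x` the centralizer is the normalizer of
a Sylow `p`-subgroup `P`, of the form `P ⊔ Z(C(x))`.  Either Burnside gives a normal
`p`-complement, or this centralizer is non-abelian and is a `p`-group modulo the centre; the latter
cannot happen together with the former (Frattini argument), and cannot happen for all primes
(counting).
-/

namespace Cfsg.Agent.H89

open Subgroup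

variable {G : Type*} [Group G]

/-- A subgroup of prime index style argument: a solvable normal maximal subgroup forces
solvability. -/
theorem isSolvable_of_normal_coatom {M : Subgroup G} (hM : IsCoatom M) [M.Normal]
    (hs : Group.IsSolvable M) : Group.IsSolvable G := by
  refine (Group.isSolvable_iff_subgroup_quotient M).mpr ⟨hs, Group.isSolvable_of_comm ?_⟩
  intro a b
  by_cases ha : a = 1
  · simp [ha]
  obtain ⟨x, rfl⟩ := QuotientGroup.mk'_surjective M a
  have hlt : M < (Subgroup.zpowers (QuotientGroup.mk' M x)).comap (QuotientGroup.mk' M) := by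
    refine lt_of_le_of_ne (fun m hm => ?_) (fun h => ha ?_)
    · simp [Subgroup.mem_comap, (QuotientGroup.eq_one_iff m).mpr hm, Subgroup.one_mem]
    · have : x ∈ M := h ▸ Subgroup.mem_comap.mpr (Subgroup.mem_zpowers _)
      exact (QuotientGroup.eq_one_iff x).mpr this
  obtain ⟨y, rfl⟩ := QuotientGroup.mk'_surjective M b
  have hy : QuotientGroup.mk' M y ∈ Subgroup.zpowers (QuotientGroup.mk' M x) := by
    show y ∈ (Subgroup.zpowers (QuotientGroup.mk' M x)).comap (QuotientGroup.mk' M)
    rw [hM.2 _ hlt]; trivial
  obtain ⟨k, hk⟩ := Subgroup.mem_zpowers_iff.mp hy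
  rw [← hk]
  exact ((Commute.refl _).zpow_right k).eq

variable [Finite G] (G) in
/-- Hypothesis of this file. -/
def MaximalCentralizers : Prop :=
  ∀ g : G, g ∉ center G → IsCoatom (centralizer ({g} : Set G))

variable [Finite G]

theorem mem_center_of_centralizer_eq_top {g : G} (h : centralizer ({g} : Set G) = ⊤) :
    g ∈ center G := by
  refine mem_center_iff.mpr fun z => ?_
  exact mem_centralizer_singleton_iff.mp (h ▸ mem_top z)

namespace MaximalCentralizers

variable (h : MaximalCentralizers G)
include h

/-- Non-central elements with comparable centralizers have equal ones. -/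
theorem eq_of_le {x y : G} (hx : x ∉ center G) (hy : y ∉ center G)
    (hle : centralizer ({x} : Set G) ≤ centralizer ({y} : Set G)) :
    centralizer ({x} : Set G) = centralizer ({y} : Set G) := by
  rcases hle.lt_or_eq with hlt | he
  · exact absurd ((h x hx).2 _ hlt) (h y hy).1
  · exact he

/-- A non-central power of a non-central element has the same centralizer. -/
theorem centralizer_pow {g : G} (hg : g ∉ center G) {k : ℕ} (hk : g ^ k ∉ center G) :
    centralizer ({g} : Set G) = centralizer ({g ^ k} : Set G) := by
  refine h.eq_of_le hg hk fun z hz => ?_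
  rw [mem_centralizer_singleton_iff] at hz ⊢
  exact ((show Commute z g from hz).pow_right k).eq

/-- Commuting non-central elements of coprime orders have the same centralizer. -/
theorem eq_of_coprime {x y : G} (hx : x ∉ center G) (hy : y ∉ center G) (hc : Commute x y)
    (hco : (orderOf x).Coprime (orderOf y)) :
    centralizer ({x} : Set G) = centralizer ({y} : Set G) := by
  obtain ⟨i, hi⟩ := exists_pow_eq_self_of_coprime (x := x) hco.symm
  obtain ⟨j, hj⟩ := exists_pow_eq_self_of_coprime (x := y) hco
  have hxz : (x * y) ^ (orderOf y * i) = x := by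
    rw [hc.mul_pow, pow_mul, pow_mul, pow_orderOf_eq_one, one_pow, mul_one, hi]
  have hyz : (x * y) ^ (orderOf x * j) = y := by
    rw [hc.mul_pow, pow_mul, pow_mul, pow_orderOf_eq_one, one_pow, one_mul, hj]
  have hz : x * y ∉ center G := fun hm => hx (hxz ▸ pow_mem hm _)
  have h1 := h.centralizer_pow hz (k := orderOf y * i) (by rwa [hxz])
  have h2 := h.centralizer_pow hz (k := orderOf x * j) (by rwa [hyz])
  rw [hxz] at h1
  rw [hyz] at h2
  exact h1.symm.trans h2

/-- A `p'`-element commuting with a non-central `p`-element `x` is central in `C(x)`. -/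
theorem commute_of_coprime {p : ℕ} [Fact p.Prime] {x : G} {k : ℕ} (hk : x ^ p ^ k = 1)
    (hx : x ∉ center G) {y : G} (hy : y ∈ centralizer ({x} : Set G))
    (hco : ¬ p ∣ orderOf y) {z : G} (hz : z ∈ centralizer ({x} : Set G)) : Commute z y := by
  by_cases hyc : y ∈ center G
  · exact mem_center_iff.mp hyc z
  · have hp : p.Prime := Fact.out
    have := h.eq_of_coprime hx hyc (mem_centralizer_singleton_iff.mp hy).symm
      (Nat.Coprime.coprime_dvd_left (orderOf_dvd_of_pow_eq_one hk)
        ((hp.coprime_iff_not_dvd.mpr hco).pow_left k))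
    rw [this, mem_centralizer_singleton_iff] at hz
    exact hz

/-- The structure of the centralizer of a non-central `p`-element in a non-solvable group. -/
theorem centralizer_pElement (hns : ¬ Group.IsSolvable G) {p : ℕ} [Fact p.Prime] {x : G} {k : ℕ}
    (hk : x ^ p ^ k = 1) (hx : x ∉ center G) :
    ∃ P : Sylow p G, centralizer ({x} : Set G) = normalizer ((P : Subgroup G) : Set G) ∧
      centralizer ({x} : Set G) ≤ (P : Subgroup G) ⊔
        (centralizer ({x} : Set G) ⊓ centralizer (centralizer ({x} : Set G) : Set G)) := by
  set M := centralizer ({x} : Set G) with hMdef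
  set W := M ⊓ centralizer (M : Set G)
  obtain ⟨S⟩ := (inferInstance : Nonempty (Sylow p M))
  set SG := (S : Subgroup M).map M.subtype
  have hSM : SG ≤ M := map_subtype_le _
  have hqW : ∀ z ∈ M, ¬ p ∣ orderOf z → z ∈ W := fun z hz hzp =>
    ⟨hz, mem_centralizer_iff.mpr fun w hw => (h.commute_of_coprime hk hx hz hzp hw).eq⟩
  have hMle : M ≤ SG ⊔ W := by
    rw [← relIndex_eq_one]
    by_contra hne
    obtain ⟨q, hq, hqd⟩ := Nat.exists_prime_and_dvd hne
    haveI : Fact q.Prime := ⟨hq⟩
    by_cases hqp : q = p
    · subst hqp
      exact S.not_dvd_index (hqd.trans (index_dvd_of_le (K := (SG ⊔ W).subgroupOf M)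
        (map_le_iff_le_comap.mp (le_sup_left : SG ≤ SG ⊔ W))))
    · obtain ⟨Q⟩ := (inferInstance : Nonempty (Sylow q M))
      refine Q.not_dvd_index (hqd.trans (index_dvd_of_le (K := (SG ⊔ W).subgroupOf M) ?_))
      intro z hz
      rw [mem_subgroupOf]
      refine mem_sup_right (hqW _ z.2 fun hd => ?_)
      obtain ⟨n, hn⟩ := Q.isPGroup'.exists_card_eq
      have : orderOf (z : G) ∣ q ^ n := by
        have h1 : orderOf (z : G) = orderOf z := orderOf_injective M.subtype M.subtype_injective z
        rw [h1, ← hn]
        exact orderOf_dvd_natCard _ hz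
      exact hqp ((Nat.prime_dvd_prime_iff_eq Fact.out hq).mp
        (Nat.Prime.dvd_of_dvd_pow Fact.out (hd.trans this))).symm
  have hWle : W ≤ centralizer (SG : Set G) :=
    inf_le_right.trans (centralizer_le hSM)
  have hnorm : M ≤ normalizer (SG : Set G) :=
    hMle.trans (sup_le le_normalizer (hWle.trans (centralizer_le_normalizer _)))
  -- `x` lies in the Sylow subgroup
  have hxS : x ∈ SG := by
    have hSn : (S : Subgroup M).Normal := by
      have : SG.subgroupOf M = S := comap_map_eq_self_of_injective M.subtype_injective _
      rw [← this]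
      exact (normal_subgroupOf_iff_le_normalizer hSM).mpr hnorm
    have hxM : x ∈ M := mem_centralizer_singleton_iff.mpr rfl
    have hpz : IsPGroup p (zpowers (⟨x, hxM⟩ : M)) := by
      intro w
      refine ⟨k, ?_⟩
      obtain ⟨w, hw⟩ := w
      obtain ⟨i, rfl⟩ := mem_zpowers_iff.mp hw
      apply Subtype.ext
      apply Subtype.ext
      simp only [SubmonoidClass.coe_pow, SubgroupClass.coe_zpow, OneMemClass.coe_one]
      rw [← zpow_natCast, ← zpow_mul, mul_comm, zpow_mul, zpow_natCast, hk, one_zpow]
    obtain ⟨T, hT⟩ := hpz.exists_le_sylow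
    haveI : Subsingleton (Sylow p M) :=
      (Sylow.unique_of_normal S hSn).instSubsingleton
    rw [Subsingleton.elim T S] at hT
    exact ⟨⟨x, hxM⟩, hT (mem_zpowers _), rfl⟩
  have hCle : centralizer (SG : Set G) ≤ M := by
    intro z hz
    rw [hMdef, mem_centralizer_singleton_iff]
    exact ((mem_centralizer_iff.mp hz) x hxS).symm
  -- the normalizer is `M`
  have hN : normalizer (SG : Set G) = M := by
    rcases hnorm.lt_or_eq with hlt | he
    · exfalso
      have htop := (h x hx).2 _ hlt
      haveI : SG.Normal := normalizer_eq_top_iff.mp htop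
      have hMeq : M = SG ⊔ centralizer (SG : Set G) :=
        le_antisymm (hMle.trans (sup_le_sup_left hWle _)) (sup_le hSM hCle)
      haveI : (SG ⊔ centralizer (SG : Set G)).Normal := Subgroup.sup_normal _ _
      haveI hMn : M.Normal := hMeq ▸ inferInstance
      refine hns (isSolvable_of_normal_coatom (h x hx) ?_)
      -- `M` is an extension of abelian by a `p`-group
      haveI : IsMulCommutative W := ⟨⟨fun a b => Subtype.ext
        ((mem_centralizer_iff.mp b.2.2) a a.2.1)⟩⟩
      haveI hWn : (W.subgroupOf M).Normal := by
        rw [normal_subgroupOf_iff_le_normalizer inf_le_left]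
        intro m hm
        rw [mem_normalizer_iff]
        intro w
        constructor
        · intro hw
          have : m * w = w * m := (mem_centralizer_iff.mp hw.2) m hm
          rwa [this, mul_inv_cancel_right]
        · intro hw
          have : m * (m * w * m⁻¹) = (m * w * m⁻¹) * m := (mem_centralizer_iff.mp hw.2) m hm
          have : m * w * m⁻¹ = w := by
            have := congrArg (fun t => m⁻¹ * t) this
            simpa [mul_assoc] using this
          rwa [this] at hw
      refine (Group.isSolvable_iff_subgroup_quotient (W.subgroupOf M)).mpr ⟨?_, ?_⟩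
      · exact Group.isSolvable_of_comm fun a b => Subtype.ext (Subtype.ext
          ((mem_centralizer_iff.mp b.2.2) a.1.1 a.1.2))
      · have hsurj : Function.Surjective
            ((QuotientGroup.mk' (W.subgroupOf M)).comp (S : Subgroup M).subtype) := by
          intro q
          obtain ⟨m, rfl⟩ := QuotientGroup.mk'_surjective (W.subgroupOf M) q
          obtain ⟨s, hs, w, hw, e⟩ := mem_sup_of_normal_left.mp (hMle m.2)
          obtain ⟨s', hs', rfl⟩ := hs
          refine ⟨⟨s', hs'⟩, ?_⟩
          simp only [MonoidHom.comp_apply, coe_subtype, QuotientGroup.mk'_apply, QuotientGroup.eq,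
            mem_subgroupOf, coe_mul, coe_inv]
          have e' : ((s' : M) : G)⁻¹ * (m : G) = w := by rw [← e]; simp
          rw [e']
          exact hw
        haveI := S.isPGroup'.isNilpotent
        haveI : Group.IsSolvable (S : Subgroup M) := inferInstance
        exact Group.isSolvable_of_surjective hsurj
    · exact he.symm
  -- so `SG` is Sylow in `G`
  obtain ⟨n, hn⟩ := (S.isPGroup'.map M.subtype).exists_card_eq
  have hnot : ¬ p ^ (n + 1) ∣ Nat.card G := by
    intro hd
    have h1 := Sylow.prime_dvd_card_quotient_normalizer hd hn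
    change p ∣ SG.relIndex (normalizer (SG : Set G)) at h1
    rw [hN] at h1
    have : SG.subgroupOf M = S := comap_map_eq_self_of_injective M.subtype_injective _
    rw [Subgroup.relIndex, this] at h1
    exact S.not_dvd_index h1
  have hcard : Nat.card SG = p ^ (Nat.card G).factorization p := by
    rw [hn]
    congr 1
    apply le_antisymm
    · exact (Nat.Prime.pow_dvd_iff_le_factorization Fact.out Nat.card_pos.ne').mp
        (hn ▸ card_subgroup_dvd_card SG)
    · by_contra hlt
      exact hnot ((Nat.Prime.pow_dvd_iff_le_factorization Fact.out Nat.card_pos.ne').mpr (by omega))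
  exact ⟨Sylow.ofCard SG hcard, by rw [Sylow.coe_ofCard]; exact hN.symm, by rw [Sylow.coe_ofCard]; exact hMle⟩

end MaximalCentralizers

end Cfsg.Agent.H89
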