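import Mathlib
import Cfsg.Agent.H89.MaximalCentralizer

/-!
# Maximal centralizers force solvability
-/

namespace Cfsg.Agent.H89.MaximalCentralizers

open Subgroup

variable {G : Type*} [Group G] [Finite G]

/-- `x` is a non-central `p`-element for some exponent. -/
def HasNoncentralElement (G : Type*) [Group G] (p : ℕ) : Prop :=
  ∃ (x : G) (k : ℕ), x ^ p ^ k = 1 ∧ x ∉ center G

/-- A normal `p`-complement, by orders. -/
def HasComplementByOrder (G : Type*) [Group G] (p : ℕ) : Prop :=
  ∃ N : Subgroup G, N.Normal ∧ (∃ e : ℕ, N.index = p ^ e) ∧ ¬ p ∣ Nat.card N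

/-- A non-central `p`-element forces `p` to divide the index of the centre. -/
theorem prime_dvd_center_index {p : ℕ} (hp : p.Prime) (h : HasNoncentralElement G p) :
    p ∣ (center G).index := by
  obtain ⟨x, k, hk, hx⟩ := h
  have h1 : orderOf (x : G ⧸ center G) ∣ p ^ k :=
    orderOf_dvd_of_pow_eq_one (by rw [← QuotientGroup.mk_pow, hk]; rfl)
  have h2 : orderOf (x : G ⧸ center G) ∣ (center G).index := orderOf_dvd_natCard _
  obtain ⟨j, -, hj⟩ := (Nat.dvd_prime_pow hp).mp h1
  rcases Nat.eq_zero_or_pos j with rfl | hj'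
  · rw [pow_zero, orderOf_eq_one_iff, QuotientGroup.eq_one_iff] at hj
    exact absurd hj hx
  · exact (dvd_pow_self p hj'.ne').trans (hj ▸ h2)

variable (h : MaximalCentralizers G)
include h

/-- The case in which Burnside's transfer theorem gives no normal `p`-complement. -/
theorem bad_prime (hns : ¬ Group.IsSolvable G) {p : ℕ} [Fact p.Prime]
    (hbad : ¬ HasComplementByOrder G p) {x : G} {k : ℕ} (hk : x ^ p ^ k = 1) (hx : x ∉ center G) :
    ∃ P : Sylow p G, centralizer ({x} : Set G) = normalizer ((P : Subgroup G) : Set G) ∧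
      centralizer ({x} : Set G) ≤ (P : Subgroup G) ⊔ center G ∧
      p ^ 2 * Nat.card (center (centralizer ({x} : Set G))) ≤
        Nat.card (centralizer ({x} : Set G)) := by
  obtain ⟨P, hPN, hPW⟩ := h.centralizer_pElement hns hk hx
  refine ⟨P, hPN, ?_⟩
  set M := centralizer ({x} : Set G)
  have hPM : (P : Subgroup G) ≤ M := hPN ▸ le_normalizer
  have hnab : ¬ ∀ a ∈ M, ∀ b ∈ M, Commute a b := by
    intro hab
    have hP : normalizer ((P : Subgroup G) : Set G) ≤ centralizer ((P : Subgroup G) : Set G) := by
      rw [← hPN]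
      exact fun a ha => mem_centralizer_iff.mpr fun b hb => (hab b (hPM hb) a ha).eq
    refine hbad ⟨(MonoidHom.transferSylow P hP).ker, inferInstance,
      ⟨(Nat.card G).factorization p, ?_⟩, MonoidHom.not_dvd_card_ker_transferSylow P hP⟩
    rw [(MonoidHom.ker_transferSylow_isComplement' P hP).symm.index_eq_card, P.card_eq_multiplicity]
  have hcen : ∀ y ∈ M, ¬ p ∣ orderOf y → y ∈ center G := by
    intro y hy hyp
    by_contra hyc
    obtain ⟨q, hq, hqc⟩ := exists_primaryPart_notMem (center G) hyc
    haveI : Fact q.Prime := ⟨hq⟩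
    set y' := y ^ primaryExp q y
    have hy' : y' ∈ M := pow_mem hy _
    have hy'p : ¬ p ∣ orderOf y' := fun hd => hyp (hd.trans (orderOf_pow_dvd _))
    have hqp : q ≠ p := by
      rintro rfl
      refine hqc ?_
      have : orderOf y' = 1 := by
        obtain ⟨j, -, hj⟩ := (Nat.dvd_prime_pow hq).mp (orderOf_primaryPart_dvd q y)
        rcases Nat.eq_zero_or_pos j with rfl | hj'
        · simpa using hj
        · exact absurd (hj ▸ dvd_pow_self q hj'.ne') hy'p
      rw [orderOf_eq_one_iff.mp this]
      exact one_mem _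
    have hM : M = centralizer ({y'} : Set G) := h.eq_of_coprime hx hqc
      (mem_centralizer_singleton_iff.mp hy').symm
      (Nat.Coprime.coprime_dvd_left (orderOf_dvd_of_pow_eq_one hk)
        ((Nat.Prime.coprime_iff_not_dvd Fact.out).mpr hy'p |>.pow_left k))
    refine hnab fun a ha b hb => ?_
    have hb' : b ∈ centralizer ({a} : Set G) := by
      refine mem_of_primaryParts _ b fun r hr hrb => ?_
      haveI : Fact r.Prime := ⟨hr⟩
      rw [mem_centralizer_singleton_iff]
      have hne : ∀ s : ℕ, s.Prime → r ≠ s → ¬ s ∣ orderOf (b ^ primaryExp r b) := fun s hs hrs hd =>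
        hrs ((Nat.prime_dvd_prime_iff_eq hs hr).mp
          (hs.dvd_of_dvd_pow (hd.trans (orderOf_primaryPart_dvd r b)))).symm
      by_cases hrp : r = p
      · subst hrp
        have hbM : b ^ primaryExp r b ∈ centralizer ({y'} : Set G) := hM ▸ pow_mem hb _
        exact ((h.commute_of_coprime (pow_primaryExp_pow q y) hqc hbM
          (hne q hq hqp.symm) (hM ▸ ha)).eq).symm
      · exact ((h.commute_of_coprime hk hx (pow_mem hb _) (hne p Fact.out hrp) ha).eq).symm
    exact (mem_centralizer_singleton_iff.mp hb').symm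
  have hMle : M ≤ (P : Subgroup G) ⊔ center G := by
    intro z hz
    refine mem_of_primaryParts _ z fun r hr _ => ?_
    haveI : Fact r.Prime := ⟨hr⟩
    set z' := z ^ primaryExp r z
    by_cases hrp : r = p
    · subst hrp
      refine mem_sup_left ?_
      have hz' : z' ∈ zpowers z' ⊓ normalizer ((P : Subgroup G) : Set G) :=
        ⟨mem_zpowers _, hPN ▸ pow_mem hz _⟩
      have hpg : IsPGroup r (zpowers z') := by
        rintro ⟨w, hw⟩
        refine ⟨(orderOf z).factorization r, Subtype.ext ?_⟩
        obtain ⟨i, rfl⟩ := mem_zpowers_iff.mp hw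
        simp only [SubmonoidClass.coe_pow, OneMemClass.coe_one]
        rw [← zpow_natCast, ← zpow_mul, mul_comm, zpow_mul, zpow_natCast, pow_primaryExp_pow, one_zpow]
      exact ((hpg.inf_normalizer_sylow P).le hz').2
    · refine mem_sup_right (hcen _ (pow_mem hz _) fun hd => hrp ?_)
      exact ((Nat.prime_dvd_prime_iff_eq Fact.out hr).mp
        (Nat.Prime.dvd_of_dvd_pow Fact.out (hd.trans (orderOf_primaryPart_dvd r z)))).symm
  refine ⟨hMle, ?_⟩
  have hZle : (center G).subgroupOf M ≤ center M := fun z hz =>
    mem_center_iff.mpr fun w => Subtype.ext (mem_center_iff.mp hz w)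
  have hdvd : (center M).index ∣ Nat.card (P : Subgroup G) := by
    refine (index_dvd_of_le hZle).trans ?_
    have hMeq : M = (P : Subgroup G) ⊔ center G :=
      le_antisymm hMle (sup_le hPM (center_le_centralizer _))
    change (center G).relIndex M ∣ _
    rw [hMeq, relIndex_sup_right]
    exact relIndex_dvd_card _ _
  rw [P.card_eq_multiplicity] at hdvd
  obtain ⟨j, -, hj⟩ := (Nat.dvd_prime_pow Fact.out).mp hdvd
  have hj2 : 2 ≤ j := by
    by_contra hlt
    haveI : IsCyclic (M ⧸ center M) := by
      rcases (by omega : j = 0 ∨ j = 1) with rfl | rfl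
      · rw [pow_zero] at hj
        haveI : Subsingleton (M ⧸ center M) := Nat.card_eq_one_iff_unique.mp hj |>.1
        infer_instance
      · rw [pow_one] at hj
        exact isCyclic_of_prime_card (p := p) hj
    refine hnab fun a ha b hb => ?_
    exact congrArg Subtype.val (commutative_of_cyclic_center_quotient (QuotientGroup.mk' (center M))
      (by rw [QuotientGroup.ker_mk']) (⟨a, ha⟩ : M) ⟨b, hb⟩)
  calc p ^ 2 * Nat.card (center M) ≤ p ^ j * Nat.card (center M) :=
        Nat.mul_le_mul_right _ (Nat.pow_le_pow_right (Fact.out : p.Prime).pos hj2)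
    _ = Nat.card M := by rw [← hj, mul_comm, card_mul_index]

omit h in
/-- `1/2² + ⋯ + 1/n² ≤ 3/4 - 1/n`. -/
theorem sum_inv_sq_le (n : ℕ) (hn : 2 ≤ n) :
    ∑ k ∈ Finset.Icc 2 n, (1 : ℚ) / (k : ℚ) ^ 2 ≤ 3 / 4 - 1 / (n : ℚ) := by
  induction n, hn using Nat.le_induction with
  | base => norm_num
  | succ n hn ih =>
    rw [Finset.sum_Icc_succ_top (by omega : 2 ≤ n + 1)]
    have h1 : (1 : ℚ) / ((n + 1 : ℕ) : ℚ) ^ 2 ≤ 1 / (n : ℚ) - 1 / ((n + 1 : ℕ) : ℚ) := by
      have hn0 : (0 : ℚ) < n := by exact_mod_cast (show 0 < n by omega)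
      push_cast
      rw [div_sub_div _ _ hn0.ne' (by positivity), div_le_div_iff₀ (by positivity) (by positivity)]
      nlinarith
    linarith

/-- A group whose non-central centralizers are all maximal is solvable. -/
theorem isSolvable : Group.IsSolvable G := by
  classical
  by_contra hns
  haveI : Fintype G := Fintype.ofFinite G
  by_cases hgood : ∃ r, r.Prime ∧ HasNoncentralElement G r ∧ HasComplementByOrder G r
  · obtain ⟨r, hr, hrx, N, hN, ⟨e, he⟩, hrN⟩ := hgood
    haveI := hN
    by_cases hbad : ∃ p, p.Prime ∧ HasNoncentralElement G p ∧ ¬ HasComplementByOrder G p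
    · -- mixed case
      obtain ⟨p, hp, ⟨x, k, hk, hx⟩, hpb⟩ := hbad
      haveI : Fact p.Prime := ⟨hp⟩
      obtain ⟨P, hPN, hPZ, -⟩ := h.bad_prime hns hpb hk hx
      have hpr : p ≠ r := by
        rintro rfl
        exact hpb ⟨N, hN, ⟨e, he⟩, hrN⟩
      have hPle : (P : Subgroup G) ≤ N := by
        rw [← relIndex_eq_one]
        refine Nat.eq_one_of_dvd_coprimes ?_ (relIndex_dvd_card N (P : Subgroup G))
          ((relIndex_dvd_index_of_normal N (P : Subgroup G)).trans he.dvd)
        rw [P.card_eq_multiplicity]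
        exact Nat.Coprime.pow _ _ ((Nat.coprime_primes hp hr).mpr hpr)
      have htop : center G ⊔ N = ⊤ := by
        refine eq_top_iff.mpr ?_
        rw [← Sylow.normalizer_sup_eq_top' P hPle]
        exact sup_le (hPN.ge.trans (hPZ.trans (sup_le (hPle.trans le_sup_right) le_sup_left))) le_sup_right
      have hdvd : N.index ∣ Nat.card (center G) := by
        have h1 := relIndex_sup_right (H := center G) (K := N)
        rw [htop, relIndex_top_right] at h1
        exact h1 ▸ relIndex_dvd_card _ _
      obtain ⟨c, hc⟩ := hdvd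
      have hzi : (center G).index ∣ Nat.card N := by
        refine ⟨c, Nat.eq_of_mul_eq_mul_left (Nat.pos_of_ne_zero (index_ne_zero_of_finite (H := N))) ?_⟩
        calc N.index * Nat.card N = Nat.card G := by rw [mul_comm, card_mul_index]
          _ = N.index * ((center G).index * c) := by
            rw [← card_mul_index (center G), hc]; ring
      exact hrN ((prime_dvd_center_index hr hrx).trans hzi)
    · -- all good
      push Not at hbad
      apply hns
      have hder : ∀ q : ℕ, ∃ n : ℕ, ∀ (_ : q.Prime) (g : G) (m : ℕ), g ∈ derivedSeries G n →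
          g ^ q ^ m = 1 → g ∈ center G := by
        intro q
        by_cases hq : q.Prime
        swap
        · exact ⟨0, fun hh => absurd hh hq⟩
        by_cases hx : HasNoncentralElement G q
        swap
        · refine ⟨0, fun _ g m _ hg => ?_⟩
          by_contra hc
          exact hx ⟨g, m, hg, hc⟩
        obtain ⟨K, hK, ⟨f, hf⟩, hqK⟩ := hbad q hq hx
        haveI := hK
        haveI : Fact q.Prime := ⟨hq⟩
        haveI : Group.IsNilpotent (G ⧸ K) := (IsPGroup.of_card (p := q) (n := f) hf).isNilpotent
        haveI : Group.IsSolvable (G ⧸ K) := inferInstance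
        obtain ⟨n, hn⟩ := Group.IsSolvable.solvable (G := G ⧸ K)
        refine ⟨n, fun _ g m hg hgm => ?_⟩
        have hgK : g ∈ K := by
          have h1 := map_derivedSeries_le_derivedSeries (QuotientGroup.mk' K) n (mem_map_of_mem _ hg)
          rw [hn, Subgroup.mem_bot] at h1
          exact (QuotientGroup.eq_one_iff g).mp h1
        have : orderOf g = 1 := Nat.eq_one_of_dvd_coprimes
          ((hq.coprime_iff_not_dvd.mpr hqK).pow_left m) (orderOf_dvd_of_pow_eq_one hgm)
          (K.orderOf_dvd_natCard hgK)
        rw [orderOf_eq_one_iff.mp this]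
        exact one_mem _
      choose n hn using hder
      set nmax := (Finset.range (Nat.card G + 1)).sup n
      have hle : derivedSeries G nmax ≤ center G := by
        intro g hg
        refine mem_of_primaryParts _ g fun q hq hqg => ?_
        refine hn q hq _ _ (pow_mem (derivedSeries_antitone G ?_ hg) _) (pow_primaryExp_pow q g)
        refine Finset.le_sup (f := n) (Finset.mem_range.mpr ?_)
        have := Nat.le_of_dvd Nat.card_pos (hqg.trans (orderOf_dvd_natCard g))
        omega
      refine ⟨⟨nmax + 1, ?_⟩⟩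
      rw [derivedSeries_succ, commutator_eq_bot_iff_le_centralizer]
      exact hle.trans (center_le_centralizer _)
  · -- all bad: count
    have hbad : ∀ p, p.Prime → HasNoncentralElement G p → ¬ HasComplementByOrder G p :=
      fun p hp hx hgd => hgood ⟨p, hp, hx, hgd⟩
    set n := (center G).index with hn_def
    have hn0 : n ≠ 0 := index_ne_zero_of_finite
    set π : Finset ℕ := n.primeFactors.filter (HasNoncentralElement G)
    have hzero : n ≠ 1 := by
      intro h1
      refine hns (Group.isSolvable_of_comm fun a b => ?_)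
      have hb : b ∈ center G := by rw [index_eq_one.mp h1]; trivial
      exact mem_center_iff.mp hb a
    let good : (p : ℕ) → Finset (Sylow p G) := fun p =>
      Finset.univ.filter fun P : Sylow p G =>
        ∃ (x : G) (k : ℕ), x ^ p ^ k = 1 ∧ x ∉ center G ∧
          centralizer ({x} : Set G) = normalizer ((P : Subgroup G) : Set G)
    let W : (p : ℕ) → Sylow p G → Subgroup G := fun p P =>
      (center (normalizer ((P : Subgroup G) : Set G))).map (normalizer ((P : Subgroup G) : Set G)).subtype
    have hcover : (Finset.univ : Finset G) ⊆ Finset.univ.filter (· ∈ center G) ∪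
        π.biUnion (fun p => (good p).biUnion fun P => Finset.univ.filter (· ∈ W p P)) := by
      intro g _
      by_cases hg : g ∈ center G
      · simp [hg]
      refine Finset.mem_union_right _ ?_
      obtain ⟨p, hp, hpc⟩ := exists_primaryPart_notMem (center G) hg
      haveI : Fact p.Prime := ⟨hp⟩
      have hx : HasNoncentralElement G p := ⟨_, _, pow_primaryExp_pow p g, hpc⟩
      obtain ⟨P, hPN, -⟩ := h.centralizer_pElement hns (pow_primaryExp_pow p g) hpc
      rw [Finset.mem_biUnion]
      refine ⟨p, Finset.mem_filter.mpr ⟨Nat.mem_primeFactors.mpr ⟨hp, prime_dvd_center_index hp hx, hn0⟩, hx⟩, ?_⟩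
      rw [Finset.mem_biUnion]
      refine ⟨P, Finset.mem_filter.mpr ⟨Finset.mem_univ _, _, _, pow_primaryExp_pow p g, hpc, hPN⟩,
        Finset.mem_filter.mpr ⟨Finset.mem_univ _, ?_⟩⟩
      have hCg : centralizer ({g} : Set G) = normalizer ((P : Subgroup G) : Set G) :=
        (h.centralizer_pow hg hpc).trans hPN
      have hgM : g ∈ normalizer ((P : Subgroup G) : Set G) :=
        hCg.le (mem_centralizer_singleton_iff.mpr rfl)
      refine ⟨⟨g, hgM⟩, mem_center_iff.mpr fun w => Subtype.ext ?_, rfl⟩
      have : (w : G) ∈ centralizer ({g} : Set G) := hCg.ge w.2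
      exact mem_centralizer_singleton_iff.mp this
    have hfil : ∀ (K : Subgroup G) [DecidablePred (· ∈ K)],
        (Finset.univ.filter (· ∈ K)).card = Nat.card K := by
      intro K _
      rw [Nat.card_eq_fintype_card, Fintype.card_subtype]
    have hp_bound : ∀ p ∈ π, (∑ P ∈ good p, (Nat.card (W p P) : ℚ)) ≤
        (1 : ℚ) / (p : ℚ) ^ 2 * Nat.card G := by
      intro p hp
      obtain ⟨hpn, hpx⟩ := Finset.mem_filter.mp hp
      have hpp := Nat.prime_of_mem_primeFactors hpn
      haveI : Fact p.Prime := ⟨hpp⟩
      have heach : ∀ P ∈ good p, (Nat.card (W p P) : ℚ) ≤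
          (1 : ℚ) / (p : ℚ) ^ 2 * ((Nat.card G : ℚ) / Nat.card (Sylow p G)) := by
        intro P hP
        obtain ⟨-, x, k, hk, hx, hxP⟩ := Finset.mem_filter.mp hP
        obtain ⟨-, -, -, hle⟩ := h.bad_prime hns (hbad p hpp hpx) hk hx
        rw [hxP] at hle
        have hW : Nat.card (W p P) = Nat.card (center (normalizer ((P : Subgroup G) : Set G))) :=
          card_map_of_injective (subtype_injective _)
        have hG := card_mul_index (normalizer ((P : Subgroup G) : Set G))
        rw [show (normalizer ((P : Subgroup G) : Set G)).index = Nat.card (Sylow p G) from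
          (Sylow.card_eq_index_normalizer P).symm] at hG
        rw [hW, ← hG, Nat.cast_mul, mul_div_assoc, div_self, mul_one, div_mul_eq_mul_div, one_mul,
          le_div_iff₀ (by have := hpp.pos; positivity)]
        · rw [mul_comm]; exact_mod_cast hle
        · exact_mod_cast Nat.card_pos.ne'
      refine (Finset.sum_le_sum heach).trans ?_
      rw [Finset.sum_const, nsmul_eq_mul]
      have hcard : ((good p).card : ℚ) ≤ Nat.card (Sylow p G) := by
        rw [Nat.card_eq_fintype_card]
        exact_mod_cast Finset.card_le_univ _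
      have hpos : (0 : ℚ) < Nat.card (Sylow p G) := by exact_mod_cast Nat.card_pos
      calc ((good p).card : ℚ) * ((1 : ℚ) / (p : ℚ) ^ 2 * ((Nat.card G : ℚ) / Nat.card (Sylow p G)))
          ≤ (Nat.card (Sylow p G) : ℚ) * ((1 : ℚ) / (p : ℚ) ^ 2 * ((Nat.card G : ℚ) / Nat.card (Sylow p G))) :=
            mul_le_mul_of_nonneg_right hcard (by positivity)
        _ = (1 : ℚ) / (p : ℚ) ^ 2 * Nat.card G := by field_simp
    have hnat : Nat.card G ≤ Nat.card (center G) + ∑ p ∈ π, ∑ P ∈ good p, Nat.card (W p P) := by
      rw [Nat.card_eq_fintype_card (α := G), ← Finset.card_univ]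
      refine (Finset.card_le_card hcover).trans ((Finset.card_union_le _ _).trans ?_)
      rw [hfil]
      refine Nat.add_le_add_left (Finset.card_biUnion_le.trans (Finset.sum_le_sum fun p _ => ?_)) _
      exact Finset.card_biUnion_le.trans (Finset.sum_le_sum fun P _ => (hfil _).le)
    have hq : (Nat.card G : ℚ) ≤ Nat.card (center G) +
        (∑ p ∈ π, (1 : ℚ) / (p : ℚ) ^ 2) * Nat.card G := by
      rw [Finset.sum_mul]
      refine le_trans ?_ (add_le_add_right (Finset.sum_le_sum hp_bound) _)
      exact_mod_cast hnat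
    have hsum : ∑ p ∈ π, (1 : ℚ) / (p : ℚ) ^ 2 ≤ 3 / 4 - 1 / (n : ℚ) := by
      refine le_trans (Finset.sum_le_sum_of_subset_of_nonneg ?_ fun k _ _ => by positivity)
        (sum_inv_sq_le n (by omega))
      intro p hp
      obtain ⟨hpn, -⟩ := Finset.mem_filter.mp hp
      exact Finset.mem_Icc.mpr ⟨(Nat.prime_of_mem_primeFactors hpn).two_le,
        Nat.le_of_mem_primeFactors hpn⟩
    have hG : (Nat.card G : ℚ) = Nat.card (center G) * n := by
      rw [hn_def]; exact_mod_cast (card_mul_index (center G)).symm
    have hnpos : (0 : ℚ) < n := by exact_mod_cast Nat.pos_of_ne_zero hn0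
    have hzpos : (0 : ℚ) < Nat.card (center G) := by exact_mod_cast Nat.card_pos
    have h2 := mul_le_mul_of_nonneg_right hsum (by positivity : (0 : ℚ) ≤ (Nat.card G : ℚ))
    rw [hG] at h2 hq
    field_simp at h2 hq
    nlinarith

end Cfsg.Agent.H89.MaximalCentralizers
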