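import Cfsg.Agent.H22.Frobenius
import Cfsg.Agent.H19.Cores
import Cfsg.Agent.H20.Sylow
import Cfsg.Agent.H89.Nilpotent
import Cfsg.Prelude.Def_SolvableStructure

/-!
# Groups whose maximal subgroups of order divisible by `p` are nilpotent
-/

namespace Cfsg.Agent.H89

open Subgroup

variable {G : Type*} [Group G] [Finite G]

/-- A proper subgroup of order divisible by `p` is nilpotent. -/
theorem isNilpotent_of_ne_top {p : ℕ}
    (h : ∀ M : Subgroup G, IsCoatom M → p ∣ Nat.card M → Group.IsNilpotent M)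
    {H : Subgroup G} (hH : H ≠ ⊤) (hp : p ∣ Nat.card H) : Group.IsNilpotent H := by
  obtain ⟨M, hM, hHM⟩ := (eq_top_or_exists_le_coatom H).resolve_left hH
  haveI := h M hM (hp.trans (card_dvd_of_le hHM))
  exact Group.nilpotent_of_mulEquiv (subgroupOfEquivOfLe hHM)

/-- If moreover some maximal subgroup is not nilpotent, `O_p(G)` is nontrivial. -/
theorem pCore_ne_bot_of_maximal_nilpotent {p : ℕ} [Fact p.Prime] (hpG : p ∣ Nat.card G)
    (h : ∀ M : Subgroup G, IsCoatom M → p ∣ Nat.card M → Group.IsNilpotent M)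
    {M : Subgroup G} (hM : IsCoatom M) (hMn : ¬ Group.IsNilpotent M) :
    Cfsg.pCore p G ≠ ⊥ := by
  have hp : p.Prime := Fact.out
  have hpM : ¬ p ∣ Nat.card M := fun hd => hMn (h M hM hd)
  intro hO
  obtain ⟨P⟩ := (inferInstance : Nonempty (Sylow p G))
  have hPne : (P : Subgroup G) ≠ ⊥ := P.ne_bot_of_dvd_card hpG
  have hfro : H22.FrobeniusCondition p G := by
    intro D hD g hg hgp
    rcases eq_or_ne D ⊥ with rfl | hne
    · refine mem_centralizer_iff.mpr fun d hd => ?_
      rw [SetLike.mem_coe, mem_bot] at hd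
      simp [hd]
    have hN : normalizer (D : Set G) ≠ ⊤ := fun htop =>
      hne (eq_bot_iff.mpr (hO ▸ H19.le_pCore (normalizer_eq_top_iff.mp htop) hD))
    obtain ⟨n, hn⟩ := hD.exists_card_eq
    have hn0 : n ≠ 0 := by
      rintro rfl
      exact hne (card_eq_one.mp (by simpa using hn))
    have hnil := isNilpotent_of_ne_top h hN
      ((dvd_pow_self p hn0).trans (hn ▸ card_dvd_of_le le_normalizer))
    refine mem_centralizer_iff.mpr fun d hd => ?_
    refine (commute_of_nilpotent_coprime hnil (le_normalizer hd) hg ?_).eq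
    exact Nat.Coprime.coprime_dvd_left (hn ▸ D.orderOf_dvd_natCard hd) (hgp.symm.pow_left n)
  obtain ⟨Q, K, hK, hKQ⟩ := H22.hasNormalPComplement_of_frobenius hfro
  haveI := hK
  have hpK : ¬ p ∣ Nat.card K := hKQ.index_eq_card ▸ Q.not_dvd_index
  have hMK : M = K := by
    have hle : M ≤ K := by
      rw [← relIndex_eq_one]
      refine Nat.eq_one_of_dvd_coprimes ?_ (relIndex_dvd_card K M)
        (relIndex_dvd_index_of_normal K M)
      obtain ⟨n, hn⟩ := Q.isPGroup'.exists_card_eq
      rw [hKQ.symm.index_eq_card, hn]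
      exact ((hp.coprime_iff_not_dvd.mpr hpM).pow_left n).symm
    refine hle.lt_or_eq.resolve_left fun hlt => ?_
    rw [hM.2 _ hlt, card_top] at hpK
    exact hpK hpG
  have hPK : (Nat.card (P : Subgroup G)).Coprime (Nat.card K) := by
    obtain ⟨n, hn⟩ := P.isPGroup'.exists_card_eq
    rw [hn]
    exact (hp.coprime_iff_not_dvd.mpr hpK).pow_left n
  have hPnK : (P : Subgroup G) ≤ normalizer (K : Set G) := by
    rw [normalizer_eq_top_iff.mpr hK]; exact le_top
  have hcent : K ≤ centralizer ((P : Subgroup G) : Set G) := by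
    rw [← relIndex_eq_one]
    by_contra hne
    obtain ⟨q, hq, hqd⟩ := Nat.exists_prime_and_dvd hne
    have : Fact q.Prime := ⟨hq⟩
    obtain ⟨R, hR⟩ := H20.exists_invariant_sylow hPnK hPK
      (Or.inl (H20.isSolvable_of_isPGroup P.isPGroup')) q
    set RG := (R : Subgroup K).map K.subtype
    have hRK : RG ≤ K := map_subtype_le _
    have hne' : (P : Subgroup G) ⊔ RG ≠ ⊤ := by
      intro htop
      apply hMn
      haveI hRn : RG.Normal := normalizer_eq_top_iff.mp
        (top_le_iff.mp (htop ▸ sup_le hR le_normalizer))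
      have hKR : K ≤ RG := by
        rw [← relIndex_eq_one]
        refine Nat.eq_one_of_dvd_coprimes hPK ?_ (relIndex_dvd_card RG K)
        refine (relIndex_dvd_index_of_normal RG K).trans ?_
        rw [← relIndex_top_right, ← htop, relIndex_sup_right]
        exact relIndex_dvd_card _ _
      rw [hMK]
      exact ((R.isPGroup'.map _).to_le hKR).isNilpotent
    have hnil := isNilpotent_of_ne_top h hne'
      ((P.dvd_card_of_dvd_card hpG).trans (card_dvd_of_le le_sup_left))
    have hRc : RG ≤ centralizer ((P : Subgroup G) : Set G) :=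
      le_centralizer_of_nilpotent_coprime hnil le_sup_right le_sup_left
        (hPK.symm.coprime_dvd_left (card_dvd_of_le hRK))
    exact R.not_dvd_index (hqd.trans (index_dvd_of_le (map_le_iff_le_comap.mp hRc)))
  have hPn : (P : Subgroup G).Normal := by
    refine normalizer_eq_top_iff.mp (index_eq_one.mp ?_)
    refine Nat.eq_one_of_dvd_coprimes (a := Nat.card (P : Subgroup G)) (b := (P : Subgroup G).index)
      ?_ ?_ (index_dvd_of_le le_normalizer)
    · rw [P.card_eq_multiplicity]
      exact (hp.coprime_iff_not_dvd.mpr P.not_dvd_index).pow_left _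
    · have h1 : (normalizer ((P : Subgroup G) : Set G)).index ∣ K.index :=
        index_dvd_of_le (hcent.trans (centralizer_le_normalizer _))
      refine h1.trans ?_
      rw [hKQ.symm.index_eq_card, Q.card_eq_multiplicity, P.card_eq_multiplicity]
  exact hPne (eq_bot_iff.mpr (hO ▸ H19.le_pCore hPn P.isPGroup'))

/-- The structure of such a group when some maximal subgroup is not nilpotent. -/
theorem exists_product_of_maximal_nilpotent {p : ℕ} [Fact p.Prime] (hpG : p ∣ Nat.card G)
    (h : ∀ M : Subgroup G, IsCoatom M → p ∣ Nat.card M → Group.IsNilpotent M)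
    {M : Subgroup G} (hM : IsCoatom M) (hMn : ¬ Group.IsNilpotent M) :
    ∃ Z K : Subgroup G, Z.Normal ∧ K.Normal ∧ Z ⊓ K = ⊥ ∧ Z ⊔ K = ⊤ ∧ Nat.card Z = p ∧
      Cfsg.IsMinimalNonNilpotent K ∧ ¬ p ∣ Nat.card K := by
  have hp : p.Prime := Fact.out
  have hpM : ¬ p ∣ Nat.card M := fun hd => hMn (h M hM hd)
  set O := Cfsg.pCore p G
  have hO : O ≠ ⊥ := pCore_ne_bot_of_maximal_nilpotent hpG h hM hMn
  haveI hOn : O.Normal := H19.pCore_normal p G
  obtain ⟨n, hn⟩ := (H19.pCore_isPGroup (G := G) p).exists_card_eq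
  have hn0 : n ≠ 0 := by
    rintro rfl
    exact hO (card_eq_one.mp (by simpa using hn))
  have hpO : p ∣ Nat.card O := by rw [hn]; exact dvd_pow_self p hn0
  have hco : (Nat.card O).Coprime (Nat.card M) := by
    rw [hn]; exact (hp.coprime_iff_not_dvd.mpr hpM).pow_left n
  have hnle : ¬ O ≤ M := fun hle => hpM (hpO.trans (card_dvd_of_le hle))
  have htop : O ⊔ M = ⊤ :=
    hM.2 _ (lt_of_le_of_ne le_sup_right fun he => hnle (he ▸ le_sup_left))
  have hcard : Nat.card G = Nat.card O * Nat.card M := by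
    refine Nat.dvd_antisymm ?_ (hco.mul_dvd_of_dvd_of_dvd O.card_subgroup_dvd_card M.card_subgroup_dvd_card)
    have := H19.card_sup_dvd O M
    rwa [htop, card_top] at this
  have hsub : ∀ X : Subgroup G, X < M →
      X ≤ centralizer (O : Set G) ∧ Group.IsNilpotent X := by
    intro X hX
    have hne : O ⊔ X ≠ ⊤ := by
      intro he
      have h1 := H19.card_sup_dvd O X
      rw [he, card_top, hcard] at h1
      have h2 : Nat.card X < Nat.card M := by
        refine lt_of_le_of_ne (card_le_of_le hX.le) fun hc => hX.ne ?_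
        exact eq_of_le_of_card_ge hX.le hc.ge
      have h3 := Nat.le_of_dvd (Nat.mul_pos Nat.card_pos Nat.card_pos) h1
      have h4 : 0 < Nat.card O := Nat.card_pos
      nlinarith
    have hnil := isNilpotent_of_ne_top h hne (hpO.trans (card_dvd_of_le le_sup_left))
    exact ⟨le_centralizer_of_nilpotent_coprime hnil le_sup_right le_sup_left
      (hco.symm.coprime_dvd_left (card_dvd_of_le hX.le)),
      Group.nilpotent_of_mulEquiv (subgroupOfEquivOfLe (le_sup_right : X ≤ O ⊔ X))⟩
  have hMc : M ≤ centralizer (O : Set G) := by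
    intro x hx
    refine (hsub (zpowers x) (lt_of_le_of_ne (zpowers_le.mpr hx) fun he => hMn ?_)).1 (mem_zpowers x)
    rw [← he]
    letI : CommGroup (zpowers x) := { (inferInstance : Group (zpowers x)) with mul_comm := fun a b => mul_comm' a b }
    infer_instance
  have hMn' : M.Normal := normalizer_eq_top_iff.mp (top_le_iff.mp (htop ▸ sup_le
    (fun o ho => mem_normalizer_iff.mpr fun m => by
      constructor
      · intro hm
        have : o * m = m * o := (mem_centralizer_iff.mp (hMc hm)) o ho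
        rwa [this, mul_inv_cancel_right]
      · intro hm
        have h1 : o * (o * m * o⁻¹) = o * m * o⁻¹ * o := (mem_centralizer_iff.mp (hMc hm)) o ho
        have h2 : o * m * o⁻¹ = m := by
          have := congrArg (fun t => o⁻¹ * t) h1
          simpa [mul_assoc] using this
        rwa [h2] at hm) le_normalizer))
  refine ⟨O, M, hOn, hMn', disjoint_iff.mp ?_, htop, ?_, ⟨hMn, fun H hH => ?_⟩, hpM⟩
  · exact disjoint_iff.mpr (inf_eq_bot_of_coprime hco)
  · -- `O` has order `p`
    obtain ⟨⟨y, hy⟩, hyp⟩ := exists_prime_orderOf_dvd_card' p hpO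
    have hyp' : orderOf y = p := by rw [← hyp, ← orderOf_coe]
    have hyM : ¬ zpowers y ≤ M := fun hle => hpM (hyp' ▸ M.orderOf_dvd_natCard (hle (mem_zpowers y)))
    have h1 : M ⊔ zpowers y = ⊤ :=
      hM.2 _ (lt_of_le_of_ne le_sup_left fun he => hyM (he ▸ le_sup_right))
    have h2 := H19.card_sup_dvd M (zpowers y)
    rw [h1, card_top, hcard, Nat.card_zpowers, hyp', mul_comm] at h2
    exact Nat.dvd_antisymm (Nat.dvd_of_mul_dvd_mul_left Nat.card_pos h2) hpO
  · have hlt : H.map M.subtype < M := by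
      refine lt_of_le_of_ne (map_subtype_le _) fun he => hH ?_
      apply map_injective M.subtype_injective
      rw [he, ← MonoidHom.range_eq_map, range_subtype]
    haveI := (hsub _ hlt).2
    exact Group.nilpotent_of_mulEquiv (H.equivMapOfInjective _ M.subtype_injective).symm

/-- The converse in the product case. -/
theorem isNilpotent_of_product {p : ℕ} (hp : p.Prime) {Z K : Subgroup G} (hZ : Z.Normal)
    (hK : K.Normal) (hinf : Z ⊓ K = ⊥) (hsup : Z ⊔ K = ⊤) (hZp : Nat.card Z = p)
    (hKm : Cfsg.IsMinimalNonNilpotent K) (hpK : ¬ p ∣ Nat.card K)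
    {M : Subgroup G} (hM : IsCoatom M) (hpM : p ∣ Nat.card M) : Group.IsNilpotent M := by
  haveI : Fact p.Prime := ⟨hp⟩
  haveI := hZ
  haveI := hK
  have hdec : ∀ g : G, ∃ z ∈ Z, ∃ k ∈ K, g = z * k := fun g => by
    have : g ∈ Z ⊔ K := hsup ▸ mem_top g
    obtain ⟨z, hz, k, hk, e⟩ := mem_sup_of_normal_left.mp this
    exact ⟨z, hz, k, hk, e.symm⟩
  obtain ⟨⟨y, hyM⟩, hy⟩ := exists_prime_orderOf_dvd_card' p hpM
  have hy' : orderOf y = p := by rw [← hy, ← orderOf_coe]
  have hyZ : y ∈ Z := by
    have h1 : orderOf (y : G ⧸ Z) = 1 := by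
      refine Nat.eq_one_of_dvd_coprimes (hp.coprime_iff_not_dvd.mpr hpK)
        (hy' ▸ orderOf_map_dvd (QuotientGroup.mk' Z) y) ((_root_.orderOf_dvd_natCard _).trans ?_)
      rw [← index_eq_card, ← relIndex_top_right, ← hsup, sup_comm, relIndex_sup_right]
      exact relIndex_dvd_card _ _
    exact (QuotientGroup.eq_one_iff y).mp (orderOf_eq_one_iff.mp h1)
  have hZM : Z ≤ M := by
    have : zpowers y = Z := eq_of_le_of_card_ge (zpowers_le.mpr hyZ)
      (by rw [Nat.card_zpowers, hy', hZp])
    rw [← this]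
    exact zpowers_le.mpr hyM
  haveI : IsMulCommutative Z := by
    haveI := isCyclic_of_prime_card hZp
    infer_instance
  have hZc : ∀ z ∈ Z, ∀ g : G, g * z = z * g := by
    intro z hz g
    obtain ⟨z', hz', k, hk, rfl⟩ := hdec g
    have h1 : k * z = z * k :=
      (commute_of_normal_of_disjoint Z K hZ hK (disjoint_iff.mpr hinf) z k hz hk).eq.symm
    have h2 : z' * z = z * z' := congrArg Subtype.val (mul_comm' (⟨z', hz'⟩ : Z) ⟨z, hz⟩)
    rw [mul_assoc, h1, ← mul_assoc, h2, mul_assoc]
  set L := (M ⊓ K).subgroupOf K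
  have hL : L ≠ ⊤ := by
    intro he
    have hKM : K ≤ M := (subgroupOf_eq_top.mp he).trans inf_le_left
    exact hM.1 (top_le_iff.mp (hsup ▸ sup_le hZM hKM))
  haveI := hKm.2 L hL
  let f : L →* (↥M ⧸ Z.subgroupOf M) :=
    (QuotientGroup.mk' (Z.subgroupOf M)).comp
      ((K.subtype.comp L.subtype).codRestrict M fun l => l.2.1)
  have hf : Function.Surjective f := by
    intro q
    obtain ⟨⟨m, hm⟩, rfl⟩ := QuotientGroup.mk'_surjective (Z.subgroupOf M) q
    obtain ⟨z, hz, k, hk, rfl⟩ := hdec m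
    have hkM : k ∈ M := by simpa using M.mul_mem (M.inv_mem (hZM hz)) hm
    refine ⟨⟨⟨k, hk⟩, ⟨hkM, hk⟩⟩, (QuotientGroup.eq).mpr ?_⟩
    rw [mem_subgroupOf]
    show k⁻¹ * (z * k) ∈ Z
    rw [← hZc z hz k, inv_mul_cancel_left]
    exact hz
  haveI := Group.nilpotent_of_surjective f hf
  refine Subgroup.isNilpotent_of_ker_le_center (QuotientGroup.mk' (Z.subgroupOf M)) ?_
  rw [QuotientGroup.ker_mk']
  exact fun m hm => mem_center_iff.mpr fun g => Subtype.ext (hZc m hm g)

end Cfsg.Agent.H89
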