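import Mathlib

/-!
No finite group has exactly 35 Sylow `17`-subgroups.
-/

set_option autoImplicit false

namespace Cfsg.Agent.H89

open Equiv MulAction
open scoped Pointwise

theorem zmod_five_pow_seventeen : ∀ z : ZMod 5, 1 = z ^ 17 → z = 1 := by decide

section Perm

variable {α : Type*} [Fintype α] [DecidableEq α]

theorem ncard_orbit_eq_seventeen (h35 : Fintype.card α = 35) (H : Subgroup (Perm α))
    (hH : IsPGroup 17 H) {x : α} {u : Perm α} (hu : u ∈ H) (hux : u x ≠ x) :
    (orbit H x).ncard = 17 := by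
  haveI : Fact (Nat.Prime 17) := ⟨by norm_num⟩
  obtain ⟨j, hj⟩ := hH.card_orbit x
  rw [Nat.card_coe_set_eq] at hj
  have hle : (orbit H x).ncard ≤ 35 := by
    refine le_trans (Set.ncard_le_ncard (Set.subset_univ _)) (le_of_eq ?_)
    rw [Set.ncard_univ, Nat.card_eq_fintype_card, h35]
  rw [hj] at hle ⊢
  rcases j with _ | _ | j
  · exfalso
    rw [pow_zero] at hj
    obtain ⟨a, ha⟩ := Set.ncard_eq_one.1 hj
    have h1 : u x ∈ orbit H x := ⟨⟨u, hu⟩, rfl⟩
    have h2 : x ∈ orbit H x := mem_orbit_self x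
    rw [ha, Set.mem_singleton_iff] at h1 h2
    exact hux (h1.trans h2.symm)
  · norm_num
  · exfalso
    have : 17 ^ 2 ≤ 17 ^ (j + 1 + 1) := Nat.pow_le_pow_right (by norm_num) (by omega)
    omega

theorem exists_two_mem_orbit (h35 : Fintype.card α = 35) (H : Subgroup (Perm α))
    (hH : IsPGroup 17 H) {x y z : α} (hx : ∃ u ∈ H, u x ≠ x) (hy : ∃ u ∈ H, u y ≠ y)
    (hz : ∃ u ∈ H, u z ≠ z) :
    y ∈ orbit H x ∨ z ∈ orbit H x ∨ z ∈ orbit H y := by
  by_contra! hcon
  obtain ⟨h1, h2, h3⟩ := hcon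
  obtain ⟨u, hu, hux⟩ := hx
  obtain ⟨v, hv, hvy⟩ := hy
  obtain ⟨w, hw, hwz⟩ := hz
  have dxy : Disjoint (orbit H x) (orbit H y) :=
    (orbit.eq_or_disjoint x y).resolve_left fun e => h1 (e ▸ mem_orbit_self y)
  have dxz : Disjoint (orbit H x) (orbit H z) :=
    (orbit.eq_or_disjoint x z).resolve_left fun e => h2 (e ▸ mem_orbit_self z)
  have dyz : Disjoint (orbit H y) (orbit H z) :=
    (orbit.eq_or_disjoint y z).resolve_left fun e => h3 (e ▸ mem_orbit_self z)
  have h := Set.ncard_le_ncard (Set.subset_univ (orbit H x ∪ orbit H y ∪ orbit H z))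
  rw [Set.ncard_union_eq (Set.disjoint_union_left.2 ⟨dxz, dyz⟩), Set.ncard_union_eq dxy,
    ncard_orbit_eq_seventeen h35 H hH hu hux, ncard_orbit_eq_seventeen h35 H hH hv hvy,
    ncard_orbit_eq_seventeen h35 H hH hw hwz, Set.ncard_univ, Nat.card_eq_fintype_card, h35] at h
  omega

theorem support_card_of_orderOf (h35 : Fintype.card α = 35) {c : Perm α} (hc : orderOf c = 17) :
    c.support.card = 17 ∨ c.support.card = 34 := by
  obtain ⟨n, hn⟩ := Perm.cycleType_prime_order (σ := c) (hc ▸ by norm_num)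
  have h1 := c.sum_cycleType
  rw [hn, Multiset.sum_replicate, hc, smul_eq_mul] at h1
  have h2 : c.support.card ≤ 35 := h35 ▸ Finset.card_le_univ _
  omega

theorem isPGroup_zpowers {c : Perm α} (hc : orderOf c = 17) :
    IsPGroup 17 (Subgroup.zpowers c) :=
  IsPGroup.of_card (n := 1) (by rw [Nat.card_zpowers, hc, pow_one])

variable {g : Perm α} {b : α}

theorem mem_zpowers_moved (hb : ∀ x, g x = x ↔ x = b) {x : α} (hx : x ≠ b) :
    ∃ u ∈ Subgroup.zpowers g, u x ≠ x :=
  ⟨g, Subgroup.mem_zpowers g, fun h => hx ((hb x).1 h)⟩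

/-- An element commuting with `g` and fixing `b` satisfies `d ^ 34 = 1`. -/
theorem pow_thirtyFour_eq_one (h35 : Fintype.card α = 35) (hg : orderOf g = 17)
    (hb : ∀ x, g x = x ↔ x = b) {d : Perm α} (hdg : Commute d g) (hdb : d b = b) :
    d ^ 34 = 1 := by
  ext x
  rcases eq_or_ne x b with rfl | hx
  · rw [Perm.one_apply]
    exact Perm.pow_apply_eq_self_of_apply_eq_self hdb 34
  have hdi : ∀ (i : ℤ) (y : α), d ((g ^ i) y) = (g ^ i) (d y) := fun i y => by
    rw [← Perm.mul_apply, (hdg.zpow_right i).eq, Perm.mul_apply]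
  have hdx : d x ≠ b := fun h => hx (d.injective (h.trans hdb.symm))
  have hddx : d (d x) ≠ b := fun h => hdx (d.injective (h.trans hdb.symm))
  obtain ⟨i, hi⟩ : ∃ i : ℤ, (g ^ i) x = d (d x) := by
    rcases exists_two_mem_orbit h35 _ (isPGroup_zpowers hg) (mem_zpowers_moved hb hx)
      (mem_zpowers_moved hb hdx) (mem_zpowers_moved hb hddx) with h | h | h
    · obtain ⟨⟨v, i, rfl⟩, hi⟩ := h
      change (g ^ i) x = d x at hi
      refine ⟨i + i, ?_⟩
      rw [zpow_add, Perm.mul_apply, hi, ← hdi, hi]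
    · obtain ⟨⟨v, i, rfl⟩, hi⟩ := h
      exact ⟨i, hi⟩
    · obtain ⟨⟨v, i, rfl⟩, hi⟩ := h
      change (g ^ i) (d x) = d (d x) at hi
      rw [← hdi] at hi
      have hi' : (g ^ i) x = d x := d.injective hi
      refine ⟨i + i, ?_⟩
      rw [zpow_add, Perm.mul_apply, hi', ← hdi, hi']
  have key : ∀ n : ℕ, (d ^ (2 * n)) x = (g ^ ((n : ℤ) * i)) x := by
    intro n
    induction n with
    | zero => simp
    | succ n ih =>
      rw [show 2 * (n + 1) = 2 * n + 1 + 1 by ring, pow_succ', pow_succ', Perm.mul_apply,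
        Perm.mul_apply, ih, hdi, hdi, ← hi, ← Perm.mul_apply, ← zpow_add]
      congr 2
      push_cast
      ring
  rw [show 34 = 2 * 17 from rfl, key 17, Perm.one_apply, zpow_mul, zpow_natCast, ← hg,
    pow_orderOf_eq_one, one_zpow, Perm.one_apply]

/-- An even involution cannot commute with `g` and fix `b`. -/
theorem eq_one_of_involution (h35 : Fintype.card α = 35) (hg : orderOf g = 17)
    (hb : ∀ x, g x = x ↔ x = b) {d : Perm α} (hdg : Commute d g) (hdb : d b = b)
    (hd2 : d ^ 2 = 1) (hsign : Perm.sign d = 1) : d = 1 := by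
  by_contra hd1
  have hdi : ∀ (i : ℤ) (y : α), d ((g ^ i) y) = (g ^ i) (d y) := fun i y => by
    rw [← Perm.mul_apply, (hdg.zpow_right i).eq, Perm.mul_apply]
  have hdd : ∀ y, d (d y) = y := fun y => by
    rw [← Perm.mul_apply, ← pow_two, hd2, Perm.one_apply]
  by_cases hfix : ∃ x, x ≠ b ∧ d x = x
  · obtain ⟨x, hx, hdx⟩ := hfix
    have hO : ∀ y ∈ orbit (Subgroup.zpowers g) x, d y = y := by
      rintro _ ⟨⟨v, i, rfl⟩, rfl⟩
      show d ((g ^ i) x) = (g ^ i) x
      rw [hdi, hdx]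
    apply hd1
    ext y
    rw [Perm.one_apply]
    rcases eq_or_ne y b with rfl | hy
    · exact hdb
    have hdy : d y ≠ b := fun h => hy (d.injective (h.trans hdb.symm))
    rcases exists_two_mem_orbit h35 _ (isPGroup_zpowers hg) (mem_zpowers_moved hb hx)
      (mem_zpowers_moved hb hy) (mem_zpowers_moved hb hdy) with h | h | h
    · exact hO y h
    · have := hO _ h
      rw [hdd] at this
      exact this.symm
    · obtain ⟨⟨v, i, rfl⟩, hi⟩ := h
      change (g ^ i) y = d y at hi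
      have h2 : (g ^ (i + i)) y = y := by
        rw [zpow_add, Perm.mul_apply, hi, ← hdi, hi, hdd]
      have h3 : g ^ ((i + i) * 9) = g ^ i := by
        rw [zpow_eq_zpow_iff_modEq, hg]
        exact (Int.modEq_iff_dvd).2 ⟨-i, by push_cast; ring⟩
      rw [← hi, ← h3, zpow_mul]
      exact Perm.zpow_apply_eq_self_of_apply_eq_self h2 9
  · push Not at hfix
    have hsupp : d.support = Finset.univ.erase b := by
      ext y
      rw [Perm.mem_support, Finset.mem_erase]
      exact ⟨fun h => ⟨fun e => h (e ▸ hdb), Finset.mem_univ y⟩, fun h => hfix y h.1⟩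
    obtain ⟨n, hn⟩ := Perm.cycleType_prime_order (σ := d) (by
      rw [orderOf_eq_prime hd2 hd1]; exact Nat.prime_two)
    have h1 := d.sum_cycleType
    rw [hn, Multiset.sum_replicate, orderOf_eq_prime hd2 hd1, smul_eq_mul, hsupp,
      Finset.card_erase_of_mem (Finset.mem_univ b), Finset.card_univ, h35] at h1
    rw [Perm.sign_of_cycleType, hn, Multiset.sum_replicate, Multiset.card_replicate,
      orderOf_eq_prime hd2 hd1, smul_eq_mul, show n = 16 by omega] at hsign
    norm_num at hsign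

/-- A transitive group of degree 35 whose point stabilizers are normalizers of Sylow
`17`-subgroups fixing a single point does not exist. -/
theorem not_thirtyFive_perm (h35 : Fintype.card α = 35) (X : Subgroup (Perm α))
    (Pf : α → Subgroup (Perm α)) (hle : ∀ b, Pf b ≤ X) (hp : ∀ b, IsPGroup 17 (Pf b))
    (hmem : ∀ b, ∀ u ∈ X, (∃ i, orderOf u = 17 ^ i) → u b = b → u ∈ Pf b)
    (hfix : ∀ b x, (∀ u ∈ Pf b, u x = x) ↔ x = b)
    (htr : ∀ a b : α, ∃ x ∈ X, x a = b) : False := by
  classical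
  haveI : Fact (Nat.Prime 17) := ⟨by norm_num⟩
  by_cases hA : ∃ c ∈ X, orderOf c = 17 ∧ c.support.card = 17
  · -- counting the supports of 17-cycles
    set 𝒮 : Finset (Finset α) :=
      (Finset.univ.filter fun c : Perm α =>
        c ∈ X ∧ orderOf c = 17 ∧ c.support.card = 17).image Perm.support
    have h𝒮 : ∀ S, S ∈ 𝒮 ↔ ∃ c, (c ∈ X ∧ orderOf c = 17 ∧ c.support.card = 17) ∧ c.support = S :=
      fun S => by simp [𝒮]
    set k : α → ℕ := fun b => (𝒮.filter fun S => b ∉ S).card
    have hk2 : ∀ b, k b ≤ 2 := by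
      intro b
      by_contra hgt
      obtain ⟨S₁, S₂, S₃, h1, h2, h3, h12, h13, h23⟩ := Finset.two_lt_card_iff.1 (not_le.1 hgt)
      have key : ∀ S ∈ 𝒮.filter (fun S => b ∉ S), ∃ x, (∃ u ∈ Pf b, u x ≠ x) ∧
          (S : Set α) = orbit (Pf b) x := by
        intro S hS
        obtain ⟨hS, hbS⟩ := Finset.mem_filter.1 hS
        obtain ⟨c, ⟨hcX, hc17, hcard⟩, rfl⟩ := (h𝒮 S).1 hS
        have hcP : c ∈ Pf b := hmem b c hcX ⟨1, by rw [hc17, pow_one]⟩ (by simpa using hbS)
        obtain ⟨x, hx⟩ : c.support.Nonempty := Finset.card_pos.1 (by omega)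
        have hx' : c x ≠ x := Perm.mem_support.1 hx
        have hsub : orbit (Subgroup.zpowers c) x ⊆ (c.support : Set α) := by
          rintro _ ⟨⟨v, i, rfl⟩, rfl⟩
          exact Perm.zpow_apply_mem_support.2 hx
        have heq : orbit (Subgroup.zpowers c) x = (c.support : Set α) :=
          Set.eq_of_subset_of_ncard_le hsub (by
            rw [Set.ncard_coe_finset, hcard,
              ncard_orbit_eq_seventeen h35 _ (isPGroup_zpowers hc17) (Subgroup.mem_zpowers c) hx'])
        refine ⟨x, ⟨c, hcP, hx'⟩, Set.eq_of_subset_of_ncard_le ?_ ?_⟩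
        · rw [← heq]
          rintro _ ⟨⟨v, hv⟩, rfl⟩
          exact ⟨⟨v, Subgroup.zpowers_le.2 hcP hv⟩, rfl⟩
        · rw [Set.ncard_coe_finset, hcard, ncard_orbit_eq_seventeen h35 _ (hp b) hcP hx']
      obtain ⟨x₁, hx₁, e₁⟩ := key S₁ h1
      obtain ⟨x₂, hx₂, e₂⟩ := key S₂ h2
      obtain ⟨x₃, hx₃, e₃⟩ := key S₃ h3
      rcases exists_two_mem_orbit h35 _ (hp b) hx₁ hx₂ hx₃ with h | h | h
      · exact h12 (Finset.coe_injective (by rw [e₁, e₂, orbit_eq_iff.2 h]))
      · exact h13 (Finset.coe_injective (by rw [e₁, e₃, orbit_eq_iff.2 h]))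
      · exact h23 (Finset.coe_injective (by rw [e₂, e₃, orbit_eq_iff.2 h]))
    have hconst : ∀ a b, k a ≤ k b := by
      intro a b
      obtain ⟨x, hxX, hxab⟩ := htr a b
      refine Finset.card_le_card_of_injOn (fun S => S.map x.toEmbedding) (fun S hS => ?_)
        (fun S _ T _ h => Finset.map_injective _ h)
      simp only [Finset.coe_filter, Set.mem_setOf_eq] at hS ⊢
      obtain ⟨c, ⟨hcX, hc17, hcard⟩, rfl⟩ := (h𝒮 S).1 hS.1
      refine ⟨(h𝒮 _).2 ⟨x * c * x⁻¹, ⟨mul_mem (mul_mem hxX hcX) (inv_mem hxX), ?_, ?_⟩,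
        Perm.support_conj⟩, ?_⟩
      · rw [← hc17]
        exact orderOf_injective (MulAut.conj x).toMonoidHom (MulAut.conj x).injective c
      · rw [Perm.support_conj, Finset.card_map, hcard]
      · rw [← hxab, Finset.mem_map]
        rintro ⟨z, hz, hze⟩
        exact hS.2 (x.injective hze ▸ hz)
    have hsum : ∑ b, k b = 𝒮.card * 18 := by
      simp only [k, Finset.card_filter]
      rw [Finset.sum_comm, Finset.card_eq_sum_ones, Finset.sum_mul]
      refine Finset.sum_congr rfl fun S hS => ?_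
      obtain ⟨c, ⟨-, -, hcard⟩, rfl⟩ := (h𝒮 S).1 hS
      rw [← Finset.card_filter, one_mul, Finset.filter_not, Finset.filter_mem_eq_inter,
        Finset.univ_inter, ← Finset.compl_eq_univ_sdiff, Finset.card_compl, h35, hcard]
    obtain ⟨b₀⟩ : Nonempty α := Fintype.card_pos_iff.1 (by omega)
    have hconst' : ∀ b, k b = k b₀ := fun b => le_antisymm (hconst b b₀) (hconst b₀ b)
    rw [Finset.sum_congr rfl fun b _ => hconst' b, Finset.sum_const, Finset.card_univ, h35,
      smul_eq_mul] at hsum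
    have hpos : 0 < 𝒮.card := by
      obtain ⟨c, hc⟩ := hA
      exact Finset.card_pos.2 ⟨_, (h𝒮 _).2 ⟨c, hc, rfl⟩⟩
    have := hk2 b₀
    omega
  -- all elements of order 17 fix exactly one point
  push Not at hA
  have hcard17 : ∀ b, Nat.card (Pf b) = 17 := by
    intro b
    obtain ⟨y, hy⟩ : ∃ y, y ≠ b := Fintype.exists_ne_of_one_lt_card (by omega) b
    have hmove : ∃ u ∈ Pf b, u y ≠ y := by
      by_contra! h
      exact hy ((hfix b y).1 h)
    obtain ⟨u, hu, huy⟩ := hmove
    have hstab : stabilizer (Pf b) y = ⊥ := by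
      rw [eq_bot_iff]
      intro w hw
      by_contra hw1
      obtain ⟨q, hq, hqw⟩ := Nat.exists_prime_and_dvd (mt orderOf_eq_one_iff.1 hw1)
      obtain ⟨i, hi⟩ := IsPGroup.iff_orderOf.1 (hp b) w
      obtain rfl : q = 17 := (Nat.prime_dvd_prime_iff_eq hq (by norm_num)).1
        (hq.dvd_of_dvd_pow (hi ▸ hqw))
      have hc17 : orderOf ((w : Perm α) ^ (orderOf w / 17)) = 17 := by
        rw [← Subgroup.orderOf_coe w] at hqw ⊢
        exact orderOf_pow_orderOf_div (orderOf_pos _).ne' hqw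
      set c := (w : Perm α) ^ (orderOf w / 17)
      have hcb : c b = b :=
        Perm.pow_apply_eq_self_of_apply_eq_self ((hfix b b).2 rfl w w.2) _
      have hcy : c y = y := Perm.pow_apply_eq_self_of_apply_eq_self hw _
      have h1 := hA c (hle b (pow_mem w.2 _)) hc17
      have h2 : c.support ⊆ (Finset.univ.erase b).erase y := fun z hz => by
        rw [Perm.mem_support] at hz
        simp only [Finset.mem_erase, Finset.mem_univ, and_true]
        exact ⟨fun e => hz (e ▸ hcy), fun e => hz (e ▸ hcb)⟩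
      have h3 := Finset.card_le_card h2
      rw [Finset.card_erase_of_mem (Finset.mem_erase.2 ⟨hy, Finset.mem_univ y⟩),
        Finset.card_erase_of_mem (Finset.mem_univ b), Finset.card_univ, h35] at h3
      rcases support_card_of_orderOf h35 hc17 with h4 | h4
      · exact h1 h4
      · omega
    have h := ncard_orbit_eq_seventeen h35 _ (hp b) hu huy
    rwa [← index_stabilizer, hstab, Subgroup.index_bot] at h
  -- the even part
  set Y := X ⊓ Perm.sign.ker with hY
  have hoddY : ∀ u ∈ X, Odd (orderOf u) → u ∈ Y := by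
    intro u hu hodd
    refine ⟨hu, ?_⟩
    rcases Int.units_eq_one_or (Perm.sign u) with h | h
    · exact h
    · exfalso
      have := congrArg Perm.sign (pow_orderOf_eq_one u)
      rw [map_pow, map_one, h, hodd.neg_one_pow] at this
      exact absurd this (by decide)
  have hgen : ∀ b, ∀ g ∈ Pf b, g ≠ 1 →
      Pf b = Subgroup.zpowers g ∧ orderOf g = 17 ∧ g ∈ Y ∧ ∀ x, g x = x ↔ x = b := by
    intro b g hg hg1
    have ho : orderOf g = 17 := by
      have h1 : orderOf g ∣ 17 := by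
        rw [← hcard17 b, ← Subgroup.orderOf_mk g hg]
        exact orderOf_dvd_natCard _
      rcases (Nat.dvd_prime (by norm_num)).1 h1 with h | h
      · exact absurd (orderOf_eq_one_iff.1 h) hg1
      · exact h
    have heq : Pf b = Subgroup.zpowers g :=
      (Subgroup.eq_of_le_of_card_ge (Subgroup.zpowers_le.2 hg)
        (by rw [hcard17, Nat.card_zpowers, ho])).symm
    refine ⟨heq, ho, hoddY g (hle b hg) (ho ▸ by decide), fun x => ⟨fun h => ?_, ?_⟩⟩
    · refine (hfix b x).1 fun u hu => ?_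
      rw [heq] at hu
      obtain ⟨i, rfl⟩ := Subgroup.mem_zpowers_iff.1 hu
      exact Perm.zpow_apply_eq_self_of_apply_eq_self h i
    · rintro rfl
      exact (hfix x x).2 rfl g hg
  haveI : Fact (Nat.Prime 2) := ⟨Nat.prime_two⟩
  obtain ⟨T⟩ : Nonempty (Sylow 2 Y) := inferInstance
  obtain ⟨b, hb⟩ := T.isPGroup'.nonempty_fixed_point_of_prime_not_dvd_card α
    (by rw [Nat.card_eq_fintype_card, h35]; norm_num)
  have hTb : ∀ t : Y, t ∈ (T : Subgroup Y) → (t : Perm α) b = b := fun t ht => hb ⟨t, ht⟩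
  obtain ⟨g, hgP, hg1⟩ : ∃ g ∈ Pf b, g ≠ 1 := by
    haveI : Nontrivial (Pf b) :=
      Finite.one_lt_card_iff_nontrivial.1 (by rw [hcard17]; norm_num)
    obtain ⟨g, hg⟩ := exists_ne (1 : Pf b)
    exact ⟨g, g.2, fun h => hg (Subtype.ext h)⟩
  obtain ⟨hPg, hog, hgY, hgfix⟩ := hgen b g hgP hg1
  -- the action of the stabilizer on `⟨g⟩`
  set H := Y ⊓ stabilizer (Perm α) b with hH
  have hHN : H ≤ Subgroup.normalizer (Subgroup.zpowers g : Set (Perm α)) := by
    intro h hh
    have key : ∀ h ∈ H, ∀ u ∈ Subgroup.zpowers g, h * u * h⁻¹ ∈ Subgroup.zpowers g := by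
      intro h hh u hu
      rw [← hPg] at hu ⊢
      obtain ⟨i, hi⟩ := IsPGroup.iff_orderOf.1 (hp b) ⟨u, hu⟩
      refine hmem b _ (mul_mem (mul_mem hh.1.1 (hle b hu)) (inv_mem hh.1.1)) ⟨i, ?_⟩ ?_
      · rw [show orderOf (h * u * h⁻¹) = orderOf u from
          orderOf_injective (MulAut.conj h).toMonoidHom (MulAut.conj h).injective u]
        rwa [Subgroup.orderOf_mk] at hi
      · have hhb : h b = b := hh.2
        have hub : u b = b := (hfix b b).2 rfl u hu
        rw [Perm.mul_apply, Perm.mul_apply, Perm.inv_eq_iff_eq.2 hhb.symm, hub, hhb]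
    rw [Subgroup.mem_normalizer_iff]
    intro u
    refine ⟨key h hh u, fun hu => ?_⟩
    simpa [mul_assoc] using key h⁻¹ (inv_mem hh) _ hu
  let φ : H →* MulAut (Subgroup.zpowers g) :=
    (Subgroup.zpowers g).normalizerMonoidHom.comp (Subgroup.inclusion hHN)
  have hker : ∀ h : H, φ h = 1 → Commute (h : Perm α) g := by
    intro h hh
    have := congrArg (fun e => ((e ⟨g, Subgroup.mem_zpowers g⟩ : Subgroup.zpowers g) : Perm α)) hh
    exact mul_inv_eq_iff_eq_mul.1 this
  have hY34 : ∀ h : H, φ h = 1 → (h : Perm α) ^ 17 = 1 := by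
    intro h hh
    have h34 := pow_thirtyFour_eq_one h35 hog hgfix (hker h hh) h.2.2
    refine eq_one_of_involution h35 hog hgfix ((hker h hh).pow_left 17)
      (Perm.pow_apply_eq_self_of_apply_eq_self h.2.2 17) (by rw [← pow_mul]; exact h34) ?_
    rw [map_pow, show Perm.sign (h : Perm α) = 1 from h.2.1.2, one_pow]
  have hkercard : Nat.card φ.ker ∣ 17 := by
    have hle' : φ.ker.map H.subtype ≤ Subgroup.zpowers g := by
      rintro _ ⟨h, hh, rfl⟩
      have h17 := hY34 h hh
      rw [← hPg]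
      obtain ⟨i, -, hi⟩ := (Nat.dvd_prime_pow (by norm_num : Nat.Prime 17)).1
        (show orderOf (h : Perm α) ∣ 17 ^ 1 by simpa using orderOf_dvd_of_pow_eq_one h17)
      exact hmem b _ h.2.1.1 ⟨i, hi⟩ h.2.2
    have := Subgroup.card_dvd_of_le hle'
    rwa [Subgroup.card_map_of_injective H.subtype_injective, Nat.card_zpowers, hog] at this
  have hAut : IsCyclic (MulAut (Subgroup.zpowers g)) ∧
      Nat.card (MulAut (Subgroup.zpowers g)) = 16 := by
    haveI : IsCyclic (Subgroup.zpowers g) := inferInstance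
    have e := IsCyclic.mulAutMulEquiv (Subgroup.zpowers g)
    rw [Nat.card_zpowers, hog] at e
    refine ⟨isCyclic_of_surjective e.symm.toMonoidHom e.symm.surjective, ?_⟩
    rw [Nat.card_congr e.toEquiv, Nat.card_eq_fintype_card, ZMod.card_units]
  have hHcard : Nat.card H ∣ 17 * 16 := by
    rw [← Subgroup.card_mul_index φ.ker, Subgroup.index_ker]
    exact Nat.mul_dvd_mul hkercard (hAut.2 ▸ Subgroup.card_subgroup_dvd_card φ.range)
  -- the Sylow 2-subgroup is cyclic
  have hTcyc : IsCyclic (T : Subgroup Y) := by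
    haveI := hAut.1
    let ι : (T : Subgroup Y) →* H :=
      ((Y.subtype).comp (T : Subgroup Y).subtype).codRestrict H (fun t => ⟨t.1.2, hTb t t.2⟩)
    refine isCyclic_of_injective (φ.comp ι) ((injective_iff_map_eq_one _).2 fun t ht => ?_)
    have h17 : t ^ 17 = 1 := Subtype.ext (Subtype.ext (hY34 (ι t) ht))
    obtain ⟨k, hk⟩ := IsPGroup.iff_orderOf.1 T.isPGroup' t
    have h1 := orderOf_dvd_of_pow_eq_one h17
    rw [hk] at h1
    rw [← orderOf_eq_one_iff, hk]
    exact Nat.eq_one_of_dvd_coprimes ((show Nat.Coprime 2 17 by norm_num).pow_left k) dvd_rfl h1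
  obtain ⟨Z, hZn, hZodd, hZmem⟩ : ∃ Z : Subgroup Y, Z.Normal ∧ Odd (Nat.card Z) ∧
      ∀ y : Y, Odd (orderOf y) → y ∈ Z := by
    by_cases hev : 2 ∣ Nat.card Y
    · have hmin := (Nat.minFac_eq_two_iff (Nat.card Y)).2 hev
      refine ⟨(MonoidHom.transferSylow T (hTcyc.normalizer_le_centralizer hmin)).ker,
        inferInstance, ?_, fun y hy => ?_⟩
      · rw [← Nat.not_even_iff_odd, even_iff_two_dvd]
        exact MonoidHom.not_dvd_card_ker_transferSylow T _
      · rw [MonoidHom.mem_ker, ← orderOf_eq_one_iff]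
        set v := MonoidHom.transferSylow T _ y with hv
        obtain ⟨k, hk⟩ := IsPGroup.iff_orderOf.1 T.isPGroup' v
        have h1 : orderOf v ∣ orderOf y := orderOf_map_dvd _ _
        rw [hk] at h1 ⊢
        exact Nat.eq_one_of_dvd_coprimes ((Nat.coprime_two_left.2 hy).pow_left k) dvd_rfl h1
    · exact ⟨⊤, inferInstance, by
        rw [Subgroup.card_top]; exact Nat.not_even_iff_odd.1 (fun h => hev h.two_dvd),
        fun y _ => Subgroup.mem_top y⟩
  set Z' := Z.map Y.subtype with hZ'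
  have hgZ : g ∈ Z' := ⟨⟨g, hgY⟩, hZmem _ (by rw [Subgroup.orderOf_mk, hog]; decide), rfl⟩
  have hYtr : ∀ a c : α, ∃ y ∈ Y, y a = c := by
    intro a c
    obtain ⟨x, hx, hxac⟩ := htr a c
    rcases Int.units_eq_one_or (Perm.sign x) with h | h
    · exact ⟨x, ⟨hx, h⟩, hxac⟩
    -- an odd element fixing `c` makes up the sign
    by_contra! hno
    obtain ⟨y, hy, hyb⟩ : ∃ y ∈ X, y b = c := htr b c
    have hex : ∀ u ∈ X, u c = c → Perm.sign u = 1 := by
      intro u hu huc
      rcases Int.units_eq_one_or (Perm.sign u) with h' | h'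
      · exact h'
      · exfalso
        exact hno (u * x) ⟨mul_mem hu hx, MonoidHom.mem_ker.2 (by rw [map_mul, h, h']; decide)⟩
          (by rw [Perm.mul_apply, hxac, huc])
    have hidx := index_stabilizer X c
    have horb : (orbit X c).ncard = 35 := by
      rw [show orbit X c = Set.univ from Set.eq_univ_of_forall fun z => by
        obtain ⟨w, hw, hwz⟩ := htr c z
        exact ⟨⟨w, hw⟩, hwz⟩, Set.ncard_univ, Nat.card_eq_fintype_card, h35]
    rw [horb] at hidx
    have hle2 : stabilizer X c ≤ (Perm.sign.comp X.subtype).ker := fun u hu => hex u u.2 hu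
    have h2 := Subgroup.index_dvd_of_le hle2
    rw [hidx, Subgroup.index_ker] at h2
    have hran : (Perm.sign.comp X.subtype).range = ⊤ := by
      rw [eq_top_iff]
      intro s _
      rcases Int.units_eq_one_or s with rfl | rfl
      · exact one_mem _
      · exact ⟨⟨x, hx⟩, h⟩
    rw [hran, Subgroup.card_top, Nat.card_eq_fintype_card, Fintype.card_units_int] at h2
    omega
  -- `Z` is transitive
  have hZconj : ∀ y ∈ Y, ∀ z ∈ Z', y * z * y⁻¹ ∈ Z' := by
    rintro y hy _ ⟨z, hz, rfl⟩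
    exact ⟨⟨y, hy⟩ * z * ⟨y, hy⟩⁻¹, hZn.conj_mem z hz _, rfl⟩
  have hsame : ∀ a c : α, (orbit Z' a).ncard ≤ (orbit Z' c).ncard := by
    intro a c
    obtain ⟨y, hy, hyac⟩ := hYtr a c
    refine Set.ncard_le_ncard_of_injOn (fun u => y u) ?_ (y.injective.injOn) (Set.toFinite _)
    rintro _ ⟨⟨z, hz⟩, rfl⟩
    refine ⟨⟨_, hZconj y hy z hz⟩, ?_⟩
    show (y * z * y⁻¹) c = y (z a)
    rw [Perm.mul_apply, Perm.mul_apply, Perm.inv_eq_iff_eq.2 hyac.symm]
  have h18 : ∀ a : α, 18 ≤ (orbit Z' a).ncard := by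
    intro a
    refine le_trans ?_ (hsame b a)
    obtain ⟨x, hx⟩ : ∃ x, x ≠ b := Fintype.exists_ne_of_one_lt_card (by omega) b
    have hOg : ∀ v, v ≠ b → (orbit (Subgroup.zpowers g) v).ncard = 17 ∧
        orbit (Subgroup.zpowers g) v ⊆ orbit Z' v := fun v hv =>
      ⟨ncard_orbit_eq_seventeen h35 _ (isPGroup_zpowers hog) (Subgroup.mem_zpowers g)
        fun h => hv ((hgfix v).1 h),
      by rintro _ ⟨⟨u, hu⟩, rfl⟩; exact ⟨⟨u, Subgroup.zpowers_le.2 hgZ hu⟩, rfl⟩⟩
    have h17 : 17 ≤ (orbit Z' b).ncard :=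
      le_trans (le_trans (hOg x hx).1.ge (Set.ncard_le_ncard (hOg x hx).2)) (hsame x b)
    obtain ⟨v, hv, hvb⟩ : ∃ v ∈ orbit Z' b, v ≠ b :=
      Set.exists_ne_of_one_lt_ncard (by omega) b
    have hsub : orbit (Subgroup.zpowers g) v ⊆ orbit Z' b := by
      rw [← orbit_eq_iff.2 hv]; exact (hOg v hvb).2
    have hnb : b ∉ orbit (Subgroup.zpowers g) v := by
      rintro ⟨⟨u, hu⟩, hub⟩
      obtain ⟨i, rfl⟩ := Subgroup.mem_zpowers_iff.1 hu
      change (g ^ i) v = b at hub
      exact hvb ((g ^ i).injective (hub.trans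
        (Perm.zpow_apply_eq_self_of_apply_eq_self ((hgfix b).2 rfl) i).symm))
    have h1 := Set.ncard_le_ncard (Set.insert_subset (mem_orbit_self b) hsub)
    rw [Set.ncard_insert_of_notMem hnb, (hOg v hvb).1] at h1
    omega
  have hZtr : (orbit Z' b).ncard = 35 := by
    rw [show orbit Z' b = Set.univ from Set.eq_univ_of_forall fun z => ?_, Set.ncard_univ,
      Nat.card_eq_fintype_card, h35]
    rcases orbit.eq_or_disjoint z b (G := Z') with h | h
    · exact h ▸ mem_orbit_self z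
    · exfalso
      have h1 := Set.ncard_le_ncard (Set.subset_univ (orbit Z' z ∪ orbit Z' b))
      rw [Set.ncard_union_eq h, Set.ncard_univ, Nat.card_eq_fintype_card, h35] at h1
      have := h18 z
      have := h18 b
      omega
  have hZb : Nat.card (stabilizer Z' b) = 17 := by
    have hinj : Function.Injective ((Z'.subtype).comp (stabilizer Z' b).subtype) :=
      Z'.subtype_injective.comp (stabilizer Z' b).subtype_injective
    have hcard := Subgroup.card_map_of_injective (K := (⊤ : Subgroup (stabilizer Z' b))) hinj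
    set W := (⊤ : Subgroup (stabilizer Z' b)).map ((Z'.subtype).comp (stabilizer Z' b).subtype)
    rw [Subgroup.card_top] at hcard
    have hWH : W ≤ H := by
      rintro _ ⟨u, -, rfl⟩
      exact ⟨Subgroup.map_subtype_le Z u.1.2, u.2⟩
    have hdvd : Nat.card W ∣ 17 * 16 := (Subgroup.card_dvd_of_le hWH).trans hHcard
    have h17 : 17 ∣ Nat.card W := by
      have hgW : g ∈ W :=
        ⟨⟨⟨g, hgZ⟩, (hgfix b).2 rfl⟩, Subgroup.mem_top _, rfl⟩
      rw [← hog, ← Subgroup.orderOf_mk g hgW]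
      exact orderOf_dvd_natCard _
    have hodd : Odd (Nat.card W) := by
      refine Odd.of_dvd_nat ?_ (hcard.symm ▸ Subgroup.card_subgroup_dvd_card (stabilizer Z' b))
      rw [hZ', Subgroup.card_map_of_injective Y.subtype_injective]
      exact hZodd
    rw [← hcard]
    refine Nat.dvd_antisymm ?_ h17
    exact Nat.Coprime.dvd_of_dvd_mul_right
      (show Nat.Coprime (Nat.card W) 16 from (Nat.coprime_two_right.2 hodd).pow_right 4) hdvd
  have hZcard : Nat.card Z' = 595 := by
    rw [← Subgroup.card_mul_index (stabilizer Z' b), index_stabilizer, hZtr, hZb]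
  haveI : Fact (Nat.Prime 5) := ⟨by norm_num⟩
  obtain ⟨S⟩ : Nonempty (Sylow 5 Z') := inferInstance
  have hS5 : Nat.card (S : Subgroup Z') = 5 := by
    rw [S.card_eq_multiplicity, hZcard, show (595 : ℕ) = 5 ^ 1 * 119 from rfl,
      Nat.factorization_mul (by norm_num) (by norm_num), Finsupp.add_apply,
      Nat.Prime.factorization_pow (by norm_num), Finsupp.single_eq_same,
      Nat.factorization_eq_zero_of_not_dvd (by norm_num)]
    norm_num
  have hn5 : Nat.card (Sylow 5 Z') = 1 := by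
    have h1 := card_sylow_modEq_one 5 Z'
    have h2 := S.card_dvd_index
    have hidx := Subgroup.card_mul_index (S : Subgroup Z')
    rw [hS5, hZcard] at hidx
    rw [show (S : Subgroup Z').index = 119 by omega] at h2
    have h3 : Nat.card (Sylow 5 Z') ∈ Nat.divisors 119 := Nat.mem_divisors.2 ⟨h2, by norm_num⟩
    generalize Nat.card (Sylow 5 Z') = n at h1 h3
    have h4 : n ∈ ({1, 7, 17, 119} : Finset ℕ) := by
      rw [show Nat.divisors 119 = {1, 7, 17, 119} by decide] at h3; exact h3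
    simp only [Finset.mem_insert, Finset.mem_singleton] at h4
    rcases h4 with rfl | rfl | rfl | rfl <;> revert h1 <;> decide
  haveI : Subsingleton (Sylow 5 Z') := (Nat.card_eq_one_iff_unique.1 hn5).1
  have hSn : (S : Subgroup Z').Normal := Subgroup.normalizer_eq_top_iff.1
    (S.normalizer_eq_top)
  obtain ⟨s, hs⟩ := exists_prime_orderOf_dvd_card' (G := (S : Subgroup Z')) 5 (hS5.symm ▸ dvd_rfl)
  set g' : Z' := ⟨g, hgZ⟩
  have hmemS : g' * (s : Z') * g'⁻¹ ∈ Subgroup.zpowers (s : Z') := by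
    have heq : (S : Subgroup Z') = Subgroup.zpowers (s : Z') :=
      (Subgroup.eq_of_le_of_card_ge (Subgroup.zpowers_le.2 s.2)
        (by rw [hS5, Nat.card_zpowers, Subgroup.orderOf_coe, hs])).symm
    rw [← heq]
    exact hSn.conj_mem _ s.2 g'
  obtain ⟨k, hk⟩ : g' * (s : Z') * g'⁻¹ ∈ Submonoid.powers (s : Z') :=
    mem_powers_iff_mem_zpowers.2 hmemS
  replace hk : (s : Z') ^ k = g' * (s : Z') * g'⁻¹ := hk
  have hiter : ∀ n : ℕ, g' ^ n * (s : Z') * (g' ^ n)⁻¹ = (s : Z') ^ (k ^ n) := by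
    intro n
    induction n with
    | zero => simp
    | succ n ih =>
      rw [pow_succ' g', show g' * g' ^ n * (s : Z') * (g' * g' ^ n)⁻¹ =
        g' * (g' ^ n * (s : Z') * (g' ^ n)⁻¹) * g'⁻¹ by group, ih, ← conj_pow, ← hk, ← pow_mul,
        ← pow_succ']
  have hk1 : (k : ZMod 5) = 1 := by
    have aux : ∀ z : ZMod 5, 1 = z ^ 17 → z = 1 := zmod_five_pow_seventeen
    have h := hiter 17
    rw [show g' ^ 17 = 1 from Subtype.ext (by
      rw [Subgroup.coe_pow, ← hog, pow_orderOf_eq_one]; rfl), one_mul, inv_one, mul_one] at h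
    nth_rewrite 1 [← pow_one (s : Z')] at h
    rw [pow_eq_pow_iff_modEq, Subgroup.orderOf_coe, hs, ← ZMod.natCast_eq_natCast_iff] at h
    push_cast at h
    exact aux _ h
  have hcomm : g' * (s : Z') * g'⁻¹ = (s : Z') := by
    rw [← hk]
    nth_rewrite 2 [← pow_one (s : Z')]
    rw [pow_eq_pow_iff_modEq, Subgroup.orderOf_coe, hs, ← ZMod.natCast_eq_natCast_iff, hk1,
      Nat.cast_one]
  have hsb : (s : Z') ∈ stabilizer Z' b := by
    show ((s : Z') : Perm α) b = b
    rw [← hgfix]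
    have h := congrArg Subtype.val (mul_inv_eq_iff_eq_mul.1 hcomm)
    calc g (((s : Z') : Perm α) b) = ((g' * (s : Z') : Z') : Perm α) b := rfl
      _ = ((s : Z') : Perm α) (g b) := by rw [h]; rfl
      _ = _ := by rw [(hgfix b).2 rfl]
  have h5 : 5 ∣ 17 := by
    rw [← hZb, ← hs, ← Subgroup.orderOf_coe s, ← Subgroup.orderOf_mk (s : Z') hsb]
    exact orderOf_dvd_natCard _
  norm_num at h5

end Perm

/-- No finite group has exactly 35 Sylow `17`-subgroups. -/
theorem card_sylow_seventeen_ne_thirtyFive {G : Type*} [Group G] [Finite G] :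
    Nat.card (Sylow 17 G) ≠ 35 := by
  classical
  intro hcard
  haveI : Fact (Nat.Prime 17) := ⟨by norm_num⟩
  haveI := Fintype.ofFinite (Sylow 17 G)
  rw [Nat.card_eq_fintype_card] at hcard
  set ρ := MulAction.toPermHom G (Sylow 17 G) with hρ
  have hfixQ : ∀ b x : Sylow 17 G, (∀ y ∈ (b : Subgroup G), y • x = x) → x = b := by
    intro b x h
    have hn : (b : Subgroup G) ≤ Subgroup.normalizer ((x : Subgroup G) : Set G) :=
      fun y hy => Sylow.smul_eq_iff_mem_normalizer.1 (h y hy)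
    have hsup := b.isPGroup'.to_sup_of_normal_right' x.isPGroup' hn
    have h1 := b.is_maximal' hsup le_sup_left
    exact Sylow.ext (x.is_maximal' b.isPGroup' (h1 ▸ le_sup_right)).symm
  refine not_thirtyFive_perm hcard ρ.range (fun b => (b : Subgroup G).map ρ)
    (fun b => Subgroup.map_le_range _ _) (fun b => b.isPGroup'.map ρ) ?_ ?_ ?_
  · rintro b u ⟨y, rfl⟩ ⟨i, hi⟩ hub
    obtain ⟨t, m, hm, hG⟩ :=
      Nat.exists_eq_pow_mul_and_not_dvd (Nat.card_pos (α := G)).ne' 17 (by norm_num)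
    obtain ⟨e, he1, he2⟩ := Nat.chineseRemainder
      (((Nat.Prime.coprime_iff_not_dvd (by norm_num)).2 hm).pow_left i) 1 0
    obtain ⟨e', rfl⟩ := Nat.modEq_zero_iff_dvd.1 he2
    have himg : ρ (y ^ (m * e')) = ρ y := by
      rw [map_pow]
      conv_rhs => rw [← pow_one (ρ y)]
      rw [pow_eq_pow_iff_modEq, hi]
      exact he1
    have hp : (y ^ (m * e')) ^ 17 ^ t = 1 := by
      rw [← pow_mul, show m * e' * 17 ^ t = 17 ^ t * m * e' by ring, ← hG, pow_mul,
        pow_card_eq_one', one_pow]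
    have hP : IsPGroup 17 (Subgroup.zpowers (y ^ (m * e'))) := by
      obtain ⟨j, -, hj⟩ := (Nat.dvd_prime_pow (by norm_num : Nat.Prime 17)).1
        (orderOf_dvd_of_pow_eq_one hp)
      exact IsPGroup.of_card (n := j) (by rw [Nat.card_zpowers, hj])
    have hn : Subgroup.zpowers (y ^ (m * e')) ≤
        Subgroup.normalizer ((b : Subgroup G) : Set G) := Subgroup.zpowers_le.2
      (pow_mem (Sylow.smul_eq_iff_mem_normalizer.1 hub) _)
    have hsup := hP.to_sup_of_normal_right' b.isPGroup' hn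
    exact ⟨y ^ (m * e'), (b.is_maximal' hsup le_sup_right).le
      (Subgroup.mem_sup_left (Subgroup.mem_zpowers _)), himg⟩
  · intro b x
    refine ⟨fun h => hfixQ b x fun y hy => h _ ⟨y, hy, rfl⟩, ?_⟩
    rintro rfl _ ⟨y, hy, rfl⟩
    exact Sylow.smul_eq_iff_mem_normalizer.2 (Subgroup.le_normalizer hy)
  · intro a b
    obtain ⟨y, hy⟩ := MulAction.exists_smul_eq G a b
    exact ⟨ρ y, ⟨y, rfl⟩, hy⟩

end Cfsg.Agent.H89
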