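import Cfsg.Agent.H6.Orbits
import Cfsg.Agent.H1.PSLSimple
import Cfsg.Agent.H1.SLTwoElements
import Cfsg.Agent.H89.HallCount

/-!
# Normalizers in `PSL(2,13)` and `SL(2,13)`
-/

namespace Cfsg.Agent.H89.PSLThirteen

open Subgroup
open scoped Pointwise

/-- The facts on `PSL(2,13)` which determine its normalizers. -/
structure Facts (G : Type*) [Group G] : Prop where
  simple : IsSimpleGroup G
  card_eq : Nat.card G = 1092
  no_four : ∀ x : G, orderOf x ≠ 4
  small : ∀ x : G, orderOf x = 2 ∨ orderOf x = 3 → 12 ∣ Nat.card (normalizer (zpowers x : Set G))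
  four : ∀ V : Subgroup G, IsKleinFour V → 12 ∣ Nat.card (normalizer (V : Set G))

variable {G : Type*} [Group G] [Finite G]

/-- A proper subgroup containing a Sylow subgroup `P` of a simple group normalises it, if it cannot
contain all Sylow subgroups. -/
theorem le_normalizer_sylow [IsSimpleGroup G] {p : ℕ} [Fact p.Prime] (P : Sylow p G)
    (hne : (P : Subgroup G) ≠ ⊥) {M : Subgroup G} (hPM : (P : Subgroup G) ≤ M) (hM : M ≠ ⊤)
    (hdiv : ∀ d ∈ (P : Subgroup G).index.divisors, d % p = 1 → d = 1 ∨ Nat.card (Sylow p G) ≤ d) :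
    M ≤ normalizer ((P : Subgroup G) : Set G) := by
  classical
  set PM : Sylow p M := P.subtype hPM
  have hd1 : Nat.card (Sylow p M) ∣ (P : Subgroup G).index := by
    have h1 : Nat.card (Sylow p M) ∣ (PM : Subgroup M).index := PM.card_dvd_index
    refine h1.trans ?_
    rw [Sylow.coe_subtype]
    exact relIndex_dvd_index_of_le hPM
  have hd2 : Nat.card (Sylow p M) % p = 1 := by
    have := card_sylow_modEq_one p M
    rwa [Nat.ModEq, Nat.mod_eq_of_lt (Fact.out : p.Prime).one_lt] at this
  rcases hdiv _ (Nat.mem_divisors.2 ⟨hd1, index_ne_zero_of_finite⟩) hd2 with h1 | h1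
  · haveI : Subsingleton (Sylow p M) := (Nat.card_eq_one_iff_unique.1 h1).1
    have hn : ((P : Subgroup G).subgroupOf M).Normal := by
      rw [← Sylow.coe_subtype P hPM]
      exact Sylow.normal_of_subsingleton _
    exact le_normalizer_of_normal_subgroupOf hPM
  · exfalso
    let f : Sylow p G → Set G := fun S => ((S : Subgroup G) : Set G)
    have hall : ∀ g : G, MulAut.conj g • (P : Subgroup G) ≤ M := by
      have hcard : ∀ S : Sylow p M, Nat.card ((S : Subgroup M).map M.subtype) =
          p ^ (Nat.card G).factorization p := fun S => by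
        rw [card_map_of_injective M.subtype_injective, S.card_eq_multiplicity,
          ← PM.card_eq_multiplicity, Sylow.coe_subtype, Nat.card_congr (subgroupOfEquivOfLe hPM).toEquiv,
          P.card_eq_multiplicity]
      let F : Sylow p M → Sylow p G := fun S => Sylow.ofCard _ (hcard S)
      have hF : Function.Injective F := fun S T h => by
        have h2 := congrArg (fun X : Sylow p G => (X : Subgroup G)) h
        simp only [F, Sylow.coe_ofCard] at h2
        exact Sylow.ext (map_injective M.subtype_injective h2)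
      have hsurj := (hF.bijective_of_nat_card_le h1).2
      intro g
      obtain ⟨S, hS⟩ := hsurj (g • P)
      rw [← Sylow.coe_subgroup_smul, ← hS, Sylow.coe_ofCard]
      exact map_subtype_le _
    have hN : normalClosure ((P : Subgroup G) : Set G) ≤ M := by
      rw [normalClosure, closure_le]
      intro x hx
      obtain ⟨a, ha, hax⟩ := Group.mem_conjugatesOfSet_iff.1 hx
      obtain ⟨g, rfl⟩ := isConj_iff.1 hax
      exact hall g (H20.conj_mem_conj_smul ha)
    rcases (normalClosure_normal (s := ((P : Subgroup G) : Set G))).eq_bot_or_eq_top with h | h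
    · exact hne (le_bot_iff.1 (h ▸ le_normalClosure))
    · exact hM (top_le_iff.1 (h ▸ hN))

variable (hF : Facts G)
include hF

theorem card_sylow {p : ℕ} [Fact p.Prime] (hp : p = 7 ∨ p = 13) (P : Sylow p G) :
    Nat.card (P : Subgroup G) = p ∧ (P : Subgroup G).index = 1092 / p ∧
      Nat.card (Sylow p G) = (if p = 7 then 78 else 14) ∧
      Nat.card (normalizer ((P : Subgroup G) : Set G)) = (if p = 7 then 14 else 78) := by
  haveI := hF.simple
  have hdp : p ∣ 1092 := by rcases hp with rfl | rfl <;> decide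
  have hnd : ¬ p ∣ 1092 / p := by rcases hp with rfl | rfl <;> decide
  have hc : Nat.card (P : Subgroup G) = p := by
    rw [P.card_eq_multiplicity, hF.card_eq]
    conv_lhs => arg 2; rw [show 1092 = p * (1092 / p) from (Nat.mul_div_cancel' hdp).symm]
    rw [Nat.factorization_mul (Fact.out : p.Prime).ne_zero (by rcases hp with rfl | rfl <;> decide),
      Finsupp.add_apply, (Fact.out : p.Prime).factorization_self,
      Nat.factorization_eq_zero_of_not_dvd hnd, add_zero, pow_one]
  have hi : (P : Subgroup G).index = 1092 / p := by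
    have := (P : Subgroup G).card_mul_index
    rw [hc, hF.card_eq] at this
    rw [← this, Nat.mul_div_cancel_left _ (Fact.out : p.Prime).pos]
  have hn1 : Nat.card (Sylow p G) ≠ 1 := fun h => by
    haveI : Subsingleton (Sylow p G) := (Nat.card_eq_one_iff_unique.1 h).1
    rcases (Sylow.normal_of_subsingleton P).eq_bot_or_eq_top with h' | h'
    · rw [h', card_bot] at hc; exact (Fact.out : p.Prime).one_lt.ne hc
    · rw [h', card_top, hF.card_eq] at hc; omega
  have h1 := card_sylow_modEq_one p G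
  rw [Nat.ModEq, Nat.mod_eq_of_lt (Fact.out : p.Prime).one_lt] at h1
  have h2 : Nat.card (Sylow p G) ∈ (1092 / p).divisors :=
    Nat.mem_divisors.2 ⟨hi ▸ P.card_dvd_index, by rcases hp with rfl | rfl <;> decide⟩
  have hn : Nat.card (Sylow p G) = (if p = 7 then 78 else 14) := by
    have key : ∀ d ∈ (1092 / p).divisors, d % p = 1 → d ≠ 1 → d = (if p = 7 then 78 else 14) := by
      rcases hp with rfl | rfl <;> decide
    exact key _ h2 h1 hn1
  refine ⟨hc, hi, hn, ?_⟩
  have h3 := (normalizer ((P : Subgroup G) : Set G)).card_mul_index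
  rw [← show Nat.card (Sylow p G) = (normalizer ((P : Subgroup G) : Set G)).index from
    P.card_eq_index_normalizer, hn, hF.card_eq] at h3
  rcases hp with rfl | rfl <;> simp at h3 ⊢ <;> omega

theorem exists_sylow_le {p : ℕ} [Fact p.Prime] (hp : p = 7 ∨ p = 13) {H : Subgroup G}
    (hd : p ∣ Nat.card H) : ∃ P : Sylow p G, (P : Subgroup G) ≤ H := by
  obtain ⟨x, hx⟩ := exists_prime_orderOf_dvd_card' p hd
  obtain ⟨Q⟩ := (inferInstance : Nonempty (Sylow p G))
  refine ⟨Sylow.ofCard (zpowers (x : G)) ?_, ?_⟩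
  · rw [Nat.card_zpowers, orderOf_coe, hx, ← Q.card_eq_multiplicity, (card_sylow hF hp Q).1]
  · rw [Sylow.coe_ofCard]; exact zpowers_le.2 x.2

theorem le_normalizer_of_sylow {p : ℕ} [Fact p.Prime] (hp : p = 7 ∨ p = 13) (P : Sylow p G)
    {M : Subgroup G} (hPM : (P : Subgroup G) ≤ M) (hM : M ≠ ⊤) :
    M ≤ normalizer ((P : Subgroup G) : Set G) := by
  haveI := hF.simple
  obtain ⟨hc, hi, hn, -⟩ := card_sylow hF hp P
  refine le_normalizer_sylow P (fun h => ?_) hPM hM ?_
  · rw [h, card_bot] at hc; exact (Fact.out : p.Prime).one_lt.ne hc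
  · rw [hi, hn]
    rcases hp with rfl | rfl <;> decide

theorem card_eq_twelve {M : Subgroup G} (hM : M ≠ ⊤) (h12 : 12 ∣ Nat.card M) : Nat.card M = 12 := by
  have hdvd : Nat.card M ∣ 1092 := hF.card_eq ▸ M.card_subgroup_dvd_card
  have hno : ∀ p, (p = 7 ∨ p = 13) → ¬ p ∣ Nat.card M := fun p hp hd => by
    haveI : Fact p.Prime := ⟨by rcases hp with rfl | rfl <;> norm_num⟩
    obtain ⟨P, hP⟩ := exists_sylow_le hF hp hd
    obtain ⟨hc, -, -, hN⟩ := card_sylow hF hp P
    have := h12.trans (card_dvd_of_le (le_normalizer_of_sylow hF hp P hP hM))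
    rw [hN] at this
    rcases hp with rfl | rfl <;> norm_num at this
  have key : ∀ d ∈ Nat.divisors 1092, 12 ∣ d → ¬ 7 ∣ d → ¬ 13 ∣ d → d = 12 := by decide +kernel
  exact key _ (Nat.mem_divisors.2 ⟨hdvd, by norm_num⟩) h12 (hno 7 (Or.inl rfl)) (hno 13 (Or.inr rfl))

theorem normalizer_ne_top {H : Subgroup G} (h1 : H ≠ ⊥) (h2 : H ≠ ⊤) :
    normalizer (H : Set G) ≠ ⊤ := fun h => by
  haveI := hF.simple
  exact (normalizer_eq_top_iff.1 h).eq_bot_or_eq_top.elim h1 h2

theorem centralizer_sylow_thirteen [Fact (Nat.Prime 13)] (P : Sylow 13 G) :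
    centralizer ((P : Subgroup G) : Set G) ≤ P := by
  set C := centralizer ((P : Subgroup G) : Set G)
  obtain ⟨hc, -, -, hN⟩ := card_sylow hF (Or.inr rfl) P
  simp only [show ¬ (13 = 7) by norm_num, if_false] at hN
  have hCd : Nat.card C ∣ 78 := hN ▸ card_dvd_of_le (H20.le_normalizer_of_le_centralizer le_rfl)
  have hPC : (P : Subgroup G) ≤ C := le_centralizer_iff.1 (fun x hx => by
    haveI := isCyclic_of_prime_card hc
    refine mem_centralizer_iff.2 fun y hy => ?_
    exact congrArg Subtype.val (mul_comm' (⟨y, hy⟩ : (P : Subgroup G)) ⟨x, hx⟩))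
  have hno : ∀ r, (r = 2 ∨ r = 3) → ¬ r ∣ Nat.card C := fun r hr hd => by
    haveI : Fact r.Prime := ⟨by rcases hr with rfl | rfl <;> norm_num⟩
    obtain ⟨x, hx⟩ := exists_prime_orderOf_dvd_card' r hd
    rw [← orderOf_coe] at hx
    have hxne : zpowers (x : G) ≠ ⊥ := fun h => by
      have := congrArg (fun H : Subgroup G => Nat.card H) h
      simp only [Nat.card_zpowers, card_bot, hx] at this
      exact (Fact.out : r.Prime).one_lt.ne' this
    have hxtop : zpowers (x : G) ≠ ⊤ := fun h => by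
      have := congrArg (fun H : Subgroup G => Nat.card H) h
      simp only [Nat.card_zpowers, card_top, hx, hF.card_eq] at this
      omega
    have h12 := hF.small x (hr.imp (fun (e : r = 2) => hx.trans e) (fun (e : r = 3) => hx.trans e))
    have h13 : 13 ∣ Nat.card (normalizer (zpowers (x : G) : Set G)) := by
      rw [← hc]
      refine card_dvd_of_le (le_trans (fun y hy => ?_) (H20.le_normalizer_of_le_centralizer le_rfl))
      refine mem_centralizer_iff.2 fun z hz => ?_
      obtain ⟨k, rfl⟩ := mem_zpowers_iff.1 hz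
      exact (Commute.zpow_right (show Commute y (x : G) from mem_centralizer_iff.1 x.2 y hy) k).eq.symm
    have := card_eq_twelve hF (normalizer_ne_top hF hxne hxtop) h12
    omega
  have hC13 : Nat.card C = 13 := by
    have h13 : 13 ∣ Nat.card C := hc ▸ card_dvd_of_le hPC
    have key : ∀ d ∈ Nat.divisors 78, 13 ∣ d → ¬ 2 ∣ d → ¬ 3 ∣ d → d = 13 := by decide
    exact key _ (Nat.mem_divisors.2 ⟨hCd, by norm_num⟩) h13 (hno 2 (Or.inl rfl)) (hno 3 (Or.inr rfl))
  exact (eq_of_le_of_card_ge hPC (by omega)).ge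

omit hF in
theorem normal_of_two_mul {H N : Subgroup G} (hle : H ≤ N) (h : Nat.card N = 2 * Nat.card H) :
    N ≤ normalizer (H : Set G) := by
  have h2 : (H.subgroupOf N).index = 2 := by
    refine Nat.eq_of_mul_eq_mul_left (Nat.card_pos (α := H.subgroupOf N)) ?_
    rw [card_mul_index, Nat.card_congr (subgroupOfEquivOfLe hle).toEquiv, h, mul_comm]
  haveI := normal_of_index_eq_two h2
  exact le_normalizer_of_normal_subgroupOf hle

/-- In `PSL(2,13)` the normalizer of a subgroup which is not normal is maximal. -/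
theorem isCoatom_normalizer (H : Subgroup G) (hH : ¬ H.Normal) :
    IsCoatom (normalizer (H : Set G)) := by
  haveI := hF.simple
  have h1 : H ≠ ⊥ := fun h => hH (h ▸ inferInstance)
  have h2 : H ≠ ⊤ := fun h => hH (h ▸ inferInstance)
  refine ⟨fun h => hH (normalizer_eq_top_iff.1 h), fun M hlt => ?_⟩
  by_contra hM
  apply hlt.not_ge
  set N := normalizer (H : Set G)
  have hNne : N ≠ ⊤ := normalizer_ne_top hF h1 h2
  have hHN : H ≤ N := le_normalizer
  by_cases h13 : 13 ∣ Nat.card H
  · haveI : Fact (Nat.Prime 13) := ⟨by norm_num⟩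
    obtain ⟨P, hP⟩ := exists_sylow_le hF (Or.inr rfl) h13
    refine le_trans (le_normalizer_of_sylow hF (Or.inr rfl) P (hP.trans (hHN.trans hlt.le)) hM) ?_
    have hHP := le_normalizer_of_sylow hF (Or.inr rfl) P hP h2
    haveI : IsCyclic (P : Subgroup G) := isCyclic_of_prime_card (card_sylow hF (Or.inr rfl) P).1
    set NP := normalizer ((P : Subgroup G) : Set G)
    have hcomm : ∀ g ∈ NP, ∀ h ∈ NP, g * h * g⁻¹ * h⁻¹ ∈ (P : Subgroup G) := by
      intro g hg h hh
      refine centralizer_sylow_thirteen hF P (mem_centralizer_iff.2 fun y hy => ?_)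
      obtain ⟨a, ha⟩ : ∃ a : ℤ, ∀ z ∈ (P : Subgroup G), g * z * g⁻¹ = z ^ a := by
        obtain ⟨a, ha⟩ := MonoidHom.map_cyclic
          (((normalizerMonoidHom (H := (P : Subgroup G))) ⟨g, hg⟩).toMonoidHom)
        exact ⟨a, fun z hz => congrArg Subtype.val (ha ⟨z, hz⟩)⟩
      obtain ⟨b, hb⟩ : ∃ b : ℤ, ∀ z ∈ (P : Subgroup G), h * z * h⁻¹ = z ^ b := by
        obtain ⟨a, ha⟩ := MonoidHom.map_cyclic
          (((normalizerMonoidHom (H := (P : Subgroup G))) ⟨h, hh⟩).toMonoidHom)
        exact ⟨a, fun z hz => congrArg Subtype.val (ha ⟨z, hz⟩)⟩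
      have e1 : ∀ z ∈ (P : Subgroup G), (g * h) * z * (g * h)⁻¹ = (h * g) * z * (h * g)⁻¹ := by
        intro z hz
        calc (g * h) * z * (g * h)⁻¹ = g * (h * z * h⁻¹) * g⁻¹ := by group
          _ = z ^ (b * a) := by rw [hb z hz, ← conj_zpow, ha z hz, ← zpow_mul, mul_comm]
          _ = h * (g * z * g⁻¹) * h⁻¹ := by rw [ha z hz, ← conj_zpow, hb z hz, ← zpow_mul]
          _ = _ := by group
      have e2 := e1 _ (H20.inv_conj_mem_of_le_normalizer (le_refl NP) (mul_mem hh hg) hy)
      have e3 : g * h * g⁻¹ * h⁻¹ * y * (g * h * g⁻¹ * h⁻¹)⁻¹ = y := by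
        calc g * h * g⁻¹ * h⁻¹ * y * (g * h * g⁻¹ * h⁻¹)⁻¹
            = (g * h) * ((h * g)⁻¹ * y * (h * g)) * (g * h)⁻¹ := by group
          _ = (h * g) * ((h * g)⁻¹ * y * (h * g)) * (h * g)⁻¹ := e2
          _ = y := by group
      exact (mul_inv_eq_iff_eq_mul.1 e3).symm
    refine le_normalizer_iff.2 fun g hg h hh => ?_
    have := mul_mem (hP (hcomm g hg h (hHP hh))) hh
    simpa [mul_assoc] using this
  by_cases h7 : 7 ∣ Nat.card H
  · haveI : Fact (Nat.Prime 7) := ⟨by norm_num⟩
    obtain ⟨P, hP⟩ := exists_sylow_le hF (Or.inl rfl) h7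
    refine le_trans (le_normalizer_of_sylow hF (Or.inl rfl) P (hP.trans (hHN.trans hlt.le)) hM) ?_
    have hHP := le_normalizer_of_sylow hF (Or.inl rfl) P hP h2
    obtain ⟨-, -, -, hN7⟩ := card_sylow hF (Or.inl rfl) P
    simp only [if_true] at hN7
    have h3 := card_dvd_of_le hHP
    rw [hN7] at h3
    have key : ∀ d ∈ Nat.divisors 14, 7 ∣ d → d = 7 ∨ d = 14 := by decide
    rcases key _ (Nat.mem_divisors.2 ⟨h3, by norm_num⟩) h7 with h | h
    · exact normal_of_two_mul hHP (by omega)
    · exact (eq_of_le_of_card_ge hHP (by omega)).ge.trans hHN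
  have hd : Nat.card H ∈ Nat.divisors 1092 :=
    Nat.mem_divisors.2 ⟨hF.card_eq ▸ H.card_subgroup_dvd_card, by norm_num⟩
  have key : ∀ d ∈ Nat.divisors 1092, ¬ 7 ∣ d → ¬ 13 ∣ d → d ∈ [1, 2, 3, 4, 6, 12] := by decide +kernel
  have hlist := key _ hd h7 h13
  simp only [List.mem_cons, List.not_mem_nil, or_false] at hlist
  have hsmall : ∀ x : G, orderOf x = 2 ∨ orderOf x = 3 → zpowers x ≤ H →
      Nat.card (normalizer (zpowers x : Set G)) = 12 := by
    intro x hx hle
    refine card_eq_twelve hF (normalizer_ne_top hF (fun h => ?_) (fun h => h2 (top_le_iff.1 (h ▸ hle))))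
      (hF.small x hx)
    have := congrArg (fun K : Subgroup G => Nat.card K) h
    simp only [Nat.card_zpowers, card_bot] at this
    omega
  have h12 : 12 ∣ Nat.card N := by
    rcases hlist with h | h | h | h | h | h
    · exact absurd (eq_bot_of_card_eq H h) h1
    · haveI : Fact (Nat.Prime 2) := ⟨Nat.prime_two⟩
      obtain ⟨x, hx⟩ := exists_prime_orderOf_dvd_card' (G := H) 2 (by omega)
      have hz : zpowers (x : G) = H := eq_of_le_of_card_ge (zpowers_le.2 x.2) (by
        rw [Nat.card_zpowers, orderOf_coe, hx, h])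
      have := hF.small x (Or.inl (by rw [orderOf_coe, hx]))
      rwa [hz] at this
    · haveI : Fact (Nat.Prime 3) := ⟨Nat.prime_three⟩
      obtain ⟨x, hx⟩ := exists_prime_orderOf_dvd_card' (G := H) 3 (by omega)
      have hz : zpowers (x : G) = H := eq_of_le_of_card_ge (zpowers_le.2 x.2) (by
        rw [Nat.card_zpowers, orderOf_coe, hx, h])
      have := hF.small x (Or.inr (by rw [orderOf_coe, hx]))
      rwa [hz] at this
    · refine hF.four H ⟨h, ?_⟩
      haveI : Nontrivial H := Finite.one_lt_card_iff_nontrivial.1 (by omega)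
      haveI : Fact (Nat.Prime 2) := ⟨Nat.prime_two⟩
      refine (Monoid.exponent_eq_prime_iff Nat.prime_two).2 fun x hx1 => ?_
      have hdv : orderOf x ∣ 2 ^ 2 := by have := orderOf_dvd_natCard x; rwa [h] at this
      obtain ⟨k, hk, hk'⟩ := (Nat.dvd_prime_pow Nat.prime_two).1 hdv
      interval_cases k
      · exact absurd (orderOf_eq_one_iff.1 hk') hx1
      · simpa using hk'
      · exact absurd (by rw [orderOf_coe, hk']; norm_num) (hF.no_four (x : G))
    · haveI : Fact (Nat.Prime 3) := ⟨Nat.prime_three⟩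
      obtain ⟨x, hx⟩ := exists_prime_orderOf_dvd_card' (G := H) 3 (by omega)
      have hxo : orderOf (x : G) = 3 := by rw [orderOf_coe, hx]
      have hc := hsmall x (Or.inr hxo) (zpowers_le.2 x.2)
      have hxH : H ≤ normalizer (zpowers (x : G) : Set G) :=
        normal_of_two_mul (zpowers_le.2 x.2) (by rw [Nat.card_zpowers, hxo, h])
      exact hc ▸ card_dvd_of_le (normal_of_two_mul hxH (by omega))
    · exact h ▸ card_dvd_of_le hHN
  have hM12 : 12 ∣ Nat.card M := h12.trans (card_dvd_of_le hlt.le)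
  exact (eq_of_le_of_card_ge hlt.le (by
    rw [card_eq_twelve hF hM hM12, card_eq_twelve hF hNne h12])).ge

omit hF in
/-- The facts for `PSL(2,13)`. -/
theorem facts [Fact (Nat.Prime 13)] :
    Facts (Matrix.ProjectiveSpecialLinearGroup (Fin 2) (ZMod 13)) := by
  have hq : Fintype.card (ZMod 13) = 13 := ZMod.card 13
  have hcast : ∀ n : ℕ, 0 < n → n < 13 → (n : ZMod 13) ≠ 0 := fun n h0 h1 e => by
    rw [ZMod.natCast_eq_zero_iff] at e
    have := Nat.le_of_dvd h0 e; omega
  have h2 : (2 : ZMod 13) ≠ 0 := by exact_mod_cast hcast 2 (by norm_num) (by norm_num)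
  have hcard : Nat.card (Matrix.ProjectiveSpecialLinearGroup (Fin 2) (ZMod 13)) = 1092 := by
    rw [H6.card_psl2 hq]; decide
  have hss : ∀ x : Matrix.ProjectiveSpecialLinearGroup (Fin 2) (ZMod 13), x ≠ 1 → ¬ 13 ∣ orderOf x →
      ∃ g : Matrix.SpecialLinearGroup (Fin 2) (ZMod 13), H6.tr g ^ 2 ≠ 4 ∧ H6.π g = x ∧
        orderOf x ∣ Nat.card (H6.tor g) ∧ (Nat.card (H6.tor g) = 6 ∨ Nat.card (H6.tor g) = 7) := by
    intro x hx h13
    obtain ⟨g, rfl⟩ := H6.π_surjective x
    have hns : ¬ H6.IsScal g := fun h => hx (H6.π_eq_one_iff_isScal.2 h)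
    have hcop : Nat.Coprime (orderOf g) 13 := by
      have hd : orderOf g ∣ orderOf (H6.π g) * 2 := by
        refine orderOf_dvd_of_pow_eq_one ?_
        rw [pow_mul]
        have := H6.π_eq_one_iff.1 (by rw [map_pow]; exact pow_orderOf_eq_one (H6.π g) :
          H6.π (g ^ orderOf (H6.π g)) = 1)
        rcases this with e | e <;> rw [e] <;> simp
      refine Nat.Coprime.coprime_dvd_left hd (Nat.Coprime.mul_left ?_ (by norm_num))
      exact ((Fact.out : Nat.Prime 13).coprime_iff_not_dvd.2 h13).symm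
    have ht := H6.ss_of_coprime_order 13 hcop hns
    refine ⟨g, ht, rfl, ?_, ?_⟩
    · rw [← Nat.card_zpowers]; exact card_dvd_of_le (zpowers_le.2 (H6.self_mem_tor g))
    · rcases H6.card_tor_ss hq ht with ⟨-, h⟩ | ⟨-, h⟩
      · exact Or.inl (by rw [h]; decide)
      · exact Or.inr (by rw [h]; decide)
  refine ⟨H1.isSimpleGroup_PSL (Or.inr ⟨2, h2, fun e => hcast 3 (by norm_num) (by norm_num) (by
    norm_num at e ⊢; linear_combination e)⟩), hcard, fun x hx => ?_,
    fun x hx => ?_, fun V hV => ?_⟩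
  · obtain ⟨g, -, -, hd, h | h⟩ := hss x (fun h => by rw [h, orderOf_one] at hx; omega) (by rw [hx]; norm_num)
      <;> (rw [hx, h] at hd; norm_num at hd)
  · obtain ⟨g, ht, rfl, hd, hc⟩ := hss x (fun h => by rw [h, orderOf_one] at hx; omega)
      (by rcases hx with h | h <;> rw [h] <;> norm_num)
    have hc6 : Nat.card (H6.tor g) = 6 := hc.resolve_right fun h => by
      rw [h] at hd; rcases hx with e | e <;> rw [e] at hd <;> norm_num at hd
    have h12 : Nat.card (normalizer ((H6.tor g) : Set (Matrix.ProjectiveSpecialLinearGroup (Fin 2) (ZMod 13)))) = 12 := by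
      rw [H6.normalizer_tor ht, H6.card_torDih ht, hc6]
    rw [← h12]
    haveI := H6.tor_cyclic ht
    refine card_dvd_of_le (le_normalizer_iff.2 fun a ha k hk => ?_)
    obtain ⟨e, he⟩ := MonoidHom.map_cyclic
      (((normalizerMonoidHom (H := H6.tor g)) ⟨a, ha⟩).toMonoidHom)
    have hkt : k ∈ H6.tor g := zpowers_le.2 (H6.self_mem_tor g) hk
    have h1 : a * k * a⁻¹ = k ^ e := congrArg Subtype.val (he ⟨k, hkt⟩)
    rw [h1]; exact zpow_mem hk e
  · rw [H6.card_normalizer_four_three h2 hq (Or.inr rfl) hV]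

end Cfsg.Agent.H89.PSLThirteen
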