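import Mathlib
import Cfsg.Prelude.Def_HallClasses

/-!
Pronormality of a supplement of an abelian normal subgroup.
-/

set_option autoImplicit false

namespace Cfsg.Agent.H89

open Subgroup
open scoped commutatorElement

variable {G : Type*} [Group G]

theorem map_conj_eq_self_of_mem_normalizer {H : Subgroup G} {n : G}
    (hn : n ∈ normalizer (H : Set G)) : H.map (MulAut.conj n).toMonoidHom = H := by
  ext y
  constructor
  · rintro ⟨x, hx, rfl⟩
    exact (mem_normalizer_iff.1 hn x).1 hx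
  · intro hy
    refine ⟨n⁻¹ * y * n, ?_, by simp [mul_assoc]⟩
    have := (mem_normalizer_iff.1 (inv_mem hn) y).1 hy
    rwa [inv_inv] at this

theorem mem_normalizer_of_map_conj_eq {H : Subgroup G} {n : G}
    (h : H.map (MulAut.conj n).toMonoidHom = H) : n ∈ normalizer (H : Set G) := by
  rw [mem_normalizer_iff]
  intro y
  conv_rhs => rw [← h]
  exact (mem_map_iff_mem (MulAut.conj n).injective).symm

theorem map_conj_mul (H : Subgroup G) (a b : G) :
    H.map (MulAut.conj (a * b)).toMonoidHom =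
      (H.map (MulAut.conj b).toMonoidHom).map (MulAut.conj a).toMonoidHom := by
  rw [Subgroup.map_map]
  congr 1
  ext y
  simp [mul_assoc]

/-- A supplement `H` of an abelian normal subgroup `V` is pronormal iff every `H`-invariant
subgroup `U` of `V` is `N_U(H)·[H,U]`. -/
theorem pronormal_supplement_iff (V : Subgroup G) [V.Normal] (hV : IsMulCommutative ↥V)
    (H : Subgroup G) (hHV : H ⊔ V = ⊤) :
    Cfsg.IsPronormal H ↔
      ∀ U : Subgroup G, U ≤ V → (∀ h ∈ H, U.map (MulAut.conj h).toMonoidHom = U) →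
        U = (U ⊓ normalizer (H : Set G)) ⊔ ⁅H, U⁆ := by
  have hc : ∀ a ∈ V, ∀ b ∈ V, a * b = b * a := fun a ha b hb =>
    congrArg Subtype.val (hV.is_comm.comm ⟨a, ha⟩ ⟨b, hb⟩)
  constructor
  · intro hP U hUV hU
    have hUinv : ∀ h ∈ H, ∀ u ∈ U, h * u * h⁻¹ ∈ U := fun h hh u hu =>
      hU h hh ▸ ⟨u, hu, rfl⟩
    have hCU : ⁅H, U⁆ ≤ U := commutator_le.2 fun h hh u hu => by
      rw [commutatorElement_def]; exact mul_mem (hUinv h hh u hu) (inv_mem hu)
    refine le_antisymm (fun u hu => ?_) (sup_le inf_le_left hCU)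
    obtain ⟨x, hx, hxe⟩ := hP u
    set C := ⁅H, U⁆
    have hHC : H ≤ normalizer (C : Set G) := normalizer_commutator_ge_left H U
    have hsub : H ⊔ H.map (MulAut.conj u).toMonoidHom ≤ C ⊔ H := by
      refine sup_le le_sup_right ?_
      rintro _ ⟨h, hh, rfl⟩
      show u * h * u⁻¹ ∈ C ⊔ H
      rw [show u * h * u⁻¹ = ⁅h, u⁆⁻¹ * h by rw [commutatorElement_def]; group]
      exact mul_mem (mem_sup_left (inv_mem (commutator_mem_commutator hh hu))) (mem_sup_right hh)
    have hx' : x ∈ ((C ⊔ H : Subgroup G) : Set G) := hsub hx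
    rw [coe_mul_of_right_le_normalizer_left C H hHC] at hx'
    obtain ⟨c, hc', h, hh, rfl⟩ := hx'
    have hn : c⁻¹ * u ∈ normalizer (H : Set G) := by
      apply mem_normalizer_of_map_conj_eq
      rw [map_conj_mul, hxe, ← map_conj_mul, show c⁻¹ * (c * h) = h by group,
        map_conj_eq_self_of_mem_normalizer (le_normalizer hh)]
    rw [show u = c * (c⁻¹ * u) by group]
    exact mul_mem (mem_sup_right hc') (mem_sup_left ⟨U.mul_mem (U.inv_mem (hCU hc')) hu, hn⟩)
  · intro hcond g
    have hg : g ∈ ((V ⊔ H : Subgroup G) : Set G) := by rw [sup_comm, hHV]; exact mem_top g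
    rw [normal_mul] at hg
    obtain ⟨v, hv, h, hh, rfl⟩ := hg
    have he : H.map (MulAut.conj (v * h)).toMonoidHom = H.map (MulAut.conj v).toMonoidHom := by
      rw [map_conj_mul, map_conj_eq_self_of_mem_normalizer (le_normalizer hh)]
    show ∃ x ∈ H ⊔ H.map (MulAut.conj (v * h)).toMonoidHom,
      H.map (MulAut.conj (v * h)).toMonoidHom = H.map (MulAut.conj x).toMonoidHom
    rw [he]
    set X := H ⊔ H.map (MulAut.conj v).toMonoidHom
    set U := X ⊓ V
    set W := U ⊔ zpowers v
    have hWV : W ≤ V := sup_le inf_le_right (zpowers_le.2 hv)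
    have hUn : ∀ k ∈ H, ∀ u ∈ U, k * u * k⁻¹ ∈ U := fun k hk u hu =>
      ⟨X.mul_mem (X.mul_mem (mem_sup_left hk) hu.1) (X.inv_mem (mem_sup_left hk)),
        (inferInstance : V.Normal).conj_mem _ hu.2 k⟩
    have hkv : ∀ k ∈ H, ⁅k, v⁆ ∈ U := fun k hk =>
      ⟨by rw [show ⁅k, v⁆ = k * (v * k⁻¹ * v⁻¹) by rw [commutatorElement_def]; group]
          exact X.mul_mem (mem_sup_left hk) (mem_sup_right ⟨k⁻¹, H.inv_mem hk, rfl⟩),
        by rw [commutatorElement_def]
           exact V.mul_mem ((inferInstance : V.Normal).conj_mem _ hv k) (V.inv_mem hv)⟩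
    have hWcomm : ⁅H, W⁆ ≤ U := commutator_le.2 fun k hk w hw => by
      let S : Subgroup G :=
        { carrier := {a | a ∈ V ∧ ⁅k, a⁆ ∈ U}
          one_mem' := ⟨one_mem _, by rw [commutatorElement_one_right]; exact one_mem _⟩
          mul_mem' := fun {a b} ha hb => ⟨mul_mem ha.1 hb.1, by
            have e : ⁅k, a * b⁆ = ⁅k, a⁆ * (a * ⁅k, b⁆ * a⁻¹) := by
              simp only [commutatorElement_def]; group
            rw [e, hc a ha.1 _ hb.2.2, mul_inv_cancel_right]
            exact mul_mem ha.2 hb.2⟩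
          inv_mem' := fun {a} ha => ⟨inv_mem ha.1, by
            have e : ⁅k, a⁻¹⁆ = a⁻¹ * ⁅k, a⁆⁻¹ * a⁻¹⁻¹ := by
              simp only [commutatorElement_def]; group
            rw [e, hc _ (inv_mem ha.1) _ (inv_mem ha.2.2), mul_inv_cancel_right]
            exact inv_mem ha.2⟩ }
      have hle : W ≤ S := sup_le (fun u hu => ⟨hu.2, by
        rw [commutatorElement_def]; exact mul_mem (hUn k hk u hu) (inv_mem hu)⟩)
        (zpowers_le.2 ⟨hv, hkv k hk⟩)
      exact (hle hw).2
    have hWinv : ∀ k ∈ H, W.map (MulAut.conj k).toMonoidHom = W := by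
      intro k hk
      have key : ∀ k ∈ H, ∀ w ∈ W, k * w * k⁻¹ ∈ W := fun k hk w hw => by
        rw [show k * w * k⁻¹ = ⁅k, w⁆ * w by rw [commutatorElement_def]; group]
        exact mul_mem (mem_sup_left (hWcomm (commutator_mem_commutator hk hw))) hw
      refine le_antisymm ?_ fun w hw => ⟨k⁻¹ * w * k, ?_, by simp [mul_assoc]⟩
      · rintro _ ⟨w, hw, rfl⟩; exact key k hk w hw
      · simpa using key k⁻¹ (inv_mem hk) w hw
    have hvW : v ∈ ((⁅H, W⁆ ⊔ (W ⊓ normalizer (H : Set G)) : Subgroup G) : Set G) := by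
      rw [sup_comm, ← hcond W hWV hWinv]
      exact mem_sup_right (mem_zpowers v)
    rw [coe_mul_of_right_le_normalizer_left] at hvW
    · obtain ⟨c, hc', n, hn, rfl⟩ := hvW
      refine ⟨c, (hWcomm hc').1, ?_⟩
      rw [map_conj_mul, map_conj_eq_self_of_mem_normalizer hn.2]
    · refine le_trans (fun n hn => ?_) (centralizer_le_normalizer _)
      exact mem_centralizer_iff.2 fun a ha => hc a ((hWcomm ha).2) n (hWV hn.1)

end Cfsg.Agent.H89
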