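import Mathlib
import Cfsg.Prelude.Def_Transfer
import Cfsg.Agent.H19.Cores
import Cfsg.Agent.H19.Frattini
import Cfsg.Agent.H22.Frobenius
import Cfsg.Agent.H22.PResidual
import Cfsg.Agent.H58.FrattiniAction

/-!
Normal `p`-complement via exponents of sections.
-/

set_option autoImplicit false

namespace Cfsg.Agent.H89

open Subgroup
open scoped commutatorElement

theorem exists_orderOf_eq_exponent_of_isPGroup {K : Type*} [Group K] [Finite K] {p : ℕ}
    [Fact p.Prime] (hK : IsPGroup p K) : ∃ k : K, orderOf k = Monoid.exponent K := by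
  obtain ⟨k, hk⟩ := Finite.exists_max (fun x : K => orderOf x)
  refine ⟨k, Nat.dvd_antisymm (Monoid.order_dvd_exponent k)
    (Monoid.exponent_dvd_of_forall_pow_eq_one fun x => orderOf_dvd_iff_pow_eq_one.1 ?_)⟩
  obtain ⟨a, ha⟩ := IsPGroup.iff_orderOf.1 hK x
  obtain ⟨b, hb⟩ := IsPGroup.iff_orderOf.1 hK k
  have := hk x
  rw [ha, hb] at this
  rw [ha, hb]
  exact pow_dvd_pow p ((Nat.pow_le_pow_iff_right (Fact.out : p.Prime).one_lt).1 this)

/-- With a normal `p`-complement and trivial `O_{p'}`, the group is a `p`-group. -/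
theorem isPGroup_of_npc_of_pPrimeCore {K : Type*} [Group K] [Finite K] {p : ℕ} [Fact p.Prime]
    (h : Cfsg.HasNormalPComplement p K) (h0 : Cfsg.pPrimeCore p K = ⊥) : IsPGroup p K := by
  obtain ⟨P, N, hN, hc⟩ := h
  have hNP : (Nat.card N).Coprime p := by
    have := hc.card_mul
    rw [Nat.coprime_comm, Nat.Prime.coprime_iff_not_dvd Fact.out]
    intro hd
    apply P.not_dvd_index
    have h2 := card_mul_index (P : Subgroup K)
    rw [← this, mul_comm (Nat.card N)] at h2
    exact (Nat.eq_of_mul_eq_mul_left Nat.card_pos h2).symm ▸ hd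
  have hN0 : N = ⊥ := le_bot_iff.1 (h0 ▸ H19.le_pPrimeCore hN hNP)
  have htop : (P : Subgroup K) = ⊤ := by
    rw [← hc.sup_eq_top, hN0, bot_sup_eq]
  exact (htop ▸ P.isPGroup' : IsPGroup p (⊤ : Subgroup K)).of_equiv Subgroup.topEquiv

/-- If an element `y` of prime order `q` acts nontrivially on an abelian `p`-group and trivially
on all proper invariant subgroups, then it fixes only the identity. -/
theorem fixed_eq_one_of_minimal {V : Type*} [CommGroup V] [Finite V] {p q : ℕ} [Fact p.Prime]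
    [Fact q.Prime] (hpq : q ≠ p) (hV : IsPGroup p V) (σ : MulAut V) (hσ : σ ^ q = 1)
    (hne : σ ≠ 1)
    (hmin : ∀ W : Subgroup V, W ≠ ⊤ → (∀ w ∈ W, σ w ∈ W) → ∀ w ∈ W, σ w = w)
    (v : V) (hv : σ v = v) : v = 1 := by
  have hcop : ∀ w : V, w ^ q = 1 → w = 1 := by
    intro w hw
    obtain ⟨k, hk⟩ := hV w
    exact orderOf_eq_one_iff.1 (Nat.eq_one_of_dvd_coprimes
      ((Nat.coprime_primes Fact.out Fact.out).2 hpq |>.pow_right k)
      (orderOf_dvd_of_pow_eq_one hw) (orderOf_dvd_of_pow_eq_one hk))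
  let N : V →* V :=
    { toFun := fun w => ∏ i ∈ Finset.range q, (σ ^ i) w
      map_one' := by simp
      map_mul' := fun a b => by simp only [map_mul, Finset.prod_mul_distrib] }
  have hfix : ∀ (w : V) (i : ℕ), σ w = w → (σ ^ i) w = w := by
    intro w i hw
    induction i with
    | zero => rfl
    | succ i ih => rw [pow_succ, MulAut.mul_apply, hw, ih]
  have hNσ : ∀ w, N (σ w) = N w := fun w => by
    have hq : q = (q - 1) + 1 := (Nat.succ_pred_eq_of_pos (Fact.out : q.Prime).pos).symm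
    show ∏ i ∈ Finset.range q, (σ ^ i) (σ w) = ∏ i ∈ Finset.range q, (σ ^ i) w
    have h1 : (σ ^ (q - 1)) (σ w) = w := by
      rw [← MulAut.mul_apply, ← pow_succ, ← hq, hσ]; rfl
    rw [hq, Finset.prod_range_succ, Finset.prod_range_succ', h1]
    simp only [pow_succ, pow_zero, MulAut.mul_apply, MulAut.one_apply, one_mul]
  by_cases hM : N.ker = ⊤
  · refine hcop v ?_
    have : N v = 1 := MonoidHom.mem_ker.1 (hM ▸ mem_top v)
    rw [← this]
    show v ^ q = ∏ i ∈ Finset.range q, (σ ^ i) v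
    rw [Finset.prod_congr rfl fun i _ => hfix v i hv, Finset.prod_const, Finset.card_range]
  · exfalso
    refine hne (MulEquiv.ext fun w => ?_)
    have hd : σ (w⁻¹ * σ w) = w⁻¹ * σ w := hmin _ hM
      (fun u hu => by rw [MonoidHom.mem_ker] at hu ⊢; rw [hNσ, hu]) _
      (by rw [MonoidHom.mem_ker, map_mul, hNσ, map_inv, inv_mul_cancel])
    set d := w⁻¹ * σ w with hd'
    have hpw : ∀ i : ℕ, (σ ^ i) w = w * d ^ i := by
      intro i
      induction i with
      | zero => simp
      | succ i ih =>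
        rw [pow_succ', MulAut.mul_apply, ih, map_mul, map_pow, hd, pow_succ', ← mul_assoc,
          hd', mul_inv_cancel_left]
    have h2 := hpw q
    rw [hσ, MulAut.one_apply] at h2
    have hd1 : d = 1 := hcop d (mul_left_cancel (h2.symm.trans (mul_one w).symm))
    have h3 := hpw 1
    rw [hd1, one_pow, mul_one, pow_one] at h3
    exact h3

variable {G : Type*} [Group G]

/-- A group with normal `p`-complement: every `p'`-reduced section has an element of exponent
order; and conversely. -/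
theorem hasNormalPComplement_iff_sections [Finite G] (p : ℕ) [Fact p.Prime] :
    Cfsg.HasNormalPComplement p G ↔
      ∀ (H : Subgroup G) (N : Subgroup H) [N.Normal], Cfsg.pPrimeCore p (H ⧸ N) = ⊥ →
        ∃ k : H ⧸ N, orderOf k = Monoid.exponent (H ⧸ N) := by
  constructor
  · intro h H N _ h0
    exact exists_orderOf_eq_exponent_of_isPGroup (isPGroup_of_npc_of_pPrimeCore
      (H22.hasNormalPComplement_of_surjective (QuotientGroup.mk' N)
        (QuotientGroup.mk'_surjective N) (H22.hasNormalPComplement_subgroup H h)) h0)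
  intro h
  refine H22.hasNormalPComplement_of_frobenius fun D hD g hg hgp => ?_
  by_contra hgC
  classical
  -- choose a minimal bad pair
  let bad := fun n : ℕ => ∃ (D : Subgroup G) (y : G), IsPGroup p D ∧
    y ∈ normalizer (D : Set G) ∧ (orderOf y).Coprime p ∧ y ∉ centralizer (D : Set G) ∧
    Nat.card D = n
  have hbad : ∃ n, bad n := ⟨_, D, g, hD, hg, hgp, hgC, rfl⟩
  obtain ⟨D, y₀, hD, hy₀, hy₀p, hy₀C, hDn⟩ := Nat.find_spec hbad
  have hDmin : ∀ (E : Subgroup G), E < D → ∀ y : G, y ∈ normalizer (E : Set G) →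
      (orderOf y).Coprime p → y ∈ centralizer (E : Set G) := by
    intro E hE y hy hyp
    by_contra hyC
    have hlt : Nat.card E < Nat.find hbad := hDn ▸
      (card_le_of_le hE.le).lt_of_ne (fun e => hE.ne (eq_of_le_of_card_ge hE.le e.ge))
    exact Nat.find_min hbad hlt ⟨E, y, hD.to_le hE.le, hy, hyp, hyC, rfl⟩
  obtain ⟨y, ⟨hy, hyp, hyC⟩, hymin⟩ := WellFounded.has_min
    (InvImage.wf (fun y : G => orderOf y) wellFounded_lt)
    {y : G | y ∈ normalizer (D : Set G) ∧ (orderOf y).Coprime p ∧ y ∉ centralizer (D : Set G)}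
    ⟨y₀, hy₀, hy₀p, hy₀C⟩
  have hy1 : y ≠ 1 := by rintro rfl; exact hyC (one_mem _)
  -- `y ^ m` centralises `D` for each prime divisor `m` of the order of `y`
  have hpow : ∀ m : ℕ, m.Prime → m ∣ orderOf y → y ^ m ∈ centralizer (D : Set G) := by
    intro m hm hmy
    by_contra hc
    refine hymin (y ^ m) ⟨pow_mem hy m, hyp.coprime_dvd_left (orderOf_pow_dvd m), hc⟩ ?_
    show orderOf (y ^ m) < orderOf y
    rw [orderOf_pow_of_dvd hm.ne_zero hmy]
    exact Nat.div_lt_self (orderOf_pos y) hm.one_lt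
  obtain ⟨q, hq, hqy⟩ := Nat.exists_prime_and_dvd (mt orderOf_eq_one_iff.1 hy1)
  haveI := Fact.mk hq
  have hqp : q ≠ p := fun e => hq.ne_one (Nat.eq_one_of_dvd_coprimes hyp hqy (e ▸ dvd_rfl))
  -- the section
  set H := D ⊔ zpowers y with hH
  set Φ := (frattini ↥D).map D.subtype with hΦ
  set z := y ^ q with hz
  have hzC : z ∈ centralizer (D : Set G) := hpow q hq hqy
  have hΦD : Φ ≤ D := map_subtype_le _
  have hyD : ∀ d ∈ D, y * d * y⁻¹ ∈ D := fun d hd => (mem_normalizer_iff.1 hy d).1 hd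
  have hDH : H ≤ normalizer (D : Set G) := sup_le le_normalizer (zpowers_le.2 hy)
  have hΦn : H ≤ normalizer (Φ : Set G) := by
    refine hDH.trans fun g hg => ?_
    have key : ∀ g ∈ normalizer (D : Set G), ∀ x ∈ Φ, g * x * g⁻¹ ∈ Φ := by
      rintro g hg _ ⟨x, hx, rfl⟩
      refine ⟨D.normalizerMonoidHom ⟨g, hg⟩ x, ?_, rfl⟩
      exact ((characteristic_iff_map_eq.1 (inferInstance : (frattini ↥D).Characteristic)) _).le
        ⟨x, hx, rfl⟩
    rw [mem_normalizer_iff]
    intro x
    refine ⟨key g hg x, fun hx => ?_⟩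
    simpa [mul_assoc] using key g⁻¹ (inv_mem hg) _ hx
  have hHz : H ≤ centralizer ({z} : Set G) := by
    refine sup_le (fun d hd => ?_) (zpowers_le.2 ?_)
    · rw [mem_centralizer_singleton_iff]
      exact mem_centralizer_iff.1 hzC d hd
    · rw [mem_centralizer_singleton_iff, hz]
      exact ((Commute.refl y).pow_right q).eq
  set N₀ := Φ ⊔ zpowers z with hN₀
  have hN₀n : H ≤ normalizer (N₀ : Set G) := by
    refine le_trans (le_inf hΦn ?_) (normalizer_inf_normalizer_le_normalizer_sup _ _)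
    refine hHz.trans ?_
    rw [← centralizer_closure, ← zpowers_eq_closure]
    exact centralizer_le_normalizer _
  haveI hNn : (N₀.subgroupOf H).Normal := by
    refine ⟨fun n hn g => ?_⟩
    rw [mem_subgroupOf] at hn ⊢
    push_cast
    exact (mem_normalizer_iff.1 (hN₀n g.2) _).1 hn
  have hND : ∀ d ∈ D, d ∈ N₀ → d ∈ Φ := by
    intro d hd hdN
    have : d ∈ ((Φ ⊔ zpowers z : Subgroup G) : Set G) := hdN
    rw [coe_mul_of_right_le_normalizer_left Φ (zpowers z) ((zpowers_le.2 (pow_mem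
      (mem_sup_right (mem_zpowers y)) q)).trans hΦn)] at this
    obtain ⟨f, hf, w, hw, rfl⟩ := this
    have hwD : w ∈ D := (D.mul_mem_cancel_left (hΦD hf)).1 hd
    obtain ⟨k, hk⟩ := hD ⟨w, hwD⟩
    have hw1 : w = 1 := orderOf_eq_one_iff.1 (Nat.eq_one_of_dvd_coprimes (hyp.pow_right k)
      ((orderOf_dvd_of_mem_zpowers hw).trans (orderOf_pow_dvd q))
      (orderOf_dvd_of_pow_eq_one (by simpa using congrArg Subtype.val hk)))
    simpa [hw1] using hf
  set K := ↥H ⧸ N₀.subgroupOf H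
  set π := QuotientGroup.mk' (N₀.subgroupOf H)
  set V : Subgroup K := (D.subgroupOf H).map π with hV
  haveI hDHn : (D.subgroupOf H).Normal := by
    refine ⟨fun n hn g => ?_⟩
    rw [mem_subgroupOf] at hn ⊢
    push_cast
    exact (mem_normalizer_iff.1 (hDH g.2) _).1 hn
  haveI hVn : V.Normal := hDHn.map _ (QuotientGroup.mk'_surjective _)
  have hVp : IsPGroup p V := ((hD.comap_of_injective H.subtype H.subtype_injective)).map π
  have hfr := H19.commutator_pow_mem_frattini hD
  have hVc : ∀ u ∈ V, ∀ w ∈ V, u * w = w * u := by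
    rintro _ ⟨u, hu, rfl⟩ _ ⟨w, hw, rfl⟩
    rw [← map_mul, ← map_mul]
    apply (QuotientGroup.eq).2
    rw [mem_subgroupOf]
    refine mem_sup_left ⟨⁅(⟨(w : G), hw⟩ : ↥D)⁻¹, (⟨(u : G), hu⟩ : ↥D)⁻¹⁆,
      hfr.1 (commutator_mem_commutator (mem_top _) (mem_top _)), ?_⟩
    simp only [commutatorElement_def, Subgroup.coe_subtype, Subgroup.coe_mul, Subgroup.coe_inv]
    group
  set Y : K := π ⟨y, mem_sup_right (mem_zpowers y)⟩ with hY
  have hYq : Y ^ q = 1 := by
    rw [hY, ← map_pow]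
    exact (QuotientGroup.eq_one_iff _).2
      (mem_subgroupOf.2 (mem_sup_right (mem_zpowers z)))
  have hgen : V ⊔ zpowers Y = ⊤ := by
    rw [eq_top_iff]
    rintro k -
    obtain ⟨⟨x, hx⟩, rfl⟩ := QuotientGroup.mk'_surjective _ k
    have hle : H ≤ ((V ⊔ zpowers Y).comap π).map H.subtype := by
      refine sup_le (fun d hd => ?_) (zpowers_le.2 ?_)
      · exact ⟨⟨d, mem_sup_left hd⟩, mem_sup_left ⟨⟨d, mem_sup_left hd⟩, hd, rfl⟩, rfl⟩
      · exact ⟨⟨y, mem_sup_right (mem_zpowers y)⟩, mem_sup_right (mem_zpowers Y), rfl⟩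
    obtain ⟨x', hx', e⟩ := hle hx
    have e' : x' = ⟨x, hx⟩ := Subtype.ext e
    exact e' ▸ hx'
  have hVcomm : IsMulCommutative ↥V := ⟨⟨fun u w => Subtype.ext (hVc u u.2 w w.2)⟩⟩
  letI : CommGroup ↥V :=
    { (inferInstance : Group ↥V) with mul_comm := fun u w => Subtype.ext (hVc u u.2 w w.2) }
  set σ : MulAut ↥V := MulAut.conjNormal Y with hσ
  have hσne : σ ≠ 1 := by
    intro e
    apply hyC
    have hey := H58.aut_eq_one_of_trivial_mod_frattini hD hqp
      (D.normalizerMonoidHom ⟨y, hy⟩) ?_ ?_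
    · refine mem_centralizer_iff.2 fun d hd => ?_
      exact (mul_inv_eq_iff_eq_mul.1 (congrArg Subtype.val (hey ⟨d, hd⟩))).symm
    · rw [← map_pow, ← MonoidHom.mem_ker, normalizerMonoidHom_ker, mem_subgroupOf]
      exact hzC
    · intro d
      have hd : (⟨d, mem_sup_left d.2⟩ : ↥H) ∈ D.subgroupOf H := d.2
      have h1 := congrArg Subtype.val (DFunLike.congr_fun e ⟨π ⟨d, mem_sup_left d.2⟩, _, hd, rfl⟩)
      rw [hσ, MulAut.conjNormal_apply, MulAut.one_apply, hY, ← map_inv, ← map_mul, ← map_mul] at h1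
      have h2 := mem_subgroupOf.1 (QuotientGroup.eq.1 h1.symm)
      obtain ⟨w, hw, hwe⟩ := hND _ (mul_mem (inv_mem d.2) (hyD d d.2)) (by
        simpa [mul_assoc] using h2)
      have : d⁻¹ * (D.normalizerMonoidHom ⟨y, hy⟩) d = w := by
        apply Subtype.ext
        simp only [Subgroup.coe_subtype] at hwe
        rw [hwe]
        rfl
      rw [this]
      exact hw
  have hmin : ∀ W : Subgroup ↥V, W ≠ ⊤ → (∀ w ∈ W, σ w ∈ W) → ∀ w ∈ W, σ w = w := by
    intro W hW hWinv w hw
    set E := D ⊓ ((W.map V.subtype).comap π).map H.subtype with hE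
    have hED : E < D := by
      refine lt_of_le_of_ne inf_le_left fun e => hW ?_
      rw [eq_top_iff]
      rintro ⟨_, d, hd, rfl⟩ -
      have hd' : (d : G) ∈ E := e.symm ▸ hd
      obtain ⟨-, d', ⟨v', hv', hv'e⟩, hd''⟩ := hd'
      have : d' = d := Subtype.ext hd''
      subst this
      have : v' = ⟨π d', d', hd, rfl⟩ := Subtype.ext hv'e
      exact this ▸ hv'
    have hyE : y ∈ normalizer (E : Set G) := by
      have key : E ≤ E.comap (MulAut.conj y).toMonoidHom := by
        rintro x ⟨hxD, x', ⟨v', hv', hv'e⟩, rfl⟩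
        refine ⟨hyD _ hxD,
          ⟨y, mem_sup_right (mem_zpowers y)⟩ * x' * ⟨y, mem_sup_right (mem_zpowers y)⟩⁻¹,
          ⟨σ v', hWinv v' hv', ?_⟩, rfl⟩
        simp only [Subgroup.coe_subtype] at hv'e ⊢
        rw [map_mul, map_mul, map_inv, ← hv'e, hσ, MulAut.conjNormal_apply]
      have : E.map (MulAut.conj y).toMonoidHom = E := by
        refine eq_of_le_of_card_ge (map_le_iff_le_comap.2 key) ?_
        rw [card_map_of_injective (MulAut.conj y).injective]
      rw [mem_normalizer_iff]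
      intro x
      conv_rhs => rw [← this]
      exact (mem_map_iff_mem (MulAut.conj y).injective).symm
    obtain ⟨v, d, hd, rfl⟩ : ∃ (v : ↥V) (d : ↥H) (hd : d ∈ D.subgroupOf H),
        w = ⟨π d, d, hd, rfl⟩ := by
      obtain ⟨d, hd, e⟩ := w.2
      exact ⟨w, d, hd, Subtype.ext e.symm⟩
    have hdE : (d : G) ∈ E := ⟨hd, d, ⟨_, hw, rfl⟩, rfl⟩
    have hcomm := mem_centralizer_iff.1 (hDmin E hED y hyE hyp) _ hdE
    apply Subtype.ext
    rw [hσ, MulAut.conjNormal_apply, hY, ← map_inv, ← map_mul, ← map_mul]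
    congr 1
    apply Subtype.ext
    push_cast
    exact mul_inv_eq_iff_eq_mul.2 hcomm.symm
  have hfix : ∀ x ∈ V, Y * x = x * Y → x = 1 := by
    intro x hx hxY
    have := fixed_eq_one_of_minimal (p := p) (q := q) hqp hVp σ
      (by rw [hσ, ← map_pow, hYq, map_one]) hσne hmin ⟨x, hx⟩
      (Subtype.ext (by rw [hσ, MulAut.conjNormal_apply]; exact mul_inv_eq_iff_eq_mul.2 hxY))
    exact congrArg Subtype.val this
  have hY1 : Y ≠ 1 := fun e => hσne (by rw [hσ, e, map_one])
  have hVcop : ∀ x ∈ V, (orderOf x).Coprime p → x = 1 := by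
    intro x hx hxp
    obtain ⟨k, hk⟩ := hVp ⟨x, hx⟩
    exact orderOf_eq_one_iff.1 (Nat.eq_one_of_dvd_coprimes (hxp.pow_right k) dvd_rfl
      (orderOf_dvd_of_pow_eq_one (by simpa using congrArg Subtype.val hk)))
  -- an element outside `V` generates `K` together with `V`
  have hdecomp : ∀ k : K, k ∉ V → ∃ v ∈ V, ∃ j : ℤ, Y = (v * k) ^ j := by
    intro k hk
    have : k ∈ ((V ⊔ zpowers Y : Subgroup K) : Set K) := hgen ▸ mem_top k
    rw [normal_mul] at this
    obtain ⟨v, hv, w, hw, rfl⟩ := this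
    refine ⟨v⁻¹, inv_mem hv, ?_⟩
    simp only [inv_mul_cancel_left]
    have hw1 : w ≠ 1 := fun e => hk (by simpa [e] using hv)
    have hoY : orderOf Y = q := orderOf_eq_prime hYq hY1
    have : zpowers w = zpowers Y := by
      refine eq_of_le_of_card_ge (zpowers_le.2 hw) ?_
      rw [Nat.card_zpowers, Nat.card_zpowers, hoY,
        orderOf_eq_prime (orderOf_dvd_iff_pow_eq_one.1
          ((orderOf_dvd_of_mem_zpowers hw).trans hoY.dvd)) hw1]
    obtain ⟨j, hj⟩ := mem_zpowers_iff.1 (this.symm ▸ mem_zpowers Y : Y ∈ zpowers w)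
    exact ⟨j, hj.symm⟩
  have hcent : ∀ k : K, k ∉ V → ∀ x ∈ V, k * x = x * k → Y * x = x * Y := by
    intro k hk x hx hkx
    obtain ⟨v, hv, j, hj⟩ := hdecomp k hk
    rw [hj]
    exact ((Commute.mul_left (hVc v hv x hx) hkx).zpow_left j).eq
  have h0 : Cfsg.pPrimeCore p K = ⊥ := by
    rw [eq_bot_iff]
    intro k hk
    haveI := H19.pPrimeCore_normal p K
    by_contra hk1
    have hkp : (orderOf k).Coprime p :=
      (H19.pPrimeCore_coprime p).coprime_dvd_left ((Subgroup.orderOf_mk k hk).symm.dvd.trans (orderOf_dvd_natCard _))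
    have hkV : k ∉ V := fun hh => hk1 (hVcop k hh hkp)
    apply hσne
    ext ⟨x, hx⟩
    rw [hσ, MulAut.conjNormal_apply, MulAut.one_apply]
    refine mul_inv_eq_iff_eq_mul.2 (hcent k hkV x hx ?_)
    have : Disjoint V (Cfsg.pPrimeCore p K) := by
      rw [disjoint_iff]
      exact H19.inf_eq_bot_of_isPGroup_coprime hVp (H19.pPrimeCore_coprime p)
    exact (commute_of_normal_of_disjoint V _ hVn inferInstance this x k hx hk).eq.symm
  obtain ⟨k, hk⟩ := h H (N₀.subgroupOf H) h0
  obtain ⟨x, hx, hx1⟩ : ∃ x ∈ V, x ≠ 1 := by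
    by_contra! hh
    exact hσne (MulEquiv.ext fun v => by
      have : v = 1 := Subtype.ext (hh v v.2)
      rw [this, map_one, map_one])
  have hpd : p ∣ Monoid.exponent K := by
    obtain ⟨i, hi⟩ := IsPGroup.iff_orderOf.1 hVp ⟨x, hx⟩
    have hi0 : i ≠ 0 := fun e => hx1 (by
      rw [e, pow_zero, orderOf_eq_one_iff] at hi
      exact congrArg Subtype.val hi)
    exact ((dvd_pow_self p hi0).trans (hi ▸ (Subgroup.orderOf_coe _).symm.dvd)).trans
      (Monoid.order_dvd_exponent x)
  have hqd : q ∣ Monoid.exponent K := orderOf_eq_prime hYq hY1 ▸ Monoid.order_dvd_exponent Y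
  rw [← hk] at hpd hqd
  set a := k ^ (orderOf k / p) with ha
  set b := k ^ (orderOf k / q) with hb
  have hoa : orderOf a = p := orderOf_pow_orderOf_div (orderOf_pos k).ne' hpd
  have hob : orderOf b = q := orderOf_pow_orderOf_div (orderOf_pos k).ne' hqd
  have haV : a ∈ V := by
    by_contra haV
    obtain ⟨v, hv, j, hj⟩ := hdecomp a haV
    have hmod : ∀ u : K, u ^ q ∈ V := by
      intro u
      have hu : u ∈ ((V ⊔ zpowers Y : Subgroup K) : Set K) := hgen ▸ mem_top u
      rw [normal_mul] at hu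
      obtain ⟨v', hv', w, hw, rfl⟩ := hu
      rw [← QuotientGroup.eq_one_iff]
      obtain ⟨m, rfl⟩ := mem_zpowers_iff.1 hw
      rw [QuotientGroup.mk_pow, QuotientGroup.mk_mul, (QuotientGroup.eq_one_iff v').2 hv', one_mul,
        ← QuotientGroup.mk_pow, ← zpow_natCast, ← zpow_mul, mul_comm, zpow_mul, zpow_natCast, hYq,
        one_zpow, QuotientGroup.mk_one]
    refine haV ((zpowers_le.2 (hmod a)) ?_)
    exact mem_zpowers_pow_iff.2 (hoa.symm ▸ (Nat.coprime_primes Fact.out hq).2 hqp.symm |>.symm)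
  have hbV : b ∉ V := fun hh => hq.ne_one (hob ▸ orderOf_eq_one_iff.2 (hVcop b hh
    (hob.symm ▸ (Nat.coprime_primes hq Fact.out).2 hqp)))
  have hab : b * a = a * b := ((Commute.refl k).pow_pow _ _).eq
  have := hfix a haV (hcent b hbV a haV hab)
  rw [this, orderOf_one] at hoa
  exact (Fact.out : p.Prime).ne_one hoa.symm

end Cfsg.Agent.H89
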