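import Mathlib

/-!
# The summation identity for splitting cosets

If every element of the coset `R * x` (with `x` normalising `R`) and every product of such an
element with an element of the abelian normal subgroup `V` has order dividing `p`, then `R`
centralises all `|R|`-th powers in `V`.
-/

namespace Cfsg.Agent.H89

open scoped IsMulCommutative

variable {G : Type*} [Group G] {V : Subgroup G} [V.Normal]

/-- `(v * y) ^ n` as a product of conjugates times `y ^ n`. -/
theorem mul_pow_eq_prod_conj [IsMulCommutative V] (v : V) (y : G) (n : ℕ) :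
    ((v : G) * y) ^ n = ((∏ j ∈ Finset.range n, MulAut.conjNormal (y ^ j) v : V) : G) * y ^ n := by
  induction n with
  | zero => simp
  | succ n ih =>
    rw [pow_succ, ih, Finset.prod_range_succ, Subgroup.coe_mul, MulAut.conjNormal_apply, pow_succ]
    group

/-- The identity behind Kegel's theorem. -/
theorem commute_pow_card_of_splitting [IsMulCommutative V] (R : Subgroup G) [Finite R]
    {x : G} (hx : x ∈ Subgroup.normalizer (R : Set G)) {p : ℕ} (hp : p.Prime)
    (hR : ∀ n ∈ R, (n * x) ^ p = 1) (hVR : ∀ v ∈ V, ∀ n ∈ R, (v * (n * x)) ^ p = 1)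
    {v : G} (hv : v ∈ V) {n : G} (hn : n ∈ R) : Commute n (v ^ Nat.card R) := by
  classical
  haveI := Fintype.ofFinite R
  -- `S w` is fixed by `R`
  set S : V → V := fun w => ∏ m : R, MulAut.conjNormal (m : G) w
  have hS : ∀ (w : V) (r : R), MulAut.conjNormal (r : G) (S w) = S w := fun w r => by
    simp only [S, map_prod, ← MulAut.mul_apply, ← map_mul]
    exact Fintype.prod_equiv (Equiv.mulLeft r) _ _ (fun m => by simp)
  have hterm : ∀ j, 0 < j → j < p →
      ∏ m : R, MulAut.conjNormal (((m : G) * x) ^ j) (⟨v, hv⟩ : V) =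
        S (MulAut.conjNormal (x ^ j) ⟨v, hv⟩) := by
    intro j hj hjp
    have hxj : ∀ i : ℕ, x ^ i ∈ Subgroup.normalizer (R : Set G) := fun i => pow_mem hx i
    have hmem : ∀ (m : R) (i : ℕ), ((m : G) * x) ^ i * (x ^ i)⁻¹ ∈ R := by
      intro m i
      induction i with
      | zero => simp
      | succ i ih =>
        have h1 : x ^ i * (m : G) * (x ^ i)⁻¹ ∈ R :=
          (Subgroup.mem_normalizer_iff.mp (hxj i) m).mp m.2
        have : ((m : G) * x) ^ (i + 1) * (x ^ (i + 1))⁻¹ =
            (((m : G) * x) ^ i * (x ^ i)⁻¹) * (x ^ i * (m : G) * (x ^ i)⁻¹) := by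
          rw [pow_succ, pow_succ]; group
        rw [this]
        exact R.mul_mem ih h1
    have hbij : Function.Bijective (fun m : R => (⟨_, hmem m j⟩ : R)) := by
      refine Finite.injective_iff_bijective.mp fun a b hab => Subtype.ext ?_
      have hab' : ((a : G) * x) ^ j = ((b : G) * x) ^ j := mul_right_cancel (congrArg Subtype.val hab :)
      obtain ⟨i, hi⟩ : ∃ i : ℕ, j * i ≡ 1 [MOD p] := by
        obtain ⟨i, -, hi⟩ := Nat.exists_mul_mod_eq_one_of_coprime
          ((hp.coprime_iff_not_dvd.mpr (Nat.not_dvd_of_pos_of_lt hj hjp)).symm) hp.one_lt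
        exact ⟨i, by rw [Nat.ModEq, hi, Nat.mod_eq_of_lt hp.one_lt]⟩
      have key : ∀ m : R, (((m : G) * x) ^ j) ^ i = (m : G) * x := fun m => by
        rw [← pow_mul, pow_eq_pow_mod _ (hR m m.2), hi, Nat.mod_eq_of_lt hp.one_lt, pow_one]
      exact mul_right_cancel ((key a).symm.trans (by rw [hab', key b]))
    simp only [S]
    refine Fintype.prod_equiv (Equiv.ofBijective _ hbij) _ _ (fun m => ?_)
    rw [← MulAut.mul_apply, ← map_mul, Equiv.ofBijective_apply]
    simp only [inv_mul_cancel_right]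
  have hprod : ∏ j ∈ Finset.range p, ∏ m : R, MulAut.conjNormal (((m : G) * x) ^ j) (⟨v, hv⟩ : V) = 1 := by
    rw [Finset.prod_comm]
    refine Finset.prod_eq_one fun m _ => Subtype.ext ?_
    have h1 := mul_pow_eq_prod_conj (⟨v, hv⟩ : V) ((m : G) * x) p
    rw [hVR v hv m m.2, hR m m.2, mul_one] at h1
    exact h1.symm
  obtain ⟨p', rfl⟩ := Nat.exists_eq_succ_of_ne_zero hp.ne_zero
  rw [Finset.prod_range_succ', Finset.prod_congr rfl (fun j hj =>
    hterm (j + 1) (Nat.succ_pos j) (Nat.succ_lt_succ (Finset.mem_range.mp hj)))] at hprod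
  simp only [pow_zero, map_one, MulAut.one_apply, Finset.prod_const, Finset.card_univ] at hprod
  have hfix : MulAut.conjNormal n ((⟨v, hv⟩ : V) ^ Fintype.card R) = (⟨v, hv⟩ : V) ^ Fintype.card R := by
    rw [eq_inv_of_mul_eq_one_right hprod, map_inv, map_prod]
    exact congrArg Inv.inv (Finset.prod_congr rfl fun j _ => hS _ ⟨n, hn⟩)
  have h2 := congrArg Subtype.val hfix
  rw [MulAut.conjNormal_apply, SubmonoidClass.coe_pow, ← Nat.card_eq_fintype_card] at h2
  exact mul_inv_eq_iff_eq_mul.mp h2

end Cfsg.Agent.H89
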