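import Cfsg.Agent.H82.SubgroupCount
import Cfsg.Agent.H20.Basic

/-!
# The number of subgroups of prime power order modulo `p²`
-/

set_option autoImplicit false

universe u

namespace Cfsg.Agent.H89.CountSq

open Subgroup
open scoped Pointwise commutatorElement

/-- If all orbits have size divisible by `d` then so has the set. -/
theorem dvd_card_of_orbits {X α : Type*} [Group X] [MulAction X α] [Finite α] {d : ℕ}
    (h : ∀ a : α, d ∣ Nat.card (MulAction.orbit X a)) : d ∣ Nat.card α := by
  classical
  haveI : Fintype (MulAction.orbitRel.Quotient X α) := Fintype.ofFinite _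
  rw [Nat.card_congr (MulAction.selfEquivSigmaOrbits X α), Nat.card_sigma]
  exact Finset.dvd_sum fun ω _ => h _

/-- Subgroups above a normal subgroup and subgroups of the quotient. -/
theorem card_index_quotient {G : Type*} [Group G] (N : Subgroup G) [N.Normal] (d : ℕ) :
    Nat.card {H : Subgroup G // N ≤ H ∧ H.index = d} =
      Nat.card {K : Subgroup (G ⧸ N) // K.index = d} := by
  have hs := QuotientGroup.mk'_surjective N
  refine Nat.card_congr
    { toFun := fun H => ⟨H.1.map (QuotientGroup.mk' N), by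
        rw [index_map, QuotientGroup.ker_mk', sup_eq_left.2 H.2.1, MonoidHom.range_eq_top.2 hs,
          index_top, mul_one]; exact H.2.2⟩
      invFun := fun K => ⟨K.1.comap (QuotientGroup.mk' N), QuotientGroup.le_comap_mk' N K.1, by
        rw [index_comap_of_surjective _ hs]; exact K.2⟩
      left_inv := fun H => Subtype.ext (comap_map_eq_self (by rw [QuotientGroup.ker_mk']; exact H.2.1))
      right_inv := fun K => Subtype.ext (map_comap_eq_self_of_surjective hs K.1) }

/-- The number of hyperplanes. -/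
theorem hyperplanes_mul {A : Type u} [Group A] [Finite A] {p : ℕ} [Fact p.Prime] :
    ∀ k : ℕ, (∀ a b : A, a * b = b * a) → (∀ a : A, a ^ p = 1) → Nat.card A = p ^ k →
      Nat.card {M : Subgroup A // M.index = p} * (p - 1) = p ^ k - 1 := by
  classical
  intro k
  induction k generalizing A with
  | zero =>
    intro _ _ h
    haveI : IsEmpty {M : Subgroup A // M.index = p} := ⟨fun M => by
      have := M.1.index_dvd_card
      rw [M.2, h, pow_zero, Nat.dvd_one] at this
      exact (Fact.out : p.Prime).one_lt.ne' this⟩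
    simp
  | succ k ih =>
    intro hc he h
    rcases Nat.eq_zero_or_pos k with rfl | hk
    · have h1 : Nat.card {M : Subgroup A // M.index = p} = 1 := by
        refine Nat.card_eq_one_iff_unique.2 ⟨⟨fun M N => Subtype.ext ?_⟩, ⟨⟨⊥, by
          rw [index_bot, h, zero_add, pow_one]⟩⟩⟩
        have hb : ∀ M : {M : Subgroup A // M.index = p}, M.1 = ⊥ := fun M => by
          refine eq_bot_of_card_eq _ ?_
          have := M.1.card_mul_index
          rw [M.2, h, zero_add, pow_one] at this
          exact Nat.eq_of_mul_eq_mul_right (Fact.out : p.Prime).pos (by rw [this, one_mul])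
        rw [hb M, hb N]
      rw [h1, one_mul, zero_add, pow_one]
    set X := Nat.card {M : Subgroup A // M.index = p} with hX
    haveI : Fintype A := Fintype.ofFinite _
    haveI : Fintype {M : Subgroup A // M.index = p} := Fintype.ofFinite _
    -- double counting of pairs `(x ≠ 1, M ∋ x)`
    have hM : ∀ M : {M : Subgroup A // M.index = p},
        ((Finset.univ.filter fun x : A => x ≠ 1).filter fun x => x ∈ M.1).card = p ^ k - 1 := by
      intro M
      have hcM : Nat.card M.1 = p ^ k := by
        have := M.1.card_mul_index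
        rw [M.2, h, pow_succ] at this
        exact Nat.eq_of_mul_eq_mul_right (Fact.out : p.Prime).pos this
      rw [Finset.filter_filter, ← hcM, Nat.card_eq_fintype_card, Fintype.card_subtype,
        ← Finset.card_erase_of_mem (s := Finset.univ.filter (· ∈ M.1)) (a := 1) (by simp [M.1.one_mem])]
      congr 1; ext x; simp [Finset.mem_erase]
    have hx : ∀ x ∈ (Finset.univ.filter fun x : A => x ≠ 1),
        ((Finset.univ : Finset {M : Subgroup A // M.index = p}).filter fun M => x ∈ M.1).card * (p - 1)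
          = p ^ k - 1 := by
      intro x hx
      simp only [Finset.mem_filter, Finset.mem_univ, true_and] at hx
      haveI : (zpowers x).Normal := ⟨fun n hn g => by rwa [hc g n, mul_inv_cancel_right]⟩
      have hox : orderOf x = p := orderOf_eq_prime (he x) hx
      have hq : Nat.card (A ⧸ zpowers x) = p ^ k := by
        have := card_eq_card_quotient_mul_card_subgroup (zpowers x)
        rw [h, Nat.card_zpowers, hox, pow_succ] at this
        exact (Nat.eq_of_mul_eq_mul_right (Fact.out : p.Prime).pos this).symm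
      have := ih (A := A ⧸ zpowers x)
        (fun a b => by obtain ⟨a, rfl⟩ := QuotientGroup.mk_surjective a
                       obtain ⟨b, rfl⟩ := QuotientGroup.mk_surjective b
                       rw [← QuotientGroup.mk_mul, hc, QuotientGroup.mk_mul])
        (fun a => by obtain ⟨a, rfl⟩ := QuotientGroup.mk_surjective a
                     rw [← QuotientGroup.mk_pow, he, QuotientGroup.mk_one]) hq
      rw [← card_index_quotient] at this
      rw [← this, ← Fintype.card_subtype, ← Nat.card_eq_fintype_card]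
      congr 1
      exact Nat.card_congr
        { toFun := fun M => ⟨M.1.1, zpowers_le.2 M.2, M.1.2⟩
          invFun := fun M => ⟨⟨M.1, M.2.2⟩, zpowers_le.1 M.2.1⟩
          left_inv := fun _ => rfl
          right_inv := fun _ => rfl }
    have hdouble : ∑ M : {M : Subgroup A // M.index = p},
        ((Finset.univ.filter fun x : A => x ≠ 1).filter fun x => x ∈ M.1).card =
        ∑ x ∈ Finset.univ.filter (fun x : A => x ≠ 1),
          ((Finset.univ : Finset {M : Subgroup A // M.index = p}).filter fun M => x ∈ M.1).card := by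
      simp only [Finset.card_filter]
      exact Finset.sum_comm
    have hne : (Finset.univ.filter fun x : A => x ≠ 1).card = p ^ (k + 1) - 1 := by
      rw [Finset.filter_ne', Finset.card_erase_of_mem (Finset.mem_univ _), Finset.card_univ,
        ← Nat.card_eq_fintype_card, h]
    rw [Finset.sum_congr rfl (fun M _ => hM M), Finset.sum_const, Finset.card_univ, smul_eq_mul,
      ← Nat.card_eq_fintype_card, ← hX] at hdouble
    have h2 := congrArg (· * (p - 1)) hdouble
    simp only [Finset.sum_mul] at h2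
    rw [Finset.sum_congr rfl hx, Finset.sum_const, smul_eq_mul, hne, mul_right_comm] at h2
    exact Nat.eq_of_mul_eq_mul_right (by
      have := Nat.one_lt_pow hk.ne' (Fact.out : p.Prime).one_lt
      omega) h2

variable {p : ℕ} [Fact p.Prime]

/-- The number of hyperplanes is `1 + p` modulo `p²` in rank at least two. -/
theorem hyperplanes_modEq {A : Type*} [Group A] [Finite A] {k : ℕ} (hc : ∀ a b : A, a * b = b * a)
    (he : ∀ a : A, a ^ p = 1) (h : Nat.card A = p ^ k) (hk : 2 ≤ k) :
    (Nat.card {M : Subgroup A // M.index = p} : ZMod (p ^ 2)) = 1 + p := by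
  have h1 := congrArg (fun n : ℕ => (n : ZMod (p ^ 2))) (hyperplanes_mul k hc he h)
  have hp1 : 1 ≤ p := (Fact.out : p.Prime).one_le
  have hz : ((p : ZMod (p ^ 2))) ^ 2 = 0 := by exact_mod_cast ZMod.natCast_self (p ^ 2)
  have hzk : ((p : ZMod (p ^ 2))) ^ k = 0 := by
    obtain ⟨j, rfl⟩ : ∃ j, k = 2 + j := ⟨k - 2, by omega⟩
    rw [pow_add, hz, zero_mul]
  simp only [Nat.cast_mul, Nat.cast_sub hp1, Nat.cast_one,
    Nat.cast_sub (Nat.one_le_pow _ _ hp1), Nat.cast_pow, hzk] at h1
  linear_combination (-1 - (p : ZMod (p ^ 2))) * h1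
    + (Nat.card {M : Subgroup A // M.index = p} : ZMod (p ^ 2)) * hz

section pgroup

variable {P : Type u} [Group P] [Finite P] {n : ℕ}

/-- Subgroups of index `p` of a `p`-group are normal. -/
theorem normal_of_index_eq (hP : Nat.card P = p ^ n) {M : Subgroup P} (hM : M.index = p) : M.Normal := by
  have hn : n ≠ 0 := fun h => by
    have := M.index_dvd_card
    rw [hM, hP, h, pow_zero, Nat.dvd_one] at this
    exact (Fact.out : p.Prime).one_lt.ne' this
  exact normal_of_index_eq_minFac_card (by rw [hM, hP, Nat.Prime.pow_minFac Fact.out hn])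

/-- The intersection of the subgroups of index `p`. -/
def hyperCore (p : ℕ) (P : Type*) [Group P] : Subgroup P := ⨅ M : {M : Subgroup P // M.index = p}, M.1

theorem hyperCore_spec (hP : Nat.card P = p ^ n) :
    (hyperCore p P).Normal ∧ (∀ a b : P, ⁅a, b⁆ ∈ hyperCore p P) ∧
      ∀ a : P, a ^ p ∈ hyperCore p P := by
  have key : ∀ M : {M : Subgroup P // M.index = p}, (∀ a b : P, ⁅a, b⁆ ∈ M.1) ∧ ∀ a : P, a ^ p ∈ M.1 := by
    intro M
    haveI := normal_of_index_eq hP M.2
    have hq : Nat.card (P ⧸ M.1) = p := by rw [← index_eq_card, M.2]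
    haveI := isCyclic_of_prime_card hq
    refine ⟨fun a b => ?_, fun a => ?_⟩
    · rw [← QuotientGroup.eq_one_iff, show ((⁅a, b⁆ : P) : P ⧸ M.1) =
        QuotientGroup.mk' M.1 ⁅a, b⁆ from rfl, map_commutatorElement,
        commutatorElement_eq_one_iff_mul_comm]
      exact IsCyclic.commutative.is_comm.comm _ _
    · rw [← QuotientGroup.eq_one_iff, QuotientGroup.mk_pow]
      have h := pow_card_eq_one' (x := ((a : P) : P ⧸ M.1))
      rwa [hq] at h
  refine ⟨⟨fun x hx g => ?_⟩, fun a b => mem_iInf.2 fun M => (key M).1 a b,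
    fun a => mem_iInf.2 fun M => (key M).2 a⟩
  refine mem_iInf.2 fun M => ?_
  exact (normal_of_index_eq hP M.2).conj_mem x (mem_iInf.1 hx M) g

theorem exists_index_eq_ge (hP : Nat.card P = p ^ n) {a : ℕ} {H : Subgroup P}
    (hH : Nat.card H = p ^ a) (ha : a < n) : ∃ M : Subgroup P, M.index = p ∧ H ≤ M := by
  obtain ⟨M, hM, hle⟩ := Sylow.exists_subgroup_card_pow_prime_le p (m := n - 1)
    (hP ▸ pow_dvd_pow p (Nat.sub_le n 1)) H hH (by omega)
  refine ⟨M, Nat.eq_of_mul_eq_mul_left (Nat.card_pos (α := M)) ?_, hle⟩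
  rw [card_mul_index, hP, hM, ← pow_succ]; congr 1; omega

/-- The quotient of a subgroup above the core. -/
theorem quotient_spec (hP : Nat.card P = p ^ n) {a : ℕ} {H : Subgroup P} (hH : Nat.card H = p ^ a)
    (ha : a < n) :
    ∃ k : ℕ, 1 ≤ k ∧ (H ⊔ hyperCore p P).Normal ∧
      (H ⊔ hyperCore p P).index = p ^ k ∧
      (Nat.card {M : Subgroup P // H ≤ M ∧ M.index = p} : ZMod (p ^ 2)) = (if k = 1 then (1 : ZMod (p ^ 2)) else 1 + (p : ZMod (p ^ 2))) ∧
      (Nat.card {N : Subgroup P // H ≤ N ∧ hyperCore p P ≤ N ∧ N.index = p ^ 2} : ZMod p) =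
        if k = 1 then (0 : ZMod p) else (1 : ZMod p) := by
  classical
  obtain ⟨hDn, hcomm, hpow⟩ := hyperCore_spec (p := p) hP
  set K := H ⊔ hyperCore p P with hK
  haveI hKn : K.Normal := ⟨fun x hx g => by
    have h1 : g * x * g⁻¹ * x⁻¹ ∈ K := by
      rw [← commutatorElement_def]; exact mem_sup_right (hcomm g x)
    have := mul_mem h1 hx
    rwa [inv_mul_cancel_right] at this⟩
  obtain ⟨k, -, hk⟩ := (Nat.dvd_prime_pow (Fact.out : p.Prime)).1 (hP ▸ K.index_dvd_card)
  have hk1 : 1 ≤ k := by
    rcases Nat.eq_zero_or_pos k with rfl | h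
    · obtain ⟨M, hM, hle⟩ := exists_index_eq_ge hP hH ha
      rw [pow_zero, index_eq_one] at hk
      have : (⊤ : Subgroup P) ≤ M := hk ▸ sup_le hle (iInf_le (fun M : {M : Subgroup P // M.index = p} => M.1) ⟨M, hM⟩)
      rw [top_le_iff.1 this, index_top] at hM
      exact absurd hM (Fact.out : p.Prime).one_lt.ne
    · exact h
  have hqc : ∀ x y : P ⧸ K, x * y = y * x := fun x y => by
    obtain ⟨x, rfl⟩ := QuotientGroup.mk'_surjective K x
    obtain ⟨y, rfl⟩ := QuotientGroup.mk'_surjective K y
    rw [← commutatorElement_eq_one_iff_mul_comm, ← map_commutatorElement]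
    exact (QuotientGroup.eq_one_iff _).2 (mem_sup_right (hcomm x y))
  have hqe : ∀ x : P ⧸ K, x ^ p = 1 := fun x => by
    obtain ⟨x, rfl⟩ := QuotientGroup.mk'_surjective K x
    rw [← map_pow]; exact (QuotientGroup.eq_one_iff _).2 (mem_sup_right (hpow x))
  have hqk : Nat.card (P ⧸ K) = p ^ k := by rw [← index_eq_card, hk]
  refine ⟨k, hk1, hKn, hk, ?_, ?_⟩
  · have e : Nat.card {M : Subgroup P // H ≤ M ∧ M.index = p} =
        Nat.card {M : Subgroup P // K ≤ M ∧ M.index = p} :=
      Nat.card_congr (Equiv.subtypeEquivRight fun M => ⟨fun h => ⟨sup_le h.1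
        (iInf_le (fun M : {M : Subgroup P // M.index = p} => M.1) ⟨M, h.2⟩), h.2⟩,
        fun h => ⟨le_sup_left.trans h.1, h.2⟩⟩)
    rw [e, card_index_quotient]
    split_ifs with h1
    · subst h1
      have := hyperplanes_mul 1 hqc hqe hqk
      rw [pow_one] at this
      have hp2 := (Fact.out : p.Prime).two_le
      rw [Nat.eq_of_mul_eq_mul_right (by omega) (this.trans (one_mul _).symm), Nat.cast_one]
    · exact hyperplanes_modEq hqc hqe hqk (by omega)
  · have e : Nat.card {N : Subgroup P // H ≤ N ∧ hyperCore p P ≤ N ∧ N.index = p ^ 2} =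
        Nat.card {M : Subgroup P // K ≤ M ∧ M.index = p ^ 2} :=
      Nat.card_congr (Equiv.subtypeEquivRight fun M => ⟨fun h => ⟨sup_le h.1 h.2.1, h.2.2⟩,
        fun h => ⟨le_sup_left.trans h.1, le_sup_right.trans h.1, h.2⟩⟩)
    rw [e, card_index_quotient]
    split_ifs with h1
    · haveI : IsEmpty {M : Subgroup (P ⧸ K) // M.index = p ^ 2} := ⟨fun M => by
        have := M.1.index_dvd_card
        rw [M.2, hqk, h1, Nat.pow_dvd_pow_iff_le_right (Fact.out : p.Prime).one_lt] at this
        omega⟩
      simp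
    · have hidx : ∀ M : Subgroup (P ⧸ K), M.index = p ^ 2 ↔ Nat.card M = p ^ (k - 2) := fun M => by
        have h2 := M.card_mul_index
        rw [hqk, show k = (k - 2) + 2 by omega, pow_add] at h2
        constructor
        · intro h; rw [h] at h2
          exact Nat.eq_of_mul_eq_mul_right (pow_pos (Fact.out : p.Prime).pos 2) h2
        · intro h; rw [h] at h2
          exact Nat.eq_of_mul_eq_mul_left (pow_pos (Fact.out : p.Prime).pos _) h2
      rw [Nat.card_congr (Equiv.subtypeEquivRight hidx), ← Nat.cast_one, ZMod.natCast_eq_natCast_iff]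
      exact H82.card_subgroups_modEq_one Fact.out (hqk ▸ pow_dvd_pow p (by omega))

theorem card_subgroups_le {G : Type*} [Group G] (M : Subgroup G) (c : ℕ) :
    Nat.card {H : Subgroup M // Nat.card H = c} = Nat.card {H : Subgroup G // H ≤ M ∧ Nat.card H = c} :=
  Nat.card_congr
    { toFun := fun H => ⟨H.1.map M.subtype, map_subtype_le _, by
        rw [card_map_of_injective M.subtype_injective]; exact H.2⟩
      invFun := fun H => ⟨H.1.subgroupOf M, by
        rw [Nat.card_congr (subgroupOfEquivOfLe H.2.1).toEquiv]; exact H.2.2⟩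
      left_inv := fun H => Subtype.ext (comap_map_eq_self_of_injective M.subtype_injective _)
      right_inv := fun H => Subtype.ext (map_subgroupOf_eq_of_le H.2.1) }

/-- A `p`-group, `p` odd, with a cyclic maximal subgroup has none or `p` of them. -/
theorem card_cyclic_maximal (hp : p ≠ 2) (hP : Nat.card P = p ^ n) (hn : 3 ≤ n) (hnc : ¬ IsCyclic P)
    (hX : (Nat.card {M : Subgroup P // M.index = p} : ZMod (p ^ 2)) = 1 + p) :
    p ∣ Nat.card {M : Subgroup P // M.index = p ∧ IsCyclic M} := by
  classical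
  have hpP : p.Prime := Fact.out
  by_cases hex : ∃ M : Subgroup P, M.index = p ∧ IsCyclic M
  swap
  · haveI : IsEmpty {M : Subgroup P // M.index = p ∧ IsCyclic M} := ⟨fun M => hex ⟨M.1, M.2⟩⟩
    simp
  obtain ⟨Mx, hMx, hMc⟩ := hex
  obtain ⟨g, hg⟩ := isCyclic_iff_exists_zpowers_eq_top.1 hMc
  obtain ⟨x, rfl⟩ : ∃ x : P, zpowers x = Mx := ⟨(g : P), by
    have h := congrArg (Subgroup.map Mx.subtype) hg
    rw [MonoidHom.map_zpowers, ← MonoidHom.range_eq_map, range_subtype] at h
    exact h⟩
  have hox : orderOf x = p ^ (n - 1) := by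
    have := (zpowers x).card_mul_index
    rw [hMx, hP, Nat.card_zpowers, show n = n - 1 + 1 by omega, pow_succ] at this
    exact Nat.eq_of_mul_eq_mul_right hpP.pos this
  obtain ⟨hDn, hcomm, hpow⟩ := hyperCore_spec (p := p) hP
  -- an element of order `p` outside `⟨x⟩`
  obtain ⟨u, hu, hux⟩ : ∃ u : P, orderOf u = p ∧ u ∉ zpowers x := by
    by_contra hne
    push Not at hne
    have huo : ∀ A B : Subgroup P, Nat.card A = p → Nat.card B = p → A = B := by
      intro A B hA hB
      have : ∀ C : Subgroup P, Nat.card C = p → C ≤ zpowers x := fun C hC y hy => by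
        by_cases h1 : y = 1
        · exact h1 ▸ one_mem _
        · refine hne y (orderOf_eq_prime ?_ h1)
          exact hC ▸ congrArg Subtype.val (pow_card_eq_one' (x := (⟨y, hy⟩ : C)))
      have h1 : A.subgroupOf (zpowers x) = B.subgroupOf (zpowers x) :=
        (H82.eq_iff_card_eq_of_isCyclic' _ _).mpr (by
          rw [Nat.card_congr (subgroupOfEquivOfLe (this A hA)).toEquiv,
            Nat.card_congr (subgroupOfEquivOfLe (this B hB)).toEquiv, hA, hB])
      rw [← map_subgroupOf_eq_of_le (this A hA), h1, map_subgroupOf_eq_of_le (this B hB)]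
    rcases H21.cyclic_or_quaternion p (IsPGroup.of_card hP) huo with h | ⟨h, -⟩
    · exact hnc h
    · exact hp h
  set Z := zpowers (x ^ p) with hZ
  have hoxp : orderOf (x ^ p) = p ^ (n - 2) := by
    rw [orderOf_pow' _ hpP.ne_zero, hox,
      Nat.gcd_eq_right (dvd_pow_self p (by omega)), show n - 1 = n - 2 + 1 by omega, pow_succ,
      Nat.mul_div_cancel _ hpP.pos]
  have hZD : Z ≤ hyperCore p P := zpowers_le.2 (hpow x)
  -- each maximal subgroup not containing `u` is cyclic
  have hcyc : ∀ M : Subgroup P, M.index = p → u ∉ M → IsCyclic M := by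
    intro M hM huM
    haveI := normal_of_index_eq hP hM
    have hq : Nat.card (P ⧸ M) = p := by rw [← index_eq_card, hM]
    obtain ⟨j, hj⟩ := mem_zpowers_iff.1 (mem_zpowers_of_prime_card (G := P ⧸ M) hq
      (g := (u : P ⧸ M)) (g' := (x : P ⧸ M))
      (by rwa [Ne, QuotientGroup.eq_one_iff]))
    set v := u ^ (-j) with hv
    have hyM : x * v ∈ M := by
      rw [← QuotientGroup.eq_one_iff, QuotientGroup.mk_mul, hv, QuotientGroup.mk_zpow, zpow_neg,
        ← hj, mul_inv_cancel]
    haveI := normal_of_index_eq hP hMx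
    obtain ⟨r, hr⟩ := mem_zpowers_iff.1
      ((inferInstance : (zpowers x).Normal).conj_mem x (mem_zpowers x) v)
    have hvp : v ^ p = 1 := by
      rw [hv, ← zpow_natCast, ← zpow_mul, mul_comm, zpow_mul, zpow_natCast, ← hu, pow_orderOf_eq_one,
        one_zpow]
    have hconj : ∀ i : ℕ, v ^ i * x * (v ^ i)⁻¹ = x ^ (r ^ i) := by
      intro i
      induction i with
      | zero => simp
      | succ i ih =>
        calc v ^ (i + 1) * x * (v ^ (i + 1))⁻¹ = v * (v ^ i * x * (v ^ i)⁻¹) * v⁻¹ := by
              rw [pow_succ']; group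
          _ = (v * x * v⁻¹) ^ (r ^ i) := by rw [ih, conj_zpow]
          _ = _ := by rw [← hr, ← zpow_mul, pow_succ, mul_comm]
    have hrz : ((r : ℤ) : ZMod p) = 1 := by
      have h1 := hconj p
      rw [hvp, one_mul, inv_one, mul_one] at h1
      have h2 : x ^ (r ^ p - 1) = 1 := by rw [zpow_sub, ← h1, zpow_one, mul_inv_cancel]
      have h3 : (p : ℤ) ∣ r ^ p - 1 := by
        refine dvd_trans ?_ (orderOf_dvd_iff_zpow_eq_one.2 h2)
        rw [hox]
        exact_mod_cast dvd_pow_self p (by omega : n - 1 ≠ 0)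
      rw [← ZMod.intCast_zmod_eq_zero_iff_dvd] at h3
      push_cast at h3
      rwa [ZMod.pow_card, sub_eq_zero] at h3
    obtain ⟨t, ht⟩ : ∃ t : ℤ, r = 1 + p * t := by
      rw [← Int.cast_one, ZMod.intCast_eq_intCast_iff_dvd_sub] at hrz
      obtain ⟨s, hs⟩ := hrz
      exact ⟨-s, by linarith⟩
    have hprod : ∀ i : ℕ, (x * v) ^ i = x ^ (∑ l ∈ Finset.range i, r ^ l) * v ^ i := by
      intro i
      induction i with
      | zero => simp
      | succ i ih =>
        rw [pow_succ, ih, Finset.sum_range_succ, zpow_add, ← hconj i]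
        group
    have hsum : ((∑ l ∈ Finset.range p, r ^ l : ℤ) : ZMod (p ^ 2)) = p := by
      have hz : ((p : ZMod (p ^ 2))) ^ 2 = 0 := by exact_mod_cast ZMod.natCast_self (p ^ 2)
      have hterm : ∀ l : ℕ, ((r ^ l : ℤ) : ZMod (p ^ 2)) = 1 + l * ((p : ZMod (p ^ 2)) * t) := by
        intro l
        induction l with
        | zero => simp
        | succ l ih =>
          rw [pow_succ r, Int.cast_mul, ih, ht]
          push_cast
          linear_combination (l : ZMod (p ^ 2)) * (t : ZMod (p ^ 2)) ^ 2 * hz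
      rw [Int.cast_sum, Finset.sum_congr rfl fun l _ => hterm l, Finset.sum_add_distrib,
        Finset.sum_const, Finset.card_range, nsmul_one, ← Finset.sum_mul, ← Nat.cast_sum,
        Finset.sum_range_id]
      obtain ⟨s, hs⟩ : 2 ∣ p - 1 := (hpP.even_sub_one hp).two_dvd
      rw [hs, show p * (2 * s) = p * s * 2 by ring, Nat.mul_div_cancel _ two_pos]
      push_cast
      linear_combination ((s : ZMod (p ^ 2)) * t) * hz
    obtain ⟨S, hS⟩ : ∃ S : ℤ, (∑ l ∈ Finset.range p, r ^ l) = p * S ∧ ¬ (p : ℤ) ∣ S := by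
      have h1 : ((∑ l ∈ Finset.range p, r ^ l : ℤ) : ZMod (p ^ 2)) = ((p : ℤ) : ZMod (p ^ 2)) := by
        rw [hsum]; simp
      rw [ZMod.intCast_eq_intCast_iff_dvd_sub] at h1
      obtain ⟨w, hw⟩ := h1
      push_cast at hw
      refine ⟨1 - p * w, by linear_combination -hw, fun hd => ?_⟩
      have : (p : ℤ) ∣ 1 := by simpa using dvd_add hd (dvd_mul_right (p : ℤ) w)
      exact hpP.one_lt.ne' (by exact_mod_cast Int.eq_one_of_dvd_one (Int.natCast_nonneg p) this)
    obtain ⟨hS, hSp⟩ := hS
    have hy : (x * v) ^ p = (x ^ p) ^ S := by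
      rw [hprod, hvp, mul_one, hS, zpow_mul, zpow_natCast]
    have hoy : orderOf (x * v) = p ^ (n - 1) := by
      have hoy' : orderOf ((x ^ p) ^ S) = p ^ (n - 2) := by
        refine Nat.dvd_antisymm (hoxp ▸ orderOf_dvd_of_mem_zpowers (zpow_mem (mem_zpowers (x ^ p)) S)) ?_
        have hc : IsCoprime S ((p ^ (n - 2) : ℕ) : ℤ) := by
          push_cast
          exact (((Nat.prime_iff_prime_int.1 hpP).irreducible.coprime_iff_not_dvd).2 hSp).symm.pow_right
        obtain ⟨c, d, hcd⟩ := hc
        rw [← hoxp]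
        refine orderOf_dvd_of_pow_eq_one ?_
        calc (x ^ p) ^ orderOf ((x ^ p) ^ S)
            = ((x ^ p) ^ (c * S + d * ((p ^ (n - 2) : ℕ) : ℤ))) ^ orderOf ((x ^ p) ^ S) := by
              rw [hcd, zpow_one]
          _ = (((x ^ p) ^ S) ^ c) ^ orderOf ((x ^ p) ^ S) := by
              rw [zpow_add, mul_comm c, zpow_mul, mul_comm d, zpow_mul (x ^ p) _ d, zpow_natCast,
                ← hoxp, pow_orderOf_eq_one, one_zpow, mul_one]
          _ = 1 := by
              rw [← zpow_natCast (((x ^ p) ^ S) ^ c), ← zpow_mul, mul_comm, zpow_mul, zpow_natCast,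
                pow_orderOf_eq_one, one_zpow]
      have hne : orderOf (x * v) ≠ 1 := fun h => by
        rw [orderOf_eq_one_iff] at h
        rw [← hy, h, one_pow, orderOf_one] at hoy'
        have := Nat.one_lt_pow (show n - 2 ≠ 0 by omega) hpP.one_lt
        omega
      obtain ⟨i, hi⟩ := IsPGroup.iff_orderOf.mp (IsPGroup.of_card hP) (x * v)
      have hi0 : i ≠ 0 := fun h => hne (by rw [hi, h, pow_zero])
      rw [← hy, orderOf_pow' _ hpP.ne_zero, hi, Nat.gcd_eq_right (dvd_pow_self p hi0),
        show i = i - 1 + 1 by omega, pow_succ, Nat.mul_div_cancel _ hpP.pos] at hoy'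
      rw [hi]
      have := Nat.pow_right_injective hpP.two_le hoy'
      congr 1; omega
    have hMy : zpowers (x * v) = M := by
      refine eq_of_le_of_card_ge (zpowers_le.2 hyM) ?_
      rw [Nat.card_zpowers, hoy]
      have := M.card_mul_index
      rw [hM, hP, show n = n - 1 + 1 by omega, pow_succ] at this
      exact (Nat.eq_of_mul_eq_mul_right hpP.pos this).le
    rw [← hMy]; infer_instance
  -- a maximal subgroup containing `u` is unique and not cyclic
  have huniq : ∀ M M' : Subgroup P, M.index = p → M'.index = p → u ∈ M → u ∈ M' → M = M' := by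
    intro M M' h h' hm hm'
    haveI := normal_of_index_eq hP hMx
    have hZn : ∀ N : Subgroup P, N.index = p → Z ≤ N := fun N hN =>
      hZD.trans (iInf_le (fun M : {M : Subgroup P // M.index = p} => M.1) ⟨N, hN⟩)
    have hgen : ∀ N : Subgroup P, N.index = p → u ∈ N → N = Z ⊔ zpowers u := by
      intro N hN hNu
      refine (eq_of_le_of_card_ge (sup_le (hZn N hN) (zpowers_le.2 hNu)) ?_).symm
      have hlt : Z < Z ⊔ zpowers u := lt_of_le_of_ne le_sup_left fun e => hux
        ((zpowers_le.2 (pow_mem (mem_zpowers x) p)) (e ▸ mem_sup_right (mem_zpowers u) : u ∈ Z))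
      obtain ⟨i, -, hi⟩ := (Nat.dvd_prime_pow hpP).1
        (hP ▸ (Z ⊔ zpowers u).card_subgroup_dvd_card)
      have hgt : p ^ (n - 2) < p ^ i := by
        rw [← hi, ← hoxp, ← Nat.card_zpowers]
        exact lt_of_le_of_ne (card_le_of_le hlt.le) fun e => hlt.ne (eq_of_le_of_card_ge hlt.le e.ge)
      have := (Nat.pow_lt_pow_iff_right hpP.one_lt).1 hgt
      have hN' := N.card_mul_index
      rw [hN, hP, show n = n - 1 + 1 by omega, pow_succ] at hN'
      rw [Nat.eq_of_mul_eq_mul_right hpP.pos hN', hi]
      exact Nat.pow_le_pow_right hpP.pos (by omega)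
    rw [hgen M h hm, hgen M' h' hm']
  have hnotcyc : ∀ M : Subgroup P, M.index = p → u ∈ M → ¬ IsCyclic M := by
    intro M hM hm hc
    have hz : x ^ (p ^ (n - 2)) ∈ M := by
      have := pow_mem (iInf_le (fun M : {M : Subgroup P // M.index = p} => M.1) ⟨M, hM⟩ (hpow x)) (p ^ (n - 3))
      rwa [← pow_mul, ← pow_succ', show n - 3 + 1 = n - 2 by omega] at this
    set z := x ^ (p ^ (n - 2)) with hzd
    have hoz : orderOf z = p := by
      rw [hzd, orderOf_pow' _ (pow_pos hpP.pos _).ne', hox, Nat.gcd_eq_right (pow_dvd_pow p (by omega)),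
        show n - 1 = 1 + (n - 2) by omega, pow_add, pow_one, Nat.mul_div_cancel _ (pow_pos hpP.pos _)]
    have h1 : (zpowers u).subgroupOf M = (zpowers z).subgroupOf M :=
      (H82.eq_iff_card_eq_of_isCyclic' _ _).mpr (by
        rw [Nat.card_congr (subgroupOfEquivOfLe (zpowers_le.2 hm)).toEquiv,
          Nat.card_congr (subgroupOfEquivOfLe (zpowers_le.2 hz)).toEquiv, Nat.card_zpowers,
          Nat.card_zpowers, hu, hoz])
    have h2 : zpowers u = zpowers z := by
      rw [← map_subgroupOf_eq_of_le (zpowers_le.2 hm : zpowers u ≤ M), h1,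
        map_subgroupOf_eq_of_le (zpowers_le.2 hz : zpowers z ≤ M)]
    exact hux (zpowers_le.2 (pow_mem (mem_zpowers x) _) (h2 ▸ mem_zpowers u))
  obtain ⟨M0, hM0, hM0u⟩ := exists_index_eq_ge hP (H := zpowers u) (a := 1)
    (by rw [Nat.card_zpowers, hu, pow_one]) (by omega)
  rw [zpowers_le] at hM0u
  have hsplit : Nat.card {M : Subgroup P // M.index = p} =
      Nat.card {M : Subgroup P // M.index = p ∧ IsCyclic M} + 1 := by
    let e : {M : Subgroup P // M.index = p} ≃ {M : Subgroup P // M.index = p ∧ IsCyclic M} ⊕ Unit :=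
      { toFun := fun M => if h : u ∈ M.1 then Sum.inr () else Sum.inl ⟨M.1, M.2, hcyc M.1 M.2 h⟩
        invFun := Sum.elim (fun M => ⟨M.1, M.2.1⟩) (fun _ => ⟨M0, hM0⟩)
        left_inv := fun M => by
          by_cases h : u ∈ M.1
          · simp only [dif_pos h, Sum.elim_inr]
            exact Subtype.ext (huniq _ _ hM0 M.2 hM0u h)
          · simp only [dif_neg h, Sum.elim_inl]
        right_inv := fun s => by
          rcases s with M | ⟨⟩
          · exact (dif_neg (fun h => hnotcyc M.1 M.2.1 h M.2.2)).trans rfl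
          · exact (dif_pos hM0u).trans rfl }
    rw [Nat.card_congr e, Nat.card_sum]; simp
  rw [hsplit] at hX
  push_cast at hX
  have h3 : ((Nat.card {M : Subgroup P // M.index = p ∧ IsCyclic M} : ℕ) : ZMod p) = 0 := by
    have := congrArg (ZMod.castHom (dvd_pow_self p two_ne_zero) (ZMod p)) hX
    simpa using this
  exact (ZMod.natCast_eq_zero_iff _ _).1 h3

end pgroup

open scoped Classical in
/-- In a noncyclic `p`-group, `p` odd, the number of proper nontrivial subgroups of a given order
is `1 + p` modulo `p²`; in any case it is `1` or `1 + p`. -/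
theorem pgroup_count {n : ℕ} (hp : p ≠ 2) : ∀ {P : Type u} [Group P] [Finite P] {a : ℕ},
    Nat.card P = p ^ n → 1 ≤ a → a < n →
    (Nat.card {H : Subgroup P // Nat.card H = p ^ a} : ZMod (p ^ 2)) =
      if IsCyclic P then (1 : ZMod (p ^ 2)) else 1 + (p : ZMod (p ^ 2)) := by
  classical
  induction n with
  | zero => intro P _ _ a _ _ ha; omega
  | succ n ih =>
  intro P _ _ a hP ha1 ha
  have hpP : p.Prime := Fact.out
  split_ifs with hc
  · rw [Nat.card_eq_one_iff_unique.2 ⟨⟨fun A B => Subtype.ext
      ((H82.eq_iff_card_eq_of_isCyclic' _ _).mpr (A.2.trans B.2.symm))⟩, ?_⟩, Nat.cast_one]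
    obtain ⟨H, hH⟩ := Sylow.exists_subgroup_card_pow_prime p (hP ▸ pow_dvd_pow p ha.le : p ^ a ∣ Nat.card P)
    exact ⟨⟨H, hH⟩⟩
  have hX : (Nat.card {M : Subgroup P // M.index = p} : ZMod (p ^ 2)) = 1 + p := by
    obtain ⟨k, hk1, hn', hk, h1, -⟩ := quotient_spec (p := p) hP (H := ⊥) (a := 0) (by simp) (by omega)
    rw [Nat.card_congr (Equiv.subtypeEquivRight fun M => and_iff_right (bot_le))] at h1
    rw [h1, if_neg]
    intro hk0
    refine hc ?_
    rw [bot_sup_eq] at hk hn'
    rw [hk0, pow_one] at hk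
    obtain ⟨g, hg⟩ : ∃ g : P, g ∉ hyperCore p P := by
      by_contra hne; push Not at hne
      rw [(eq_top_iff' _).2 hne, index_top] at hk
      exact hpP.one_lt.ne hk
    refine isCyclic_iff_exists_zpowers_eq_top.2 ⟨g, ?_⟩
    by_contra hne
    obtain ⟨i, -, hi⟩ := (Nat.dvd_prime_pow hpP).1 (hP ▸ (zpowers g).card_subgroup_dvd_card)
    obtain ⟨M, hM, hle⟩ := exists_index_eq_ge hP hi (by
      by_contra hlt
      exact hne (eq_top_of_card_eq _ (le_antisymm (card_le_card_group _)
        (hP ▸ hi ▸ Nat.pow_le_pow_right hpP.pos (by omega)))))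
    have hMD : M = hyperCore p P := (eq_of_le_of_card_ge
      (iInf_le (fun M : {M : Subgroup P // M.index = p} => M.1) ⟨M, hM⟩) (by
      have e1 := M.card_mul_index
      have e2 := (hyperCore p P).card_mul_index
      rw [hM] at e1; rw [hk] at e2
      exact (Nat.eq_of_mul_eq_mul_right hpP.pos (e1.trans e2.symm)).le)).symm
    exact hg (hMD ▸ hle (mem_zpowers g))
  have hidx : ∀ M : Subgroup P, M.index = p → Nat.card M = p ^ n := fun M hM => by
    have := M.card_mul_index
    rw [hM, hP, pow_succ] at this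
    exact Nat.eq_of_mul_eq_mul_right hpP.pos this
  by_cases han : a = n
  · subst han
    rw [← hX]
    congr 1
    refine Nat.card_congr (Equiv.subtypeEquivRight fun M => ⟨fun h => ?_, hidx M⟩)
    refine Nat.eq_of_mul_eq_mul_left (Nat.card_pos (α := M)) ?_
    rw [M.card_mul_index, hP, h, pow_succ]
  have han : a < n := by omega
  haveI : Fintype {M : Subgroup P // M.index = p} := Fintype.ofFinite _
  haveI : Fintype {H : Subgroup P // Nat.card H = p ^ a} := Fintype.ofFinite _
  haveI : Fintype {N : Subgroup P // hyperCore p P ≤ N ∧ N.index = p ^ 2} := Fintype.ofFinite _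
  set s := Nat.card {H : Subgroup P // Nat.card H = p ^ a} with hs
  -- double count against the maximal subgroups
  have hd1 : ∀ (M : Subgroup P), Nat.card {H : Subgroup M // Nat.card H = p ^ a} =
      ((Finset.univ : Finset {H : Subgroup P // Nat.card H = p ^ a}).filter fun H => H.1 ≤ M).card := by
    intro M
    rw [card_subgroups_le, ← Fintype.card_subtype, ← Nat.card_eq_fintype_card]
    exact Nat.card_congr
      { toFun := fun H => ⟨⟨H.1, H.2.2⟩, H.2.1⟩
        invFun := fun H => ⟨H.1.1, H.2, H.1.2⟩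
        left_inv := fun _ => rfl
        right_inv := fun _ => rfl }
  have hswap : ∑ M : {M : Subgroup P // M.index = p}, Nat.card {H : Subgroup M.1 // Nat.card H = p ^ a} =
      ∑ H : {H : Subgroup P // Nat.card H = p ^ a}, Nat.card {M : Subgroup P // H.1 ≤ M ∧ M.index = p} := by
    rw [Finset.sum_congr rfl fun M _ => hd1 M.1]
    simp only [Finset.card_filter]
    rw [Finset.sum_comm]
    refine Finset.sum_congr rfl fun H _ => ?_
    rw [← Finset.card_filter, ← Fintype.card_subtype, ← Nat.card_eq_fintype_card]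
    exact Nat.card_congr
      { toFun := fun M => ⟨M.1.1, M.2, M.1.2⟩
        invFun := fun M => ⟨⟨M.1, M.2.2⟩, M.2.1⟩
        left_inv := fun _ => rfl
        right_inv := fun _ => rfl }
  have hspec := fun H : {H : Subgroup P // Nat.card H = p ^ a} => quotient_spec (p := p) hP H.2 ha
  choose kH hk1 hkn hki hkM hkN using hspec
  set S2 := (Finset.univ : Finset {H : Subgroup P // Nat.card H = p ^ a}).filter (fun H => ¬ kH H = 1)
  -- the sum over the maximal subgroups
  have hL : (∑ H : {H : Subgroup P // Nat.card H = p ^ a},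
      (Nat.card {M : Subgroup P // H.1 ≤ M ∧ M.index = p} : ZMod (p ^ 2))) = s + p * S2.card := by
    rw [Finset.sum_congr rfl fun H _ => hkM H, Finset.card_filter, Nat.cast_sum, Finset.mul_sum,
      hs, Nat.card_eq_fintype_card, ← Finset.card_univ, Finset.card_eq_sum_ones, Nat.cast_sum,
      ← Finset.sum_add_distrib]
    refine Finset.sum_congr rfl fun H _ => ?_
    split_ifs <;> simp
  have hS2 : (S2.card : ZMod p) = 1 := by
    have hN1 : ∀ N : {N : Subgroup P // hyperCore p P ≤ N ∧ N.index = p ^ 2},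
        ((((Finset.univ : Finset {H : Subgroup P // Nat.card H = p ^ a}).filter fun H => H.1 ≤ N.1).card : ℕ) : ZMod p) = 1 := by
      intro N
      rw [← hd1 N.1, ← Nat.cast_one, ZMod.natCast_eq_natCast_iff]
      refine H82.card_subgroups_modEq_one hpP ?_
      have := N.1.card_mul_index
      rw [N.2.2, hP, show n + 1 = n - 1 + 2 by omega, pow_add] at this
      rw [Nat.eq_of_mul_eq_mul_right (pow_pos hpP.pos 2) this]
      exact pow_dvd_pow p (by omega)
    have hcN : (Nat.card {N : Subgroup P // hyperCore p P ≤ N ∧ N.index = p ^ 2} : ZMod p) = 1 := by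
      obtain ⟨k, hk1, -, hk, h1, h2⟩ := quotient_spec (p := p) hP (H := ⊥) (a := 0) (by simp) (by omega)
      rw [Nat.card_congr (Equiv.subtypeEquivRight fun N => and_iff_right (bot_le))] at h1 h2
      rw [h2, if_neg]
      intro hk0
      rw [if_pos hk0, hX] at h1
      have h4 : ((p : ℕ) : ZMod (p ^ 2)) = 0 := by linear_combination h1
      rw [ZMod.natCast_eq_zero_iff] at h4
      have := Nat.le_of_dvd hpP.pos h4
      nlinarith [hpP.two_le]
    have h1 : ∑ N : {N : Subgroup P // hyperCore p P ≤ N ∧ N.index = p ^ 2},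
        ((((Finset.univ : Finset {H : Subgroup P // Nat.card H = p ^ a}).filter fun H => H.1 ≤ N.1).card : ℕ) : ZMod p) = 1 := by
      rw [Finset.sum_congr rfl fun N _ => hN1 N, Finset.sum_const, Finset.card_univ,
        ← Nat.card_eq_fintype_card, nsmul_one, hcN]
    rw [← h1]
    simp only [S2, Finset.card_filter, Nat.cast_sum]
    rw [Finset.sum_comm]
    refine Finset.sum_congr rfl fun H _ => ?_
    rw [← Nat.cast_sum, ← Finset.card_filter, ← Fintype.card_subtype, ← Nat.card_eq_fintype_card]
    rw [show Nat.card {N : {N : Subgroup P // hyperCore p P ≤ N ∧ N.index = p ^ 2} // H.1 ≤ N.1} =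
        Nat.card {N : Subgroup P // H.1 ≤ N ∧ hyperCore p P ≤ N ∧ N.index = p ^ 2} from Nat.card_congr
      { toFun := fun N => ⟨N.1.1, N.2, N.1.2⟩
        invFun := fun N => ⟨⟨N.1, N.2.2⟩, N.2.1⟩
        left_inv := fun _ => rfl
        right_inv := fun _ => rfl }, hkN H]
    split_ifs <;> simp
  have hpS : (p : ZMod (p ^ 2)) * S2.card = p := by
    have h1 : ((S2.card : ℤ) : ZMod p) = ((1 : ℤ) : ZMod p) := by simpa using hS2
    rw [ZMod.intCast_eq_intCast_iff_dvd_sub] at h1
    obtain ⟨w, hw⟩ := h1
    have hz : ((p : ZMod (p ^ 2))) ^ 2 = 0 := by exact_mod_cast ZMod.natCast_self (p ^ 2)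
    have hw' := congrArg (fun z : ℤ => (z : ZMod (p ^ 2))) hw
    push_cast at hw'
    linear_combination (-(p : ZMod (p ^ 2))) * hw' - (w : ZMod (p ^ 2)) * hz
  -- the sum on the other side
  have hR : (∑ M : {M : Subgroup P // M.index = p},
      (Nat.card {H : Subgroup M.1 // Nat.card H = p ^ a} : ZMod (p ^ 2))) = 1 + 2 * p := by
    rw [Finset.sum_congr rfl fun M _ => ih (hidx M.1 M.2) ha1 han]
    have hcycd := card_cyclic_maximal hp hP (by omega) hc hX
    obtain ⟨c, hcc⟩ := hcycd
    have : ∀ M : {M : Subgroup P // M.index = p}, (if IsCyclic M.1 then (1 : ZMod (p ^ 2)) else 1 + p) =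
        (1 + p) - p * (if IsCyclic M.1 then 1 else 0) := fun M => by split_ifs <;> ring
    rw [Finset.sum_congr rfl fun M _ => this M, Finset.sum_sub_distrib, Finset.sum_const,
      Finset.card_univ, ← Nat.card_eq_fintype_card, nsmul_eq_mul, hX, ← Finset.mul_sum,
      Finset.sum_boole, ← Fintype.card_subtype, ← Nat.card_eq_fintype_card]
    rw [show Nat.card {M : {M : Subgroup P // M.index = p} // IsCyclic M.1} =
        Nat.card {M : Subgroup P // M.index = p ∧ IsCyclic M} from Nat.card_congr
      { toFun := fun M => ⟨M.1.1, M.1.2, M.2⟩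
        invFun := fun M => ⟨⟨M.1, M.2.1⟩, M.2.2⟩
        left_inv := fun _ => rfl
        right_inv := fun _ => rfl }, hcc]
    have hz : ((p : ZMod (p ^ 2))) ^ 2 = 0 := by exact_mod_cast ZMod.natCast_self (p ^ 2)
    push_cast
    linear_combination (1 - (c : ZMod (p ^ 2))) * hz
  have hfin := congrArg (fun m : ℕ => (m : ZMod (p ^ 2))) hswap
  simp only [Nat.cast_sum] at hfin
  rw [hR, hL, hpS] at hfin
  linear_combination -hfin

/-- The count in `G` agrees modulo `p²` with the count in a Sylow subgroup. -/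
theorem sylow_reduction {G : Type*} [Group G] [Finite G] (P : Sylow p G) {a : ℕ}
    (hdvd : p ^ (a + 1) ∣ Nat.card G) :
    p ^ 2 ∣ Nat.card {H : Subgroup G // Nat.card H = p ^ a ∧ ¬ H ≤ (P : Subgroup G)} := by
  classical
  have hpP : p.Prime := Fact.out
  set n := (Nat.card G).factorization p with hn
  have hPc : Nat.card (P : Subgroup G) = p ^ n := P.card_eq_multiplicity
  have han : a < n := by
    have := (hpP.pow_dvd_iff_le_factorization Nat.card_pos.ne').1 hdvd
    omega
  let Out := {H : Subgroup G // Nat.card H = p ^ a ∧ ¬ H ≤ (P : Subgroup G)}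
  have hinvP : ∀ g ∈ (P : Subgroup G), MulAut.conj g • (P : Subgroup G) = P := fun g hg =>
    H20.conj_smul_eq_of_mem_normalizer (le_normalizer hg)
  have hout : ∀ (g : (P : Subgroup G)) (H : Subgroup G), Nat.card H = p ^ a → ¬ H ≤ (P : Subgroup G) →
      ¬ MulAut.conj (g : G) • H ≤ (P : Subgroup G) := fun g H _ hH hle => hH (by
    exact pointwise_smul_le_pointwise_smul_iff.1 (hle.trans (hinvP _ g.2).ge))
  letI : MulAction (P : Subgroup G) Out :=
    { smul := fun g H => ⟨MulAut.conj (g : G) • H.1, (H20.card_conj_smul _ _).trans H.2.1,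
        hout g _ H.2.1 H.2.2⟩
      one_smul := fun H => Subtype.ext (by
        show MulAut.conj ((1 : (P : Subgroup G)) : G) • H.1 = H.1
        simp)
      mul_smul := fun g h H => Subtype.ext (by
        show MulAut.conj ((g * h : (P : Subgroup G)) : G) • H.1 = MulAut.conj (g : G) • MulAut.conj (h : G) • H.1
        rw [Subgroup.coe_mul, map_mul, mul_smul]) }
  have hnofix : ∀ H : Out, ∃ g : (P : Subgroup G), g • H ≠ H := by
    intro H
    by_contra hne
    push Not at hne
    refine H.2.2 ?_
    have hle : (P : Subgroup G) ≤ normalizer (H.1 : Set G) := fun g hg =>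
      H20.mem_normalizer_of_conj_smul_eq (congrArg Subtype.val (hne ⟨g, hg⟩))
    have hpg := P.isPGroup'.to_sup_of_normal_right' (IsPGroup.of_card H.2.1) hle
    have := P.is_maximal' hpg le_sup_left
    exact le_sup_right.trans this.le
  let big : Out → Prop := fun H => p ^ 2 ∣ Nat.card (MulAction.orbit (P : Subgroup G) H)
  have hsmall : ∀ H : Out, ¬ big H → (MulAction.stabilizer (P : Subgroup G) H).index = p := by
    intro H hH
    rw [MulAction.index_stabilizer, ← Nat.card_coe_set_eq]
    obtain ⟨k, hk⟩ := P.isPGroup'.card_orbit H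
    rw [hk]
    have hk2 : k < 2 := by
      by_contra hge
      exact hH (show p ^ 2 ∣ _ from hk ▸ pow_dvd_pow p (by omega))
    rcases Nat.eq_zero_or_pos k with rfl | hpos
    · exfalso
      obtain ⟨g, hg⟩ := hnofix H
      rw [pow_zero, Nat.card_eq_one_iff_unique] at hk
      exact hg (congrArg Subtype.val (@Subsingleton.elim _ hk.1 ⟨g • H, MulAction.mem_orbit H g⟩
        ⟨H, MulAction.mem_orbit_self H⟩))
    · rw [show k = 1 by omega, pow_one]
  -- split
  have hsplit : Nat.card Out = Nat.card {H : Out // big H} + Nat.card {H : Out // ¬ big H} := by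
    rw [← Nat.card_sum]; exact Nat.card_congr (Equiv.sumCompl big).symm
  show p ^ 2 ∣ Nat.card Out
  rw [hsplit]
  have hinv : ∀ (g : (P : Subgroup G)) (H : Out),
      MulAction.orbit (P : Subgroup G) (g • H) = MulAction.orbit (P : Subgroup G) H := fun g H =>
    MulAction.orbit_smul g H
  refine dvd_add ?_ ?_
  · letI : MulAction (P : Subgroup G) {H : Out // big H} :=
      { smul := fun g H => ⟨g • H.1, show p ^ 2 ∣ _ by rw [hinv]; exact H.2⟩
        one_smul := fun H => Subtype.ext (one_smul _ _)
        mul_smul := fun g h H => Subtype.ext (mul_smul _ _ _) }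
    refine dvd_card_of_orbits (X := (P : Subgroup G)) fun H => ?_
    have : Nat.card (MulAction.orbit (P : Subgroup G) H) = Nat.card (MulAction.orbit (P : Subgroup G) H.1) :=
      Nat.card_eq_of_bijective
        (fun x => ⟨x.1.1, by obtain ⟨g, hg⟩ := x.2; exact ⟨g, congrArg Subtype.val hg⟩⟩)
        ⟨fun x y h => by
          have h' := congrArg Subtype.val h
          exact Subtype.ext (Subtype.ext h'), fun y => by
          obtain ⟨g, hg⟩ := y.2
          exact ⟨⟨g • H, MulAction.mem_orbit H g⟩, Subtype.ext hg⟩⟩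
    rw [this]; exact H.2
  -- orbits of size `p`, grouped by the Sylow subgroup `H ⊔ N_P(H)`
  let nP : Out → Subgroup G := fun H => (P : Subgroup G) ⊓ normalizer (H.1 : Set G)
  let QT := {Q : Sylow p G // Nat.card ((P : Subgroup G) ⊓ (Q : Subgroup G) : Subgroup G) = p ^ (n - 1)}
  let Fib : QT → Type _ := fun Q =>
    {H : Subgroup G // Nat.card H = p ^ a ∧ H ≤ (Q.1 : Subgroup G) ∧
      (Q.1 : Subgroup G) ≤ normalizer (H : Set G) ∧ ¬ H ≤ (P : Subgroup G)}
  have hstab : ∀ H : Out, MulAction.stabilizer (P : Subgroup G) H = (nP H).subgroupOf (P : Subgroup G) := by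
    intro H; ext g
    simp only [MulAction.mem_stabilizer_iff, mem_subgroupOf, nP, mem_inf, SetLike.coe_mem, true_and]
    exact ⟨fun h => H20.mem_normalizer_of_conj_smul_eq (congrArg Subtype.val h),
      fun h => Subtype.ext (H20.conj_smul_eq_of_mem_normalizer h)⟩
  have hnPc : ∀ H : Out, ¬ big H → Nat.card (nP H) = p ^ (n - 1) := by
    intro H hH
    have h1 := hsmall H hH
    rw [hstab] at h1
    have h2 := ((nP H).subgroupOf (P : Subgroup G)).card_mul_index
    rw [h1, Nat.card_congr (subgroupOfEquivOfLe (inf_le_left : nP H ≤ _)).toEquiv, hPc,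
      show n = n - 1 + 1 by omega, pow_succ] at h2
    exact Nat.eq_of_mul_eq_mul_right hpP.pos h2
  have hQ : ∀ H : Out, ¬ big H → ∃ Q : QT, (Q.1 : Subgroup G) = nP H ⊔ H.1 := by
    intro H hH
    have hle : nP H ≤ normalizer (H.1 : Set G) := inf_le_right
    have hpg : IsPGroup p (nP H ⊔ H.1 : Subgroup G) :=
      ((IsPGroup.of_card (hnPc H hH)).to_sup_of_normal_right' (IsPGroup.of_card H.2.1) hle)
    obtain ⟨Q, hQle⟩ := hpg.exists_le_sylow
    have hlt : nP H < nP H ⊔ H.1 := lt_of_le_of_ne le_sup_left fun e =>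
      H.2.2 ((e ▸ le_sup_right : H.1 ≤ nP H).trans inf_le_left)
    have hc : Nat.card (nP H ⊔ H.1 : Subgroup G) = p ^ n := by
      obtain ⟨i, hi⟩ := hpg.exists_card_eq
      have hgt : p ^ (n - 1) < p ^ i := by
        rw [← hi, ← hnPc H hH]
        exact lt_of_le_of_ne (card_le_of_le hlt.le) fun e => hlt.ne (eq_of_le_of_card_ge hlt.le e.ge)
      have h2 : p ^ i ≤ p ^ n := hi ▸ Q.card_eq_multiplicity ▸ card_le_of_le hQle
      have := (Nat.pow_lt_pow_iff_right hpP.one_lt).1 hgt
      have := (Nat.pow_le_pow_iff_right hpP.one_lt).1 h2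
      rw [hi]; congr 1; omega
    have hQeq : nP H ⊔ H.1 = (Q : Subgroup G) :=
      eq_of_le_of_card_ge hQle (by rw [hc, Q.card_eq_multiplicity])
    refine ⟨⟨Q, ?_⟩, hQeq.symm⟩
    have hne : ¬ (Q : Subgroup G) ≤ P := fun h => H.2.2 ((hQeq ▸ le_sup_right : H.1 ≤ (Q : Subgroup G)).trans h)
    obtain ⟨i, -, hi⟩ := (Nat.dvd_prime_pow hpP).1 (hPc ▸ card_dvd_of_le
      (inf_le_left : (P : Subgroup G) ⊓ (Q : Subgroup G) ≤ P))
    have h1 : p ^ (n - 1) ≤ p ^ i := by
      rw [← hi, ← hnPc H hH]
      exact card_le_of_le (le_inf inf_le_left (hQeq ▸ le_sup_left))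
    have h2 : p ^ i < p ^ n := by
      rw [← hi, ← Q.card_eq_multiplicity]
      exact lt_of_le_of_ne (card_le_of_le inf_le_right) fun e =>
        hne ((eq_of_le_of_card_ge inf_le_right e.ge).ge.trans inf_le_left)
    have := (Nat.pow_le_pow_iff_right hpP.one_lt).1 h1
    have := (Nat.pow_lt_pow_iff_right hpP.one_lt).1 h2
    rw [hi]; congr 1; omega
  choose fQ hfQ using hQ
  have hfib : Nat.card {H : Out // ¬ big H} = Nat.card (Σ Q : QT, Fib Q) := by
    refine Nat.card_eq_of_bijective (fun H => ⟨fQ H.1 H.2, H.1.1, H.1.2.1,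
      hfQ H.1 H.2 ▸ le_sup_right, hfQ H.1 H.2 ▸ sup_le inf_le_right le_normalizer, H.1.2.2⟩)
      ⟨fun x y h => ?_, fun y => ?_⟩
    · exact Subtype.ext (Subtype.ext (congrArg (fun z : Σ Q : QT, Fib Q => z.2.1) h))
    · obtain ⟨Q, H, hHc, hHQ, hQN, hHP⟩ := y
      let Ho : Out := ⟨H, hHc, hHP⟩
      have hPQ : (P : Subgroup G) ⊓ (Q.1 : Subgroup G) ≤ nP Ho :=
        le_inf inf_le_left (inf_le_right.trans hQN)
      have hnbig : ¬ big Ho := by
        intro hb
        have h1 : (MulAction.stabilizer (P : Subgroup G) Ho).index ∣ p := by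
          rw [hstab]
          refine (index_dvd_of_le (comap_mono hPQ)).trans ?_
          have h2 := (((P : Subgroup G) ⊓ (Q.1 : Subgroup G)).subgroupOf (P : Subgroup G)).card_mul_index
          have e : p ^ n = p ^ (n - 1) * p := by rw [← pow_succ]; congr 1; omega
          rw [Nat.card_congr (subgroupOfEquivOfLe inf_le_left).toEquiv, Q.2, hPc, e] at h2
          exact dvd_of_eq (Nat.eq_of_mul_eq_mul_left (pow_pos hpP.pos _) h2)
        rw [MulAction.index_stabilizer, ← Nat.card_coe_set_eq] at h1
        have := Nat.le_of_dvd hpP.pos (hb.trans h1)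
        nlinarith [hpP.two_le]
      refine ⟨⟨Ho, hnbig⟩, ?_⟩
      have heq : fQ Ho hnbig = Q := by
        refine Subtype.ext (Sylow.ext ((eq_of_le_of_card_ge ?_ ?_)))
        · rw [hfQ Ho hnbig]
          refine sup_le ?_ hHQ
          exact (eq_of_le_of_card_ge hPQ (by rw [hnPc Ho hnbig, Q.2])).ge.trans inf_le_right
        · rw [Sylow.card_eq_multiplicity, Sylow.card_eq_multiplicity]
      exact Sigma.ext heq ((Subtype.heq_iff_coe_eq (fun K => by simp only [heq])).2 rfl)
  rw [hfib]
  -- each fibre is divisible by `p`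
  have hdiv : ∀ Q : QT, p ∣ Nat.card (Fib Q) := by
    intro Q
    set Qs := (Q.1 : Subgroup G)
    have hQc : Nat.card Qs = p ^ n := Q.1.card_eq_multiplicity
    set M := (P : Subgroup G) ⊓ Qs
    haveI hMn : (M.subgroupOf Qs).Normal := normal_of_index_eq hQc (by
      have h2 := (M.subgroupOf Qs).card_mul_index
      have e : p ^ n = p ^ (n - 1) * p := by rw [← pow_succ]; congr 1; omega
      rw [Nat.card_congr (subgroupOfEquivOfLe inf_le_right).toEquiv, Q.2, hQc, e] at h2
      exact Nat.eq_of_mul_eq_mul_left (pow_pos hpP.pos _) h2)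
    let All := {H : Subgroup Qs // H.Normal ∧ Nat.card H = p ^ a}
    let In := {H : All // H.1 ≤ M.subgroupOf Qs}
    let Ex := {H : All // ¬ H.1 ≤ M.subgroupOf Qs}
    have hAll : (Nat.card All : ZMod p) = 1 := by
      rw [← Nat.cast_one, ZMod.natCast_eq_natCast_iff]
      exact H82.card_normal_subgroups_modEq_one hpP hQc han.le
    have hIn : (Nat.card In : ZMod p) = 1 := by
      let X := {H : Subgroup Qs // H ≤ M.subgroupOf Qs ∧ Nat.card H = p ^ a}
      letI : MulAction Qs X :=
        { smul := fun g H => ⟨MulAut.conj g • H.1,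
            (pointwise_smul_le_pointwise_smul_iff.2 H.2.1).trans
              (H20.conj_smul_eq_of_mem_normalizer (normalizer_eq_top (H := M.subgroupOf Qs) ▸ mem_top g)).le,
            (H20.card_conj_smul _ _).trans H.2.2⟩
          one_smul := fun H => Subtype.ext (by
            show MulAut.conj (1 : Qs) • H.1 = H.1
            simp)
          mul_smul := fun g h H => Subtype.ext (by
            show MulAut.conj (g * h) • H.1 = MulAut.conj g • MulAut.conj h • H.1
            rw [map_mul, mul_smul]) }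
      have h1 := Q.1.isPGroup'.card_modEq_card_fixedPoints X
      have h2 : Nat.card X ≡ 1 [MOD p] := by
        show Nat.card {H : Subgroup Qs // H ≤ M.subgroupOf Qs ∧ Nat.card H = p ^ a} ≡ 1 [MOD p]
        rw [← card_subgroups_le (M.subgroupOf Qs) (p ^ a)]
        refine H82.card_subgroups_modEq_one hpP ?_
        rw [Nat.card_congr (subgroupOfEquivOfLe (inf_le_right : M ≤ Qs)).toEquiv, Q.2]
        exact pow_dvd_pow p (by omega)
      have h3 : Nat.card (MulAction.fixedPoints Qs X) = Nat.card In := Nat.card_congr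
        { toFun := fun H => ⟨⟨H.1.1, normalizer_eq_top_iff.1 (top_le_iff.1 fun g _ =>
            H20.mem_normalizer_of_conj_smul_eq (congrArg Subtype.val (H.2 g))), H.1.2.2⟩, H.1.2.1⟩
          invFun := fun H => ⟨⟨H.1.1, H.2, H.1.2.2⟩, fun g => Subtype.ext
            (H20.conj_smul_eq_of_mem_normalizer (by haveI := H.1.2.1; rw [normalizer_eq_top]; trivial))⟩
          left_inv := fun _ => rfl
          right_inv := fun _ => rfl }
      rw [← h3, ← Nat.cast_one, ZMod.natCast_eq_natCast_iff]
      exact h1.symm.trans h2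
    have hEx : (Nat.card Ex : ZMod p) = 0 := by
      have : Nat.card All = Nat.card In + Nat.card Ex := by
        rw [← Nat.card_sum]
        exact Nat.card_congr (Equiv.sumCompl fun H : All => H.1 ≤ M.subgroupOf Qs).symm
      rw [this, Nat.cast_add, hIn] at hAll
      linear_combination hAll
    have he : Nat.card (Fib Q) = Nat.card Ex := Nat.card_congr
      { toFun := fun H => ⟨⟨H.1.subgroupOf Qs,
            (normal_subgroupOf_iff_le_normalizer H.2.2.1).2 H.2.2.2.1, by
            rw [Nat.card_congr (subgroupOfEquivOfLe H.2.2.1).toEquiv]; exact H.2.1⟩, fun h => H.2.2.2.2 (by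
            have := map_mono (f := Qs.subtype) h
            rw [map_subgroupOf_eq_of_le H.2.2.1, map_subgroupOf_eq_of_le inf_le_right] at this
            exact this.trans inf_le_left)⟩
        invFun := fun H => ⟨H.1.1.map Qs.subtype, by
            rw [card_map_of_injective Qs.subtype_injective]; exact H.1.2.2, map_subtype_le _, by
            haveI := H.1.2.1
            rw [le_normalizer_iff]
            rintro g hg _ ⟨k, hk, rfl⟩
            exact ⟨⟨g, hg⟩ * k * ⟨g, hg⟩⁻¹, H.1.2.1.conj_mem k hk _, rfl⟩, fun h => H.2 (by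
            intro x hx
            exact mem_subgroupOf.2 ⟨h ⟨x, hx, rfl⟩, x.2⟩)⟩
        left_inv := fun H => Subtype.ext (map_subgroupOf_eq_of_le H.2.2.1)
        right_inv := fun H => Subtype.ext (Subtype.ext (comap_map_eq_self_of_injective Qs.subtype_injective _)) }
    rw [he]
    exact (ZMod.natCast_eq_zero_iff _ _).1 hEx
  -- the fibre size is invariant under `P`, which has no fixed point on `QT`
  letI : MulAction (P : Subgroup G) QT :=
    { smul := fun g Q => ⟨(g : G) • Q.1, by
        have e : (P : Subgroup G) ⊓ MulAut.conj (g : G) • (Q.1 : Subgroup G) =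
            MulAut.conj (g : G) • ((P : Subgroup G) ⊓ (Q.1 : Subgroup G)) := by
          rw [Subgroup.smul_inf, hinvP _ g.2]
        rw [Sylow.coe_subgroup_smul, e, H20.card_conj_smul]; exact Q.2⟩
      one_smul := fun Q => Subtype.ext (one_smul _ _)
      mul_smul := fun g h Q => Subtype.ext (mul_smul _ _ _) }
  have hFinv : ∀ (g : (P : Subgroup G)) (Q : QT), Nat.card (Fib (g • Q)) = Nat.card (Fib Q) := by
    intro g Q
    have hco : (((g • Q : QT).1 : Sylow p G) : Subgroup G) = MulAut.conj (g : G) • (Q.1 : Subgroup G) :=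
      Sylow.coe_subgroup_smul
    have key : ∀ H : Subgroup G, (Nat.card H = p ^ a ∧ H ≤ (Q.1 : Subgroup G) ∧
        (Q.1 : Subgroup G) ≤ normalizer (H : Set G) ∧ ¬ H ≤ (P : Subgroup G)) ↔
        (Nat.card (MulAut.conj (g : G) • H : Subgroup G) = p ^ a ∧
        MulAut.conj (g : G) • H ≤ ((g • Q : QT).1 : Subgroup G) ∧
        ((g • Q : QT).1 : Subgroup G) ≤ normalizer ((MulAut.conj (g : G) • H : Subgroup G) : Set G) ∧
        ¬ MulAut.conj (g : G) • H ≤ (P : Subgroup G)) := by
      intro H
      rw [hco, H20.card_conj_smul, pointwise_smul_le_pointwise_smul_iff]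
      refine and_congr_right fun hc => and_congr_right fun _ => and_congr ?_ ?_
      · constructor
        · intro h x hx
          refine H20.mem_normalizer_of_conj_smul_eq ?_
          have h1 := H20.conj_smul_eq_of_mem_normalizer (h (H20.mem_conj_smul.1 hx))
          rw [smul_smul, ← map_mul, show x * (g : G) = (g : G) * ((g : G)⁻¹ * x * (g : G)) by group,
            map_mul (MulAut.conj) (g : G), mul_smul, h1]
        · intro h x hx
          refine H20.mem_normalizer_of_conj_smul_eq ?_
          have h1 := H20.conj_smul_eq_of_mem_normalizer (h (H20.conj_mem_conj_smul (g := (g : G)) hx))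
          rw [smul_smul, ← map_mul, show (g : G) * x * (g : G)⁻¹ * (g : G) = (g : G) * x by group,
            map_mul (MulAut.conj), mul_smul] at h1
          exact (smul_left_cancel_iff _).1 h1
      · constructor
        · exact fun h => hout g H hc h
        · intro h hle
          exact h ((pointwise_smul_le_pointwise_smul_iff.2 hle).trans (hinvP _ g.2).le)
    exact (Nat.card_congr ((MulAction.toPerm (MulAut.conj (g : G))).subtypeEquiv key)).symm
  have hQnofix : ∀ Q : QT, p ∣ Nat.card (MulAction.orbit (P : Subgroup G) Q) := by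
    intro Q
    obtain ⟨k, hk⟩ := P.isPGroup'.card_orbit Q
    rcases Nat.eq_zero_or_pos k with rfl | hpos
    · exfalso
      rw [pow_zero, Nat.card_eq_one_iff_unique] at hk
      have hfix : ∀ g : (P : Subgroup G), g • Q = Q := fun g =>
        congrArg Subtype.val (@Subsingleton.elim _ hk.1 ⟨g • Q, MulAction.mem_orbit Q g⟩
          ⟨Q, MulAction.mem_orbit_self Q⟩)
      have hle : (P : Subgroup G) ≤ normalizer ((Q.1 : Subgroup G) : Set G) := fun g hg =>
        H20.mem_normalizer_of_conj_smul_eq (by
          have := congrArg (fun X : QT => (X.1 : Subgroup G)) (hfix ⟨g, hg⟩)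
          exact Sylow.coe_subgroup_smul.symm.trans this)
      have hpg := P.isPGroup'.to_sup_of_normal_right' Q.1.isPGroup' hle
      have hQP : (Q.1 : Subgroup G) ≤ P := le_sup_right.trans (P.is_maximal' hpg le_sup_left).le
      have h2 := Q.2
      rw [inf_eq_right.2 hQP, Q.1.card_eq_multiplicity] at h2
      have := Nat.pow_right_injective hpP.two_le h2
      omega
    · exact hk ▸ dvd_pow_self p hpos.ne'
  haveI : Fintype QT := Fintype.ofFinite _
  rw [Nat.card_sigma]
  choose e he using hdiv
  rw [Finset.sum_congr rfl fun Q _ => he Q, ← Finset.mul_sum, sq]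
  refine Nat.mul_dvd_mul_left p ?_
  have heinv : ∀ (g : (P : Subgroup G)) (Q : QT), e (g • Q) = e Q := fun g Q =>
    Nat.eq_of_mul_eq_mul_left hpP.pos (by rw [← he, ← he, hFinv])
  haveI : Fintype (MulAction.orbitRel.Quotient (P : Subgroup G) QT) := Fintype.ofFinite _
  rw [← Finset.sum_fiberwise Finset.univ (fun Q => (Quotient.mk'' Q : MulAction.orbitRel.Quotient (P : Subgroup G) QT)) e]
  refine Finset.dvd_sum fun ω _ => ?_
  induction ω using Quotient.inductionOn' with
  | h Q =>
    rw [Finset.sum_congr rfl (g := fun _ => e Q) fun R hR => by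
      obtain ⟨g, rfl⟩ := Quotient.exact' (Finset.mem_filter.1 hR).2
      exact heinv g Q, Finset.sum_const, smul_eq_mul]
    refine Dvd.dvd.mul_right ?_ _
    refine (hQnofix Q).trans (dvd_of_eq ?_)
    rw [← Fintype.card_subtype, ← Nat.card_eq_fintype_card]
    exact Nat.card_congr (Equiv.subtypeEquivRight fun R =>
      (Quotient.eq'' (s₁ := MulAction.orbitRel (P : Subgroup G) QT)).symm)

/-- The number of subgroups of order `p ^ a` is `1` or `1 + p` modulo `p²`. -/
theorem count_modEq {G : Type u} [Group G] [Finite G] {a : ℕ} (hdvd : p ^ (a + 1) ∣ Nat.card G) :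
    Nat.card {H : Subgroup G // Nat.card H = p ^ a} ≡ 1 [MOD p ^ 2] ∨
      Nat.card {H : Subgroup G // Nat.card H = p ^ a} ≡ 1 + p [MOD p ^ 2] := by
  classical
  have hpP : p.Prime := Fact.out
  rcases Nat.eq_zero_or_pos a with rfl | ha
  · left
    rw [Nat.card_eq_one_iff_unique.2 ⟨⟨fun A B => Subtype.ext ?_⟩, ⟨⟨⊥, by simp⟩⟩⟩]
    rw [eq_bot_of_card_eq A.1 (A.2.trans (pow_zero p)), eq_bot_of_card_eq B.1 (B.2.trans (pow_zero p))]
  by_cases hp2 : p = 2
  · subst hp2
    have h := H82.card_subgroups_modEq_one (G := G) hpP ((pow_dvd_pow 2 (Nat.le_succ a)).trans hdvd)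
    unfold Nat.ModEq at h ⊢
    omega
  obtain ⟨P⟩ := (inferInstance : Nonempty (Sylow p G))
  set n := (Nat.card G).factorization p
  have han : a < n := by
    have := (hpP.pow_dvd_iff_le_factorization Nat.card_pos.ne').1 hdvd
    omega
  have hsum : Nat.card {H : Subgroup G // Nat.card H = p ^ a} =
      Nat.card {H : Subgroup (P : Subgroup G) // Nat.card H = p ^ a} +
        Nat.card {H : Subgroup G // Nat.card H = p ^ a ∧ ¬ H ≤ (P : Subgroup G)} := by
    rw [card_subgroups_le (P : Subgroup G), ← Nat.card_sum]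
    exact Nat.card_congr
      { toFun := fun H => if h : H.1 ≤ (P : Subgroup G) then Sum.inl ⟨H.1, h, H.2⟩
          else Sum.inr ⟨H.1, H.2, h⟩
        invFun := Sum.elim (fun H => ⟨H.1, H.2.2⟩) (fun H => ⟨H.1, H.2.1⟩)
        left_inv := fun H => by dsimp only; split_ifs <;> rfl
        right_inv := fun H => by
          rcases H with ⟨H, h1, h2⟩ | ⟨H, h1, h2⟩
          · exact (dif_pos h1).trans rfl
          · exact (dif_neg h2).trans rfl }
  have hcount := pgroup_count hp2 P.card_eq_multiplicity ha han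
  have hout : (Nat.card {H : Subgroup G // Nat.card H = p ^ a ∧ ¬ H ≤ (P : Subgroup G)} : ZMod (p ^ 2)) = 0 :=
    (ZMod.natCast_eq_zero_iff _ _).2 (sylow_reduction P hdvd)
  rw [← ZMod.natCast_eq_natCast_iff, ← ZMod.natCast_eq_natCast_iff, hsum, Nat.cast_add, hout, add_zero,
    hcount]
  split_ifs <;> simp

end Cfsg.Agent.H89.CountSq
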