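import Cfsg.Prelude.Def_Local
import Cfsg.Agent.H34.SymEight.Data
import Cfsg.Agent.H51.Component
import Mathlib.GroupTheory.SpecificGroups.Alternating.Simple

/-!
# The exceptional configuration of the Sym(8) recognition theorem

A normal subgroup `Alt(5) × Alt(5)` with trivial centralizer, whose two factors are exchanged, and whose
quotient has exponent two, is the generalized Fitting subgroup and a minimal normal subgroup.
-/

set_option autoImplicit false

namespace Cfsg.Agent.H34.SymEight

open Subgroup
open scoped commutatorElement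

namespace Product

/-- The alternating group of degree five. -/
abbrev A5 : Type := ↥(alternatingGroup (Fin 5))

theorem exists_noncomm : ∃ a b : A5, a * b ≠ b * a :=
  ⟨⟨Equiv.swap 0 1 * Equiv.swap 1 2, by rw [Equiv.Perm.mem_alternatingGroup]; decide⟩,
    ⟨Equiv.swap 2 3 * Equiv.swap 3 4, by rw [Equiv.Perm.mem_alternatingGroup]; decide⟩,
    fun h => absurd (congrArg Subtype.val h) (by decide)⟩

theorem not_comm : ¬ IsMulCommutative A5 := fun h =>
  let ⟨a, b, hab⟩ := exists_noncomm
  hab (h.is_comm.comm a b)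

theorem center_eq_bot : center A5 = ⊥ := by
  rcases (inferInstance : (center A5).Normal).eq_bot_or_eq_top with h | h
  · exact h
  · exact absurd (center_eq_top_iff.mp h) not_comm

theorem isPerfect : Group.IsPerfect A5 := by
  refine ⟨?_⟩
  rcases (inferInstance : (commutator A5).Normal).eq_bot_or_eq_top with h | h
  · refine absurd ?_ not_comm
    rw [commutator_def, commutator_eq_bot_iff_le_centralizer, coe_top, centralizer_univ,
      top_le_iff, center_eq_top_iff] at h
    exact h
  · exact h

theorem isQuasisimple : Cfsg.IsQuasisimple A5 :=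
  haveI := isPerfect
  H51.isQuasisimple_of_normal_le_center fun N hN => by
    rcases hN.eq_bot_or_eq_top with h | h
    · exact Or.inr (h.le.trans bot_le)
    · exact Or.inl h

theorem not_isSolvable : ¬ Group.IsSolvable A5 :=
  H51.quasisimple_not_isSolvable isQuasisimple

/-- Normal subgroups of the product invariant under the exchange. -/
theorem normal_swap_invariant (K : Subgroup (A5 × A5)) [K.Normal]
    (hsw : ∀ a b, (a, b) ∈ K → (b, a) ∈ K) : K = ⊥ ∨ K = ⊤ := by
  by_cases hK : K = ⊥
  · exact Or.inl hK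
  right
  obtain ⟨⟨a, b⟩, hab, hne⟩ : ∃ p ∈ K, p ≠ 1 := by
    by_contra hcon
    push Not at hcon
    exact hK ((eq_bot_iff_forall K).mpr hcon)
  obtain ⟨a, b, hab, ha⟩ : ∃ a b : A5, (a, b) ∈ K ∧ a ≠ 1 := by
    by_cases ha : a = 1
    · exact ⟨b, a, hsw a b hab, fun hb => hne (by simp [ha, hb])⟩
    · exact ⟨a, b, hab, ha⟩
  have hC : K.comap (MonoidHom.inl A5 A5) ≠ ⊥ := by
    intro h
    apply ha
    have hcen : a ∈ center A5 := by
      rw [mem_center_iff]
      intro x
      have h1 : ((x, 1) : A5 × A5) * (a, b) * (x, 1)⁻¹ * (a, b)⁻¹ ∈ K :=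
        mul_mem (‹K.Normal›.conj_mem _ hab _) (inv_mem hab)
      have h2 : x * a * x⁻¹ * a⁻¹ ∈ K.comap (MonoidHom.inl A5 A5) := by
        rw [mem_comap]; simpa using h1
      rw [h, mem_bot] at h2
      calc x * a = x * a * x⁻¹ * a⁻¹ * (a * x) := by group
        _ = a * x := by rw [h2, one_mul]
    rwa [center_eq_bot, mem_bot] at hcen
  have hl : K.comap (MonoidHom.inl A5 A5) = ⊤ :=
    (inferInstance : (K.comap (MonoidHom.inl A5 A5)).Normal).eq_bot_or_eq_top.resolve_left hC
  refine eq_top_iff.mpr fun p _ => ?_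
  obtain ⟨x, y⟩ := p
  have hx : x ∈ K.comap (MonoidHom.inl A5 A5) := hl ▸ mem_top x
  have hy : y ∈ K.comap (MonoidHom.inl A5 A5) := hl ▸ mem_top y
  have h1 : ((x, 1) : A5 × A5) ∈ K := hx
  have h2 : ((1, y) : A5 × A5) ∈ K := hsw y 1 hy
  simpa using mul_mem h1 h2

end Product

open Product in
theorem product_conclusion {G : Type*} [Group G] [Finite G]
    (Φ : alternatingGroup (Fin 5) × alternatingGroup (Fin 5) →* G) (hinj : Function.Injective Φ)
    (q : G) (hq : ∀ a b, q * Φ (a, b) * q⁻¹ = Φ (b, a))
    (hn : Φ.range.Normal) (hidx : Φ.range.index = 4) (hsq : ∀ g : G, g * g ∈ Φ.range)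
    (hC : Subgroup.centralizer (Φ.range : Set G) = ⊥) :
    ∃ N : Subgroup G, N.Normal ∧ Cfsg.generalizedFittingSubgroup G = N ∧
      Nonempty (N ≃* alternatingGroup (Fin 5) × alternatingGroup (Fin 5)) ∧
      (∀ K : Subgroup G, K.Normal → K ≤ N → K = ⊥ ∨ K = N) ∧
      N.index = 4 ∧ ∀ g : G, g ^ 2 ∈ N := by
  have hmin : ∀ K : Subgroup G, K.Normal → K ≤ Φ.range → K = ⊥ ∨ K = Φ.range := by
    intro K hK hle
    have hsw : ∀ a b, (a, b) ∈ K.comap Φ → (b, a) ∈ K.comap Φ := by
      intro a b h
      rw [mem_comap] at h ⊢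
      rw [← hq]
      exact hK.conj_mem _ h q
    rcases normal_swap_invariant (K.comap Φ) hsw with h | h
    · left
      rw [← map_comap_eq_self hle, h, Subgroup.map_bot]
    · right
      rw [← map_comap_eq_self hle, h, ← MonoidHom.range_eq_map]
  refine ⟨Φ.range, hn, ?_, ⟨(MonoidHom.ofInjective hinj).symm⟩, hmin, hidx,
    fun g => pow_two g ▸ hsq g⟩
  apply le_antisymm
  · refine sup_le (sSup_le fun K hK => ?_) ?_
    · rw [← H51.component_commutator_self hK, commutator_le]
      intro a _ b _
      have e : ⁅a, b⁆ = a * b * (a * b) * (b⁻¹ * (a * a)⁻¹ * b) * (b * b)⁻¹ := by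
        rw [commutatorElement_def]; group
      rw [e]
      exact Φ.range.mul_mem (Φ.range.mul_mem (hsq _) (hn.conj_mem' _ (Φ.range.inv_mem (hsq a)) b))
        (Φ.range.inv_mem (hsq b))
    · haveI : Group.IsNilpotent (Cfsg.fittingSubgroup G) := H51.fittingSubgroup_isNilpotent G
      haveI hF : (Cfsg.fittingSubgroup G).Normal :=
        haveI := H51.fittingSubgroup_characteristic G
        inferInstance
      have hcap : Cfsg.fittingSubgroup G ⊓ Φ.range = ⊥ := by
        refine (hmin _ (normal_inf_normal _ _) inf_le_right).resolve_right fun h => ?_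
        have hle : Φ.range ≤ Cfsg.fittingSubgroup G := h ▸ inf_le_left
        have hs : Group.IsSolvable Φ.range :=
          Group.isSolvable_of_isSolvable_injective (inclusion_injective hle)
        exact not_isSolvable (Group.isSolvable_of_isSolvable_injective
          (f := (MonoidHom.ofInjective hinj).toMonoidHom.comp (MonoidHom.inl _ _))
          ((MonoidHom.ofInjective hinj).injective.comp fun x y h => congrArg Prod.fst h))
      intro f hf
      have : f ∈ centralizer (Φ.range : Set G) := by
        rw [mem_centralizer_iff]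
        intro n hn'
        have h1 : n * f * n⁻¹ * f⁻¹ ∈ Cfsg.fittingSubgroup G ⊓ Φ.range := by
          refine Subgroup.mem_inf.mpr ⟨mul_mem (hF.conj_mem _ hf n) (inv_mem hf), ?_⟩
          have : n * (f * n⁻¹ * f⁻¹) ∈ Φ.range :=
            mul_mem hn' (hn.conj_mem _ (inv_mem hn') f)
          simpa [mul_assoc] using this
        rw [hcap, mem_bot] at h1
        calc n * f = n * f * n⁻¹ * f⁻¹ * (f * n) := by group
          _ = f * n := by rw [h1, one_mul]
      rw [hC, mem_bot] at this
      simp [this]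
  · refine le_trans ?_ le_sup_left
    have hcomp : ∀ ι : A5 →* A5 × A5, Function.Injective ι → ι.range.Normal →
        ι.range.map Φ ≤ Cfsg.layer G := by
      intro ι hι hιn
      refine H51.component_le_layer ⟨?_, ?_⟩
      · refine Subgroup.IsSubnormal.step _ Φ.range ?_ hn.isSubnormal ?_
        · rw [MonoidHom.range_eq_map Φ]; exact map_mono le_top
        · rw [normal_subgroupOf_iff_le_normalizer
            (by rw [MonoidHom.range_eq_map Φ]; exact map_mono le_top)]
          have := le_normalizer_map (H := ι.range) Φ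
          rwa [normalizer_eq_top_iff.mpr hιn, ← MonoidHom.range_eq_map] at this
      · rw [← MonoidHom.range_comp]
        exact H51.quasisimple_of_equiv isQuasisimple
          (MonoidHom.ofInjective (f := Φ.comp ι) (hinj.comp hι))
    rintro _ ⟨⟨a, b⟩, rfl⟩
    rw [show (a, b) = MonoidHom.inl A5 A5 a * MonoidHom.inr A5 A5 b by simp, map_mul]
    refine mul_mem (hcomp _ ?_ ?_ ⟨_, ⟨a, rfl⟩, rfl⟩) (hcomp _ ?_ ?_ ⟨_, ⟨b, rfl⟩, rfl⟩)
    · exact fun x y h => congrArg Prod.fst h
    · rw [show (MonoidHom.inl A5 A5).range = (MonoidHom.snd A5 A5).ker by ext ⟨x, y⟩; simp [eq_comm, Subgroup.mem_prod]]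
      infer_instance
    · exact fun x y h => congrArg Prod.snd h
    · rw [show (MonoidHom.inr A5 A5).range = (MonoidHom.fst A5 A5).ker by ext ⟨x, y⟩; simp [eq_comm, Subgroup.mem_prod]]
      infer_instance

end Cfsg.Agent.H34.SymEight
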