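import Cfsg.Agent.H34.SymEight.Data

/-!
# Normalisation of the 3-local data for the Sym(8) recognition theorem

From the isomorphism types of the normalisers of `⟨z⟩`, `D` and the data at `y` we build `Data G`.
-/

set_option autoImplicit false
open Equiv

namespace Cfsg.Agent.H34.SymEight

namespace Setup

theorem perm3_pow_three : ∀ x : Perm (Fin 3), x ^ 3 = 1 → x = 1 ∨ x = u3 ∨ x = u3⁻¹ := by decide

theorem perm3_comm_u3 : ∀ x : Perm (Fin 3), x * u3 = u3 * x → x = 1 ∨ x = u3 ∨ x = u3 * u3 := by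
  decide

theorem perm3_conj_u3 : ∀ x : Perm (Fin 3), x * u3 * x⁻¹ = u3 ∨ x * u3 * x⁻¹ = u3⁻¹ := by decide

theorem perm3_invert : ∀ x : Perm (Fin 3), x ^ 3 = 1 → w3 * x * w3⁻¹ = x⁻¹ := by decide

theorem perm5_pow_three : ∀ σ : Perm (Fin 5), σ ^ 3 = 1 →
    σ = 1 ∨ ∃ g : Perm (Fin 5), g * t5 * g⁻¹ = σ := by decide +kernel

theorem perm5_comm_t5 : ∀ σ : Perm (Fin 5), σ ^ 3 = 1 → σ * t5 = t5 * σ →
    σ = 1 ∨ σ = t5 ∨ σ = t5⁻¹ := by decide +kernel

theorem card_comm_t5 : Fintype.card {σ : Perm (Fin 5) // σ * t5 = t5 * σ} = 6 := by decide +kernel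

theorem card_conj_t5 :
    Fintype.card {σ : Perm (Fin 5) // σ * t5 * σ⁻¹ = t5 ∨ σ * t5 * σ⁻¹ = t5⁻¹} = 12 := by
  decide +kernel

theorem card_comm_u3 : Fintype.card {x : Perm (Fin 3) // x * u3 = u3 * x} = 3 := by decide

variable {G : Type*} [Group G]

theorem mem_cen {g w : G} : g ∈ Subgroup.centralizer ({w} : Set G) ↔ g * w = w * g :=
  Subgroup.mem_centralizer_singleton_iff.trans ⟨fun h => h, fun h => h⟩

theorem mem_norm_zpowers [Finite G] {g w : G}
    (h : g * w * g⁻¹ = w ∨ g * w * g⁻¹ = w⁻¹) :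
    g ∈ Subgroup.normalizer (Subgroup.zpowers w : Set G) := by
  have hm : (Subgroup.zpowers w).map (MulAut.conj g).toMonoidHom = Subgroup.zpowers w := by
    rw [MonoidHom.map_zpowers]
    rcases h with h | h <;> simp [h]
  rw [Subgroup.mem_normalizer_iff]
  intro x
  constructor
  · intro hx
    have := Subgroup.mem_map_of_mem (MulAut.conj g).toMonoidHom hx
    rw [hm] at this
    simpa using this
  · intro hx
    rw [← hm] at hx
    obtain ⟨v, hv, hv'⟩ := hx
    simp at hv'
    rwa [← hv']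

/-- The facts recorded at the third line. -/
def Line (D : Subgroup G) (w : G) : Prop :=
  Nat.card (Subgroup.centralizer ({w} : Set G)) = 36 ∧
  Subgroup.centralizer ({w} : Set G) ≤ Subgroup.normalizer (D : Set G) ∧
  (∀ g ∈ Subgroup.centralizer ({w} : Set G), g * g ∈ D) ∧
  Nat.card (Subgroup.normalizer (Subgroup.zpowers w : Set G)) = 72 ∧
  Subgroup.normalizer (Subgroup.zpowers w : Set G) ≤ Subgroup.normalizer (D : Set G) ∧
  ∀ g ∈ Subgroup.normalizer (Subgroup.zpowers w : Set G), g * g ∈ D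

theorem card_of_conj {H K : Subgroup G} (g : G) (h : ∀ x, x ∈ K ↔ g⁻¹ * x * g ∈ H) :
    Nat.card K = Nat.card H :=
  Nat.card_congr (((MulAut.conj g).symm.toEquiv).subtypeEquiv fun x => by
    rw [h x]; simp)

theorem mem_norm_zpowers_conj (g w x : G) :
    x ∈ Subgroup.normalizer (Subgroup.zpowers (g * w * g⁻¹) : Set G) ↔
      g⁻¹ * x * g ∈ Subgroup.normalizer (Subgroup.zpowers w : Set G) := by
  have hm : ∀ a : G, a ∈ Subgroup.zpowers (g * w * g⁻¹) ↔ g⁻¹ * a * g ∈ Subgroup.zpowers w := by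
    intro a
    constructor
    · rintro ⟨n, rfl⟩
      refine ⟨n, ?_⟩
      show w ^ n = g⁻¹ * (g * w * g⁻¹) ^ n * g
      rw [conj_zpow]
      group
    · rintro ⟨n, hn⟩
      exact ⟨n, by simp only at hn ⊢; rw [conj_zpow, hn]; group⟩
  simp only [Subgroup.mem_normalizer_iff, hm]
  constructor
  · intro h v
    have := h (g * v * g⁻¹)
    simpa [mul_assoc] using this
  · intro h a
    have := h (g⁻¹ * a * g)
    simpa [mul_assoc] using this

theorem mem_cen_conj (g w x : G) :
    x ∈ Subgroup.centralizer ({g * w * g⁻¹} : Set G) ↔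
      g⁻¹ * x * g ∈ Subgroup.centralizer ({w} : Set G) := by
  rw [mem_cen, mem_cen]
  constructor
  · intro h
    calc g⁻¹ * x * g * w = g⁻¹ * (x * (g * w * g⁻¹)) * g := by group
      _ = w * (g⁻¹ * x * g) := by rw [h]; group
  · intro h
    calc x * (g * w * g⁻¹) = g * (g⁻¹ * x * g * w) * g⁻¹ := by group
      _ = g * w * g⁻¹ * x := by rw [h]; group

theorem Line.conj {D : Subgroup G} {w g : G} (hl : Line D w)
    (hg : g ∈ Subgroup.normalizer (D : Set G)) : Line D (g * w * g⁻¹) := by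
  obtain ⟨h1, h2, h3, h4, h5, h6⟩ := hl
  have hN : ∀ x : G, g⁻¹ * x * g ∈ Subgroup.normalizer (D : Set G) →
      x ∈ Subgroup.normalizer (D : Set G) := by
    intro x hx
    simpa [mul_assoc] using mul_mem (mul_mem hg hx) (inv_mem hg)
  have hD : ∀ x : G, g⁻¹ * x * g * (g⁻¹ * x * g) ∈ D → x * x ∈ D := by
    intro x hx
    have := (Subgroup.mem_normalizer_iff.1 hg _).1 hx
    simpa [mul_assoc] using this
  refine ⟨?_, ?_, ?_, ?_, ?_, ?_⟩
  · rw [card_of_conj g (mem_cen_conj g w)]; exact h1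
  · exact fun x hx => hN x (h2 ((mem_cen_conj g w x).1 hx))
  · exact fun x hx => hD x (h3 _ ((mem_cen_conj g w x).1 hx))
  · rw [card_of_conj g (mem_norm_zpowers_conj g w)]; exact h4
  · exact fun x hx => hN x (h5 ((mem_norm_zpowers_conj g w x).1 hx))
  · exact fun x hx => hD x (h6 _ ((mem_norm_zpowers_conj g w x).1 hx))

theorem cen_inv (w : G) :
    Subgroup.centralizer ({w⁻¹} : Set G) = Subgroup.centralizer ({w} : Set G) := by
  ext g
  rw [mem_cen, mem_cen]
  exact Commute.inv_right_iff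

/-- The embedding of `Sym(3) × Sym(5)` adapted to `z` and `D`. -/
structure Emb (z y : G) (D : Subgroup G) where
  Φ : Perm (Fin 3) × Perm (Fin 5) →* G
  inj : Function.Injective Φ
  range : Φ.range = Subgroup.normalizer (Subgroup.zpowers z : Set G)
  map_z : Φ (u3, 1) = z
  x : Perm (Fin 3)
  x_pow : x ^ 3 = 1
  map_y : Φ (x, t5) = y

theorem exists_emb [Finite G] (D : Subgroup G) (y z : G) (hgen : Subgroup.closure {y, z} = D)
    (hcomm : IsMulCommutative D) (hcard : Nat.card D = 9) (hexp : ∀ a ∈ D, a ^ 3 = 1)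
    (eC : Subgroup.centralizer ({z} : Set G) ≃* Multiplicative (ZMod 3) × Equiv.Perm (Fin 5))
    (eL : Subgroup.normalizer (Subgroup.zpowers z : Set G) ≃*
      Equiv.Perm (Fin 3) × Equiv.Perm (Fin 5)) :
    Nonempty (Emb z y D) := by
  have hzD : z ∈ D := hgen ▸ Subgroup.subset_closure (by simp)
  have hyD : y ∈ D := hgen ▸ Subgroup.subset_closure (by simp)
  have hz1 : z ≠ 1 := by
    intro hz
    have hle : D ≤ Subgroup.zpowers y := by
      rw [← hgen, Subgroup.closure_le]
      rintro a (rfl | rfl)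
      · exact Subgroup.mem_zpowers a
      · simp [hz]
    have h1 := Subgroup.card_le_of_le hle
    rw [hcard, Nat.card_zpowers] at h1
    have := Nat.le_of_dvd (by norm_num) (orderOf_dvd_of_pow_eq_one (hexp y hyD))
    omega
  obtain ⟨Φ₀, hΦ₀⟩ : ∃ f : Perm (Fin 3) × Perm (Fin 5) →* G,
      f = (Subgroup.subtype _).comp eL.symm.toMonoidHom := ⟨_, rfl⟩
  have hinj₀ : Function.Injective Φ₀ := by
    rw [hΦ₀]; exact (Subgroup.subtype_injective _).comp eL.symm.injective
  have hrange₀ : Φ₀.range = Subgroup.normalizer (Subgroup.zpowers z : Set G) := by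
    rw [hΦ₀, MonoidHom.range_comp, MonoidHom.range_eq_top.2 eL.symm.surjective,
      ← MonoidHom.range_eq_map, Subgroup.range_subtype]
  have hzN : z ∈ Φ₀.range := by
    rw [hrange₀]; exact Subgroup.le_normalizer (Subgroup.mem_zpowers z)
  obtain ⟨⟨a, b⟩, hab⟩ := hzN
  have hz3 : z ^ 3 = 1 := hexp z hzD
  have h3 : a ^ 3 = 1 ∧ b ^ 3 = 1 := by
    have : (a, b) ^ 3 = 1 := hinj₀ (by rw [map_pow, hab, hz3, map_one])
    simpa [Prod.ext_iff] using this
  have hcC : Nat.card (Subgroup.centralizer ({z} : Set G)) = 360 := by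
    rw [Nat.card_congr eC.toEquiv, Nat.card_prod, Nat.card_eq_fintype_card,
      Nat.card_eq_fintype_card, Fintype.card_perm]
    decide
  have hin : ∀ g : G, g * z = z * g → g ∈ Φ₀.range := by
    intro g hg
    rw [hrange₀]
    exact mem_norm_zpowers (Or.inl (by rw [hg, mul_inv_cancel_right]))
  have hcount : Nat.card {p : Perm (Fin 3) // p * a = a * p} *
      Nat.card {σ : Perm (Fin 5) // σ * b = b * σ} = 360 := by
    rw [← Nat.card_prod, ← hcC]
    refine Nat.card_eq_of_bijective (fun p => ⟨Φ₀ (p.1.1, p.2.1), ?_⟩) ⟨?_, ?_⟩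
    · rw [mem_cen, ← hab, ← map_mul, ← map_mul, Prod.mk_mul_mk, Prod.mk_mul_mk, p.1.2, p.2.2]
    · rintro ⟨⟨p, hp⟩, ⟨σ, hσ⟩⟩ ⟨⟨p', hp'⟩, ⟨σ', hσ'⟩⟩ h
      have := hinj₀ (Subtype.ext_iff.1 h)
      simp only [Prod.mk.injEq] at this
      simp [this.1, this.2]
    · rintro ⟨g, hg⟩
      obtain ⟨⟨p, σ⟩, rfl⟩ := hin g (mem_cen.1 hg)
      have hpσ : (p, σ) * (a, b) = (a, b) * (p, σ) :=
        hinj₀ (by rw [map_mul, map_mul, hab]; exact mem_cen.1 hg)
      simp only [Prod.mk_mul_mk, Prod.mk.injEq] at hpσ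
      exact ⟨(⟨p, hpσ.1⟩, ⟨σ, hpσ.2⟩), rfl⟩
  have hb : b = 1 := by
    rcases perm5_pow_three b h3.2 with hb | ⟨g, hg⟩
    · exact hb
    · exfalso
      have hc6 : Nat.card {σ : Perm (Fin 5) // σ * b = b * σ} = 6 := by
        rw [← card_comm_t5, ← Nat.card_eq_fintype_card]
        refine Nat.card_congr ((MulAut.conj g).symm.toEquiv.subtypeEquiv fun σ => ?_)
        simp only [MulEquiv.toEquiv_eq_coe, EquivLike.coe_coe, MulAut.conj_symm_apply]
        subst hg
        constructor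
        · intro h
          calc g⁻¹ * σ * g * t5 = g⁻¹ * (σ * (g * t5 * g⁻¹)) * g := by group
            _ = t5 * (g⁻¹ * σ * g) := by rw [h]; group
        · intro h
          calc σ * (g * t5 * g⁻¹) = g * (g⁻¹ * σ * g * t5) * g⁻¹ := by group
            _ = g * t5 * g⁻¹ * σ := by rw [h]; group
      have hle : Nat.card {p : Perm (Fin 3) // p * a = a * p} ≤ 6 :=
        le_trans (Nat.card_le_card_of_injective _ Subtype.val_injective) (by
          rw [Nat.card_eq_fintype_card, Fintype.card_perm]; decide)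
      rw [hc6] at hcount
      omega
  subst hb
  have ha : a ≠ 1 := by
    rintro rfl
    exact hz1 (by rw [← hab]; exact map_one Φ₀)
  -- move `a` to `u3`
  obtain ⟨r, hr⟩ : ∃ r : Perm (Fin 3), r * u3 * r⁻¹ = a := by
    rcases perm3_pow_three a h3.1 with h | h | h
    · exact absurd h ha
    · exact ⟨1, by simp [h]⟩
    · exact ⟨w3, by rw [h]; decide⟩
  have hyC : y * z = z * y := congrArg Subtype.val (hcomm.is_comm.comm (⟨y, hyD⟩ : D) ⟨z, hzD⟩)
  obtain ⟨⟨a', b'⟩, hab'⟩ := hin y hyC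
  have hy3 : a' ^ 3 = 1 ∧ b' ^ 3 = 1 := by
    have : (a', b') ^ 3 = 1 := hinj₀ (by rw [map_pow, hab', hexp y hyD, map_one])
    simpa [Prod.ext_iff] using this
  have hb' : b' ≠ 1 := by
    rintro rfl
    have hle : D ≤ Subgroup.zpowers z := by
      rw [← hgen, Subgroup.closure_le]
      rintro v (rfl | rfl)
      · rcases perm3_pow_three a' hy3.1 with rfl | rfl | rfl
        · rw [← hab']
          exact (map_one Φ₀).symm ▸ one_mem _
        all_goals
          rcases perm3_pow_three a h3.1 with rfl | rfl | rfl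
          · exact absurd rfl ha
          all_goals rw [← hab', ← hab]
          all_goals first
            | exact Subgroup.mem_zpowers _
            | (rw [show ((u3 : Perm (Fin 3))⁻¹, (1 : Perm (Fin 5))) = (u3, 1)⁻¹ by simp, map_inv]
               first
                 | exact inv_mem (Subgroup.mem_zpowers _)
                 | exact Subgroup.zpowers_inv (g := Φ₀ (u3, 1)) ▸ Subgroup.mem_zpowers _)
      · exact Subgroup.mem_zpowers v
    have h1 := Subgroup.card_le_of_le hle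
    rw [hcard, Nat.card_zpowers] at h1
    have := Nat.le_of_dvd (by norm_num) (orderOf_dvd_of_pow_eq_one hz3)
    omega
  obtain ⟨g, hg⟩ := (perm5_pow_three b' hy3.2).resolve_left hb'
  obtain ⟨Ψ, hΨ⟩ : ∃ e : Perm (Fin 3) × Perm (Fin 5) ≃* Perm (Fin 3) × Perm (Fin 5),
      e = MulEquiv.prodCongr (MulAut.conj r) (MulAut.conj g) := ⟨_, rfl⟩
  have hΨ' : ∀ p q, Ψ (p, q) = (r * p * r⁻¹, g * q * g⁻¹) := fun p q => by
    rw [hΨ]; rfl
  refine ⟨⟨Φ₀.comp Ψ.toMonoidHom, hinj₀.comp Ψ.injective, ?_, ?_, r⁻¹ * a' * r, ?_, ?_⟩⟩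
  · rw [MonoidHom.range_comp, MonoidHom.range_eq_top.2 Ψ.surjective, ← MonoidHom.range_eq_map,
      hrange₀]
  · show Φ₀ (Ψ (u3, 1)) = z
    rw [hΨ', hr, mul_one, mul_inv_cancel, hab]
  · rw [show r⁻¹ * a' * r = r⁻¹ * a' * (r⁻¹)⁻¹ by simp, conj_pow, hy3.1]
    simp
  · show Φ₀ (Ψ (r⁻¹ * a' * r, t5)) = y
    rw [hΨ', hg, show r * (r⁻¹ * a' * r) * r⁻¹ = a' by group, hab']

end Setup

open Setup in
theorem exists_data {G : Type*} [Group G] [Finite G]
    (P : Sylow 3 G) (D : Subgroup G) (hDP : D = P) (y z : G) (hgen : Subgroup.closure {y, z} = D)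
    (hcomm : IsMulCommutative D) (hcard : Nat.card D = 9) (hexp : ∀ a ∈ D, a ^ 3 = 1)
    (hC : Nat.card (Subgroup.centralizer (D : Set G)) = 18)
    (eN : Subgroup.normalizer (D : Set G) ⧸ D.subgroupOf (Subgroup.normalizer (D : Set G)) ≃*
      DihedralGroup 4 × Multiplicative (ZMod 2))
    [hcn : ((Subgroup.centralizer (D : Set G)).subgroupOf
      (Subgroup.normalizer (D : Set G))).Normal]
    (eNC : Subgroup.normalizer (D : Set G) ⧸ (Subgroup.centralizer (D : Set G)).subgroupOf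
      (Subgroup.normalizer (D : Set G)) ≃* DihedralGroup 4)
    (hyn : (D.subgroupOf (Subgroup.centralizer ({y} : Set G))).Normal)
    (hycard : Nat.card (Subgroup.centralizer ({y} : Set G)) = 36)
    (hysq : ∀ g ∈ Subgroup.centralizer ({y} : Set G), g ^ 2 ∈ D)
    (Ny : Subgroup G) (hNy : Ny = Subgroup.normalizer (Subgroup.zpowers y : Set G))
    (hyNn : (D.subgroupOf Ny).Normal) (hyNcard : Nat.card Ny = 72)
    (hyNsq : ∀ g ∈ Ny, g ^ 2 ∈ D)
    (eC : Subgroup.centralizer ({z} : Set G) ≃* Multiplicative (ZMod 3) × Equiv.Perm (Fin 5))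
    (eL : Subgroup.normalizer (Subgroup.zpowers z : Set G) ≃*
      Equiv.Perm (Fin 3) × Equiv.Perm (Fin 5)) :
    Nonempty (Data G) := by
  obtain ⟨⟨Φ, hinj, hrange, hz, x, hx3, hy⟩⟩ := exists_emb D y z hgen hcomm hcard hexp eC eL
  subst hNy
  have hzD : z ∈ D := hgen ▸ Subgroup.subset_closure (by simp)
  have hyD : y ∈ D := hgen ▸ Subgroup.subset_closure (by simp)
  have hcomm' : ∀ a ∈ D, ∀ b ∈ D, a * b = b * a := fun a ha b hb =>
    congrArg Subtype.val (hcomm.is_comm.comm (⟨a, ha⟩ : D) ⟨b, hb⟩)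
  have hline : Line D y := by
    refine ⟨hycard, ?_, fun g hg => pow_two g ▸ hysq g hg, hyNcard, ?_,
      fun g hg => pow_two g ▸ hyNsq g hg⟩
    · refine (Subgroup.normal_subgroupOf_iff_le_normalizer ?_).1 hyn
      exact fun d hd => mem_cen.2 (hcomm' d hd y hyD)
    · refine (Subgroup.normal_subgroupOf_iff_le_normalizer ?_).1 hyNn
      exact fun d hd => mem_norm_zpowers (Or.inl (by rw [hcomm' d hd y hyD, mul_inv_cancel_right]))
  have hx1 : (x, (1 : Perm (Fin 5))) ∈ Subgroup.zpowers ((u3, 1) : Perm (Fin 3) × Perm (Fin 5)) := by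
    rcases perm3_pow_three x hx3 with rfl | rfl | rfl
    · exact one_mem _
    · exact Subgroup.mem_zpowers _
    · simpa using inv_mem (Subgroup.mem_zpowers ((u3, 1) : Perm (Fin 3) × Perm (Fin 5)))
  have hz'D : Φ (1, t5) ∈ D := by
    have h1 : Φ (x, 1) ∈ D := by
      have := Subgroup.mem_map_of_mem Φ hx1
      rw [MonoidHom.map_zpowers, hz] at this
      exact (Subgroup.zpowers_le.2 hzD) this
    have e : Φ (1, t5) = (Φ (x, 1))⁻¹ * Φ (x, t5) := by rw [← map_inv, ← map_mul]; simp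
    rw [e, hy]
    exact mul_mem (inv_mem h1) hyD
  have hD : D = Subgroup.closure {Φ (u3, 1), Φ (1, t5)} := by
    apply le_antisymm
    · rw [← hgen, Subgroup.closure_le]
      rintro v (rfl | rfl)
      · rw [← hy, show (x, t5) = (x, 1) * ((1 : Perm (Fin 3)), t5) by simp, map_mul]
        refine mul_mem ?_ (Subgroup.subset_closure (by simp))
        have := Subgroup.mem_map_of_mem Φ hx1
        rw [MonoidHom.map_zpowers] at this
        exact (Subgroup.zpowers_le.2 (Subgroup.subset_closure (by simp))) this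
      · exact Subgroup.subset_closure (by simp [hz])
    · rw [Subgroup.closure_le]
      rintro v (rfl | rfl)
      · rw [hz]; exact hzD
      · exact hz'D
  have helem : ∀ w ∈ D, ∃ a σ, w = Φ (a, σ) ∧ a ^ 3 = 1 ∧ (σ = 1 ∨ σ = t5 ∨ σ = t5⁻¹) := by
    intro w hw
    have hwN : w ∈ Φ.range := by
      rw [hrange]
      exact mem_norm_zpowers (Or.inl (by rw [hcomm' w hw z hzD, mul_inv_cancel_right]))
    obtain ⟨⟨a, σ⟩, rfl⟩ := hwN
    have h3 : (a, σ) ^ 3 = 1 := hinj (by rw [map_pow, hexp _ hw, map_one])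
    have hc : (a, σ) * ((1 : Perm (Fin 3)), t5) = (1, t5) * (a, σ) :=
      hinj (by rw [map_mul, map_mul]; exact hcomm' _ hw _ hz'D)
    simp only [Prod.pow_mk, Prod.mk_eq_one, Prod.mk_mul_mk, Prod.mk.injEq] at h3 hc
    exact ⟨a, σ, rfl, h3.1, perm5_comm_t5 σ h3.2 hc.2⟩
  -- the intersection of the two normalisers
  have hnormD : ∀ p : Perm (Fin 3) × Perm (Fin 5), Φ p ∈ Subgroup.normalizer (D : Set G) ↔
      (p.2 * t5 * p.2⁻¹ = t5 ∨ p.2 * t5 * p.2⁻¹ = t5⁻¹) := by
    rintro ⟨a, σ⟩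
    constructor
    · intro hp
      have := (Subgroup.mem_normalizer_iff.1 hp _).1 hz'D
      rw [← map_inv, ← map_mul, ← map_mul] at this
      obtain ⟨a', σ', he, -, hσ'⟩ := helem _ this
      have he' := hinj he
      simp only [Prod.inv_mk, Prod.mk_mul_mk, Prod.mk.injEq] at he'
      rcases hσ' with rfl | rfl | rfl
      · exact absurd (conj_eq_one_iff.1 he'.2) t5_ne_one
      · exact Or.inl he'.2
      · exact Or.inr he'.2
    · intro hσ
      have hle : D.map (MulAut.conj (Φ (a, σ))).toMonoidHom ≤ D := by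
        conv_lhs => rw [hD]
        rw [Subgroup.map_le_iff_le_comap, Subgroup.closure_le]
        rintro v (rfl | rfl)
        · show Φ (a, σ) * Φ (u3, 1) * (Φ (a, σ))⁻¹ ∈ D
          rw [← map_inv, ← map_mul, ← map_mul]
          simp only [Prod.inv_mk, Prod.mk_mul_mk, mul_one, mul_inv_cancel]
          rcases perm3_conj_u3 a with h | h <;> rw [h]
          · rw [hz]; exact hzD
          · have : Φ (u3⁻¹, 1) = (Φ (u3, 1))⁻¹ := by rw [← map_inv]; simp
            rw [this, hz]; exact inv_mem hzD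
        · show Φ (a, σ) * Φ (1, t5) * (Φ (a, σ))⁻¹ ∈ D
          rw [← map_inv, ← map_mul, ← map_mul]
          simp only [Prod.inv_mk, Prod.mk_mul_mk, mul_one, mul_inv_cancel]
          rcases hσ with h | h <;> rw [h]
          · exact hz'D
          · have : Φ (1, t5⁻¹) = (Φ (1, t5))⁻¹ := by rw [← map_inv]; simp
            rw [this]; exact inv_mem hz'D
      have he : D.map (MulAut.conj (Φ (a, σ))).toMonoidHom = D :=
        Subgroup.eq_of_le_of_card_ge hle
          (Subgroup.card_map_of_injective (MulAut.conj (Φ (a, σ))).injective).ge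
      rw [Subgroup.mem_normalizer_iff]
      intro v
      constructor
      · exact fun hv => hle ⟨v, hv, rfl⟩
      · intro hv
        rw [← he] at hv
        obtain ⟨v', hv', he'⟩ := hv
        have : v' = v := (MulAut.conj (Φ (a, σ))).injective he'
        exact this ▸ hv'
  have hcardN : Nat.card (Subgroup.normalizer (D : Set G)) = 144 := by
    rw [Subgroup.card_eq_card_quotient_mul_card_subgroup
      (D.subgroupOf (Subgroup.normalizer (D : Set G))), Nat.card_congr eN.toEquiv,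
      Nat.card_congr (Subgroup.subgroupOfEquivOfLe Subgroup.le_normalizer).toEquiv, hcard,
      Nat.card_prod, DihedralGroup.nat_card]
    simp
  obtain ⟨H, hH⟩ : ∃ H : Subgroup G,
      H = Subgroup.normalizer (Subgroup.zpowers z : Set G) ⊓
        Subgroup.normalizer (D : Set G) := ⟨_, rfl⟩
  have hcardH : Nat.card H = 72 := by
    have h12 : Nat.card ({a : Perm (Fin 3) // True} ×
        {σ : Perm (Fin 5) // σ * t5 * σ⁻¹ = t5 ∨ σ * t5 * σ⁻¹ = t5⁻¹}) = 72 := by
      rw [Nat.card_prod, Nat.card_eq_fintype_card, Nat.card_eq_fintype_card, card_conj_t5,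
        Fintype.card_subtype_true, Fintype.card_perm]
      decide
    rw [← h12]
    have hmem : ∀ p : {a : Perm (Fin 3) // True} ×
        {σ : Perm (Fin 5) // σ * t5 * σ⁻¹ = t5 ∨ σ * t5 * σ⁻¹ = t5⁻¹},
        Φ (p.1.1, p.2.1) ∈ H := by
      intro p
      rw [hH, Subgroup.mem_inf, ← hrange, hnormD]
      exact ⟨⟨_, rfl⟩, p.2.2⟩
    refine (Nat.card_eq_of_bijective (fun p => (⟨Φ (p.1.1, p.2.1), hmem p⟩ : H)) ⟨?_, ?_⟩).symm
    · rintro ⟨⟨a, ha⟩, ⟨σ, hσ⟩⟩ ⟨⟨a', ha'⟩, ⟨σ', hσ'⟩⟩ h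
      have := hinj (Subtype.ext_iff.1 h)
      simp only [Prod.mk.injEq] at this
      simp [this.1, this.2]
    · rintro ⟨g, hg⟩
      rw [hH, Subgroup.mem_inf, ← hrange] at hg
      obtain ⟨⟨⟨a, σ⟩, rfl⟩, hg2⟩ := hg
      exact ⟨(⟨a, trivial⟩, ⟨σ, (hnormD _).1 hg2⟩), rfl⟩
  have hHN : H ≤ Subgroup.normalizer (D : Set G) := hH ▸ inf_le_right
  have hHnormal : (H.subgroupOf (Subgroup.normalizer (D : Set G))).Normal := by
    apply Subgroup.normal_of_index_eq_two
    have := Subgroup.index_mul_card (H.subgroupOf (Subgroup.normalizer (D : Set G)))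
    rw [Nat.card_congr (Subgroup.subgroupOfEquivOfLe hHN).toEquiv, hcardH, hcardN] at this
    omega
  -- conjugates of `z` outside its normaliser
  have horb : ∀ g ∈ Subgroup.normalizer (D : Set G),
      g ∉ Subgroup.normalizer (Subgroup.zpowers z : Set G) →
      g * z * g⁻¹ = Φ (1, t5) ∨ g * z * g⁻¹ = Φ (1, t5⁻¹) := by
    intro g hg hgz
    have hw : g * z * g⁻¹ ∈ D := (Subgroup.mem_normalizer_iff.1 hg _).1 hzD
    obtain ⟨a, σ, he, ha3, hσ⟩ := helem _ hw
    have hsH : Φ (w3, 1) ∈ H := by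
      rw [hH, Subgroup.mem_inf, ← hrange, hnormD]
      exact ⟨⟨_, rfl⟩, Or.inl (by simp)⟩
    have hconj : g⁻¹ * Φ (w3, 1) * g ∈ H := by
      have := hHnormal.conj_mem ⟨_, hHN hsH⟩ (Subgroup.mem_subgroupOf.2 hsH) ⟨g⁻¹, inv_mem hg⟩
      simpa [Subgroup.mem_subgroupOf, mul_assoc] using this
    rw [hH, Subgroup.mem_inf, ← hrange] at hconj
    obtain ⟨⟨⟨p, π⟩, hp⟩, -⟩ := hconj
    have hfix : Φ (w3, 1) * (g * z * g⁻¹) * (Φ (w3, 1))⁻¹ = g * z * g⁻¹ ∨
        Φ (w3, 1) * (g * z * g⁻¹) * (Φ (w3, 1))⁻¹ = (g * z * g⁻¹)⁻¹ := by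
      have e : Φ (w3, 1) * (g * z * g⁻¹) * (Φ (w3, 1))⁻¹ =
          g * (Φ (p, π) * z * (Φ (p, π))⁻¹) * g⁻¹ := by rw [hp]; group
      rw [e, ← hz, ← map_inv, ← map_mul, ← map_mul]
      simp only [Prod.inv_mk, Prod.mk_mul_mk, mul_one, mul_inv_cancel]
      rcases perm3_conj_u3 p with h | h <;> rw [h]
      · exact Or.inl rfl
      · refine Or.inr ?_
        rw [show ((u3 : Perm (Fin 3))⁻¹, (1 : Perm (Fin 5))) = (u3, 1)⁻¹ by simp, map_inv]
        group
    rw [he, ← map_inv, ← map_inv, ← map_mul, ← map_mul] at hfix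
    simp only [Prod.inv_mk, Prod.mk_mul_mk, perm3_invert a ha3, inv_one, mul_one, one_mul,
      hinj.eq_iff, Prod.mk.injEq] at hfix
    have hσ1 : σ ≠ 1 := by
      rintro rfl
      apply hgz
      apply mem_norm_zpowers
      rcases perm3_pow_three a ha3 with rfl | rfl | rfl
      · have : z = 1 := conj_eq_one_iff.1 (he.trans (map_one Φ))
        exact Or.inl (by simp [this])
      · exact Or.inl (he.trans hz)
      · refine Or.inr (he.trans ?_)
        rw [← hz, ← map_inv]; simp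
    have ha1 : a = 1 := by
      rcases hfix with ⟨h, -⟩ | ⟨-, h⟩
      · calc a = a ^ 3 * (a * a)⁻¹ := by group
          _ = 1 := by
            rw [ha3]
            nth_rewrite 1 [← h]
            simp
      · exfalso
        rcases hσ with rfl | rfl | rfl
        · exact hσ1 rfl
        · exact absurd h (by decide)
        · exact absurd h (by decide)
    subst ha1
    rcases hσ with rfl | rfl | rfl
    · exact absurd rfl hσ1
    · exact Or.inl he
    · exact Or.inr he
  have hC360 : Nat.card (Subgroup.centralizer ({z} : Set G)) = 360 := by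
    rw [Nat.card_congr eC.toEquiv, Nat.card_prod, Nat.card_eq_fintype_card,
      Nat.card_eq_fintype_card, Fintype.card_perm]
    decide
  have hx : x ≠ 1 := by
    rintro rfl
    obtain ⟨g, hg, hgz⟩ : ∃ g ∈ Subgroup.normalizer (D : Set G),
        g ∉ Subgroup.normalizer (Subgroup.zpowers z : Set G) := by
      by_contra hcon
      push Not at hcon
      have hle : Subgroup.normalizer (D : Set G) ≤ H := by
        rw [hH]; exact fun g hg => ⟨hcon g hg, hg⟩
      have := Subgroup.card_le_of_le hle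
      omega
    have hcy : Subgroup.centralizer ({y} : Set G) =
        Subgroup.centralizer ({g * z * g⁻¹} : Set G) := by
      rcases horb g hg hgz with h | h <;> rw [h, ← hy]
      rw [← cen_inv (Φ (1, t5⁻¹)), ← map_inv]
      simp
    rw [hcy, card_of_conj g (mem_cen_conj g z), hC360] at hycard
    omega
  have hs : Φ (w3, 1) ∈ Subgroup.normalizer (D : Set G) := (hnormD _).2 (Or.inl (by simp))
  have hline' : Line D (Φ (u3, t5)) := by
    rcases perm3_pow_three x hx3 with rfl | rfl | rfl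
    · exact absurd rfl hx
    · rw [hy]; exact hline
    · have := hline.conj hs
      rw [← hy, ← map_inv, ← map_mul, ← map_mul] at this
      simpa [show w3 * u3⁻¹ * w3⁻¹ = u3 by decide] using this
  obtain ⟨hc1, hc2, hc3, hc4, hc5, hc6⟩ := hline'
  have hcD : ∀ g : G, g * Φ (u3, 1) = Φ (u3, 1) * g → g * Φ (1, t5) = Φ (1, t5) * g →
      g ∈ Subgroup.centralizer (D : Set G) := by
    intro g h1 h2
    rw [hD, Subgroup.centralizer_closure]
    refine Subgroup.mem_centralizer_iff.2 ?_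
    rintro v (rfl | rfl)
    · exact h1.symm
    · exact h2.symm
  have hcle : Subgroup.centralizer (D : Set G) ≤
      Subgroup.centralizer ({Φ (u3, t5)} : Set G) := by
    intro g hg
    refine mem_cen.2 (Subgroup.mem_centralizer_iff.1 hg _ ?_).symm
    show Φ (u3, t5) ∈ D
    rw [show (u3, t5) = (u3, (1 : Perm (Fin 5))) * (1, t5) by simp, map_mul]
    exact mul_mem (hz.symm ▸ hzD) hz'D
  have hswap : ∀ g ∈ Subgroup.centralizer ({Φ (u3, t5)} : Set G),
      g ∉ Subgroup.centralizer (D : Set G) → g * g ∈ D →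
      g * Φ (u3, 1) * g⁻¹ = Φ (1, t5) := by
    intro g hg hgD hg2
    have hgN := hc2 hg
    have hgz : g ∉ Subgroup.normalizer (Subgroup.zpowers z : Set G) := by
      intro h
      rw [← hrange] at h
      obtain ⟨⟨p, π⟩, rfl⟩ := h
      apply hgD
      have := mem_cen.1 hg
      rw [← map_mul, ← map_mul, hinj.eq_iff, Prod.mk_mul_mk, Prod.mk_mul_mk,
        Prod.mk.injEq] at this
      refine hcD _ ?_ ?_ <;> rw [← map_mul, ← map_mul] <;> congr 1 <;>
        simp [this.1, this.2]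
    rcases horb g hgN hgz with h | h
    · rw [hz]; exact h
    · exfalso
      rw [← hz] at h
      have h' : g * Φ (1, t5) * g⁻¹ = Φ (u3, t5 * t5) := by
        have e : g * Φ (u3, t5) * g⁻¹ = Φ (u3, t5) := by
          rw [mem_cen.1 hg, mul_inv_cancel_right]
        have e2 : g * Φ (1, t5) * g⁻¹ =
            (g * Φ (u3, 1) * g⁻¹)⁻¹ * (g * Φ (u3, t5) * g⁻¹) := by
          rw [show (u3, t5) = (u3, (1 : Perm (Fin 5))) * (1, t5) by simp, map_mul]
          group
        rw [e2, e, h, ← map_inv, ← map_mul]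
        simp
      have h2 : g * g * Φ (u3, 1) * (g * g)⁻¹ = Φ (u3, 1) := by
        rw [hcomm' _ hg2 _ (hz.symm ▸ hzD), mul_inv_cancel_right]
      have h3 : g * g * Φ (u3, 1) * (g * g)⁻¹ = (g * Φ (1, t5) * g⁻¹)⁻¹ := by
        have e3 : g * g * Φ (u3, 1) * (g * g)⁻¹ = g * (g * Φ (u3, 1) * g⁻¹) * g⁻¹ := by group
        rw [e3, h, show ((1 : Perm (Fin 3)), t5⁻¹) = (1, t5)⁻¹ by simp, map_inv]
        group
      rw [h2, h', ← map_inv, hinj.eq_iff] at h3
      simp only [Prod.inv_mk, Prod.mk.injEq] at h3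
      exact absurd h3.1 (by decide)
  obtain ⟨g₀, hg₀, hg₀D⟩ : ∃ g ∈ Subgroup.centralizer ({Φ (u3, t5)} : Set G),
      g ∉ Subgroup.centralizer (D : Set G) := by
    by_contra hcon
    push Not at hcon
    have := Subgroup.card_le_of_le (H := Subgroup.centralizer ({Φ (u3, t5)} : Set G)) hcon
    omega
  obtain ⟨q, hq⟩ : ∃ q, q = g₀ * (g₀ * g₀) := ⟨_, rfl⟩
  have hDC : D ≤ Subgroup.centralizer (D : Set G) := fun d hd =>
    Subgroup.mem_centralizer_iff.2 fun v hv => hcomm' v hv d hd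
  have hqC : q ∈ Subgroup.centralizer ({Φ (u3, t5)} : Set G) :=
    hq ▸ mul_mem hg₀ (mul_mem hg₀ hg₀)
  have hqD : q ∉ Subgroup.centralizer (D : Set G) := by
    rw [hq, Subgroup.mul_mem_cancel_right _ (hDC (hc3 g₀ hg₀))]
    exact hg₀D
  have hq2 : q * q = 1 := by
    rw [hq, show g₀ * (g₀ * g₀) * (g₀ * (g₀ * g₀)) = (g₀ * g₀) ^ 3 by
      rw [pow_succ, pow_two]; simp only [mul_assoc]]
    exact hexp _ (hc3 g₀ hg₀)
  have hqi : q⁻¹ = q := inv_eq_of_mul_eq_one_right hq2
  have hqz : q * Φ (u3, 1) * q = Φ (1, t5) := by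
    have := hswap q hqC hqD (hq2.symm ▸ one_mem _)
    rwa [hqi] at this
  have hqc : Commute q (Φ (1, c5)) := by
    have hcC : Φ (1, c5) ∈ Subgroup.centralizer (D : Set G) := by
      refine hcD _ ?_ ?_ <;> rw [← map_mul, ← map_mul] <;> congr 1 <;> simp [c5_comm]
    have hqN := hc2 hqC
    have hconj : q * Φ (1, c5) * q⁻¹ ∈ Subgroup.centralizer (D : Set G) := by
      have := hcn.conj_mem
        ⟨_, Subgroup.centralizer_le_normalizer _ hcC⟩ (Subgroup.mem_subgroupOf.2 hcC) ⟨q, hqN⟩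
      simpa [Subgroup.mem_subgroupOf] using this
    have hidx : (D.subgroupOf (Subgroup.centralizer (D : Set G))).index = 2 := by
      have := Subgroup.index_mul_card (D.subgroupOf (Subgroup.centralizer (D : Set G)))
      rw [Nat.card_congr (Subgroup.subgroupOfEquivOfLe hDC).toEquiv, hcard, hC] at this
      omega
    have hinv : ∀ v : G, v * v = 1 → v ∈ D → v = 1 := by
      intro v hv hvD
      calc v = v ^ 3 * (v * v)⁻¹ := by group
        _ = 1 := by rw [hexp v hvD, hv]; simp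
    have hc0 : Φ (1, c5) * Φ (1, c5) = 1 := by
      rw [← map_mul]; simp [c5_sq]; exact map_one Φ
    have hnot : Φ (1, c5) ∉ D := by
      intro h
      have := hinv _ hc0 h
      rw [← map_one Φ, hinj.eq_iff, Prod.mk_eq_one] at this
      exact absurd this.2 (by decide)
    have hnot' : q * Φ (1, c5) * q⁻¹ ∉ D := by
      intro h
      have h1 := hinv _ (by rw [conj_mul, hc0]; simp) h
      exact hnot (conj_eq_one_iff.1 h1 ▸ one_mem D)
    have hmem : q * Φ (1, c5) * q⁻¹ * Φ (1, c5) ∈ D := by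
      have := (Subgroup.mul_mem_iff_of_index_two hidx (a := ⟨_, hconj⟩) (b := ⟨_, hcC⟩)).2
        (by simp only [Subgroup.mem_subgroupOf]; exact iff_of_false hnot' hnot)
      simpa [Subgroup.mem_subgroupOf] using this
    have hcm : Φ (1, c5) * (q * Φ (1, c5) * q⁻¹ * Φ (1, c5)) =
        q * Φ (1, c5) * q⁻¹ * Φ (1, c5) * Φ (1, c5) :=
      (Subgroup.mem_centralizer_iff.1 hcC _ hmem).symm
    have h1 : q * Φ (1, c5) * q⁻¹ * Φ (1, c5) = 1 := by
      refine hinv _ ?_ hmem
      calc q * Φ (1, c5) * q⁻¹ * Φ (1, c5) * (q * Φ (1, c5) * q⁻¹ * Φ (1, c5))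
          = q * Φ (1, c5) * q⁻¹ * (Φ (1, c5) * (q * Φ (1, c5) * q⁻¹ * Φ (1, c5))) := by
            simp only [mul_assoc]
        _ = q * (Φ (1, c5) * Φ (1, c5)) * q⁻¹ * (Φ (1, c5) * Φ (1, c5)) := by
            rw [hcm]; group
        _ = 1 := by rw [hc0]; simp
    show q * Φ (1, c5) = Φ (1, c5) * q
    rw [eq_inv_of_mul_eq_one_left h1 |> fun e => show q * Φ (1, c5) = (Φ (1, c5))⁻¹ * q by
      rw [← e]; group, inv_eq_of_mul_eq_one_right hc0]
  have hnot27 : ¬ 27 ∣ Nat.card G := by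
    intro h
    have h1 := P.pow_dvd_card_of_pow_dvd_card (n := 3) (by simpa using h)
    rw [← hDP, hcard] at h1
    norm_num at h1
  have hhom : ∃ f : Subgroup.normalizer (D : Set G) →* DihedralGroup 4, Function.Surjective f ∧
      f.ker = (Subgroup.centralizer (D : Set G)).subgroupOf _ :=
    ⟨eNC.toMonoidHom.comp (QuotientGroup.mk' _),
      eNC.surjective.comp (QuotientGroup.mk'_surjective _), by
        rw [← MonoidHom.comap_ker, (MonoidHom.ker_eq_bot_iff _).2 eNC.injective,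
          MonoidHom.comap_bot, QuotientGroup.ker_mk']⟩
  subst hD
  exact ⟨{
    ιL := Φ.comp (MonoidHom.inl _ _)
    ι := Φ.comp (MonoidHom.inr _ _)
    q := q
    comm := fun a b => (show Commute (a, (1 : Perm (Fin 5))) (1, b) by
      simp [commute_iff_eq]).map Φ
    inj := fun a b h => by
      have h' : Φ (a, b) = 1 := by
        rw [← h]
        simp only [MonoidHom.comp_apply, MonoidHom.inl_apply, MonoidHom.inr_apply, ← map_mul]
        simp
      rw [← map_one Φ, hinj.eq_iff, Prod.mk_eq_one] at h'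
      exact h'
    mem_cz := fun g hg => by
      have hgN : g ∈ Φ.range := by
        rw [hrange, ← hz]
        exact mem_norm_zpowers (Or.inl (by
          rw [show g * Φ (u3, 1) = Φ (u3, 1) * g from hg, mul_inv_cancel_right]))
      obtain ⟨⟨p, σ⟩, rfl⟩ := hgN
      have hp : (p, σ) * (u3, 1) = (u3, 1) * (p, σ) :=
        hinj (by rw [map_mul, map_mul]; exact hg)
      simp only [Prod.mk_mul_mk, Prod.mk.injEq] at hp
      rcases perm3_comm_u3 p hp.1 with rfl | rfl | rfl
      · exact ⟨0, σ, by simp⟩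
      · refine ⟨1, σ, ?_⟩
        simp only [MonoidHom.comp_apply, MonoidHom.inl_apply, MonoidHom.inr_apply, pow_one,
          ← map_mul]
        simp
      · refine ⟨2, σ, ?_⟩
        simp only [MonoidHom.comp_apply, MonoidHom.inl_apply, MonoidHom.inr_apply, pow_two,
          ← map_mul]
        simp
    q_sq := hq2
    q_z := hqz
    q_c := hqc
    not_27 := hnot27
    card_norm := hcardN
    norm_hom := hhom
    card_cy := by simpa [← map_mul] using hc1
    cy_le := by simpa [← map_mul] using hc2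
    cy_sq := by simpa [← map_mul] using hc3
    card_ny := by simpa [← map_mul] using hc4
    ny_le := by simpa [← map_mul] using hc5
    ny_sq := by simpa [← map_mul] using hc6 }⟩

end Cfsg.Agent.H34.SymEight
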