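import Cfsg.Agent.H89.TwoGeneratedTools
import Cfsg.Agent.H51.FStar
import Cfsg.Agent.H51.PLayer
import Cfsg.Agent.H21.ThompsonFpfCore

/-! The generalised Fitting subgroup of a group with a non-abelian two-generated Sylow subgroup. -/

set_option autoImplicit false

namespace Cfsg.Agent.H89

open Subgroup
open scoped IsMulCommutative commutatorElement Pointwise

variable {G : Type*} [Group G] [Finite G] {p : ℕ} [hp : Fact p.Prime] (P : Sylow p G)

/-- The Frattini subgroup of `P`, inside `G`. -/
abbrev sylFrattini : Subgroup G :=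
  (frattini ↥(P : Subgroup G)).map (P : Subgroup G).subtype

theorem cyclic_supplement (hgen : (frattini ↥(P : Subgroup G)).index = p ^ 2) (M : Subgroup G)
    (hM : ¬ M ⊓ (P : Subgroup G) ≤ sylFrattini P) :
    ∃ t ∈ (P : Subgroup G), (P : Subgroup G) = zpowers t ⊔ (M ⊓ (P : Subgroup G)) := by
  obtain ⟨t, ht⟩ := exists_zpowers_sup_eq_top hgen (M.subgroupOf (P : Subgroup G)) fun h => hM
    fun x hx => ⟨⟨x, hx.2⟩, h (mem_subgroupOf.2 hx.1), rfl⟩
  refine ⟨t, t.2, ?_⟩
  have := congrArg (Subgroup.map (P : Subgroup G).subtype) ht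
  rw [Subgroup.map_sup, MonoidHom.map_zpowers, subgroupOf_map_subtype, ← MonoidHom.range_eq_map,
    Subgroup.range_subtype] at this
  exact this.symm

omit P in
/-- With `O_{p'}(G) = 1`, a subnormal subgroup with a normal `p`-complement is a `p`-group. -/
theorem isPGroup_of_subnormal_complement (hcore : Cfsg.pPrimeCore p G = ⊥) (M : Subgroup G)
    (hMs : M.IsSubnormal) (h : Cfsg.HasNormalPComplement p M) : IsPGroup p M := by
  obtain ⟨R, K, hKn, hK⟩ := h
  have hKs : (K.map M.subtype).IsSubnormal := by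
    refine Subgroup.IsSubnormal.step _ _ (map_subtype_le K) hMs ?_
    rw [show (K.map M.subtype).subgroupOf M = K from
      comap_map_eq_self_of_injective M.subtype_injective K]
    exact hKn
  have hKc : (Nat.card (K.map M.subtype)).Coprime p := by
    rw [Nat.card_congr (equivMapOfInjective _ _ M.subtype_injective).symm.toEquiv,
      ← hK.index_eq_card, Nat.coprime_comm, hp.out.coprime_iff_not_dvd]
    exact R.not_dvd_index
  have hKb : K = ⊥ := by
    have := H51.le_pPrimeCore_of_subnormal hKs hKc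
    rw [hcore, le_bot_iff] at this
    exact (map_eq_bot_iff_of_injective K M.subtype_injective).1 this
  rw [hKb, isComplement'_bot_left] at hK
  exact (R.2.to_le hK.ge).of_equiv Subgroup.topEquiv

/-- If a subnormal subgroup normalised by `P` meets it inside `Φ(P)`, it is a `p`-group. -/
theorem isPGroup_of_inf_le_frattini (hcore : Cfsg.pPrimeCore p G = ⊥) (M : Subgroup G)
    (hMs : M.IsSubnormal) (hPM : (P : Subgroup G) ≤ normalizer (M : Set G))
    (hle : M ⊓ (P : Subgroup G) ≤ sylFrattini P) : IsPGroup p M := by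
  set H := normalizer (M : Set G) with hH
  have hMH : M ≤ H := le_normalizer
  haveI : (M.subgroupOf H).Normal := normal_in_normalizer
  have h1 : Cfsg.HasNormalPComplement p (M.subgroupOf H) := by
    refine H22.hasNormalPComplement_of_inf_le_frattini (P.subtype hPM) _ fun x hx => ?_
    obtain ⟨y, hy, hyx⟩ := hle (⟨hx.1, hx.2⟩ : (x : G) ∈ M ⊓ (P : Subgroup G))
    let e : ↥((P : Subgroup G).subgroupOf H) ≃* ↥(P : Subgroup G) := subgroupOfEquivOfLe hPM
    obtain ⟨w, hw, hwy⟩ := (H58.map_frattini_mulEquiv e).symm.le hy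
    refine ⟨w, hw, Subtype.ext ?_⟩
    rw [← hyx, ← hwy]
    rfl
  exact isPGroup_of_subnormal_complement hcore M hMs
    ((H22.hasNormalPComplement_congr (subgroupOfEquivOfLe hMH)).1 h1)

variable (hna : ¬ IsMulCommutative (P : Subgroup G))
  (hgen : (frattini ↥(P : Subgroup G)).index = p ^ 2) (hcore : Cfsg.pPrimeCore p G = ⊥)
  (hfrat : (sylFrattini P).normalCore = ⊥)

include hcore hfrat in
theorem not_le_frattini_of_normal (M : Subgroup G) [hMn : M.Normal] (hM : M ≠ ⊥) :
    ¬ M ⊓ (P : Subgroup G) ≤ sylFrattini P := by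
  intro hle
  have h1 := isPGroup_of_inf_le_frattini P hcore M hMn.isSubnormal
    (by rw [normalizer_eq_top_iff.2 hMn]; exact le_top) hle
  have hMP : M ≤ (P : Subgroup G) :=
    (H19.le_pCore hMn h1).trans (H19.pCore_le_sylow P)
  have := normal_le_normalCore.2 ((le_inf le_rfl hMP).trans hle)
  exact hM (le_bot_iff.1 (hfrat ▸ this))

include hna hgen in
/-- Two disjoint `P`-invariant subgroups cannot both leave `Φ(P)`. -/
theorem not_two (M₁ M₂ : Subgroup G) (h₁ : (P : Subgroup G) ≤ normalizer (M₁ : Set G))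
    (h₂ : (P : Subgroup G) ≤ normalizer (M₂ : Set G))
    (hdis : M₁ ⊓ M₂ ⊓ (P : Subgroup G) = ⊥)
    (hf₁ : ¬ M₁ ⊓ (P : Subgroup G) ≤ sylFrattini P)
    (hf₂ : ¬ M₂ ⊓ (P : Subgroup G) ≤ sylFrattini P) : False := by
  haveI : (M₁.subgroupOf (P : Subgroup G)).Normal := normal_subgroupOf_of_le_normalizer h₁
  haveI : (M₂.subgroupOf (P : Subgroup G)).Normal := normal_subgroupOf_of_le_normalizer h₂
  refine hna (commutative_of_two_cyclic (M₁.subgroupOf (P : Subgroup G))
    (M₂.subgroupOf (P : Subgroup G)) (eq_bot_iff.2 fun x hx => ?_) ?_ ?_)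
  · have : (x : G) ∈ M₁ ⊓ M₂ ⊓ (P : Subgroup G) :=
      Subgroup.mem_inf.2 ⟨Subgroup.mem_inf.2 ⟨hx.1, hx.2⟩, x.2⟩
    rw [hdis, mem_bot] at this
    exact mem_bot.2 (Subtype.ext this)
  · exact exists_zpowers_sup_eq_top hgen _ fun h => hf₁
      fun x hx => ⟨⟨x, hx.2⟩, h (mem_subgroupOf.2 hx.1), rfl⟩
  · exact exists_zpowers_sup_eq_top hgen _ fun h => hf₂
      fun x hx => ⟨⟨x, hx.2⟩, h (mem_subgroupOf.2 hx.1), rfl⟩

include hna hgen hcore hfrat in
theorem exists_unique_minimal : ∃ N : Subgroup G, N.Normal ∧ N ≠ ⊥ ∧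
    ∀ K : Subgroup G, K.Normal → K ≠ ⊥ → N ≤ K := by
  haveI : Nontrivial G := by
    by_contra h
    haveI := not_nontrivial_iff_subsingleton.1 h
    exact hna ⟨⟨fun a b => Subsingleton.elim _ _⟩⟩
  obtain ⟨N, hN⟩ := (Set.toFinite {N : Subgroup G | N.Normal ∧ N ≠ ⊥}).exists_minimal
    ⟨⊤, inferInstance, top_ne_bot⟩
  obtain ⟨⟨hNn, hNb⟩, hmin⟩ := hN
  haveI := hNn
  refine ⟨N, hNn, hNb, fun K hKn hKb => ?_⟩
  haveI := hKn
  by_contra hNK
  have hI : N ⊓ K = ⊥ := by
    by_contra h
    exact hNK ((hmin ⟨inferInstance, h⟩ inf_le_left).trans inf_le_right)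
  exact not_two P hna hgen N K (by rw [normalizer_eq_top_iff.2 hNn]; exact le_top)
    (by rw [normalizer_eq_top_iff.2 hKn]; exact le_top) (by rw [hI, bot_inf_eq])
    (not_le_frattini_of_normal P hcore hfrat N hNb) (not_le_frattini_of_normal P hcore hfrat K hKb)

include hgen hcore hfrat in
/-- If `O_p(G) ≠ 1` it is the unique minimal normal subgroup, and `G` has no components. -/
theorem fstar_abelian_case (hna : ¬ IsMulCommutative (P : Subgroup G)) {N : Subgroup G}
    [hNn : N.Normal] (hNb : N ≠ ⊥) (huni : ∀ K : Subgroup G, K.Normal → K ≠ ⊥ → N ≤ K)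
    (hU : Cfsg.pCore p G ≠ ⊥) : Cfsg.generalizedFittingSubgroup G = N := by
  set U := Cfsg.pCore p G with hUdef
  haveI hUn : U.Normal := H19.pCore_normal p G
  have hUP : U ≤ (P : Subgroup G) := H19.pCore_le_sylow P
  have hNU : N ≤ U := huni U hUn hU
  have hNp : IsPGroup p N := P.2.to_le (hNU.trans hUP)
  have hcomm : ∀ a ∈ U, ∀ b ∈ U, a * b = b * a ∧ a ^ p = 1 := by
    intro a ha b hb
    have hle1 : ⁅U, U⁆ = ⊥ := by
      refine le_bot_iff.1 (hfrat ▸ normal_le_normalCore.2 ?_)
      refine (commutator_mono hUP hUP).trans ?_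
      rw [commutator_le]
      intro x hx y hy
      exact ⟨⁅(⟨x, hx⟩ : (P : Subgroup G)), ⟨y, hy⟩⁆, H24.commutator_le_frattini P.2
        (commutator_mem_commutator (mem_top _) (mem_top _)), rfl⟩
    have hle2 : Subgroup.normalClosure {a ^ p} = ⊥ := by
      refine le_bot_iff.1 (hfrat ▸ normal_le_normalCore.2 ?_)
      change Subgroup.closure (Group.conjugatesOfSet {a ^ p}) ≤ _
      rw [closure_le]
      intro y hy
      obtain ⟨_, rfl, hy⟩ := Group.mem_conjugatesOfSet_iff.1 hy
      obtain ⟨g, rfl⟩ := isConj_iff.1 hy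
      rw [← conj_pow]
      exact ⟨(⟨g * a * g⁻¹, hUP (hUn.conj_mem a ha g)⟩ : (P : Subgroup G)) ^ p,
        H24.pow_mem_frattini P.2 _, rfl⟩
    refine ⟨?_, ?_⟩
    · have h := commutator_mem_commutator ha hb
      rw [hle1, mem_bot] at h
      exact commutatorElement_eq_one_iff_commute.1 h
    · exact mem_bot.1 (hle2 ▸ subset_normalClosure (Set.mem_singleton _))
  haveI : IsMulCommutative U := ⟨⟨fun a b => Subtype.ext (hcomm _ a.2 _ b.2).1⟩⟩
  obtain ⟨t, htP, hPt⟩ := cyclic_supplement P hgen N (not_le_frattini_of_normal P hcore hfrat N hNb)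
  have hUN : U = N := by
    set C := U ⊓ zpowers t with hC
    have hsup : U ≤ N ⊔ C := by
      intro u hu
      obtain ⟨m, hm, y, hy, h⟩ := mem_sup_of_normal_left.1
        ((hPt.le.trans (sup_le le_sup_right (inf_le_left.trans le_sup_left)) :
          (P : Subgroup G) ≤ N ⊔ zpowers t) (hUP hu))
      refine h ▸ Subgroup.mul_mem _ (mem_sup_left hm) (mem_sup_right ⟨?_, hy⟩)
      have : y = m⁻¹ * u := by rw [← h, inv_mul_cancel_left]
      exact this ▸ U.mul_mem (U.inv_mem (hNU hm)) hu
    by_cases hCN : N ⊓ C = ⊥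
    · refine eq_of_invariant_complement P hNU hNp C inf_le_left hCN hsup ?_
        fun K hKn _ hKN => by_contra fun h => hNb ?_
      · rw [hPt]
        refine sup_le ?_ ?_
        · refine zpowers_le.2 (mem_normalizer_iff.2 fun x => ?_)
          have h1 : x ∈ U ↔ t * x * t⁻¹ ∈ U :=
            mem_normalizer_iff.1 ((normalizer_eq_top_iff.2 hUn).ge (mem_top t)) x
          have h2 : x ∈ zpowers t ↔ t * x * t⁻¹ ∈ zpowers t :=
            mem_normalizer_iff.1 (le_normalizer (mem_zpowers t)) x
          exact and_congr h1 h2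
        · intro n hn
          refine mem_normalizer_iff.2 fun x => ?_
          have hxU : ∀ y, y ∈ C → n * y * n⁻¹ = y := fun y hy => by
            rw [(hcomm n (hNU hn.1) y hy.1).1, mul_inv_cancel_right]
          constructor
          · intro hx
            rwa [hxU x hx]
          · intro hx
            have hxu : x ∈ U := by
              have := hUn.conj_mem _ hx.1 n⁻¹
              simpa [mul_assoc] using this
            rwa [(hcomm n (hNU hn.1) x hxu).1, mul_inv_cancel_right] at hx
      · rw [← inf_eq_right.2 (huni K hKn h)]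
        exact hKN
    · obtain ⟨c, hc, hc1⟩ := (N ⊓ C).bot_or_exists_ne_one.resolve_left hCN
      have hCle : C ≤ N := by
        intro x hx
        haveI : IsCyclic ↥C := isCyclic_of_le inf_le_right
        obtain ⟨g, hg⟩ := IsCyclic.exists_generator (α := C)
        have hcard : Nat.card C = orderOf g := (orderOf_eq_card_of_forall_mem_zpowers hg).symm
        have hgp : orderOf g ∣ p := orderOf_dvd_of_pow_eq_one
          (Subtype.ext (hcomm _ g.2.1 _ g.2.1).2)
        rcases (Nat.dvd_prime hp.out).1 hgp with h | h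
        · refine absurd ?_ hc1
          have := hcard.trans h
          exact congrArg Subtype.val (@Subsingleton.elim C
            (Finite.card_le_one_iff_subsingleton.1 this.le) ⟨c, hc.2⟩ 1)
        · have hz : zpowers (⟨c, hc.2⟩ : C) = ⊤ :=
            zpowers_eq_top_of_prime_card (hcard.trans h) (fun e => hc1 (congrArg Subtype.val e))
          obtain ⟨i, hi⟩ := hz.ge (mem_top (⟨x, hx⟩ : C))
          have h' := congrArg Subtype.val hi
          simp only [SubgroupClass.coe_zpow] at h'
          exact h' ▸ N.zpow_mem hc.1 i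
      exact le_antisymm (hsup.trans (sup_le le_rfl hCle)) hNU
  have hlay : Cfsg.layer G = ⊥ := by
    by_contra hL
    have hNL : N ≤ Cfsg.layer G := huni _ (H51.layer_normal G) hL
    haveI : Group.IsNilpotent N := hNp.isNilpotent
    have hcent : Cfsg.layer G ≤ centralizer (N : Set G) :=
      commutator_eq_bot_iff_le_centralizer.1 (H51.layer_commute_of_solvable_normal N inferInstance)
    have := central_le_commutator_sylow hNL hNp (H51.layer_commutator_self G) hcent P
    have hle : N ⊓ (P : Subgroup G) ≤ sylFrattini P := by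
      refine inf_le_left.trans (this.trans ?_)
      rw [commutator_le]
      intro x hx y hy
      exact ⟨⁅(⟨x, hx⟩ : (P : Subgroup G)), ⟨y, hy⟩⁆, H24.commutator_le_frattini P.2
        (commutator_mem_commutator (mem_top _) (mem_top _)), rfl⟩
    exact not_le_frattini_of_normal P hcore hfrat N hNb hle
  rw [H51.generalizedFitting_eq_fitting_of_layer_eq_bot hlay]
  refine le_antisymm (sSup_le ?_) (le_sSup ⟨hNn, hNp.isNilpotent⟩)
  rintro X ⟨hXn, hXnil⟩
  haveI := hXn
  haveI := hXnil
  have h := isPGroup_of_subnormal_complement hcore X hXn.isSubnormal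
    (H21.hasNormalPComplement_of_nilpotent p)
  exact hUN ▸ H19.le_pCore hXn h

end Cfsg.Agent.H89

namespace Cfsg.Agent.H89

open Subgroup
open scoped IsMulCommutative commutatorElement Pointwise

variable {G : Type*} [Group G] [Finite G] {p : ℕ} [hp : Fact p.Prime]

/-- If `O_p(G) = 1` the Fitting subgroup is trivial. -/
theorem fitting_eq_bot (hcore : Cfsg.pPrimeCore p G = ⊥) (hU : Cfsg.pCore p G = ⊥) :
    Cfsg.fittingSubgroup G = ⊥ := by
  refine le_bot_iff.1 (sSup_le ?_)
  rintro X ⟨hXn, hXnil⟩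
  haveI := hXn
  haveI := hXnil
  exact hU ▸ H19.le_pCore hXn (isPGroup_of_subnormal_complement hcore X hXn.isSubnormal
    (H21.hasNormalPComplement_of_nilpotent p))

/-- If `O_p(G) = 1`, the unique minimal normal subgroup is the layer, which equals `F*(G)`. -/
theorem fstar_semisimple_case (hcore : Cfsg.pPrimeCore p G = ⊥) (hU : Cfsg.pCore p G = ⊥)
    {N : Subgroup G} [hNn : N.Normal] (hNb : N ≠ ⊥)
    (huni : ∀ K : Subgroup G, K.Normal → K ≠ ⊥ → N ≤ K) :
    Cfsg.generalizedFittingSubgroup G = N ∧ Cfsg.layer G = N ∧ Cfsg.fittingSubgroup G = ⊥ := by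
  have hF := fitting_eq_bot hcore hU
  have hFs : Cfsg.generalizedFittingSubgroup G = Cfsg.layer G := by
    rw [Cfsg.generalizedFittingSubgroup, hF, sup_bot_eq]
  have hL : Cfsg.layer G ≠ ⊥ := by
    intro hL
    have h := H51.centralizer_generalizedFitting_le G
    rw [hFs, hL] at h
    refine hNb (le_bot_iff.1 (le_trans ?_ h))
    intro x _
    exact mem_centralizer_iff.2 fun y hy => by rw [mem_bot.1 hy, one_mul, mul_one]
  refine ⟨hFs.trans ?_, ?_, hF⟩ <;>
  refine le_antisymm (sSup_le fun L hL' => ?_) (huni _ (H51.layer_normal G) hL)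
  all_goals
    refine (H51.component_le_or_commute_of_normal hL' hNn).resolve_right fun h => ?_
    haveI : (centralizer (N : Set G)).Normal := inferInstance
    have hC : centralizer (N : Set G) ≠ ⊥ := fun e =>
      H51.component_ne_bot hL' (le_bot_iff.1 (e ▸ commutator_eq_bot_iff_le_centralizer.1 h))
    have hNC := huni _ inferInstance hC
    refine hNb (le_bot_iff.1 (hF ▸ H51.le_fittingSubgroup_of_commutative hNn
      (commutator_eq_bot_iff_le_centralizer.2 hNC)))

/-- A non-trivial join of components is not a `p`-group. -/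
theorem not_isPGroup_sSup {S : Set (Subgroup G)} {K : Subgroup G} (hK : Cfsg.IsComponent K)
    (hKS : K ∈ S) : ¬ IsPGroup p ↥(sSup S) := by
  intro h
  haveI : Group.IsNilpotent K := (h.to_le (le_sSup hKS)).isNilpotent
  exact H51.quasisimple_not_isSolvable hK.2 inferInstance

/-- The Sylow subgroup permutes the components transitively. -/
theorem components_transitive (P : Sylow p G) (hna : ¬ IsMulCommutative (P : Subgroup G))
    (hgen : (frattini ↥(P : Subgroup G)).index = p ^ 2) (hcore : Cfsg.pPrimeCore p G = ⊥)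
    (hF : Cfsg.fittingSubgroup G = ⊥) (K L : Subgroup G) (hK : Cfsg.IsComponent K)
    (hL : Cfsg.IsComponent L) :
    ∃ x ∈ (P : Subgroup G), L = K.map (MulAut.conj x).toMonoidHom := by
  by_contra hnot
  set S : Set (Subgroup G) :=
    {T | ∃ x ∈ (P : Subgroup G), T = K.map (MulAut.conj x).toMonoidHom} with hS
  set R : Set (Subgroup G) := {T | Cfsg.IsComponent T ∧ T ∉ S} with hR
  have hmap : ∀ (T : Subgroup G) (a b : G),
      (T.map (MulAut.conj a).toMonoidHom).map (MulAut.conj b).toMonoidHom =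
        T.map (MulAut.conj (b * a)).toMonoidHom := fun T a b => by
    rw [map_map]
    congr 1
    ext y
    simp [mul_assoc]
  have hScomp : ∀ T ∈ S, Cfsg.IsComponent T := by
    rintro T ⟨x, -, rfl⟩
    exact H51.component_map_conj hK x
  have hKS : K ∈ S := ⟨1, one_mem _, by ext y; simp⟩
  have hSinv : ∀ x ∈ (P : Subgroup G), ∀ T ∈ S, T.map (MulAut.conj x).toMonoidHom ∈ S := by
    rintro x hx T ⟨a, ha, rfl⟩
    exact ⟨x * a, mul_mem hx ha, hmap _ _ _⟩
  have hRinv : ∀ x ∈ (P : Subgroup G), ∀ T ∈ R, T.map (MulAut.conj x).toMonoidHom ∈ R := by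
    intro x hx T hT
    refine ⟨H51.component_map_conj hT.1 x, fun h => hT.2 ?_⟩
    have h' := hSinv x⁻¹ (inv_mem hx) _ h
    rw [hmap, inv_mul_cancel] at h'
    convert h'
    ext y
    simp
  have hPn : ∀ T : Set (Subgroup G),
      (∀ x ∈ (P : Subgroup G), ∀ A ∈ T, A.map (MulAut.conj x).toMonoidHom ∈ T) →
      (P : Subgroup G) ≤ normalizer ((sSup T : Subgroup G) : Set G) := by
    intro T hT
    rw [le_normalizer_iff]
    intro x hx k hk
    have hle : sSup T ≤ (sSup T).comap (MulAut.conj x).toMonoidHom := sSup_le fun A hA y hy =>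
      le_sSup (hT x hx A hA) (mem_map_of_mem _ hy)
    exact hle hk
  have hsub : ∀ T : Set (Subgroup G), (∀ A ∈ T, Cfsg.IsComponent A) →
      (sSup T).IsSubnormal := by
    intro T hT
    have hle : sSup T ≤ Cfsg.layer G := sSup_le fun A hA => H51.component_le_layer (hT A hA)
    refine Subgroup.IsSubnormal.step _ _ hle (H51.layer_normal G).isSubnormal
      ((normal_subgroupOf_iff_le_normalizer hle).2 ?_)
    exact H51.le_normalizer_sSup fun A hA => H51.layer_le_normalizer_component (hT A hA)
  have hLR : L ∈ R := ⟨hL, fun ⟨x, hx, e⟩ => hnot ⟨x, hx, e⟩⟩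
  have hcomm : ⁅sSup R, sSup S⁆ = ⊥ := by
    refine H51.commutator_sSup_right_eq_bot fun A hA => ?_
    rw [commutator_comm]
    refine H51.commutator_sSup_right_eq_bot fun B hB => ?_
    exact (H51.component_eq_or_commute (hScomp A hA) hB.1).resolve_left
      fun e => hB.2 (e ▸ hA)
  have hdis : sSup S ⊓ sSup R = ⊥ := by
    refine le_bot_iff.1 (hF ▸ le_trans ?_ (H51.layer_inf_centralizer_layer_le_fitting G))
    intro z hz
    refine ⟨(sSup_le fun A hA => H51.component_le_layer (hScomp A hA)) hz.1, ?_⟩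
    have h1 : Cfsg.layer G ≤ centralizer ({z} : Set G) := sSup_le fun A hA => by
      intro a ha
      rw [mem_centralizer_singleton_iff]
      by_cases hAS : A ∈ S
      · exact ((mem_centralizer_iff.1 (commutator_eq_bot_iff_le_centralizer.1 hcomm hz.2)) a
          (le_sSup hAS ha))
      · have hcomm' : ⁅sSup S, sSup R⁆ = ⊥ := by rw [commutator_comm]; exact hcomm
        have hAR : A ∈ R := ⟨hA, hAS⟩
        exact ((mem_centralizer_iff.1 (commutator_eq_bot_iff_le_centralizer.1 hcomm' hz.1)) a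
          (le_sSup hAR ha))
    exact mem_centralizer_iff.2 fun a ha => mem_centralizer_singleton_iff.1 (h1 ha)
  refine not_two P hna hgen _ _ (hPn S hSinv) (hPn R hRinv) (by rw [hdis, bot_inf_eq]) ?_ ?_
  · exact fun h => not_isPGroup_sSup hK hKS
      (isPGroup_of_inf_le_frattini P hcore _ (hsub S hScomp) (hPn S hSinv) h)
  · exact fun h => not_isPGroup_sSup hL hLR
      (isPGroup_of_inf_le_frattini P hcore _ (hsub R fun A hA => hA.1) (hPn R hRinv) h)

/-- **Statement S4172**. -/
theorem two_generated_sylow (P : Sylow p G) (hna : ¬ IsMulCommutative (P : Subgroup G))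
    (hgen : (frattini ↥(P : Subgroup G)).index = p ^ 2) (hcore : Cfsg.pPrimeCore p G = ⊥)
    (hfrat : (sylFrattini P).normalCore = ⊥) [hFn : (Cfsg.generalizedFittingSubgroup G).Normal] :
    (Cfsg.generalizedFittingSubgroup G ≠ ⊥ ∧
        ∀ K : Subgroup G, K.Normal → K ≠ ⊥ → Cfsg.generalizedFittingSubgroup G ≤ K) ∧
      IsCyclic ↥((P : Subgroup G).map (QuotientGroup.mk' (Cfsg.generalizedFittingSubgroup G))) ∧
      (¬ IsMulCommutative (Cfsg.generalizedFittingSubgroup G) → ∀ K L : Subgroup G,
        Cfsg.IsComponent K → Cfsg.IsComponent L →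
          ∃ x ∈ (P : Subgroup G), L = K.map (MulAut.conj x).toMonoidHom) := by
  obtain ⟨N, hNn, hNb, huni⟩ := exists_unique_minimal P hna hgen hcore hfrat
  haveI := hNn
  have hFN : Cfsg.generalizedFittingSubgroup G = N ∧
      (Cfsg.fittingSubgroup G = ⊥ ∨ IsMulCommutative N) := by
    by_cases hU : Cfsg.pCore p G = ⊥
    · obtain ⟨h1, -, h2⟩ := fstar_semisimple_case hcore hU hNb huni
      exact ⟨h1, Or.inl h2⟩
    · refine ⟨fstar_abelian_case P hgen hcore hfrat hna hNb huni hU, Or.inr ?_⟩
      haveI := H19.pCore_normal p G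
      have hNU : N ≤ Cfsg.pCore p G := huni _ inferInstance hU
      have hNp : IsPGroup p N := P.2.to_le (hNU.trans (H19.pCore_le_sylow P))
      have hle : ⁅N, N⁆ = ⊥ := by
        refine le_bot_iff.1 (hfrat ▸ normal_le_normalCore.2 ?_)
        refine (commutator_mono (hNU.trans (H19.pCore_le_sylow P))
          (hNU.trans (H19.pCore_le_sylow P))).trans ?_
        rw [commutator_le]
        intro x hx y hy
        exact ⟨⁅(⟨x, hx⟩ : (P : Subgroup G)), ⟨y, hy⟩⁆, H24.commutator_le_frattini P.2
          (commutator_mem_commutator (mem_top _) (mem_top _)), rfl⟩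
      exact le_centralizer_iff_isMulCommutative.1 (commutator_eq_bot_iff_le_centralizer.1 hle)
  refine ⟨⟨hFN.1 ▸ hNb, fun K hK hK1 => hFN.1 ▸ huni K hK hK1⟩, ?_, fun hnc K L hK hL => ?_⟩
  · obtain ⟨t, -, hPt⟩ :=
      cyclic_supplement P hgen N (not_le_frattini_of_normal P hcore hfrat N hNb)
    rw [hPt, Subgroup.map_sup, MonoidHom.map_zpowers,
      (map_eq_bot_iff (N ⊓ (P : Subgroup G))).2
        (by rw [QuotientGroup.ker_mk']; exact inf_le_left.trans hFN.1.ge), sup_bot_eq]
    exact Subgroup.isCyclic_zpowers _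
  · rcases hFN.2 with h | h
    · exact components_transitive P hna hgen hcore h K L hK hL
    · exact absurd (by rw [hFN.1]; exact h) hnc

end Cfsg.Agent.H89
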