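import Cfsg.Agent.H22.TateComplement
import Cfsg.Agent.H24.PGroupBasic
import Cfsg.Agent.H58.ExtraspecialCongr
import Cfsg.Agent.H19.Cores
import Mathlib.GroupTheory.Transfer

/-! Tools for groups with a non-abelian two-generated Sylow subgroup. -/

set_option autoImplicit false

namespace Cfsg.Agent.H89

open Subgroup
open scoped IsMulCommutative commutatorElement Pointwise

variable {G : Type*} [Group G] [Finite G] {p : ℕ} [hp : Fact p.Prime]

/-- A subgroup not inside the Frattini subgroup of a two-generated `p`-group has a cyclic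
supplement. -/
theorem exists_zpowers_sup_eq_top {Q : Type*} [Group Q] [Finite Q]
    (hgen : (frattini Q).index = p ^ 2) (M : Subgroup Q) (hM : ¬ M ≤ frattini Q) :
    ∃ t : Q, zpowers t ⊔ M = ⊤ := by
  set X := M ⊔ frattini Q with hX
  have hXd : X.index ∣ p ^ 2 := hgen ▸ index_dvd_of_le le_sup_right
  obtain ⟨i, hi, he⟩ := (Nat.dvd_prime_pow hp.out).1 hXd
  have hi2 : i ≠ 2 := by
    rintro rfl
    refine hM ?_
    rw [eq_of_le_of_card_ge (le_sup_right : frattini Q ≤ X) (le_of_eq ?_)]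
    · exact le_sup_left
    have h1 := X.card_mul_index
    rw [← (frattini Q).card_mul_index, hgen, he] at h1
    exact Nat.eq_of_mul_eq_mul_right (pow_pos hp.out.pos 2) h1
  by_cases ht : X = ⊤
  · refine ⟨1, ?_⟩
    rw [zpowers_one_eq_bot, bot_sup_eq]
    exact frattini_nongenerating ht
  obtain ⟨t, -, htX⟩ := SetLike.exists_of_lt (lt_top_iff_ne_top.2 ht)
  refine ⟨t, frattini_nongenerating ?_⟩
  rw [sup_assoc, ← hX]
  by_contra hne
  have hi1 : X.index = p := by
    have : i ≠ 0 := fun h => ht (index_eq_one.1 (by rw [he, h, pow_zero]))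
    rw [he, show i = 1 by omega, pow_one]
  have hd : (zpowers t ⊔ X).index ∣ p := hi1 ▸ index_dvd_of_le le_sup_right
  rcases (Nat.dvd_prime hp.out).1 hd with h | h
  · exact hne (index_eq_one.1 h)
  · refine htX ?_
    rw [eq_of_le_of_card_ge (le_sup_right : X ≤ zpowers t ⊔ X) (le_of_eq ?_)]
    · exact mem_sup_left (mem_zpowers t)
    have h1 := (zpowers t ⊔ X).card_mul_index
    rw [← X.card_mul_index, h, hi1] at h1
    exact Nat.eq_of_mul_eq_mul_right hp.out.pos h1

/-- A group with two disjoint normal subgroups having cyclic supplements is commutative. -/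
theorem commutative_of_two_cyclic {Q : Type*} [Group Q] (M₁ M₂ : Subgroup Q) [M₁.Normal]
    [M₂.Normal] (h : M₁ ⊓ M₂ = ⊥) (h₁ : ∃ t : Q, zpowers t ⊔ M₁ = ⊤)
    (h₂ : ∃ t : Q, zpowers t ⊔ M₂ = ⊤) : IsMulCommutative Q := by
  have key : ∀ M : Subgroup Q, M.Normal → (∃ t : Q, zpowers t ⊔ M = ⊤) →
      ∀ a b : Q, ⁅a, b⁆ ∈ M := by
    intro M hMn ⟨t, ht⟩ a b
    haveI := hMn
    have hw : ∀ a : Q, ∃ i : ℤ, QuotientGroup.mk' M a = QuotientGroup.mk' M t ^ i := by
      intro a
      obtain ⟨y, ⟨i, rfl⟩, m, hm, rfl⟩ := mem_sup_of_normal_right.1 (ht ▸ mem_top a)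
      refine ⟨i, ?_⟩
      have : QuotientGroup.mk' M m = 1 := (QuotientGroup.eq_one_iff m).2 hm
      rw [map_mul, this, mul_one, map_zpow]
    obtain ⟨i, hi⟩ := hw a
    obtain ⟨j, hj⟩ := hw b
    rw [← QuotientGroup.eq_one_iff, ← QuotientGroup.mk'_apply, map_commutatorElement, hi, hj]
    exact commutatorElement_eq_one_iff_commute.2 (Commute.zpow_zpow (Commute.refl _) i j)
  refine ⟨⟨fun a b => ?_⟩⟩
  have hab : ⁅a, b⁆ ∈ M₁ ⊓ M₂ := ⟨key M₁ inferInstance h₁ a b, key M₂ inferInstance h₂ a b⟩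
  rw [h, mem_bot] at hab
  exact commutatorElement_eq_one_iff_commute.1 hab

omit [Finite G] hp in
/-- An element of a Sylow subgroup which is central and lies in the derived group lies in the
derived group of the Sylow subgroup (transfer). -/
theorem mem_commutator_sylow_of_central [Fact p.Prime] [Finite G] (S : Sylow p G) {z : G}
    (hzS : z ∈ (S : Subgroup G)) (hz : z ∈ center G) (hzG : z ∈ commutator G) :
    z ∈ ⁅(S : Subgroup G), (S : Subgroup G)⁆ := by
  set φ : (S : Subgroup G) →* Abelianization (S : Subgroup G) := Abelianization.of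
  have key : ∀ (k : ℕ) (g₀ : G), g₀⁻¹ * z ^ k * g₀ ∈ (S : Subgroup G) →
      g₀⁻¹ * z ^ k * g₀ = z ^ k := fun k g₀ _ => by
    rw [mul_assoc, ← mem_center_iff.1 ((center G).pow_mem hz k) g₀, inv_mul_cancel_left]
  have h1 : MonoidHom.transfer φ z = 1 := Abelianization.commutator_subset_ker _ hzG
  rw [MonoidHom.transfer_eq_pow φ z key] at h1
  have h3 : (⟨z, hzS⟩ : (S : Subgroup G)) ^ (S : Subgroup G).index ∈ φ.ker := by
    rw [MonoidHom.mem_ker]
    convert h1 using 2
    exact Subtype.ext rfl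
  have hco : (orderOf (⟨z, hzS⟩ : (S : Subgroup G))).Coprime (S : Subgroup G).index :=
    Nat.Coprime.coprime_dvd_left (orderOf_dvd_natCard _) S.card_coprime_index
  obtain ⟨m, hm⟩ := exists_pow_eq_self_of_coprime hco.symm
  have h4 : (⟨z, hzS⟩ : (S : Subgroup G)) ∈ φ.ker := hm ▸ pow_mem h3 m
  rw [Abelianization.ker_of] at h4
  rw [← map_subtype_commutator]
  exact ⟨_, h4, rfl⟩

/-- A central `p`-subgroup inside a perfect subgroup `E` lies in the derived group of every
Sylow `p`-subgroup of `G` by which it is normalised. -/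
theorem central_le_commutator_sylow {E N : Subgroup G} [hN : N.Normal] (hNE : N ≤ E)
    (hNp : IsPGroup p N) (hperf : ⁅E, E⁆ = E) (hcent : E ≤ centralizer (N : Set G))
    (P : Sylow p G) : N ≤ ⁅(P : Subgroup G), (P : Subgroup G)⁆ := by
  obtain ⟨S, hS⟩ := (hNp.of_equiv (subgroupOfEquivOfLe hNE).symm).exists_le_sylow
  have h1 : N ≤ ⁅(S : Subgroup E).map E.subtype, (S : Subgroup E).map E.subtype⁆ := by
    intro z hz
    have hc : (⟨z, hNE hz⟩ : E) ∈ center E := mem_center_iff.2 fun w =>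
      Subtype.ext (mem_centralizer_iff.1 (hcent w.2) z hz).symm
    have hd : (⟨z, hNE hz⟩ : E) ∈ commutator E := by
      have h := congrArg (fun H : Subgroup G => H.comap E.subtype) hperf
      simp only [← map_subtype_commutator, comap_map_eq_self_of_injective E.subtype_injective] at h
      rw [h]
      exact hNE hz
    rw [← Subgroup.map_commutator]
    exact ⟨_, mem_commutator_sylow_of_central S (hS hz) hc hd, rfl⟩
  obtain ⟨R, hR⟩ := (S.2.map E.subtype).exists_le_sylow
  obtain ⟨g, rfl⟩ := MulAction.exists_smul_eq G R P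
  have h2 := h1.trans (commutator_mono hR hR)
  have h3 : N.map (MulAut.conj g : MulAut G).toMonoidHom = N := by
    refine le_antisymm ?_ fun z hz => ⟨g⁻¹ * z * g, by simpa using hN.conj_mem z hz g⁻¹, by
      simp [mul_assoc]⟩
    rintro _ ⟨z, hz, rfl⟩
    simpa using hN.conj_mem z hz g
  rw [← h3]
  refine (map_mono h2).trans (le_of_eq ?_)
  rw [Subgroup.map_commutator, Sylow.coe_subgroup_smul]
  rfl

/-- Averaging: a normal subgroup `N` with a `P`-invariant complement inside the abelian normal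
subgroup `U` is all of `U`, if it meets every non-trivial normal subgroup inside `U`. -/
theorem eq_of_invariant_complement (P : Sylow p G) {U N : Subgroup G} [hU : U.Normal]
    [hN : N.Normal] [IsMulCommutative U] (hNU : N ≤ U) (hNp : IsPGroup p N) (C : Subgroup G)
    (hCU : C ≤ U) (hCN : N ⊓ C = ⊥) (hsup : U ≤ N ⊔ C)
    (hC : (P : Subgroup G) ≤ normalizer (C : Set G))
    (huniq : ∀ K : Subgroup G, K.Normal → K ≤ U → K ⊓ N = ⊥ → K = ⊥) : U = N := by
  classical
  have hcompl : (N.subgroupOf U).IsComplement' (C.subgroupOf U) := by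
    refine isComplement'_of_disjoint_and_mul_eq_univ ?_ ?_
    · rw [disjoint_iff]
      refine eq_bot_iff.2 fun x hx => ?_
      have : (x : G) ∈ N ⊓ C := hx
      rw [hCN, mem_bot] at this
      exact mem_bot.2 (Subtype.ext this)
    · refine Set.eq_univ_iff_forall.2 fun x => ?_
      obtain ⟨n, hn, c, hc, h⟩ := mem_sup_of_normal_left.1 (hsup x.2)
      exact ⟨⟨n, hNU hn⟩, hn, ⟨c, hCU hc⟩, hc, Subtype.ext h⟩
  have hcomm : ∀ a ∈ U, ∀ b ∈ U, a * b = b * a := fun a ha b hb => congrArg Subtype.val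
    (IsMulCommutative.is_comm.comm (⟨a, ha⟩ : U) ⟨b, hb⟩)
  haveI : IsMulCommutative N :=
    ⟨⟨fun a b => Subtype.ext (hcomm _ (hNU a.2) _ (hNU b.2))⟩⟩
  have hex : ∀ x : U, ∃ n : N, ((n : G)⁻¹ * x) ∈ C := by
    intro x
    obtain ⟨n, hn, c, hc, h⟩ := mem_sup_of_normal_left.1 (hsup x.2)
    exact ⟨⟨n, hn⟩, by rw [← h]; simpa using hc⟩
  have huni : ∀ n m : N, ∀ x : G, (n : G)⁻¹ * x ∈ C → (m : G)⁻¹ * x ∈ C → n = m := by
    intro n m x hn hm
    have h : (n : G)⁻¹ * m ∈ N ⊓ C := Subgroup.mem_inf.2 ⟨N.mul_mem (N.inv_mem n.2) m.2, by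
      have := C.mul_mem hn (C.inv_mem hm)
      simpa [mul_assoc] using this⟩
    rw [hCN, mem_bot, inv_mul_eq_one] at h
    exact Subtype.ext h
  choose f hf using hex
  let fh : U →* N :=
    { toFun := f
      map_one' := huni _ _ _ (hf 1) (by simp)
      map_mul' := fun x y => huni _ _ _ (hf (x * y)) (by
        have h := mul_mem (hf x) (hf y)
        have h1 := hcomm _ (inv_mem (hNU (f y).2)) _
          (mul_mem (inv_mem (hNU (f x).2)) x.2)
        simp only [Subgroup.coe_mul, mul_inv_rev] at h1 ⊢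
        rw [← mul_assoc ((f y : G)⁻¹ * (f x : G)⁻¹), mul_assoc ((f y : G)⁻¹), h1]
        simpa [mul_assoc] using h) }
  have hfP : ∀ y ∈ (P : Subgroup G), ∀ x : U,
      fh (MulAut.conjNormal y x) = MulAut.conjNormal y (fh x) := by
    intro y hy x
    refine huni _ _ _ (hf _) ?_
    have := (mem_normalizer_iff.1 (hC hy) _).1 (hf x)
    simpa [fh, MulAut.conjNormal_apply, mul_assoc] using this
  let φ : G → (U →* N) := fun g =>
    ((MulAut.conjNormal g : MulAut N) : N ≃* N).toMonoidHom.comp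
      (fh.comp ((MulAut.conjNormal g⁻¹ : MulAut U) : U ≃* U).toMonoidHom)
  have hφ : ∀ g, ∀ y ∈ (P : Subgroup G), φ (g * y) = φ g := by
    intro g y hy
    refine MonoidHom.ext fun x => ?_
    simp only [φ, MonoidHom.comp_apply, MulEquiv.coe_toMonoidHom, mul_inv_rev, map_mul,
      MulAut.mul_apply]
    rw [hfP _ (inv_mem hy), map_inv, MulAut.apply_inv_self]
  haveI : Fintype (G ⧸ (P : Subgroup G)) := Fintype.ofFinite _
  let F : U →* N := ∏ q : G ⧸ (P : Subgroup G), φ q.out
  have hFa : ∀ (a : G) (x : U), F (MulAut.conjNormal a x) = MulAut.conjNormal a (F x) := by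
    intro a x
    simp only [F, MonoidHom.finsetProd_apply, map_prod]
    rw [← Equiv.prod_comp (MulAction.toPerm a : Equiv.Perm (G ⧸ (P : Subgroup G)))]
    refine Finset.prod_congr rfl fun q _ => ?_
    obtain ⟨y, hy⟩ := QuotientGroup.mk_out_eq_mul (P : Subgroup G) (a * q.out)
    have e : (MulAction.toPerm a q : G ⧸ (P : Subgroup G)) = QuotientGroup.mk (a * q.out) := by
      conv_lhs => rw [← q.out_eq]
      rfl
    rw [e, hy, hφ _ _ y.2]
    simp only [φ, MonoidHom.comp_apply, MulEquiv.coe_toMonoidHom, mul_inv_rev, map_mul,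
      MulAut.mul_apply, map_inv, MulAut.inv_apply_self]
  have hFN : ∀ n : N, F ⟨n, hNU n.2⟩ = n ^ (P : Subgroup G).index := by
    intro n
    simp only [F, MonoidHom.finsetProd_apply]
    rw [Finset.prod_eq_pow_card (b := n), Finset.card_univ, ← Nat.card_eq_fintype_card]
    · rfl
    intro q _
    simp only [φ, MonoidHom.comp_apply, MulEquiv.coe_toMonoidHom]
    have : fh (MulAut.conjNormal q.out⁻¹ ⟨n, hNU n.2⟩) = MulAut.conjNormal q.out⁻¹ n :=
      huni _ _ _ (hf _) (by simp [MulAut.conjNormal_apply, mul_assoc])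
    rw [this, map_inv, MulAut.apply_inv_self]
  have hK : (F.ker.map U.subtype).Normal := by
    refine ⟨?_⟩
    rintro _ ⟨x, hx, rfl⟩ a
    refine ⟨MulAut.conjNormal a x, ?_, MulAut.conjNormal_apply a x⟩
    rw [SetLike.mem_coe, MonoidHom.mem_ker] at hx ⊢
    rw [hFa, hx, map_one]
  have hKN : F.ker.map U.subtype ⊓ N = ⊥ := by
    rw [eq_bot_iff]
    rintro _ ⟨⟨x, hx, rfl⟩, hxN⟩
    have h1 := hFN ⟨x, hxN⟩
    rw [show (⟨(x : G), hNU hxN⟩ : U) = x from rfl, MonoidHom.mem_ker.1 hx] at h1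
    have hco : (orderOf (⟨x, hxN⟩ : N)).Coprime (P : Subgroup G).index := by
      obtain ⟨k, hk⟩ := IsPGroup.iff_orderOf.1 hNp ⟨x, hxN⟩
      exact hk ▸ Nat.Coprime.pow_left k (hp.out.coprime_iff_not_dvd.2 P.not_dvd_index)
    have := (orderOf_eq_one_iff (x := (⟨x, hxN⟩ : N))).1
      (Nat.eq_one_of_dvd_coprimes hco dvd_rfl (orderOf_dvd_of_pow_eq_one h1.symm))
    exact congrArg Subtype.val this
  have h0 := huniq _ hK (map_subtype_le _) hKN
  rw [(map_eq_bot_iff_of_injective _ U.subtype_injective), MonoidHom.ker_eq_bot_iff] at h0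
  exact (eq_of_le_of_card_ge hNU (Nat.card_le_card_of_injective F h0)).symm

end Cfsg.Agent.H89
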